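import Cfsg.Agent.Hyp.FTProof
/-
A simple group with a set `ϖ` of primes, closed under adjacency in the prime graph, all of whose
`ϖ`-local subgroups have odd order.  The vocabulary of the odd order theorem is redefined
with "maximal subgroup" replaced by "maximal `ϖ`-local subgroup".
-/
set_option autoImplicit false
set_option linter.unusedSectionVars false

namespace CF.BG.Vp
open Subgroup
open scoped commutatorElement Pointwise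

/-- the standing hypothesis -/
class MSO (G : Type*) [Group G] where
  w : Set ℕ
  simple : IsSimpleGroup G
  nab : ¬ Abel (⊤ : Subgroup G)
  ex : ∃ X : Subgroup G, X ≠ ⊥ ∧ PiGrp w X
  iso : ∀ X : Subgroup G, X ≠ ⊥ → PiGrp w X → PiGrp w (𝐂 X)
  odd : ∀ X : Subgroup G, X ≠ ⊥ → PiGrp w X → Odd (♯(𝐍 X))

/-- the set `ϖ` -/
scoped notation "𝛡 " G:max => MSO.w G

variable {G : Type*} [Group G] [Finite G] [MSO G]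

/-- `ϖ`-subgroups -/
abbrev Pw (H : Subgroup G) : Prop := PiGrp (𝛡 G) H

/-- `H` lies in a `ϖ`-local subgroup -/
def Pr (H : Subgroup G) : Prop := ∃ X : Subgroup G, X ≠ ⊥ ∧ Pw X ∧ H ≤ 𝐍 X

/-- maximal `ϖ`-local subgroup -/
def Mx (M : Subgroup G) : Prop := Pr M ∧ ∀ K, Pr K → M ≤ K → K = M

/-- `H` lies in a unique maximal `ϖ`-local subgroup -/
def Uniq (H : Subgroup G) : Prop := ∃! M : Subgroup G, Mx M ∧ H ≤ M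

/-- `σ(M)` -/
def sigma (M : Subgroup G) : Set ℕ :=
  {p | p.Prime ∧ p ∣ Nat.card M ∧ ∃ P, Syl p P M ∧ 𝐍 P ≤ M ∧ p ∈ 𝛡 G}

/-- `M_σ` -/
def sigmaCore (M : Subgroup G) : Subgroup G := (Cfsg.piCore (sigma M) M).map M.subtype

/-- `κ(M)` -/
def kappa (M : Subgroup G) : Set ℕ :=
  {p | p.Prime ∧ p ∣ Nat.card M ∧ p ∉ sigma M ∧ pRank p M = 1 ∧
    ∃ X, Elem p 1 X M ∧ sigmaCore M ⊓ 𝐂 X ≠ ⊥}

/-- `τ₁(M)` -/
def tau1 (M : Subgroup G) : Set ℕ :=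
  {p | p.Prime ∧ p ∉ sigma M ∧ p ∣ Nat.card M ∧ ¬ p ∣ Nat.card ↥⁅M, M⁆ ∧ Cfsg.PRankLE p 1 M}

/-- `τ₂(M)` -/
def tau2 (M : Subgroup G) : Set ℕ :=
  {p | p.Prime ∧ p ∉ sigma M ∧ Cfsg.PRankLE p 2 M ∧ ¬ Cfsg.PRankLE p 1 M}

/-- `τ₃(M)` -/
def tau3 (M : Subgroup G) : Set ℕ :=
  {p | p.Prime ∧ p ∉ sigma M ∧ p ∣ Nat.card ↥⁅M, M⁆ ∧ Cfsg.PRankLE p 1 M}

/-- `M = K U M_σ` -/
structure IsSigmaDecomposition (M K U : Subgroup G) : Prop where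
  cyclic : IsCyclic K
  hall : Cfsg.IsPiHallOf (kappa M) K M
  compl : Cfsg.IsComplIn U (K ⊔ sigmaCore M) M
  normal : K ≤ Subgroup.normalizer (U : Set G)

/-- `M̂_σ` -/
def sigmaHat (M : Subgroup G) : Set G :=
  {a | a ∈ M ∧ ∃ y ∈ sigmaCore M, y ≠ 1 ∧ a * y = y * a}

/-- `A(M)` -/
def sigmaA (M U : Subgroup G) : Set G := sigmaHat M ∩ (↑(U ⊔ sigmaCore M) : Set G)

/-- `A₀(M)` -/
def sigmaA0 (M K : Subgroup G) : Set G :=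
  sigmaHat M \ {a | ∃ k ∈ K, k ≠ 1 ∧ ∃ m ∈ M, a = m * k * m⁻¹}

/-- the condition that separates Type II from Types III, IV -/
def NU (M U : Subgroup G) : Prop := 𝐍 U ≤ M ∧ Pw U

/-- Type II -/
def IsOfTypeII (M : Subgroup G) : Prop :=
  ∃ W₁ U W₂ : Subgroup G, Cfsg.IsTypePWith M W₁ U W₂ ∧ U ≠ ⊥ ∧ (Nat.card W₁).Prime ∧
    Cfsg.IsTISubset (Cfsg.fittingOf M : Set G) ∧ IsMulCommutative U ∧ ¬ NU M U ∧
    Cfsg.IsOfTypeF ↥⁅M, M⁆ ∧ Cfsg.fittingHallOf ⁅M, M⁆ = Cfsg.fittingHallOf M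

/-- Type III -/
def IsOfTypeIII (M : Subgroup G) : Prop :=
  ∃ W₁ U W₂ : Subgroup G, Cfsg.IsTypePWith M W₁ U W₂ ∧ U ≠ ⊥ ∧ (Nat.card W₁).Prime ∧
    Cfsg.IsTISubset (Cfsg.fittingOf M : Set G) ∧ IsMulCommutative U ∧ NU M U

/-- Type IV -/
def IsOfTypeIV (M : Subgroup G) : Prop :=
  ∃ W₁ U W₂ : Subgroup G, Cfsg.IsTypePWith M W₁ U W₂ ∧ U ≠ ⊥ ∧ (Nat.card W₁).Prime ∧
    Cfsg.IsTISubset (Cfsg.fittingOf M : Set G) ∧ ¬ IsMulCommutative U ∧ NU M U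

open scoped Classical in
/-- `M_s` -/
noncomputable def typeCore (M : Subgroup G) : Subgroup G :=
  if IsOfTypeIII M ∨ IsOfTypeIV M then ⁅M, M⁆ else Cfsg.fittingHallOf M

/-- `A₁(M)` -/
noncomputable def typeA1 (M : Subgroup G) : Set G := (↑(typeCore M) : Set G) \ {1}

open scoped Classical in
/-- `R(x)` -/
noncomputable def supportR (M : Subgroup G) (x : G) : Subgroup G :=
  if h : ¬ Subgroup.centralizer ({x} : Set G) ≤ M ∧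
      ∃! L : Subgroup G, Mx L ∧ Subgroup.centralizer ({x} : Set G) ≤ L then
    Cfsg.fittingHallOf (Classical.choose h.2.exists) ⊓ Subgroup.centralizer ({x} : Set G)
  else ⊥

/-- `Ã` -/
noncomputable def tildeOf (M : Subgroup G) (A : Set G) : Set G :=
  {g | ∃ a ∈ A, ∃ r ∈ supportR M a, ∃ y : G, g = y * (a * r) * y⁻¹}

/-- `σ(M)` -/
scoped notation (priority := high) "𝛔 " M:max => sigma M
/-- `κ(M)` -/
scoped notation (priority := high) "𝛋 " M:max => kappa M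
/-- `τ₁(M)` -/
scoped notation (priority := high) "𝛕₁ " M:max => tau1 M
/-- `τ₂(M)` -/
scoped notation (priority := high) "𝛕₂ " M:max => tau2 M
/-- `τ₃(M)` -/
scoped notation (priority := high) "𝛕₃ " M:max => tau3 M
/-- `M_σ` -/
scoped notation (priority := high) "Mσ " M:max => Cfsg.piCoreOf (sigma M) M

section basic
variable {A H K L M N P X Y : Subgroup G} {p q : ℕ} {π : Set ℕ} {x y : G}

theorem Pr.mono (h : Pr K) (k : H ≤ K) : Pr H := let ⟨X, a, b, c⟩ := h; ⟨X, a, b, k.trans c⟩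
theorem Pr.odd (h : Pr H) : Odd (♯H) :=
  let ⟨X, a, b, c⟩ := h; (MSO.odd X a b).of_dvd_nat (card_dvd c)
theorem sol_of_odd (h : Odd (♯H)) : Sol H := CF.Hyp.isSolvable_of_odd h
theorem Pr.sol (h : Pr H) : Sol H := sol_of_odd h.odd
protected theorem Pr.cj (h : Pr H) (g : G) : Pr (cj g H) :=
  let ⟨X, a, b, c⟩ := h; ⟨cj g X, by simpa using a, b.cj g, cj_norm g X ▸ cj_mono g c⟩
@[simp] theorem pr_cj {g : G} : Pr (cj g H) ↔ Pr H :=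
  ⟨fun h => by simpa using h.cj g⁻¹, fun h => h.cj g⟩
theorem pr_bot : Pr (⊥ : Subgroup G) := let ⟨X, a, b⟩ := MSO.ex (G := G); ⟨X, a, b, bot_le⟩
theorem norm_proper (h : H ≠ ⊥) (k : Pw H) : Pr (𝐍 H) := ⟨H, h, k, le_rfl⟩
theorem Pw.pr (h : Pw H) : Pr H := by
  by_cases e : H = ⊥
  · exact e ▸ pr_bot
  · exact (norm_proper e h).mono (le_norm_self H)
theorem Pw.odd (h : Pw H) : Odd (♯H) := h.pr.odd
theorem Pw.cent (k : Pw H) (h : H ≠ ⊥) : Pw (𝐂 H) := MSO.iso H h k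
theorem Pw.of_cent (k : Pw H) (h : H ≠ ⊥) (c : Y ≤ 𝐂 H) : Pw Y := (k.cent h).le c
theorem Pw.of_cent' (k : Pw H) (h : H ≠ ⊥) (c : H ≤ 𝐂 Y) : Pw Y := k.of_cent h (cent_symm c)
/-- a subgroup that centralizes a nontrivial `ϖ`-element is a `ϖ`-group -/
theorem Pw.of_inf_cent (k : Pw H) (c : H ⊓ 𝐂 Y ≠ ⊥) : Pw Y :=
  Pw.of_cent' (H := H ⊓ 𝐂 Y) k.inf_left c inf_le_right
theorem Pw.cent_of_inf (k : Pw H) (c : H ⊓ 𝐂 Y ≠ ⊥) (y1 : Y ≠ ⊥) : Pw (𝐂 Y) :=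
  (k.of_inf_cent c).cent y1
theorem cent_proper (h : H ≠ ⊥) (k : Pw H) : Pr (𝐂 H) := (k.cent h).pr
theorem pw_cent1 (h : x ≠ 1) (k : PiElt (𝛡 G) x) : Pw (𝐂₁ x) :=
  cent_zpowers x ▸ Pw.cent k.zpowers (ne_bot_of_mem (mem_zpowers x) h)
theorem cent1_proper (h : x ≠ 1) (k : PiElt (𝛡 G) x) : Pr (𝐂₁ x) := (pw_cent1 h k).pr
theorem Pw.elt_of_inf_cent1 (k : Pw H) (c : H ⊓ 𝐂₁ x ≠ ⊥) : PiElt (𝛡 G) x :=
  piGrp_zpowers.mp (k.of_inf_cent (Y := zpowers x) (by rwa [cent_zpowers]))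
theorem Pw.cent1_of_inf (k : Pw H) (c : H ⊓ 𝐂₁ x ≠ ⊥) (x1 : x ≠ 1) : Pw (𝐂₁ x) :=
  pw_cent1 x1 (k.elt_of_inf_cent1 c)
theorem elt_of_comm (k : PiElt (𝛡 G) x) (x1 : x ≠ 1) (c : y ∈ 𝐂₁ x) : PiElt (𝛡 G) y :=
  (pw_cent1 x1 k).elt c
theorem Pw.mem (k : Pw H) (hp : p.Prime) (d : p ∣ ♯H) : p ∈ 𝛡 G := k p hp d
theorem Pw.mem_of (k : Pw H) (h : PiGrp {p} H) (h1 : H ≠ ⊥) : p ∈ 𝛡 G := h.mem_of_ne_bot h1 k
theorem _root_.CF.BG.PiGrp.pw (h : PiGrp {p} H) (hp : p ∈ 𝛡 G) : Pw H := h.of_single hp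
theorem _root_.CF.BG.PiGrp.properV (h : PiGrp {p} H) (hp : p ∈ 𝛡 G) : Pr H := (h.pw hp).pr
theorem _root_.CF.BG.PiGrp.oddV (h : PiGrp {p} H) (hp : p ∈ 𝛡 G) : Odd (♯H) := (h.pw hp).odd
theorem _root_.CF.BG.PiGrp.norm_properV (k : PiGrp {p} H) (h : H ≠ ⊥) (hp : p ∈ 𝛡 G) : Pr (𝐍 H) :=
  norm_proper h (k.pw hp)
theorem _root_.CF.BG.Elem.pw {n : ℕ} (h : Elem p n X H) (hp : p ∈ 𝛡 G) : Pw X := h.pi.pw hp
theorem _root_.CF.BG.Elem.w_of {n : ℕ} (h : Elem p (n + 1) X H) (k : Pw X) : p ∈ 𝛡 G :=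
  k.mem_of h.pi h.ne_bot
theorem _root_.CF.BG.Elem.w_of_le {n : ℕ} (h : Elem p (n + 1) X H) (k : Pw H) : p ∈ 𝛡 G :=
  h.w_of (k.le h.le)
theorem w_ne_two (hp : p ∈ 𝛡 G) (h : p.Prime) (d : p ∣ ♯H) : p ≠ 2 := by
  obtain ⟨X, x⟩ := exists_elem_one h d
  exact ne_two_of_odd (x.pw hp).odd x.dvd

/-- a non-`ϖ` group acts fixed point freely on `ϖ`-groups -/
theorem Pw.inf_cent_eq_bot (k : Pw H) (h : PiGrp {p} X) (x1 : X ≠ ⊥) (hp : p ∉ 𝛡 G) :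
    H ⊓ 𝐂 X = ⊥ := by_contra fun c => hp ((k.of_inf_cent c).mem_of h x1)

theorem w_of_norm (a : Elem p 2 A H) (k : Pw X) (x1 : X ≠ ⊥) (n : A ≤ 𝐍 X) : p ∈ 𝛡 G := by
  by_contra hp
  obtain ⟨z, hz, z1, c⟩ := a.abel.exists_cent1_ne_bot a.not_cyc n
    ((a.pi.of_single' hp).coprime' k) x1
  have := (k.elt_of_inf_cent1 c).zpowers
  exact hp (Pw.mem_of this (a.pi.le (zpowers_le.mpr hz)) (ne_bot_of_mem (mem_zpowers z) z1))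

theorem Pr.w_of_elem (h : Pr H) (a : Elem p 2 A H) : p ∈ 𝛡 G :=
  let ⟨_, x1, k, n⟩ := h; w_of_norm a k x1 (a.le.trans n)

theorem Pr.w_of_pRank (h : Pr H) (r : 1 < pRank p H) : p ∈ 𝛡 G :=
  let ⟨_, a⟩ := exists_elem (n := 2) r; h.w_of_elem a

theorem Pr.pRank_le (h : Pr H) (hp : p ∉ 𝛡 G) : pRank p H ≤ 1 :=
  not_lt.mp fun r => hp (h.w_of_pRank r)

/-- if a noncyclic elementary abelian `ϖ`-group normalizes a nontrivial `q`-group then `q ∈ ϖ` -/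
theorem w_of_norm' (a : Elem p 2 A H) (hp : p ∈ 𝛡 G) (k : PiGrp {q} X) (x1 : X ≠ ⊥) (n : A ≤ 𝐍 X) :
    q ∈ 𝛡 G := by
  by_contra hq
  obtain ⟨z, hz, z1, c⟩ := a.abel.exists_cent1_ne_bot a.not_cyc n
    ((a.pw hp).coprime (k.of_single' hq)) x1
  exact hq (Pw.mem_of ((pw_cent1 z1 ((a.pw hp).elt hz)).le inf_le_right) k.inf_left c)

theorem norm_pr_of_O (h : 𝐎 (𝛡 G) H ≠ ⊥) : Pr (𝐍 H) := ⟨_, h, O_pi _ H, norm_O _ H⟩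

theorem Mx.ne_top (h : Mx M) : Pr M := h.1
theorem Mx.proper (h : Mx M) (k : H ≤ M) : Pr H := h.1.mono k
theorem Mx.odd (h : Mx M) : Odd (♯M) := h.1.odd
theorem Mx.odd' (h : Mx M) (k : H ≤ M) : Odd (♯H) := (h.proper k).odd
theorem Mx.eq_of_le (h : Mx M) (k : Pr H) (l : M ≤ H) : H = M := h.2 H k l

theorem Mx.O_ne_bot (h : Mx M) : 𝐎 (𝛡 G) M ≠ ⊥ := by
  obtain ⟨X, a, b, c⟩ := h.1
  have e := h.eq_of_le (norm_proper a b) c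
  exact ne_bot_mono a (le_O ⟨e ▸ le_norm_self X, c⟩ b)

/-- the Fitting subgroup of a maximal `ϖ`-local subgroup is a `ϖ`-group -/
theorem Mx.pw_F (h : Mx M) : Pw (𝐅 M) := by
  have a : 𝐅 (𝐎 (𝛡 G) M) ≠ ⊥ := (h.1.sol.mono (O_le _ M)).F_ne_bot h.O_ne_bot
  have b := F_le_F_of_normal (O_normal (𝛡 G) M)
  have c : Pw (𝐅 (𝐎 (𝛡 G) M)) := (O_pi _ M).le (F_le _)
  have d := (F_dprod (𝛡 G) M).sup
  have e : 𝐎 (𝛡 G)ᶜ (𝐅 M) = ⊥ := PiGrp.eq_bot (c.of_cent' a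
    ((F_nil M).cent_of_pi b (O_le _ _) c (O_pi _ _))) (O_pi _ _)
  rw [e, sup_bot_eq] at d
  exact d ▸ O_pi _ _

theorem Mx.pw_of_le_F (h : Mx M) (k : H ≤ 𝐅 M) : Pw H := h.pw_F.le k
theorem Mx.pw_of_nil (h : Mx M) (k : H ⊴ M) (n : Nil H) : Pw H := h.pw_of_le_F (le_F k n)
theorem Mx.pw_Fh (h : Mx M) : Pw (𝐅ₕ M) := h.pw_of_le_F (Fh_le_F M)
theorem Mx.norm_pr (h : Mx M) (k : H ⊴ M) (h1 : H ≠ ⊥) : Pr (𝐍 H) :=
  norm_pr_of_O (ne_bot_mono ((h.1.sol.mono k.le).F_ne_bot h1)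
    (le_O (F_normal H) (h.pw_of_le_F (F_le_F_of_normal k))))

theorem w_of_sigma (h : p ∈ 𝛔 M) : p ∈ 𝛡 G := let ⟨_, _, _, _, _, k⟩ := h; k
theorem sigma_sub_w (M : Subgroup G) : 𝛔 M ⊆ 𝛡 G := fun _ => w_of_sigma
theorem pw_Ms (M : Subgroup G) : Pw (Mσ M) := (O_pi _ M).mono (sigma_sub_w M)
theorem pw_of_sigma (h : PiGrp (𝛔 M) H) : Pw H := h.mono (sigma_sub_w M)
theorem pw_of_Ms_cent (c : Mσ M ⊓ 𝐂 Y ≠ ⊥) : Pw Y := (pw_Ms M).of_inf_cent c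
theorem elt_of_Ms_cent1 (c : Mσ M ⊓ 𝐂₁ x ≠ ⊥) : PiElt (𝛡 G) x := (pw_Ms M).elt_of_inf_cent1 c
theorem elt_of_mem_Ms (h : x ∈ Mσ M) : PiElt (𝛡 G) x := (pw_Ms M).elt h
theorem Ms_cent_eq_bot (h : PiGrp {p} X) (x1 : X ≠ ⊥) (hp : p ∉ 𝛡 G) : Mσ M ⊓ 𝐂 X = ⊥ :=
  (pw_Ms M).inf_cent_eq_bot h x1 hp

end basic
end CF.BG.Vp
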