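import Cfsg.Agent.Vp.A0
set_option autoImplicit false

namespace CF.BG.Vp

/-- commuting elements of orders `p` and `q` -/
def Adj (G : Type*) [Group G] (p q : ℕ) : Prop :=
  ∃ x y : G, orderOf x = p ∧ orderOf y = q ∧ Commute x y

theorem Adj.symm {G : Type*} [Group G] {p q : ℕ} (h : Adj G p q) : Adj G q p :=
  let ⟨x, y, a, b, c⟩ := h; ⟨y, x, b, a, c.symm⟩

/-- adjacency is transitive on the primes of `w` -/
def Tra (G : Type*) [Group G] (w : Set ℕ) : Prop :=
  ∀ a b c : ℕ, a.Prime → b.Prime → c.Prime → a ∈ w → Adj G a b → Adj G b c → a ≠ c → Adj G a c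

end CF.BG.Vp
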