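import Cfsg.Agent.Vp.A0
/-
Maximal `ϖ`-local subgroups, uniqueness subgroups, the prime sets sigma, tau, kappa.
-/
set_option autoImplicit false
set_option linter.unusedSectionVars false

namespace CF.BG.Vp
open Subgroup
open scoped commutatorElement Pointwise

variable {G : Type*} [Group G] [Finite G] [MSO G]

/-- `M` is the only maximal subgroup containing `H` -/
structure UniqIn (H M : Subgroup G) : Prop where
  mx : Mx M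
  le : H ≤ M
  uniq : ∀ L, Mx L → H ≤ L → L = M

section uniq
variable {H K L M N : Subgroup G}

theorem Mx.eq (h : Mx M) (k : Mx H) (l : M ≤ H) : M = H := (h.eq_of_le k.1 l).symm
theorem Mx.not_pr (h : Mx M) (l : M ≤ H) (e : ¬ H ≤ M) : ¬ Pr H :=
  fun k => e (h.eq_of_le k l).le
protected theorem Mx.cj (h : Mx M) (g : G) : Mx (cj g M) :=
  ⟨h.1.cj g, fun _ k l => eq_cj_iff.mpr (h.2 _ (k.cj g⁻¹) (cj_le_iff.mp l))⟩
@[simp] theorem mx_cj {g : G} : Mx (cj g M) ↔ Mx M :=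
  ⟨fun h => by simpa using h.cj g⁻¹, fun h => h.cj g⟩
theorem proper_mono (h : Pr K) (k : H ≤ K) : Pr H := h.mono k

theorem uniq_iff : Uniq H ↔ ∃ M, UniqIn H M :=
  ⟨fun ⟨M, h, hu⟩ => ⟨M, h.1, h.2, fun L a b => hu L ⟨a, b⟩⟩,
   fun ⟨M, h⟩ => ⟨M, ⟨h.mx, h.le⟩, fun L a => h.uniq L a.1 a.2⟩⟩

theorem UniqIn.toUniq (h : UniqIn H M) : Uniq H := uniq_iff.mpr ⟨M, h⟩
theorem Uniq.exists (h : Uniq H) : ∃ M, UniqIn H M := uniq_iff.mp h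
theorem Uniq.uniqIn (h : Uniq H) (m : Mx M) (l : H ≤ M) : UniqIn H M := by
  obtain ⟨N, hN⟩ := h.exists
  exact hN.uniq M m l ▸ hN
theorem Uniq.eq (h : Uniq H) (m : Mx M) (l : H ≤ M) (n : Mx N) (k : H ≤ N) : M = N :=
  (h.uniqIn n k).uniq M m l
theorem UniqIn.proper (h : UniqIn H M) : Pr H := h.mx.proper h.le
theorem Uniq.proper (h : Uniq H) : Pr H := let ⟨_, k⟩ := h.exists; k.proper
theorem Mx.uniqIn (h : Mx M) : UniqIn M M := ⟨h, le_rfl, fun _ a b => (h.eq a b).symm⟩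
theorem UniqIn.of_le (h : UniqIn H M) (a : H ≤ K) (b : K ≤ M) : UniqIn K M :=
  ⟨h.mx, b, fun L m l => h.uniq L m (a.trans l)⟩
theorem UniqIn.eq (h : UniqIn H M) (k : UniqIn H N) : M = N := k.uniq M h.mx h.le
protected theorem UniqIn.cj (h : UniqIn H M) (g : G) : UniqIn (BG.cj g H) (BG.cj g M) :=
  ⟨h.mx.cj g, cj_mono g h.le, fun _ m l => eq_cj_iff.mpr (h.uniq _ (m.cj g⁻¹) (cj_le_iff.mp l))⟩
@[simp] theorem uniqIn_cj {g : G} : UniqIn (cj g H) (cj g M) ↔ UniqIn H M :=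
  ⟨fun h => by simpa using h.cj g⁻¹, fun h => h.cj g⟩
protected theorem Uniq.cj (h : Uniq H) (g : G) : Uniq (BG.cj g H) :=
  let ⟨_, k⟩ := h.exists; (k.cj g).toUniq
@[simp] theorem uniq_cj {g : G} : Uniq (cj g H) ↔ Uniq H :=
  ⟨fun h => by simpa using h.cj g⁻¹, fun h => h.cj g⟩
theorem uniqIn_iff (m : Mx M) : UniqIn H M ↔ H ≤ M ∧ ∀ L, Mx L → H ≤ L → L = M :=
  ⟨fun h => ⟨h.le, h.uniq⟩, fun h => ⟨m, h.1, h.2⟩⟩
theorem UniqIn.out (h : UniqIn H M) : H ≤ M ∧ ∀ L, Mx L → H ≤ L → L = M := ⟨h.le, h.uniq⟩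

theorem exists_mx (h : Pr H) : ∃ M, Mx M ∧ H ≤ M :=
  let ⟨M, a, b, c⟩ := exists_maximal (P := Pr) h; ⟨M, ⟨b, c⟩, a⟩

theorem UniqIn.le_of_proper (h : UniqIn H M) (a : H ≤ K) (b : Pr K) : K ≤ M := by
  obtain ⟨L, m, l⟩ := exists_mx b
  exact h.uniq L m (a.trans l) ▸ l
theorem UniqIn.mono (h : UniqIn H M) (a : H ≤ K) (b : Pr K) : UniqIn K M :=
  h.of_le a (h.le_of_proper a b)
theorem Uniq.mono (h : Uniq H) (a : H ≤ K) (b : Pr K) : Uniq K :=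
  let ⟨_, k⟩ := h.exists; (k.mono a b).toUniq
theorem uniqIn_of_forall (h : Pr H) (k : ∀ L, Mx L → H ≤ L → L = M) : UniqIn H M := by
  obtain ⟨L, m, l⟩ := exists_mx h
  exact k L m l ▸ ⟨m, l, fun N a b => (k N a b).trans (k L m l).symm⟩
theorem exists_ne_of_not_uniqIn (m : Mx M) (l : H ≤ M) (h : ¬ UniqIn H M) :
    ∃ L, Mx L ∧ H ≤ L ∧ L ≠ M := by
  by_contra hn; push Not at hn; exact h ⟨m, l, hn⟩
theorem exists_ne_of_not_uniqIn' (k : Pr H) (h : ¬ UniqIn H M) : ∃ L, Mx L ∧ H ≤ L ∧ L ≠ M := by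
  by_contra hn; push Not at hn; exact h (uniqIn_of_forall k hn)

end uniq

/-! ### the standing hypothesis -/
section mso
variable {A H K L M N P X : Subgroup G} {p : ℕ} {π : Set ℕ}

theorem mOdd (H : Subgroup G) (h : Pr H := by first | assumption | exact Mx.ne_top ‹_›) : Odd (♯H) :=
  h.odd
theorem mOdd_qt (K H : Subgroup G) (h : Pr H := by first | assumption | exact Mx.ne_top ‹_›) :
    Odd (♯(qt K H)) := odd_qt K h.odd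
theorem mSol (h : Pr H) : Sol H := h.sol
theorem Mx.sol (h : Mx M) : Sol M := mSol h.1
theorem Mx.sol' (h : Mx M) (k : H ≤ M) : Sol H := h.sol.mono k

theorem normal_eq (h : H.Normal) : H = ⊥ ∨ H = ⊤ :=
  haveI := MSO.simple (G := G); h.eq_bot_or_eq_top

theorem top_not_abel : ¬ Abel (⊤ : Subgroup G) := MSO.nab

theorem top_ne_bot' : (⊤ : Subgroup G) ≠ ⊥ := fun h => top_not_abel (h ▸ abel_bot)

theorem der_top : ⁅(⊤ : Subgroup G), (⊤ : Subgroup G)⁆ = ⊤ :=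
  (normal_eq (normalIn_top.mp (der_normal ⊤))).resolve_left fun h => top_not_abel (der_eq_bot.mp h)

theorem top_not_sol : ¬ Sol (⊤ : Subgroup G) := fun h =>
  (h.der_lt top_ne_bot').ne der_top

theorem sol_ne_top (h : Sol H) : H ≠ ⊤ := fun e => top_not_sol (e ▸ h)
theorem Pr.ne_top (h : Pr H) : H ≠ ⊤ := sol_ne_top h.sol
theorem not_pr_top : ¬ Pr (⊤ : Subgroup G) := fun h => h.ne_top rfl
theorem Mx.ne_top' (h : Mx M) : M ≠ ⊤ := h.1.ne_top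

theorem sol_norm (h : H ≠ ⊥) (k : Pw H) : Sol (𝐍 H) := mSol (norm_proper h k)
theorem sol_cent (h : H ≠ ⊥) (k : Pw H) : Sol (𝐂 H) := mSol (cent_proper h k)
theorem exists_mx_norm (h : H ≠ ⊥) (k : Pw H) : ∃ M, Mx M ∧ 𝐍 H ≤ M := exists_mx (norm_proper h k)

theorem Mx.norm_eq_of (h : Mx M) (h1 : H ≠ ⊥) (k : Pw H) (n : M ≤ 𝐍 H) : 𝐍 H = M :=
  h.eq_of_le (norm_proper h1 k) n

theorem Mx.norm_eq (h : Mx M) (k : H ⊴ M) (h1 : H ≠ ⊥) : 𝐍 H = M :=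
  h.eq_of_le (h.norm_pr k h1) k.norm

theorem Mx.norm_le (h : Mx M) (k : H ⊴ M) (h1 : H ≠ ⊥) : 𝐍 H ≤ M := (h.norm_eq k h1).le

theorem Mx.cent_le (h : Mx M) (k : H ⊴ M) (h1 : H ≠ ⊥) : 𝐂 H ≤ M :=
  (cent_le_norm H).trans (h.norm_le k h1)

theorem Mx.uniqIn_norm (h : Mx M) (k : H ⊴ M) (h1 : H ≠ ⊥) : UniqIn (𝐍 H) M :=
  (h.norm_eq k h1).symm ▸ h.uniqIn

theorem Mx.ne_bot (h : Mx M) : M ≠ ⊥ := ne_bot_mono h.O_ne_bot (O_le _ M)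

theorem Mx.norm_self (h : Mx M) : 𝐍 M = M := h.norm_eq (NormalIn.refl M) h.ne_bot

theorem Mx.mem_of_cj (h : Mx M) {g : G} (e : BG.cj g M = M) : g ∈ M :=
  h.norm_self ▸ cj_eq_self.mp e

theorem Mx.cj_ne (h : Mx M) {g : G} (e : g ∉ M) : BG.cj g M ≠ M := fun k => e (h.mem_of_cj k)

theorem Mx.cj_eq_iff (h : Mx M) {g k : G} : BG.cj g M = BG.cj k M ↔ k⁻¹ * g ∈ M := by
  rw [eq_cj_iff, cj_cj, cj_eq_self, h.norm_self]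

/-- a subgroup normalized by two different maximal subgroups is trivial or everything -/
theorem Mx.eq_of_norm (h : Mx M) (k : Mx L) (h1 : H ≠ ⊥) (h2 : Pw H) (a : M ≤ 𝐍 H)
    (b : L ≤ 𝐍 H) : M = L := (h.norm_eq_of h1 h2 a).symm.trans (k.norm_eq_of h1 h2 b)

theorem Mx.F_ne_bot (h : Mx M) : 𝐅 M ≠ ⊥ := h.sol.F_ne_bot h.ne_bot

theorem Mx.norm_O (h : Mx M) (h1 : 𝐎 π M ≠ ⊥) : 𝐍 (𝐎 π M) = M := h.norm_eq (O_normal π M) h1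

theorem UniqIn.norm_le (h : UniqIn H M) : 𝐍 H ≤ M := fun g hg =>
  h.mx.mem_of_cj (h.uniq _ (h.mx.cj g) (cj_of_norm hg ▸ cj_mono g h.le))

theorem UniqIn.cent_le (h : UniqIn H M) : 𝐂 H ≤ M := (cent_le_norm H).trans h.norm_le

theorem UniqIn.mem_of_cj_le (h : UniqIn H M) {g : G} (e : BG.cj g H ≤ M) : g ∈ M := by
  have := h.uniq _ (h.mx.cj g⁻¹) (cj_le_iff.mp e)
  simpa using h.mx.mem_of_cj this

theorem UniqIn.mem_of_le_cj (h : UniqIn H M) {g : G} (e : H ≤ BG.cj g M) : g ∈ M :=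
  h.mx.mem_of_cj (h.uniq _ (h.mx.cj g) e)

theorem UniqIn.ne_bot (h : UniqIn H M) : H ≠ ⊥ := by
  rintro rfl
  exact h.mx.ne_top' (top_le_iff.mp (norm_bot (G := G) ▸ h.norm_le))

theorem Uniq.ne_bot (h : Uniq H) : H ≠ ⊥ := let ⟨_, k⟩ := h.exists; k.ne_bot

/-- `M(C(X)) = {M}` gives `M(N(X)) = {M}` -/
theorem UniqIn.norm_of_cent (h : UniqIn (𝐂 X) M) (k : Pw X) : UniqIn (𝐍 X) M := by
  refine h.mono (cent_le_norm X) (norm_proper ?_ k)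
  rintro rfl
  exact h.proper.ne_top cent_bot

theorem UniqIn.cent_mono (h : UniqIn (𝐂 X) M) (a : K ≤ X) (k : K ≠ ⊥) (w : Pw K) : UniqIn (𝐂 K) M :=
  h.mono (cent_anti a) (cent_proper k w)

theorem m_ne_two (h : p ∣ ♯H) (k : Pr H := by first | assumption | exact Mx.ne_top ‹_›) : p ≠ 2 :=
  ne_two_of_odd k.odd h
theorem m_three_le (hp : p.Prime) (h : p ∣ ♯H) (k : Pr H := by first | assumption | exact Mx.ne_top ‹_›) :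
    3 ≤ p := three_le_of_odd k.odd hp h

theorem _root_.CF.BG.PiGrp.mcycV (k : PiGrp {p} P) (r : pRank p P ≤ 1) (o : Pr P) : Cyc P :=
  k.cyc_of_pRank o.odd r

end mso

/-! ### narrow groups, the prime sets -/

theorem sigmaCore_eq (M : Subgroup G) : sigmaCore M = Mσ M := rfl

section primes
variable {A H K L M N P S X : Subgroup G} {p : ℕ}

theorem mem_sigma : p ∈ 𝛔 M ↔ p.Prime ∧ p ∣ ♯M ∧ ∃ P, Syl p P M ∧ 𝐍 P ≤ M ∧ p ∈ 𝛡 G := Iff.rfl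

theorem prime_of_sigma (h : p ∈ 𝛔 M) : p.Prime := h.1
theorem dvd_of_sigma (h : p ∈ 𝛔 M) : p ∣ ♯M := h.2.1

theorem _root_.CF.BG.Hall.mem_sigmaV (h : Syl p P M) (m : Pr M) (n : 𝐍 P ≤ M) (w : p ∈ 𝛡 G) : p ∈ 𝛔 M := by
  have h1 : P ≠ ⊥ := by rintro rfl; exact m.ne_top (top_le_iff.mp (norm_bot (G := G) ▸ n))
  exact mem_sigma.mpr ⟨h.pi.prime h1, (h.pi.dvd_card h1).trans (card_dvd h.le), P, h, n, w⟩

theorem _root_.CF.BG.Hall.norm_le_of_sigmaV (h : Syl p P M) (hp : p ∈ 𝛔 M) : 𝐍 P ≤ M := by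
  obtain ⟨-, -, Q, hQ, n, -⟩ := mem_sigma.mp hp
  obtain ⟨g, hg, rfl⟩ := hQ.syl_conj h
  rw [← cj_norm]; exact cj_le_of_mem hg n

theorem _root_.CF.BG.Hall.mem_sigma_iffV (h : Syl p P M) (m : Pr M) (w : p ∈ 𝛡 G) : p ∈ 𝛔 M ↔ 𝐍 P ≤ M :=
  ⟨h.norm_le_of_sigmaV, fun n => h.mem_sigmaV m n w⟩

theorem _root_.CF.BG.Hall.ne_bot_of_sigmaV (h : Syl p P M) (hp : p ∈ 𝛔 M) : P ≠ ⊥ :=
  h.syl_ne_bot hp.1 hp.2.1

theorem _root_.CF.BG.Hall.syl_top_of_sigmaV (h : Syl p P M) (hp : p ∈ 𝛔 M) : Syl p P ⊤ :=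
  h.syl_of_norm_le (h.norm_le_of_sigmaV hp) le_top

theorem _root_.CF.BG.Hall.syl_of_sigmaV (h : Syl p P M) (hp : p ∈ 𝛔 M) (l : P ≤ L) : Syl p P L :=
  h.syl_of_norm_le (h.norm_le_of_sigmaV hp) l

theorem pRank_of_sigma (hp : p ∈ 𝛔 M) : pRank p M = pRank p (⊤ : Subgroup G) := by
  obtain ⟨P, hP⟩ := exists_syl p M
  rw [← hP.syl_pRank, (hP.syl_top_of_sigmaV hp).syl_pRank]

/-- BG 10.1 (d) -/
theorem _root_.CF.BG.Hall.mem_of_cj_le_sigmaV (h : Syl p P M) (hp : p ∈ 𝛔 M) {g : G} (e : BG.cj g P ≤ M) :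
    g ∈ M := by
  obtain ⟨m, hm, e'⟩ := h.syl_conj (h.of_card e (card_cj g P))
  have : m⁻¹ * g ∈ 𝐍 P := by rw [← cj_eq_self, ← cj_cj, e', cj_inv_cj]
  simpa using mul_mem hm (h.norm_le_of_sigmaV hp this)

@[simp] theorem sigma_cj (g : G) (M : Subgroup G) : 𝛔 (cj g M) = 𝛔 M := by
  have key : ∀ (g : G) (M : Subgroup G), 𝛔 M ⊆ 𝛔 (cj g M) := fun g M p hp => by
    obtain ⟨a, b, P, c, d, w⟩ := mem_sigma.mp hp
    exact mem_sigma.mpr ⟨a, by simpa using b, _, c.cj g, cj_norm g P ▸ cj_mono g d, w⟩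
  exact Set.Subset.antisymm (by simpa using key g⁻¹ (cj g M)) (key g M)

theorem mem_tau1 : p ∈ 𝛕₁ M ↔ p ∉ 𝛔 M ∧ pRank p M = 1 ∧ ¬ p ∣ ♯⁅M, M⁆ := by
  constructor
  · rintro ⟨a, b, c, d, e⟩
    have := pRank_pos.mpr ⟨a, c⟩
    have := (pRankLE_iff a).mp e
    exact ⟨b, by omega, d⟩
  · rintro ⟨a, b, c⟩
    have := pRank_pos.mp (show 0 < pRank p M by omega)
    exact ⟨this.1, a, this.2, c, (pRankLE_iff this.1).mpr b.le⟩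

theorem mem_tau2 : p ∈ 𝛕₂ M ↔ p ∉ 𝛔 M ∧ pRank p M = 2 := by
  constructor
  · rintro ⟨a, b, c, d⟩
    have := (pRankLE_iff a).mp c
    have := (not_pRankLE_iff a).mp d
    exact ⟨b, by omega⟩
  · rintro ⟨a, b⟩
    have hp := prime_of_pRank_pos (show 0 < pRank p M by omega)
    exact ⟨hp, a, (pRankLE_iff hp).mpr b.le, (not_pRankLE_iff hp).mpr (by omega)⟩

theorem mem_tau3 : p ∈ 𝛕₃ M ↔ p ∉ 𝛔 M ∧ pRank p M = 1 ∧ p ∣ ♯⁅M, M⁆ := by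
  constructor
  · rintro ⟨a, b, c, e⟩
    have := pRank_pos.mpr ⟨a, c.trans (card_dvd (der_le M))⟩
    have := (pRankLE_iff a).mp e
    exact ⟨b, by omega, c⟩
  · rintro ⟨a, b, c⟩
    have := pRank_pos.mp (show 0 < pRank p M by omega)
    exact ⟨this.1, a, c, (pRankLE_iff this.1).mpr b.le⟩

theorem mem_tau13 : p ∈ 𝛕₁ M ∪ 𝛕₃ M ↔ p ∉ 𝛔 M ∧ pRank p M = 1 := by
  rw [Set.mem_union, mem_tau1, mem_tau3]; tauto

theorem tau1_sigma' (h : p ∈ 𝛕₁ M) : p ∉ 𝛔 M := h.2.1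
theorem tau2_sigma' (h : p ∈ 𝛕₂ M) : p ∉ 𝛔 M := h.2.1
theorem tau3_sigma' (h : p ∈ 𝛕₃ M) : p ∉ 𝛔 M := h.2.1
theorem tau1_pRank (h : p ∈ 𝛕₁ M) : pRank p M = 1 := (mem_tau1.mp h).2.1
theorem tau2_pRank (h : p ∈ 𝛕₂ M) : pRank p M = 2 := (mem_tau2.mp h).2
theorem tau3_pRank (h : p ∈ 𝛕₃ M) : pRank p M = 1 := (mem_tau3.mp h).2.1
theorem tau1_not_tau2 (h : p ∈ 𝛕₁ M) : p ∉ 𝛕₂ M := fun k => by
  have := tau1_pRank h; have := tau2_pRank k; omega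
theorem tau3_not_tau2 (h : p ∈ 𝛕₃ M) : p ∉ 𝛕₂ M := fun k => by
  have := tau3_pRank h; have := tau2_pRank k; omega
theorem tau1_not_tau3 (h : p ∈ 𝛕₁ M) : p ∉ 𝛕₃ M := fun k => h.2.2.2.1 k.2.2.1
theorem tau13_not_tau2 (h : p ∈ 𝛕₁ M ∪ 𝛕₃ M) : p ∉ 𝛕₂ M := h.elim tau1_not_tau2 tau3_not_tau2
theorem tau1_sub (M : Subgroup G) : 𝛕₁ M ⊆ (𝛔 M)ᶜ := fun _ => tau1_sigma'
theorem tau2_sub (M : Subgroup G) : 𝛕₂ M ⊆ (𝛔 M)ᶜ := fun _ => tau2_sigma'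
theorem tau3_sub (M : Subgroup G) : 𝛕₃ M ⊆ (𝛔 M)ᶜ := fun _ => tau3_sigma'

@[simp] theorem tau1_cj (g : G) (M : Subgroup G) : 𝛕₁ (cj g M) = 𝛕₁ M := by
  ext p; simp only [mem_tau1, sigma_cj, pRank_cj, ← cj_comm, card_cj]
@[simp] theorem tau2_cj (g : G) (M : Subgroup G) : 𝛕₂ (cj g M) = 𝛕₂ M := by
  ext p; simp only [mem_tau2, sigma_cj, pRank_cj]
@[simp] theorem tau3_cj (g : G) (M : Subgroup G) : 𝛕₃ (cj g M) = 𝛕₃ M := by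
  ext p; simp only [mem_tau3, sigma_cj, pRank_cj, ← cj_comm, card_cj]
theorem cj_Ms (g : G) (M : Subgroup G) : cj g (Mσ M) = Mσ (cj g M) := by rw [cj_O, sigma_cj]

theorem kappa_sigma' (h : p ∈ 𝛋 M) : p ∉ 𝛔 M := h.2.2.1
theorem prime_of_kappa (h : p ∈ 𝛋 M) : p.Prime := h.1
theorem dvd_of_kappa (h : p ∈ 𝛋 M) : p ∣ ♯M := h.2.1
theorem kappa_sub (M : Subgroup G) : 𝛋 M ⊆ (𝛔 M)ᶜ := fun _ => kappa_sigma'

theorem mem_kappa : p ∈ 𝛋 M ↔ p ∉ 𝛔 M ∧ pRank p M = 1 ∧ ∃ X, Elem p 1 X M ∧ Mσ M ⊓ 𝐂 X ≠ ⊥ :=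
  ⟨fun h => h.2.2, fun h => have := pRank_pos.mp (show 0 < pRank p M by omega); ⟨this.1, this.2, h⟩⟩

theorem kappa_pRank (h : p ∈ 𝛋 M) : pRank p M = 1 := (mem_kappa.mp h).2.1
theorem kappa_tau13 (h : p ∈ 𝛋 M) : p ∈ 𝛕₁ M ∪ 𝛕₃ M := mem_tau13.mpr ⟨h.2.2.1, kappa_pRank h⟩
theorem kappa_not_tau2 (h : p ∈ 𝛋 M) : p ∉ 𝛕₂ M := tau13_not_tau2 (kappa_tau13 h)

theorem mem_kappa_of (h : p ∈ 𝛕₁ M ∪ 𝛕₃ M) (x : Elem p 1 X M) (c : Mσ M ⊓ 𝐂 X ≠ ⊥) : p ∈ 𝛋 M :=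
  mem_kappa.mpr ⟨(mem_tau13.mp h).1, (mem_tau13.mp h).2, X, x, c⟩

theorem w_of_kappa (h : p ∈ 𝛋 M) : p ∈ 𝛡 G :=
  let ⟨_, _, _, x, c⟩ := mem_kappa.mp h; x.w_of (pw_of_Ms_cent c)
theorem kappa_sub_w (M : Subgroup G) : 𝛋 M ⊆ 𝛡 G := fun _ => w_of_kappa
theorem pw_of_kappa (h : PiGrp (𝛋 M) H) : Pw H := h.mono (kappa_sub_w M)
theorem Pr.w_of_tau2 (m : Pr M) (h : p ∈ 𝛕₂ M) : p ∈ 𝛡 G :=
  m.w_of_pRank (by have := tau2_pRank h; omega)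
theorem Mx.w_of_tau2 (m : Mx M) (h : p ∈ 𝛕₂ M) : p ∈ 𝛡 G := m.1.w_of_tau2 h
theorem Mx.pw_of_tau2 (m : Mx M) (h : PiGrp (𝛕₂ M) H) : Pw H := h.mono fun _ => m.w_of_tau2
theorem Pr.w_of_alpha (m : Pr M) (h : p ∈ 𝛂 M) : p ∈ 𝛡 G :=
  m.w_of_pRank (by have := mem_alpha.mp h; omega)
theorem Mx.w_of_alpha (m : Mx M) (h : p ∈ 𝛂 M) : p ∈ 𝛡 G := m.1.w_of_alpha h
theorem Mx.w_of_elem (m : Mx M) (a : Elem p 2 A M) : p ∈ 𝛡 G := m.1.w_of_elem a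
theorem Mx.pw_Ma (m : Mx M) : Pw (Mα M) := (O_pi _ M).mono fun _ => m.w_of_alpha
theorem Mx.pw_Mb (m : Mx M) : Pw (Mβ M) := m.pw_Ma.le (Mb_le_Ma M)

theorem elem_one_eq {Y : Subgroup G} (k : PiGrp {p} P) (r : pRank p P ≤ 1) (x : Elem p 1 X P)
    (y : Elem p 1 Y P) : X = Y := by
  obtain ⟨Z, z⟩ := k.exists_elem_center (NormalIn.refl P) (ne_bot_mono x.ne_bot x.le)
  have key : ∀ X, Elem p 1 X P → X = Z := fun X x => by_contra fun e => by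
    have := (x.sup (z.mono inf_le_left) (cent_symm ((z.le.trans (inf_le_right.trans inf_le_right)).trans
      (cent_anti x.le))) (x.inf_eq_bot z e)).le_pRank
    omega
  rw [key X x, key Y y]

/-- subgroups of order `p` in a group of `p`-rank one are conjugate -/
theorem _root_.CF.BG.Elem.conj_of_pRankV {Y : Subgroup G} (x : Elem p 1 X M) (y : Elem p 1 Y M) (r : pRank p M ≤ 1) :
    ∃ g ∈ M, Y = cj g X := by
  obtain ⟨P, hP, l⟩ := exists_syl_le y.le y.pi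
  obtain ⟨g, hg, l'⟩ := hP.syl_cj_le x.le x.pi
  exact ⟨g, hg, elem_one_eq hP.pi ((pRank_mono p hP.le).trans r) (y.of_le l) ((x.cj g).of_le l')⟩

theorem kappa_nonreg (h : p ∈ 𝛋 M) (x : Elem p 1 X M) : Mσ M ⊓ 𝐂 X ≠ ⊥ := by
  obtain ⟨-, r, Y, y, c⟩ := mem_kappa.mp h
  obtain ⟨g, hg, rfl⟩ := y.conj_of_pRankV x r.le
  rwa [← cj_cent, ← cj_of_norm ((O_normal _ M).norm hg), ← cj_inf, Ne, cj_eq_bot]

@[simp] theorem kappa_cj (g : G) (M : Subgroup G) : 𝛋 (cj g M) = 𝛋 M := by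
  have key : ∀ (g : G) (M : Subgroup G), 𝛋 M ⊆ 𝛋 (cj g M) := fun g M p hp => by
    obtain ⟨a, b, X, c, d⟩ := mem_kappa.mp hp
    refine mem_kappa.mpr ⟨by simpa using a, by simpa using b, _, c.cj g, ?_⟩
    rwa [← cj_Ms, ← cj_cent, ← cj_inf, Ne, cj_eq_bot]
  exact Set.Subset.antisymm (by simpa using key g⁻¹ (cj g M)) (key g M)

end primes
end CF.BG.Vp
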