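import Cfsg.Agent.Vp.B12
/-
Definitions used in the statements of BG sections 7-16.
-/
set_option autoImplicit false
set_option linter.unusedSectionVars false

namespace CF.BG.Vp
open Subgroup
open scoped commutatorElement Pointwise

variable {G : Type*} [Group G] [Finite G] [MSO G]

/-! ### section 7 -/

/-- Hypothesis 7.1 -/
structure NC (A : Subgroup G) : Prop where
  ne_bot : A ≠ ⊥
  ne_top : Pw A
  le_O : ∀ X Y, A ≤ X → Pr X → Y ≤ X → PiGrp (piOf (♯A))ᶜ Y → A ≤ 𝐍 Y → Y ≤ 𝐎 (piOf (♯A))ᶜ X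

/-! ### sections 11, 12 -/

/-- Hypothesis 11.1 -/
structure Exc (p : ℕ) (M A₀ A : Subgroup G) : Prop where
  mx : Mx M
  sig : p ∉ 𝛔 M
  two : Elem p 2 A M
  one : Elem p 1 A₀ A
  norm : 𝐍 A₀ ≤ M

/-- `E` is a Hall `σ(M)'`-subgroup of the maximal subgroup `M` -/
structure SigE (M E : Subgroup G) : Prop where
  mx : Mx M
  hall : Hall (𝛔 M)ᶜ E M

/-- Coq: `sigma_complement M E E1 E2 E3` -/
structure SigC (M E E₁ E₂ E₃ : Subgroup G) : Prop extends SigE M E where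
  h1 : Hall (𝛕₁ M) E₁ E
  h2 : Hall (𝛕₂ M) E₂ E
  h3 : Hall (𝛕₃ M) E₃ E
  h12 : Hall (𝛕₁ M ∪ 𝛕₂ M) (E₂ ⊔ E₁) E

/-! ### section 14 -/

/-- type `F` -/
structure TyF (M : Subgroup G) : Prop where
  mx : Mx M
  kappa : 𝛋 M = ∅

/-- type `P` -/
structure TyP (M : Subgroup G) : Prop where
  mx : Mx M
  kappa : (𝛋 M).Nonempty

/-- type `P₁` -/
structure TyP1 (M : Subgroup G) : Prop extends TyP M where
  pi : PiGrp (𝛔 M ∪ 𝛋 M) M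

/-- type `P₂` -/
structure TyP2 (M : Subgroup G) : Prop extends TyP M where
  not_pi : ¬ PiGrp (𝛔 M ∪ 𝛋 M) M

/-- Coq: `kappa_complement M U K` (with `M` maximal) -/
structure KapC (M U K : Subgroup G) : Prop where
  mx : Mx M
  hU : Hall (𝛔 M ∪ 𝛋 M)ᶜ U M
  hK : Hall (𝛋 M) K M
  hUK : Hall (𝛔 M)ᶜ (U ⊔ K) M

/-- `M ∈ M_σ(x)` -/
structure SigMx (x : G) (M : Subgroup G) : Prop where
  mx : Mx M
  mem : x ∈ Mσ M

/-- `ℓ_σ(x) = 1` -/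
def Ell1 (x : G) : Prop := x ≠ 1 ∧ ∃ M, SigMx x M

/-- `|M_σ(x)| > 1` -/
def SigMany (x : G) : Prop := ∃ M L, SigMx x M ∧ SigMx x L ∧ M ≠ L

open scoped Classical in
/-- `N(x)` -/
noncomputable def sigN (x : G) : Subgroup G :=
  if h : SigMany x ∧ ∃ N, Mx N ∧ 𝐂₁ x ≤ N then h.2.choose else ⊥

/-- `R(x)` -/
noncomputable def sigR (x : G) : Subgroup G := Mσ (sigN x) ⊓ 𝐂₁ x

/-- the union of the conjugates of the cosets `x R(x)`, `x ∈ M_σ^#` -/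
def Tilde (M : Subgroup G) : Set G :=
  {g | ∃ x ∈ Mσ M, x ≠ 1 ∧ ∃ r ∈ sigR x, ∃ y : G, g = y * (x * r) * y⁻¹}

section
variable {M N H K L U E : Subgroup G} {x : G}

theorem Mx.tyF_or (h : Mx M) : TyF M ∨ TyP M :=
  (Set.eq_empty_or_nonempty (𝛋 M)).imp (⟨h, ·⟩) (⟨h, ·⟩)
theorem TyP.one_or_two (h : TyP M) : TyP1 M ∨ TyP2 M :=
  (em (PiGrp (𝛔 M ∪ 𝛋 M) M)).imp (⟨h, ·⟩) (⟨h, ·⟩)
theorem TyF.not_tyP (h : TyF M) : ¬ TyP M := fun k => k.kappa.ne_empty h.kappa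
theorem TyP.not_tyF (h : TyP M) : ¬ TyF M := fun k => k.not_tyP h
theorem TyP1.not_tyP2 (h : TyP1 M) : ¬ TyP2 M := fun k => k.not_pi h.pi
theorem Mx.tyP_of_not (h : Mx M) (k : ¬ TyF M) : TyP M := h.tyF_or.resolve_left k
theorem Mx.tyF_of_not (h : Mx M) (k : ¬ TyP M) : TyF M := h.tyF_or.resolve_right k
theorem TyF.not_mem (h : TyF M) (p : ℕ) : p ∉ 𝛋 M := h.kappa ▸ Set.notMem_empty p

theorem sigN_spec (h : SigMany x) (k : ∃ N, Mx N ∧ 𝐂₁ x ≤ N) : Mx (sigN x) ∧ 𝐂₁ x ≤ sigN x := by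
  rw [sigN, dif_pos ⟨h, k⟩]; exact k.choose_spec

theorem sigN_of_not (h : ¬ SigMany x) : sigN x = ⊥ := by
  rw [sigN, dif_neg fun k => h k.1]

theorem sigR_le (x : G) : sigR x ≤ 𝐂₁ x := inf_le_right

theorem sigR_of_not (h : ¬ SigMany x) : sigR x = ⊥ := by
  rw [sigR, sigN_of_not h, O_bot, bot_inf_eq]

theorem _root_.CF.BG.Hall.kappa_ne_bot_iffV (h : Hall (𝛋 M) K M) : K ≠ ⊥ ↔ (𝛋 M).Nonempty := by
  constructor
  · intro k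
    obtain ⟨p, hp, d⟩ := exists_prime_dvd_card k
    exact ⟨p, h.pi p hp d⟩
  · rintro ⟨p, hp⟩
    exact h.ne_bot (prime_of_kappa hp) hp (dvd_of_kappa hp)

theorem TyP.ne_bot (h : TyP M) (k : Hall (𝛋 M) K M) : K ≠ ⊥ := k.kappa_ne_bot_iffV.mpr h.kappa
theorem TyF.eq_bot (h : TyF M) (k : Hall (𝛋 M) K M) : K = ⊥ :=
  by_contra fun e => (k.kappa_ne_bot_iffV.mp e).ne_empty h.kappa
theorem Mx.tyP_of (h : Mx M) (k : Hall (𝛋 M) K M) (k1 : K ≠ ⊥) : TyP M :=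
  ⟨h, k.kappa_ne_bot_iffV.mp k1⟩
theorem Mx.tyF_of (h : Mx M) (k : Hall (𝛋 M) ⊥ M) : TyF M :=
  h.tyF_of_not fun t => t.ne_bot k rfl

theorem KapC.eq_bot_iff (h : KapC M U K) : U = ⊥ ↔ PiGrp (𝛔 M ∪ 𝛋 M) M :=
  ⟨fun e => (e ▸ h.hU).pi'_of_eq_bot.of_compl_compl, fun e => h.hU.eq_bot e.compl_compl⟩
theorem KapC.tyP2 (h : KapC M U K) (k : K ≠ ⊥) (u : U ≠ ⊥) : TyP2 M :=
  ⟨h.mx.tyP_of h.hK k, fun e => u (h.eq_bot_iff.mpr e)⟩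
theorem KapC.tyP1 (h : KapC M U K) (k : K ≠ ⊥) (u : U = ⊥) : TyP1 M :=
  ⟨h.mx.tyP_of h.hK k, h.eq_bot_iff.mp u⟩
theorem TyP2.ne_bot (h : TyP2 M) (k : KapC M U K) : U ≠ ⊥ := fun e => h.not_pi (k.eq_bot_iff.mp e)
theorem TyP1.eq_bot (h : TyP1 M) (k : KapC M U K) : U = ⊥ := k.eq_bot_iff.mpr h.pi
theorem KapC.sigE (h : KapC M U K) : SigE M (U ⊔ K) := ⟨h.mx, h.hUK⟩

protected theorem SigE.cj (h : SigE M E) (g : G) : SigE (BG.cj g M) (BG.cj g E) :=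
  ⟨h.mx.cj g, by rw [sigma_cj]; exact h.hall.cj g⟩

protected theorem SigMx.cj (h : SigMx x M) (g : G) : SigMx (g * x * g⁻¹) (BG.cj g M) :=
  ⟨h.mx.cj g, cj_Ms g M ▸ conj_mem_cj.mpr h.mem⟩

theorem SigMx.ell1 (h : SigMx x M) (x1 : x ≠ 1) : Ell1 x := ⟨x1, M, h⟩

theorem Ell1.conj (h : Ell1 x) (g : G) : Ell1 (g * x * g⁻¹) :=
  ⟨by simpa [mul_inv_eq_one] using h.1, let ⟨_, k⟩ := h.2; ⟨_, k.cj g⟩⟩

theorem SigMany.conj (h : SigMany x) (g : G) : SigMany (g * x * g⁻¹) :=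
  let ⟨_, _, a, b, c⟩ := h; ⟨_, _, a.cj g, b.cj g, by simpa using c⟩

protected theorem TyF.cj (h : TyF M) (g : G) : TyF (BG.cj g M) := ⟨h.mx.cj g, by simpa using h.kappa⟩
protected theorem TyP.cj (h : TyP M) (g : G) : TyP (BG.cj g M) := ⟨h.mx.cj g, by simpa using h.kappa⟩
protected theorem TyP1.cj (h : TyP1 M) (g : G) : TyP1 (BG.cj g M) :=
  ⟨h.toTyP.cj g, by simpa using h.pi⟩
protected theorem TyP2.cj (h : TyP2 M) (g : G) : TyP2 (BG.cj g M) :=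
  ⟨h.toTyP.cj g, by simpa using h.not_pi⟩
protected theorem KapC.cj (h : KapC M U K) (g : G) : KapC (BG.cj g M) (BG.cj g U) (BG.cj g K) :=
  ⟨h.mx.cj g, by simpa using h.hU, by simpa using h.hK, by simpa [← cj_sup] using h.hUK⟩

theorem Mx.exists_sigE (h : Mx M) (hK : K ≤ M) (k : PiGrp (𝛔 M)ᶜ K) : ∃ E, SigE M E ∧ K ≤ E :=
  let ⟨E, a, b⟩ := h.sol.exists_hall_le hK k; ⟨E, ⟨h, a⟩, b⟩

theorem Mx.exists_sigE' (h : Mx M) : ∃ E, SigE M E :=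
  let ⟨E, a⟩ := h.sol.exists_hall (𝛔 M)ᶜ; ⟨E, h, a⟩

theorem SigE.le (h : SigE M E) : E ≤ M := h.hall.le
theorem SigE.pi (h : SigE M E) : PiGrp (𝛔 M)ᶜ E := h.hall.pi
theorem SigE.sol (h : SigE M E) : Sol E := h.mx.sol' h.le
theorem SigE.norm (h : SigE M E) : E ≤ 𝐍 (Mσ M) := h.le.trans (O_normal _ M).norm
theorem SigE.coprime (h : SigE M E) : (♯E).Coprime (♯(Mσ M)) := h.pi.coprime' (O_pi _ M)

/-- if `C(x) ≤ M` fails then `x` lies in the `σ`-core of two maximal subgroups -/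
theorem SigMx.many (h : SigMx x M) (c : ¬ 𝐂₁ x ≤ M) : SigMany x := by
  obtain ⟨g, hg, hgM⟩ := SetLike.not_le_iff_exists.mp c
  have := h.cj g
  rw [mem_cent1.mp hg, mul_inv_cancel_right] at this
  exact ⟨_, _, this, h, h.mx.cj_ne hgM⟩

theorem SigMx.cent1_le (h : SigMx x M) (c : ¬ SigMany x) : 𝐂₁ x ≤ M :=
  by_contra fun e => c (h.many e)

end
end CF.BG.Vp
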