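import Cfsg.Agent.Vp.P14b
import Cfsg.Agent.Vp.Adj

/-!
The endgame: adjacency is transitive on `ϖ`.
-/

set_option autoImplicit false
set_option linter.unusedSectionVars false

namespace CF.BG.Vp
open CF.PF

open Cfsg hiding typeA typeA0 Supports
open CF.Char CF.BG
open scoped commutatorElement

variable {G : Type*} [Group G] [Finite G] {H K M U W W₁ W₂ : Subgroup G} {π B : Set ℕ} {p q : ℕ} {x y : G}

theorem ex_cj (h : Hall π H M) (hp : p.Prime) (m : p ∈ π) (hx : x ∈ M) (o : orderOf x = p) :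
    ∃ g ∈ M, g * x * g⁻¹ ∈ H := by
  obtain ⟨P, s⟩ := exists_syl p H
  obtain ⟨g, hg, l⟩ := (s.syl_trans h m).syl_cj_le (Subgroup.zpowers_le.2 hx)
    (piGrp_of_card_prime hp ((Nat.card_zpowers x).trans o))
  exact ⟨g, hg, s.le (l (conj_mem_cj.2 (Subgroup.mem_zpowers x)))⟩

theorem ne_one_of_prime (hp : p.Prime) (o : orderOf x = p) : x ≠ 1 := fun e => hp.ne_one (by rw [← o, e, orderOf_one])

theorem elt_of_prime (hp : p.Prime) (o : orderOf x = p) (m : p ∈ π) : PiElt π x :=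
  fun _ hq d => (Nat.prime_dvd_prime_iff_eq hq hp).1 (o ▸ d) ▸ m

/-- the primes adjacent to `p` lie in `B` -/
def Nb (G : Type*) [Group G] (p : ℕ) (B : Set ℕ) : Prop := ∀ q, q.Prime → Adj G p q → q ∈ B

theorem nb_of (h : Hall π H ⊤) (hp : p.Prime) (m : p ∈ π)
    (k : ∀ x ∈ H, x ≠ 1 → ∀ y ∈ 𝐂₁ x, ∀ q, q.Prime → orderOf y = q → q ∈ B) : Nb G p B := fun q hq ⟨x, y, a, b, c⟩ => by
  obtain ⟨g, -, e⟩ := ex_cj h hp m trivial a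
  exact k _ e (PF8.conj_ne_one'.2 (ne_one_of_prime hp a)) (g * y * g⁻¹)
    (cj_cent1 g x ▸ conj_mem_cj.2 (mem_cent1.2 c.symm.eq)) q hq ((orderOf_conj' g y).trans b)

/-- `a` lies in a closed clique -/
def Cq (G : Type*) [Group G] (a : ℕ) : Prop :=
  ∃ B : Set ℕ, a ∈ B ∧ (∀ p ∈ B, p.Prime → Nb G p B) ∧ ∀ p ∈ B, ∀ q ∈ B, p ≠ q → Adj G p q

theorem cq_of (h : Hall (piOf (♯H)) H ⊤) (n : Nil H) (hp : p.Prime) (d : p ∣ ♯H)
    (k : ∀ x ∈ H, x ≠ 1 → ∀ y ∈ 𝐂₁ x, ∀ q, q.Prime → orderOf y = q → q ∣ ♯H) : Cq G p :=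
  ⟨piOf (♯H), ⟨hp, d⟩, fun _ m hq => nb_of h hq m fun x hx x1 y hy q hq e => ⟨hq, k x hx x1 y hy q hq e⟩,
    fun _ a _ b ne => by
      obtain ⟨x, hx, e⟩ := exists_mem_orderOf_eq a.1 a.2
      obtain ⟨y, hy, e'⟩ := exists_mem_orderOf_eq b.1 b.2
      exact ⟨x, y, e, e', n.comm_of_coprime hx hy (by rw [e, e']; exact (Nat.coprime_primes a.1 b.1).2 ne)⟩⟩

variable [MSO G] [BG16 G]

theorem cq_one (m : Mx M) (t : TypeI M) (hp : p.Prime) (d : p ∣ ♯(𝐅ₕ M)) : Cq G p := by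
  obtain ⟨E, f⟩ := one_frobK m t
  refine cq_of (Fh_hall_top m) (Fh_nil M) hp d fun x hx x1 y hy q _ e => e ▸ orderOf_dvd_card' (f.cent1_le hx x1
    ⟨(by_contra fun n => ?_ : 𝐂₁ x ≤ M) hy, hy⟩)
  obtain ⟨-, L, u, -, -, -, -, a1, a2, t | t, -⟩ := supp_facts m (Fh_subset_A0 m ⟨hx, x1⟩) n
  · rw [(one_frobK u.mx t).A_eqV u.mx, ← one_A1 u.mx t] at a1
    exact a2 a1
  obtain ⟨U, W, W₁, W₂, h⟩ := exists_MP_of_two u.mx t
  obtain ⟨b, -, c⟩ := h.mem_A.1 a1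
  rw [core_eq_F u.mx (.inr (.inl t))] at c
  obtain ⟨z, hz, z1⟩ := exists_mem_ne_one c
  exact a2 (F_sub_A1 u.mx ⟨(h.frob_of_gal14 h.gal).cent1_le hz.1 z1 ⟨b, mem_cent1_comm.1 hz.2⟩, x1⟩)

namespace MP
variable (h : MP M U W W₁ W₂)
include h

theorem eq_of_dvd (hq : q.Prime) (d : q ∣ ♯(𝐅ₕ M)) : q = ♯W₂ :=
  (Nat.prime_dvd_prime_iff_eq hq h.prime₂').1 (hq.dvd_of_dvd_pow (h.card_F ▸ d))

theorem dvdF : ♯W₂ ∈ piOf (♯(𝐅ₕ M)) := ⟨h.prime₂', card_dvd h.le₂H⟩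

theorem nb : Nb G (♯W₂) {♯W₁, ♯W₂} := nb_of (Fh_hall_top h.mx) h.prime₂' h.dvdF fun x hx x1 y hy q hq e => by
  refine or_iff_not_imp_left.2 fun ne => h.eq_of_dvd hq (e ▸ orderOf_dvd_card' ((h.frob_of_gal14 h.gal).cent1_le hx x1
    ⟨h.out.hallD.mem_normal (der_normal M).norm (h.cent1_A014 (h.F_sub_A014 ⟨hx, x1⟩) hy) (elt_of_prime hq e fun j =>
      ne ((Nat.prime_dvd_prime_iff_eq hq h.prime₁').1 j.2)), hy⟩))

theorem cq_p : Cq G (♯W₂) := by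
  obtain ⟨T, V, k⟩ := h.exists_pair
  obtain ⟨x, hx, e⟩ := exists_mem_orderOf_eq h.prime₁' dvd_rfl
  obtain ⟨y, hy, e'⟩ := exists_mem_orderOf_eq h.prime₂' dvd_rfl
  have a : Adj G (♯W₁) (♯W₂) := ⟨x, y, e, e', (mem_cent.1 (h.dprod.cent' hx) y hy).symm⟩
  refine ⟨{♯W₁, ♯W₂}, .inr rfl, ?_, ?_⟩
  · rintro _ (rfl | rfl) -
    exacts [Set.pair_comm _ _ ▸ k.pT.nb, h.nb]
  · rintro _ (rfl | rfl) _ (rfl | rfl) ne
    exacts [absurd rfl ne, a, a.symm, absurd rfl ne]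

theorem cq_U (n : ¬ IsOfTypeII M) (hp : p.Prime) (d : p ∣ ♯U) : Cq G p := by
  have f := h.frob_of_gal14 h.gal
  have l := h.sdH.right_le
  refine cq_of ((h.hallU.of_le l (der_le M)).trans (h.core_eq_der n ▸ core_hall_top h.mx) fun _ j =>
    mem_piOf.2 ⟨j.1, j.2.trans (card_dvd l)⟩) h.nilU hp d fun x hx x1 y hy q hq e => ?_
  have yM := h.cent1_A014 (A_sub_A0 M (h.A_eq n ▸ ⟨l hx, x1⟩)) hy
  have nF : x ∉ 𝐅ₕ M := fun j => x1 (eq_one_of_mem_bot h.sdH.inf ⟨j, hx⟩)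
  have := orderOf_dvd_card' yM
  rw [e, ← h.sdHU.card, ← h.sdU.card, hq.dvd_mul, hq.dvd_mul] at this
  rcases this with j | j | j
  · exact absurd (f.cent1_le ((Fh_hall M).mem_normal (Fh_normal M).norm yM (elt_of_prime hq e ⟨hq, j⟩))
      (ne_one_of_prime hq e) ⟨l hx, mem_cent1_comm.1 hy⟩) nF
  · exact j
  obtain ⟨g, hg, k⟩ := ex_cj h.out.hall₁ hq ⟨hq, j⟩ yM e
  exact absurd ((mem_norm.1 ((Fh_normal M).norm hg) x).2 (h.le₂H ((h.cent1 k (PF8.conj_ne_one'.2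
    (ne_one_of_prime hq e))).le ⟨conj_mem_of_norm ((der_normal M).norm hg) (l hx),
      cj_cent1 g y ▸ conj_mem_cj.2 (mem_cent1_comm.1 hy)⟩))) nF

end MP

theorem cq (hp : p.Prime) (d : p ∣ Nat.card G) (w : p ∈ 𝛡 G) : Cq G p := by
  obtain ⟨M, m, k⟩ := exists_dvd_core hp d w
  obtain t | ⟨U, W, W₁, W₂, h⟩ := mx_cases m
  · exact cq_one m t hp (core_eq_F m (.inl t) ▸ k)
  by_cases j : p ∣ ♯(𝐅ₕ M)
  · exact h.eq_of_dvd hp j ▸ h.cq_p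
  have n : ¬ IsOfTypeII M := fun t => j (core_eq_F m (.inr (.inl t)) ▸ k)
  rw [h.core_eq_der n, ← h.sdH.card, hp.dvd_mul] at k
  exact h.cq_U n hp (k.resolve_left j)

theorem tra_of_bg16 (G : Type*) [Group G] [Finite G] [MSO G] [BG16 G] : Tra G (𝛡 G) := fun a b c ha hb hc w ab bc ne => by
  obtain ⟨B, m, k, l⟩ := cq ha (let ⟨x, _, e, _⟩ := ab; e ▸ orderOf_dvd_natCard x) w
  exact l a m c (k b (k a m ha b hb ab) hb c hc bc) ne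

end CF.BG.Vp
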