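import Cfsg.Agent.Vp.A0

/-!
Peterfalvi (11.8), the character-theoretic part, without a parity assumption on `G`.
-/

set_option autoImplicit false
set_option linter.unusedSectionVars false

namespace CF.PF

open Cfsg CF.Char CF.BG
open scoped ComplexConjugate Classical commutatorElement

variable {G : Type*} [Group G] [Finite G] {L K W W₁ W₂ : Subgroup G} {A A₀ : Set G}
  {R : G → Subgroup G} {η μ : Lin W₁ → Lin W₂ → G → ℂ} {δ : Lin W₂ → ℝ} {ζ χ Z : G → ℂ} {d n : ℕ}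
  {ε : ℝ} {i : Lin W₁} {j k : Lin W₂} {ν : (G → ℂ) →ₗ[ℂ] (G → ℂ)} {S S₂ : Finset (G → ℂ)}

theorem Fam.rip_red_evenV (h : Fam L W W₁ W₂ η) {φ : G → ℂ} (hφ : φ ∈ ZIrr L) (hφr : star φ = φ) :
    ∃ n : ℤ, rip L φ (red η 1) = rip L φ (triv L) * rip L (red η 1) (triv L) + 2 * n := by
  have h1 : ∀ i : Lin W₁, ∃ n : ℤ, rip L φ (η i 1) = n := fun i => rip_int hφ (h.zirr i 1)
  choose m hm using h1
  have h2 : ∑ i ∈ (Finset.univ : Finset (Lin W₁)).erase 1, (m i : ZMod 2) = 0 := by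
    refine Finset.sum_involution (fun i _ => i⁻¹) (fun i _ => ?_) (fun i hi _ => ?_)
      (fun i hi => ?_) (fun i _ => inv_inv i)
    · have : m i⁻¹ = m i := by
        have := hm i⁻¹
        have e := h.star_eta i 1
        rw [inv_one] at e
        rw [← e, ← rip_star_left, hφr, hm i] at this
        exact_mod_cast this.symm
      rw [this]; exact CharTwo.add_self_eq_zero _
    · exact Lin.inv_ne h.cti.odd₁ (Finset.ne_of_mem_erase hi)
    · simpa using hi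
  rw [← Int.cast_sum, ZMod.intCast_zmod_eq_zero_iff_dvd] at h2
  obtain ⟨n, hn⟩ := h2
  refine ⟨n, ?_⟩
  have e1 : rip L (red η 1) (triv L) = 1 := by
    rw [← h.eta_one, h.rip_red]; simp
  rw [e1, mul_one, red, rip_sum_right, ← Finset.add_sum_erase _ _ (Finset.mem_univ 1), h.eta_one]
  simp only [hm]
  exact_mod_cast congrArg (fun z : ℤ => rip L φ (triv L) + (z : ℝ)) hn

namespace H10

variable (h : H10 L K W W₁ W₂ A A₀ R η μ δ ζ d n ε)
include h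

/-- (11.8.2)-(11.8.5) -/
theorem rip_alph_nuV (hs : S ⊆ sind K L K ⊥) (m : ζ ∈ S) (hc : ∀ χ ∈ S, star χ ∈ S)
    (hi : ∀ χ ∈ S, χ ∈ irr L ∧ χ 1 = ♯W₁) (card : S.card = n)
    (hν : CohWith L S (PF.dade A₀ L R) ν) (eZ : PF.dade A₀ L R (red μ 1 - ζ) = red η 1 - ν ζ)
    (hj : j ≠ 1) (i : Lin W₁) : rip ⊤ (PF.dade A₀ L R (alph μ n ε ζ i j)) (ν ζ) = -n := by
  have o : ∀ χ ∈ S, ∀ i j, rip ⊤ (ν χ) (η i j) = 0 := fun χ hχ =>
    h.coh_ortho h.oddL hs hν hχ (hc χ hχ) (hi χ hχ).1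
  have o' : ∀ i j, rip ⊤ (η i j) (ν ζ) = 0 := fun i j => by rw [rip_comm, o ζ m]
  rw [h.tau_alph_row i hj]
  simp only [rip_add_left, rip_rsmul_left, rip_sub_left, o', sub_self, add_zero, mul_zero]
  have tz := h.tzirr (i := 1) hj
  have nt := h.alph_norm (i := 1) hj
  have st := h.tau_alph_star hj
  have rt := fun X => h.rip_tau (i := 1) (X := X) hj
  have r0 := h.rip_tau0 (h.acfn 1 j)
  have r1 : rip ⊤ (PF.dade A₀ L R (alph μ n ε ζ 1 j)) (η 1 1) = -ε := by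
    rw [h.gfam.eta_one, rip, ip_dade_triv h.dade (h.acfn 1 j) (h.asupp hj), ← rip, ← h.mu_one_one]
    simp [alph, h.rip_mu, hj, rip_comm L ζ, h.rip_mu_sind le_rfl h.mem h.zi]
  have ae := fun X Y => h.alph_eq (i := 1) (X := X) (Y := Y) hj
  set t := PF.dade A₀ L R (alph μ n ε ζ 1 j)
  obtain ⟨z, hz⟩ := rip_int tz (hν.zirr ζ m)
  have sZ := hν.sir m h.zi
  have on : ONF ⊤ S ν := ⟨fun χ hχ => (hν.sir hχ (hi χ hχ).1).rip_self, fun χ hχ φ hφ ne => by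
    rw [hν.rip hχ hφ, rip_irr_ne (hi χ hχ).1 (hi φ hφ).1 ne]⟩
  have co : ∀ χ ∈ S.erase ζ, rip ⊤ t (ν χ) = z + n := fun χ hχ => by
    obtain ⟨ne, hχ⟩ := Finset.mem_erase.1 hχ
    have := rt _ (sub_mem (cfn_of_irr (hi χ hχ).1) (cfn_of_irr h.zi))
    rw [← hν.sub (mem_CS hχ) (mem_CS m) (by rw [(hi χ hχ).2, h.z1]), rip_sub_right, rip_sub_right,
      h.rip_a_irr (hs hχ) (hi χ hχ).1, h.rip_a_irr h.mem h.zi, if_neg ne.symm, if_pos rfl,
      hz] at this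
    linarith
  have n2 := h.cst_two_le h.cst h.oddL
  have sq : ∑ χ ∈ S, rip ⊤ t (ν χ) ^ 2 = z ^ 2 + (n - 1) * (z + n) ^ 2 := by
    rw [← Finset.add_sum_erase _ _ m, hz, Finset.sum_congr rfl fun χ hχ => by rw [co χ hχ],
      Finset.sum_const, Finset.card_erase_of_mem m, card, nsmul_eq_mul, Nat.cast_sub (by omega),
      Nat.cast_one]
  rw [eZ, rip_sub_right, rip_sub_right, hz, h.rip_a_red, h.rip_a_irr h.mem h.zi, if_pos rfl,
    if_pos rfl, if_neg hj.symm] at r0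
  -- parity
  have sν := hν.star_eq (h.iso0.mono hs) dade_star m h.zi (hc ζ m) h.star_ne
  have eS := hν.sub (mem_CS m) (mem_CS (hc ζ m)) (isCh_of_irr h.zi).star_apply_one.symm
  have zε := h.sign_int j
  rw [h.cst.sgn j hj] at zε
  obtain ⟨e, he⟩ := h.gfam.rip_red_evenV (φ := t - ε • (η 1 j - η 1 1) + (n : ℝ) • ν ζ)
    (add_mem (sub_mem tz (ZIrr.rsmul_of_int (sub_mem (h.gfam.zirr _ _) (h.gfam.zirr _ _)) zε))
      (ZIrr.nat_rsmul sZ.zirr n)) (by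
      simp only [star_add, star_sub, star_smul, st, star_trivial, h.gfam.star_eta, inv_one, sν, ← eS]
      module)
  simp [← h.gfam.eta_one, r1, o ζ m, h.gfam.rip_eta, hj, rip_red_of_ortho (o ζ m),
    rip_comm ⊤ (η _ _) (red η 1), h.gfam.rip_red, hj.symm] at he
  have ez : z + n = 2 * e := by exact_mod_cast (by linarith : (z + n : ℝ) = 2 * e)
  have bs := on.bessel t
  rw [sq, nt] at bs
  have n2' : (2 : ℤ) ≤ n := by exact_mod_cast n2
  have bs' : z ^ 2 + (n - 1) * (z + n) ^ 2 ≤ 2 + (n : ℤ) ^ 2 := by exact_mod_cast bs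
  rw [hz]
  obtain rfl : z = 2 * e - n := by omega
  have : e = 0 ∨ e = 1 := by
    by_contra c
    have : 2 ≤ e * (e - 1) := by rcases (by omega : e ≤ -1 ∨ 2 ≤ e) with f | f <;> nlinarith
    nlinarith
  rcases this with rfl | rfl
  · simp
  have pz := on.proj_mem hν.zirr tz
  have oY : ∀ i j, rip ⊤ (proj ⊤ S ν t) (η i j) = 0 := fun i j => by
    rw [on.proj_eq]; exact rip_sum_left_zero _ fun χ hχ => o χ hχ i j
  have := ae (t - proj ⊤ S ν t) (proj ⊤ S ν t) (by abel) pz oY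
    (by conv_lhs => enter [3]; rw [on.proj_eq]
        exact rip_sum_right_zero _ fun χ hχ => rip_sub_proj on.2 t hχ)
    (by rw [on.proj_eq, on.rip_sum_sum]; simp only [← _root_.sq, sq]; push_cast; ring)
  have := congrArg (rip ⊤ · (red η 1)) this
  simp [rip_red_of_ortho oY, rip_comm ⊤ (η _ _) (red η 1), h.gfam.rip_red, hj.symm] at this
  push_cast at r0
  linarith

/-- (11.8), the character-theoretic part -/
theorem coh_of_orthoV (hs : S ⊆ sind K L K ⊥) (m : ζ ∈ S)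
    (hc : ∀ χ ∈ S, star χ ∈ S) (hi : ∀ χ ∈ S, χ ∈ irr L ∧ χ 1 = ♯W₁) (card : S.card = n)
    (hs₂ : S₂ ⊆ sind K L K ⊥) (hc₂ : ∀ χ ∈ S₂, star χ ∈ S₂) (hd : Disjoint S S₂)
    (co : Coh L S₂ (PF.dade A₀ L R)) (hj : j ≠ 1) (mj : red μ j ∈ S₂)
    (o : ∀ i j, rip ⊤ (PF.dade A₀ L R (red μ 1 - ζ)) (η i j) = if j = 1 then 1 else 0) :
    Coh L (S ∪ S₂) (PF.dade A₀ L R) := by
  obtain ⟨Z, sZ, oZ, eZ⟩ := h.exists_Z o
  obtain ⟨ν, hν, rfl⟩ := h.exists_nu hs m hi sZ eZ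
  obtain ⟨ν₂, hν₂⟩ := co
  obtain ⟨Rc, sc, -⟩ := h.subCoh h.oddL
  have hu := Finset.union_subset hs hs₂
  have o₂ := sc.ortho hs hc hs₂ hc₂ hν hν₂ hd ζ m
  have zz := rip_irr_self h.zi
  have a : rip ⊤ (PF.dade A₀ L R (red μ j - (d : ℝ) • ζ)) (ν ζ) = -d := by
    rw [h.red_sub_eq, map_add, map_sum, map_rsmul, eZ]
    simp [rip_sum_left, h.rip_alph_nuV hs m hc hi card hν eZ hj, h.card_lin₁, sZ.rip_self,
      rip_comm ⊤ (red η 1), rip_red_of_ortho oZ]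
    linarith [h.cst.eq]
  refine (((sind_orthS h.normal).mono hu).pivot (h.iso0.mono hu) (Finset.mem_union_left _ m)
    sZ.zirr (by rw [sZ.rip_self, zz]) fun χ hχ ne => ?_).imp fun _ => And.left
  rcases Finset.mem_union.1 hχ with hχ | hχ
  · refine ⟨1, by simp [(hi χ hχ).2, h.z1], ?_⟩
    rw [Nat.cast_one, one_smul, ← hν.sub (mem_CS hχ) (mem_CS m) (by rw [(hi χ hχ).2, h.z1]),
      rip_sub_left, hν.rip hχ m, hν.rip m m, rip_irr_ne (hi χ hχ).1 h.zi ne]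
    simp
  obtain ⟨c, -, hc1⟩ := sind_one h.leK (hs₂ hχ)
  rw [h.relIndex_eq] at hc1
  refine ⟨c, by rw [hc1, h.z1, mul_comm], ?_⟩
  have b := hν₂.sub (CS.rsmul (mem_CS hχ) d) (CS.rsmul (mem_CS mj) c) (by
    simp [hc1, h.red_one, h.cst.deg 1 j hj]; ring)
  have d0 : (0 : ℝ) < d := by exact_mod_cast h.cst.one_lt.trans' Nat.one_pos
  refine mul_left_cancel₀ d0.ne' ?_
  rw [← rip_rsmul_left, ← map_rsmul, show (d : ℝ) • (χ - (c : ℝ) • ζ) =
    ((d : ℝ) • χ - (c : ℝ) • red μ j) + (c : ℝ) • (red μ j - (d : ℝ) • ζ) by module, map_add, ← b,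
    map_rsmul, map_rsmul, map_rsmul, rip_add_left, rip_rsmul_left, a, zz]
  simp [rip_comm ⊤ _ (ν ζ), o₂ χ hχ, o₂ _ mj]
  ring

end H10

end CF.PF
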