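import Cfsg.Agent.Vp.P11a
import Cfsg.Agent.Vp.P11x

/-!
Peterfalvi (11.8).
-/

set_option autoImplicit false
set_option linter.unusedSectionVars false

namespace CF.BG.Vp
open CF.PF

open Cfsg hiding typeA typeA0 Supports
open CF.Char CF.BG
open CF.PF8 (PW TF)
open scoped ComplexConjugate Classical commutatorElement

variable {G : Type*} [Group G] [Finite G] [MSO G] [BG16 G] {M U W W₁ W₂ : Subgroup G}
  {ζ : G → ℂ} {η μ : Lin W₁ → Lin W₂ → G → ℂ} {δ : Lin W₂ → ℝ}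

/-- (11.8) -/
theorem TP.not_ortho34 (h : TP M U W W₁ W₂ η μ δ) (n2 : ¬ IsOfTypeII M)
    (hζ : ζ ∈ sind ⁅M, M⁆ M ⁅M, M⁆ ⁅⁅M, M⁆, ⁅M, M⁆⁆) :
    ¬ ∀ i j, rip ⊤ (tau M (red μ 1 - ζ)) (η i j) = if j = 1 then 1 else 0 := fun o => by
  obtain ⟨k, -, -, -, e2⟩ := h.toMP.facts34 n2
  obtain ⟨d, n, ε, c⟩ := h.exists_cst n2
  have zi := h.toMP.sind_der_irr hζ
  have H := h.h10 n2 c (sind_sub_bot hζ) zi.1 zi.2
  have eC : cU M U ⊥ = U ⊓ 𝐂 (𝐅ₕ M) := by rw [cU, centMod_bot]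
  obtain ⟨j, hj, mj⟩ := k.exists_red h.pfam
  have r := k.red_indHC mj (h.pfam.red_not_irr j)
  have cd := h.pfam.card_der h.le₂der
  have r1 := r.one
  have HK : 𝐅ₕ M ≤ ⁅M, M⁆ := h.pdadeF.leHK
  have CK : ⊥ ⊔ U ⊓ 𝐂 (𝐅ₕ M) ≤ ⁅M, M⁆ := sup_le bot_le (inf_le_left.trans h.sdH.right_le)
  have sd := fun χ => mem_sind_sdiff (χ := χ) h.pfam.leK HK h.pdadeF.normH CK k.norm_H0C
  simp only [bot_sup_eq, ← e2] at sd
  rw [h.pfam.red_one, c.deg 1 j hj, ← k.relIndex_HC, eC, ← e2, ← cd,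
    mul_right_inj' (by exact_mod_cast Nat.card_pos.ne'), Nat.cast_inj] at r1
  have card : (sind ⁅M, M⁆ M ⁅M, M⁆ ⁅⁅M, M⁆, ⁅M, M⁆⁆).card = n := by
    have e := c.eq
    have w3 := H.cti.three_le₁
    rw [r1] at e
    set s := (sind ⁅M, M⁆ M ⁅M, M⁆ ⁅⁅M, M⁆, ⁅M, M⁆⁆).card
    rcases H.esign with rfl | rfl
    · exact Nat.eq_of_mul_eq_mul_right Nat.card_pos (by exact_mod_cast (by push_cast at e; linarith :
        (s : ℝ) * ♯W₁ = n * ♯W₁))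
    · have : s * ♯W₁ + 2 = n * ♯W₁ := by
        exact_mod_cast (by push_cast at e; linarith : (s : ℝ) * ♯W₁ + 2 = n * ♯W₁)
      have := Nat.le_of_dvd two_pos ((Nat.dvd_add_right (dvd_mul_left _ s)).1 (this ▸ dvd_mul_left _ n))
      omega
  have := H.coh_of_orthoV (S₂ := sind ⁅M, M⁆ M (𝐅ₕ M) (U ⊓ 𝐂 (𝐅ₕ M))) sind_sub_bot hζ
    (fun _ => sind_star) (fun _ => h.toMP.sind_der_irr) card (sind_sub_self HK) (fun _ => sind_star)
    (Finset.disjoint_right.2 fun χ hχ => ((sd χ).1 hχ).2)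
    (k.coh.mono (sind_sub (by rw [eC, bot_sup_eq]; exact der_le _))) hj
    (by simpa only [eC, bot_sup_eq] using r.mem) o
  refine k.not_coh34 n2 (this.mono fun χ hχ => ?_)
  rw [bot_sup_eq] at hχ
  exact Finset.mem_union.2 (or_iff_not_imp_left.2 fun e => (sd χ).2 ⟨hχ, e⟩)

end CF.BG.Vp
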