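import Cfsg.Agent.Vp.P12W

/-!
Peterfalvi (12.13)-(12.17), relative to (12.6), (10.10) and (11.9).
-/

set_option autoImplicit false
set_option linter.unusedSectionVars false

namespace CF.BG.Vp
open CF.PF12

open Cfsg hiding typeA typeA0 Supports
open CF.Char CF.BG CF.PF
open CF.PF8 (PW TF)
open scoped ComplexConjugate Classical commutatorElement

variable {G : Type*} [Group G] [Finite G] [MSO G] {L M N U E K P A : Subgroup G} {p : ℕ} {x y g : G}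
  {φ ψ l : G → ℂ} {ν : (G → ℂ) →ₗ[ℂ] (G → ℂ)}

variable [BG16 G]

theorem h12 (m : Mx L) (t : TypeI L) : H12 (typeA L) L (𝐅ₕ L) (supportR L) := by
  obtain ⟨U, f⟩ := PF8.T1.tf t
  refine ⟨dadeA m, Fh_normal L, (F_sub_A1 m).trans (A1_sub_A m), mOdd L, tf_mfree f,
    fun φ hφ => mem_Supp.2 fun y hy => ?_, one_A1 m t ▸ nti_A_diff m (Or.inl t)⟩
  obtain ⟨h1, -, h2⟩ := mem_iirr.1 hφ
  by_cases yL : y ∈ L
  · refine irr_apply_eq_zero_of_fpf (Fh_le L) (Fh_normal L).norm h1 h2 fun n hn e => ?_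
    by_contra n1
    exact hy (Or.inr ((one_mem_A t).2 ⟨yL, fun e => hy (Or.inl e),
      ne_bot_of_mem ⟨hn, mem_cent1.2 e⟩ n1⟩))
  · exact CFn.zero (cfn_of_irr h1) yL

theorem frob_irr (h : FrobK K L) : sind K L K ⊥ ⊆ irr L := fun χ hχ => by
  obtain ⟨E, f⟩ := h
  obtain ⟨θ, hθ, -, ne, rfl⟩ := mem_sind_self.1 hχ
  exact ind_mem_irr_of_frob f.sd.left_le f.sd.normal.norm
    (fun h hh h1 g hg e => f.cent1_le hh h1 ⟨hg, mem_cent1.2 e⟩) hθ ne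

theorem not_le_der (m : Mx L) : ¬ 𝐅ₕ L ≤ ⁅𝐅ₕ L, 𝐅ₕ L⁆ := fun h =>
  Fh_ne m ((Fh_nil L).sol.eq_bot_of_le_der h)

theorem exists_deg (m : Mx L) : ∃ φ ∈ sind (𝐅ₕ L) L (𝐅ₕ L) ⊥, φ 1 = (𝐅ₕ L).relIndex L :=
  exists_lin_sind (Fh_le L) (NormalIn.bot _) (by simpa using not_le_der m)

theorem hyp78 (m : Mx L) (f : FrobK (𝐅ₕ L) L) (c : CohWith L (sind (𝐅ₕ L) L (𝐅ₕ L) ⊥) (tauF L) ν)
    (h : φ ∈ sind (𝐅ₕ L) L (𝐅ₕ L) ⊥) (d : φ 1 = (𝐅ₕ L).relIndex L) :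
    PF7.Hyp78 (𝐅ₕ L) L (supportR L) (sind (𝐅ₕ L) L (𝐅ₕ L) ⊥) ν φ :=
  ⟨dadeF m, isSInd_sind _ _, c.coh7, (isSInd_sind _ _).one_lt_card (mOdd L) (Fh_le L)
    (Fh_normal L).norm h, frob_irr f h, h, d⟩

theorem frobK_cj (f : FrobK (𝐅ₕ L) L) (g : G) : FrobK (𝐅ₕ (BG.cj g L)) (BG.cj g L) :=
  f.elim fun _ k => ⟨_, cj_Fh g L ▸ k.cj g⟩

theorem real_on (l : Mx L)
    (h : PF7.Hyp78 (𝐅ₕ L) L (supportR L) (sind (𝐅ₕ L) L (𝐅ₕ L) ⊥) ν φ) (m : Mx N)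
    (n : ¬ Conj N L) : ∀ g ∈ tAF N, star (ν φ) g = ν φ g := fun g hg => by
  have s := sind_star h.mem
  rw [← h.coh.star_eq h.mem h.irr s (sind_star_ne (mOdd L) (Fh_normal L) le_rfl h.mem), eq_comm,
    ← sub_eq_zero, ← Pi.sub_apply, ← h.coh.sub_star h.mem h.irr s]
  exact mem_Supp.1 (dade_supp _) g (Set.disjoint_left.1 (disjoint_Fh m l n) hg)

namespace Wit0

/-- (12.14) -/
theorem apply_mul (w : Wit0 p M L P A x) (f : Frob (𝐅ₕ L) E L)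
    (h : PF7.Hyp78 (𝐅ₕ L) L (supportR L) (sind (𝐅ₕ L) L (𝐅ₕ L) ⊥) ν φ) (hg : g ∈ 𝐅ₕ M) :
    ν φ (x * g) = φ x := by
  have t := FrobK.oneV ⟨E, f⟩ w.l
  have k : ∀ g ∈ 𝐅ₕ M, ν φ (x * g) = ν φ x := fun g hg => (h12 w.m w.t).const_coset h.sir
    (real_on w.l h w.m (w.not_conj t)) w.memM w.notMem hg
  obtain ⟨a, ha⟩ := h.exists_int
  obtain ⟨Γ, -, -, -, -, e⟩ := h.exists_Gamma ha
  obtain rfl : a = 0 := eq_zero_of_Gamma (f.sd.relIndex_left ▸ w.two_mul_le f) (w.sq_le t)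
    (three_le_of_odd w.oddA w.prime w.el.dvd) (BG.relIndex_pos _ _) (e ▸ rip_self_nonneg ⊤ Γ)
  rw [k g hg, ← rho_apply_of_const (A := (𝐅ₕ L : Set G) \ {1}) (H := supportR L) ⟨w.memF t, w.ne⟩
    fun u hu => k u (w.supp.R_eq.le hu).1, h.rho_nu (w.memF t) w.ne, ha]
  simp

/-- (12.15) -/
theorem rho_eq (w : Wit0 p M L P A x) (f : Frob (𝐅ₕ L) E L)
    (h : PF7.Hyp78 (𝐅ₕ L) L (supportR L) (sind (𝐅ₕ L) L (𝐅ₕ L) ⊥) ν φ)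
    (hg : g ∈ (𝐅ₕ M : Set G) \ {1}) : rho ((𝐅ₕ M : Set G) \ {1}) (supportR M) (ν φ) g = ν φ g := by
  refine rho_apply_of_const hg fun u hu => ?_
  by_cases c : 𝐂₁ g ≤ M
  · rw [eq_one_of_mem_bot (supportR_eq_bot c) hu, mul_one]
  obtain ⟨N, s⟩ := exists_suppAt w.m (A_sub_A0 M (A1_sub_A w.m (F_sub_A1 w.m hg))) c
  have n := s.uniq.mx
  have t := s.type.resolve_right fun t => w.not_frob (s.frob t)
  refine (h12 n t).const_coset h.sir (real_on w.l h n fun k => ?_) (A_subset N s.memA)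
    (fun k => s.notA1 (F_sub_A1 n ⟨k, hg.2⟩)) (s.R_eq.le hu).1
  obtain ⟨z, rfl⟩ := k.symm
  exact s.notA1 (F_sub_A1 n ((frobK_cj ⟨E, f⟩ z).A_eqV n ▸ s.memA))

theorem exists_const (w : Wit0 p M L P A x) (f : Frob (𝐅ₕ L) E L)
    (h : PF7.Hyp78 (𝐅ₕ L) L (supportR L) (sind (𝐅ₕ L) L (𝐅ₕ L) ⊥) ν φ) :
    ∃ c : ℤ, ∀ y ∈ 𝐅ₕ M, y ∉ ⁅𝐅ₕ M, 𝐅ₕ M⁆ →
      rho ((𝐅ₕ M : Set G) \ {1}) (supportR M) (ν φ) y = c := by
  have t := FrobK.oneV ⟨E, f⟩ w.l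
  obtain ⟨l, hl, l1⟩ := exists_lin_iirr (NormalIn.bot _) (by simpa using not_le_der w.m :
    ¬ 𝐅ₕ M ≤ ⁅𝐅ₕ M, 𝐅ₕ M⁆ ⊔ ⊥)
  obtain ⟨h1, -, h2⟩ := mem_iirr.1 hl
  obtain ⟨c, hc⟩ := ip_int (sub_mem (triv_mem_ZIrr _) (zirr_of_irr h1)) (ZIrr.res le_top h.sir.zirr)
  refine ⟨c, fun y hy y1 => ?_⟩
  rw [(h12 w.m w.t).rho_const h.sir (real_on w.l h w.m (w.not_conj t)) h1
    (fun e => h2 (e ▸ le_ker_triv _)) l1 hy y1, ← conj_ip, ip_congr_of_supp _ (PF7.sub_mem_supp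
    (CFn.supp (triv_mem_CFn _)) (CFn.supp (cfn_of_irr h1)) (by simp [l1]))
    fun g hg _ => w.rho_eq f h hg, ← ip_res_right, hc, map_intCast]

/-- (12.16) -/
theorem false (w : Wit0 p M L P A x) (f : Frob (𝐅ₕ L) E L)
    (h : PF7.Hyp78 (𝐅ₕ L) L (supportR L) (sind (𝐅ₕ L) L (𝐅ₕ L) ⊥) ν φ) : False := by
  have t := FrobK.oneV ⟨E, f⟩ w.l
  obtain ⟨c, hc⟩ := w.exists_const f h
  obtain ⟨g, hg, g1⟩ := SetLike.not_le_iff_exists.1 w.nK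
  have xp : x ^ p = 1 := w.el.ab.pow x w.mem
  have c1 := ZIrr.congR h.sir.zirr w.prime.ne_zero trivial trivial xp (mem_cent1.1 hg.2).symm
  have c2 := ZIrr.congR (zirr_of_irr h.irr) w.prime.ne_zero w.memD.1 L.one_mem xp (by simp)
  rw [w.apply_mul f h hg.1, ← w.rho_eq f h ⟨hg.1, fun e => g1 (e ▸ one_mem _)⟩, hc g hg.1 g1] at c1
  rw [mul_one, h.deg, f.sd.relIndex_left] at c2
  have e1 := (one_lt_card.2 f.compl_ne)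
  have c3 := sq_le_of_dvd (w.two_mul_le f) (by omega)
    (CongR.dvd w.prime (by exact_mod_cast c2.symm.trans c1))
  have n1 := le_rip_of_const (der_le _) (Fh_le M) hc
  have n2 := h.rho_nu_norm_ge ((isSInd_sind _ _).two_mul_le w.l.odd (Fh_le L) (Fh_normal L).norm
    h.mem h.irr)
  have n3 := rip_indicator_add_le (K := ⊤) (disjoint_Fh w.m w.l (w.not_conj t)) (ν φ)
  have n4 := rip_rho_le (dadeF w.m) h.sir.cfn
  have n5 := rip_rho_le (dadeF w.l) h.sir.cfn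
  rw [h.sir.rip_self] at n3
  rw [f.sd.relIndex_left] at n2
  rw [← w.supp.sdL.card, ← card_mul_relIndex (der_le (𝐅ₕ M)), Complex.norm_intCast, sq_abs] at n1
  have n6 : (♯(L ⊓ M) : ℝ) ≤ ♯(𝐅ₕ L) := by exact_mod_cast card_le (w.inf_le f)
  have n7 : (5 : ℝ) ≤ ⁅𝐅ₕ M, 𝐅ₕ M⁆.relIndex (𝐅ₕ M) := by exact_mod_cast w.four_lt
  have n8 : (3 : ℝ) ≤ ♯E := by
    obtain ⟨k, hk⟩ := w.l.odd' f.sd.right_le
    exact_mod_cast (by omega : 3 ≤ ♯E)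
  have n9 := card_pos_real ⁅𝐅ₕ M, 𝐅ₕ M⁆
  have n10 := card_pos_real (𝐅ₕ L)
  have n11 := rip_self_nonneg M (rho ((𝐅ₕ M : Set G) \ {1}) (supportR M) (ν φ))
  push_cast at n1
  generalize rip M _ _ = r at *
  generalize (♯⁅𝐅ₕ M, 𝐅ₕ M⁆ : ℝ) = k at *
  generalize (⁅𝐅ₕ M, 𝐅ₕ M⁆.relIndex (𝐅ₕ M) : ℝ) = n at *
  generalize (♯E : ℝ) = e at *
  generalize (♯(𝐅ₕ L) : ℝ) = h at *
  generalize (♯(L ⊓ M) : ℝ) = d at *
  have r1 : h * r ≤ e := by rw [mul_comm, ← le_div_iff₀ n10]; linarith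
  have r2 : k * ((n - 1) * c ^ 2) ≤ k * (n * e) := by
    have : k * n * (d * r) ≤ k * n * e := by gcongr; nlinarith
    linarith
  have r3 := le_of_mul_le_mul_left r2 n9
  have r4 : (n - 1) * (4 / 3 * e) ≤ (n - 1) * c ^ 2 := by gcongr <;> nlinarith
  nlinarith

end Wit0

/-- (12.7), relative to (12.6), (10.10) and (11.9) -/
theorem one_frobK12 (h34 : ∀ M U W W₁ W₂ : Subgroup G, MP M U W W₁ W₂ → ¬ IsOfTypeII M →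
    U ≠ ⊥ ∧ Cyc U) (coh : ∀ L : Subgroup G, Mx L → FrobK (𝐅ₕ L) L →
    Coh L (sind (𝐅ₕ L) L (𝐅ₕ L) ⊥) (tauF L)) (m : Mx M) (t : TypeI M) : FrobK (𝐅ₕ M) M := by
  suffices k : ∀ p, ∀ M : Subgroup G, Mx M → TypeI M → ¬ p ∣ ♯(𝐅ₕ M) → pRank p M ≤ 1 from
    frob_of_pRank m t fun q hq d => k q M m t (not_dvd_of_coprime (Fh_coprime M).symm hq d)
  intro p
  induction p using Nat.strong_induction_on with | _ p ih =>
  intro M m t d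
  by_contra! r
  obtain ⟨L, P, A, x, w⟩ := exists_wit0 m t d r
  have t' := w.one h34
  obtain ⟨E, f⟩ := w.frob t' fun q hq _ => ih q hq L w.l t'
  obtain ⟨ν, c⟩ := coh L w.l ⟨E, f⟩
  obtain ⟨φ, h, e⟩ := exists_deg w.l
  exact w.false f (hyp78 w.l ⟨E, f⟩ c h e)

end CF.BG.Vp
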