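import Cfsg.Agent.Vp.P11
import Cfsg.Agent.Vp.P12O

/-!
Peterfalvi, section 12: maximal subgroups of type I.
Notation: `H = 𝐅ₕ L`, `𝒮 = sind H L H ⊥`.  Later sections use only the theorems of this file.
-/

set_option autoImplicit false
set_option linter.unusedSectionVars false

namespace CF.BG.Vp
open CF.PF

open Cfsg hiding typeA typeA0 Supports
open CF.Char CF.BG
open CF.PF8 (PW TF)
open scoped ComplexConjugate Classical commutatorElement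

variable {G : Type*} [Group G] [Finite G] [MSO G] [BG16 G] {L M : Subgroup G} {φ : G → ℂ}
  {ν : (G → ℂ) →ₗ[ℂ] (G → ℂ)}

/-- (12.6) -/
theorem _root_.CF.PF.FrobK.cohV (h : FrobK (𝐅ₕ L) L) (m : Mx L) :
    sind (𝐅ₕ L) L (𝐅ₕ L) ⊥ ⊆ irr L ∧ Coh L (sind (𝐅ₕ L) L (𝐅ₕ L) ⊥) (tauF L) := by
  have i := frob_irr h
  refine ⟨i, ?_⟩
  have n := Fh_normal L
  obtain ⟨R, k⟩ := subCoh_of_irr i (iso0_dade (dadeF m) (fun _ => sind_zirr n.le)
    fun _ => sind_supp' n) (fun _ => sind_star) fun _ => sind_star_ne (mOdd L) n le_rfl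
  obtain ⟨E, f⟩ := h
  rcases one_cases m (FrobK.oneV ⟨E, f⟩ m) f.sd with t | ⟨a, -⟩ | ⟨c, -⟩
  · exact (sibley_frob (mOdd L) (Fh_nil L) t f).imp fun ν => (CohWith.dade_iff_ind (dadeF m)
      subset_rfl t (fun _ => sind_cfn n.le) fun _ => sind_supp' n).2
  · exact k.uniform fun φ hφ ψ hψ => (sind_one_of_der n.le (der_eq_bot.2 a).le hφ).trans
      (sind_one_of_der n.le (der_eq_bot.2 a).le hψ).symm
  refine by_contra fun nc => ?_
  have nd := (der_normal (𝐅ₕ L)).norm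
  have nL := n.norm.trans (norm_der _)
  have q : OddFrobQ L (𝐅ₕ L) ⊥ := by
    refine ⟨mOdd L, n, bot_le, (NormalIn.bot L).norm, (Fh_nil L).qt _,
      by simpa using (Fh_nil L).sol.der_lt f.ker_ne, fun e => f.compl_ne
        (eq_bot_mono f.sd.inf (le_inf (f.sd.right_le.trans e.ge) le_rfl)), fun y hy y1 x hx e => ?_⟩
    rw [sup_bot_eq] at y1 e
    refine (qe_mem_qt_iff (nL hx) (der_le _)).1 ((f.reg.qt f.norm ⁅𝐅ₕ L, 𝐅ₕ L⁆).cent1_le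
      (qt_norm _ f.norm) (qe_mem_qt hy (nd hy)) (fun e => y1 ((qe_eq_one (nd hy)).1 e)) ⟨?_,
      mem_cent1.2 (commutatorElement_eq_one_iff_mul_comm.1 ?_)⟩)
    · rw [← qt_sup nd (f.sd.right_le.trans nL), f.sd.sup]; exact qe_mem_qt hx (nL hx)
    · rw [← qe_comm (nL hx) (nd hy), qe_of_mem e]
  obtain ⟨-, -, p, hp, h1, -, h2⟩ := k.non_coh_chief (Fh_nil L).sol q nc
  rw [Subgroup.relIndex_bot_left] at h1
  rw [f.sd.relIndex_left, card_eq_exponent f.reg f.norm f.ker_ne (m.odd' f.sd.right_le)] at h2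
  exact h2 (c p hp (PiGrp.dvd_card h1 f.ker_ne))

/-- (12.7) -/
theorem one_frobK (m : Mx M) (t : TypeI M) : FrobK (𝐅ₕ M) M :=
  one_frobK12 (fun _ _ _ _ _ h n => ⟨h.U_ne, (h.struct34 n).2.2.2.1⟩)
    (fun _ l f => (f.cohV l).2) m t

/-- a maximal subgroup of type I with an extension `ν` of the Dade isometry and a character `φ`
of degree `|L : H|` -/
structure T1 (L : Subgroup G) (ν : (G → ℂ) →ₗ[ℂ] (G → ℂ)) (φ : G → ℂ) : Prop where
  mx : Mx L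
  one : TypeI L
  coh : CohWith L (sind (𝐅ₕ L) L (𝐅ₕ L) ⊥) (tauF L) ν
  mem : φ ∈ sind (𝐅ₕ L) L (𝐅ₕ L) ⊥
  deg : φ 1 = (𝐅ₕ L).relIndex L

theorem T1.frobK (h : T1 L ν φ) : FrobK (𝐅ₕ L) L := one_frobK h.mx h.one
theorem T1.irr (h : T1 L ν φ) : sind (𝐅ₕ L) L (𝐅ₕ L) ⊥ ⊆ PF.irr L := (h.frobK.cohV h.mx).1
theorem T1.hyp78 (h : T1 L ν φ) :
    PF7.Hyp78 (𝐅ₕ L) L (supportR L) (sind (𝐅ₕ L) L (𝐅ₕ L) ⊥) ν φ :=
  Vp.hyp78 h.mx h.frobK h.coh h.mem h.deg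
theorem T1.tAF_eq (h : T1 L ν φ) : tAF L = tA1 L := by rw [tAF, tA1, one_A1 h.mx h.one]

end CF.BG.Vp
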