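import Cfsg.Agent.Vp.P8

/-!
Peterfalvi (12.8)-(12.12): the group-theoretic analysis of a counterexample to (12.7).
-/

set_option autoImplicit false
set_option linter.unusedSectionVars false

namespace CF.BG.Vp
open CF.PF12

open Cfsg hiding typeA typeA0 Supports
open CF.Char CF.BG CF.PF Subgroup
open CF.PF8 (PW TF prime_dvd_exponent_iff)
open scoped ComplexConjugate Classical commutatorElement

variable {G : Type*} [Group G] [Finite G] [MSO G] {L M U E K P A : Subgroup G} {p q : ℕ} {x : G}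

variable [BG16 G]

theorem frob_of_pRank (m : Mx L) (t : TypeI L)
    (h : ∀ q, q.Prime → q ∣ (𝐅ₕ L).relIndex L → pRank q L ≤ 1) : FrobK (𝐅ₕ L) L := by
  obtain ⟨U, f⟩ := PF8.T1.tf t
  refine ⟨U, (tf_frob_iff f m.odd).2 (zGrp_of_rank (m.odd' f.le) (rank_le_iff.2 fun q hq => ?_))⟩
  by_cases d : q ∣ ♯U
  · exact (pRank_mono q f.le).trans (h q hq (f.sd.relIndex_left ▸ d))
  · by_contra! k
    exact d (dvd_of_pRank_pos (by omega))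

/-- (12.9) -/
structure Wit0 (p : ℕ) (M L P A : Subgroup G) (x : G) : Prop where
  m : Mx M
  t : TypeI M
  nd : ¬ p ∣ ♯(𝐅ₕ M)
  l : Mx L
  syl : Syl p P M
  abel : Abel P
  rk : pRank p P ≤ 2
  el : Elem p 2 A P
  le : P ≤ typeCore L
  mem : x ∈ A
  ne : x ≠ 1
  nK : ¬ 𝐅ₕ M ⊓ 𝐂₁ x ≤ ⁅𝐅ₕ M, 𝐅ₕ M⁆
  uniq : UniqIn (𝐂₁ x) M
  nL : ¬ 𝐂₁ x ≤ L

theorem exists_wit0 (m : Mx M) (t : TypeI M) (nd : ¬ p ∣ ♯(𝐅ₕ M)) (r : 2 ≤ pRank p M) :
    ∃ L P A x, Wit0 p M L P A x := by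
  have hp : p.Prime := prime_of_pRank_pos (by omega : 0 < pRank p M)
  obtain ⟨U, f⟩ := PF8.T1.tf t
  obtain ⟨P, s⟩ := exists_syl p U
  have s' : Syl p P M := s.syl_trans f.hall fun k => nd (mem_piOf.1 k).2
  obtain ⟨A, a⟩ := exists_elem (s'.syl_pRank ▸ r : 2 ≤ pRank p P)
  obtain ⟨L, l, d⟩ := exists_dvd_core (G := G) hp (a.dvd.trans (card_subgroup_dvd_card A))
    (m.w_of_elem (a.mono s'.le))
  obtain ⟨Q, q⟩ := exists_syl p (typeCore L)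
  obtain ⟨g, -, k⟩ := (q.syl_trans (core_hall_top l) (mem_piOf.2 ⟨hp, d⟩)).syl_le_cj le_top s.pi
  obtain ⟨x, hx, x1, c⟩ : ∃ x ∈ A, x ≠ 1 ∧ ¬ 𝐅ₕ M ⊓ 𝐂₁ x ≤ ⁅𝐅ₕ M, 𝐅ₕ M⁆ := by
    by_contra! c
    exact f.ne ((Fh_nil M).sol.eq_bot_of_le_der (a.abel.le_of_cent1 a.not_cyc
      ((a.le.trans s.le).trans f.sd.norm) (a.pi.coprime ((piNat_compl_single hp).2 nd)) c))
  have u := uniqIn_cent1 m (Or.inl ⟨t, f.sd⟩) (s.le (a.le hx)) x1 fun e => c (e.le.trans bot_le)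
  have := syl_abel m (Or.inl ⟨t, f.sd⟩) s
  refine ⟨BG.cj g L, P, A, x, m, t, nd, l.cj g, s', this.1, this.2, a,
    core_cj g L ▸ k.trans (cj_mono g q.le), hx, x1, c, u, fun e => nd ?_⟩
  rwa [← core_eq_F m (Or.inl t), ← u.uniq _ (l.cj g) e, core_cj, card_cj]

namespace Wit0

theorem prime (w : Wit0 p M L P A x) : p.Prime := w.el.prime
theorem w (w : Wit0 p M L P A x) : p ∈ 𝛡 G := w.m.w_of_elem (w.el.mono w.syl.le)
theorem oddA (w : Wit0 p M L P A x) : Odd (♯A) := w.m.odd' (w.el.le.trans w.syl.le)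
theorem ne_two (w : Wit0 p M L P A x) : p ≠ 2 := ne_two_of_odd w.oddA w.el.dvd
theorem ord (w : Wit0 p M L P A x) : orderOf x = p := w.el.ab.orderOf w.mem w.ne
theorem memM (w : Wit0 p M L P A x) : x ∈ M := w.syl.le (w.el.le w.mem)
theorem notMem (w : Wit0 p M L P A x) : x ∉ 𝐅ₕ M := fun h => w.nd (w.ord ▸ orderOf_dvd_card' h)
theorem A_eq (w : Wit0 p M L P A x) : A = 𝛀 p P := w.abel.eq_Om w.el two_pos w.rk
theorem A1 (w : Wit0 p M L P A x) : x ∈ typeA1 L := mem_A1.2 ⟨w.le (w.el.le w.mem), w.ne⟩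
theorem A0 (w : Wit0 p M L P A x) : x ∈ typeA0 L := A_sub_A0 L (A1_sub_A w.l w.A1)
theorem not_nti (w : Wit0 p M L P A x) {B : Set G} (h : NTI B ⊤ L) : x ∉ B := fun k =>
  w.nL fun _ hg => h.centralizer_le k trivial (mem_cent1.1 hg)
theorem exists_cent (w : Wit0 p M L P A x) : ∃ k ∈ 𝐅ₕ M ⊓ 𝐂₁ x, k ≠ 1 :=
  exists_mem_ne_one fun e => w.nK (e.le.trans bot_le)
theorem not_frob (w : Wit0 p M L P A x) : ¬ FrobK (𝐅ₕ M) M := fun ⟨_, f⟩ => by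
  obtain ⟨k, hk, k1⟩ := w.exists_cent
  exact w.notMem (f.cent1_le hk.1 k1 ⟨w.memM, mem_cent1_comm.1 hk.2⟩)
theorem supp (w : Wit0 p M L P A x) : SuppAt L M x := suppAt w.l w.A0 w.nL w.m w.uniq.le

theorem one (w : Wit0 p M L P A x) (h34 : ∀ M U W W₁ W₂ : Subgroup G, MP M U W W₁ W₂ →
    ¬ IsOfTypeII M → U ≠ ⊥ ∧ Cyc U) : TypeI L := by
  obtain t | ⟨V, W, W₁, W₂, h⟩ := mx_cases w.l
  · exact t
  exfalso
  by_cases t : IsOfTypeII L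
  · exact w.not_nti (two_nti w.l t) w.A0
  obtain ⟨v, c⟩ := h34 L V W W₁ W₂ h t
  have a := w.el.mono (w.le.trans (h.core_eq_der t).le)
  by_cases d : p ∣ ♯(𝐅ₕ L)
  · exact w.not_nti (h.F_nti v) ⟨Fh_le_F L ((Fh_hall L).le_normal (Fh_normal L).norm
      (a.le.trans (der_le L)) (a.pi.of_single (mem_piOf.2 ⟨w.prime, d⟩)) w.mem), w.ne⟩
  · have := a.le_pRank
    rw [← (PF8.PW.hallU h.out).pRank_eq fun k => d (mem_piOf.1 k).2] at this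
    exact absurd (this.trans (c.pRank_le p)) (by omega)

theorem leF (w : Wit0 p M L P A x) (t : TypeI L) : P ≤ 𝐅ₕ L :=
  w.le.trans (core_eq_F w.l (Or.inl t)).le
theorem dvdF (w : Wit0 p M L P A x) (t : TypeI L) : p ∣ ♯(𝐅ₕ L) := (w.el.mono (w.leF t)).dvd'
theorem memF (w : Wit0 p M L P A x) (t : TypeI L) : x ∈ 𝐅ₕ L := w.leF t (w.el.le w.mem)

theorem lt (w : Wit0 p M L P A x) (t : TypeI L) (hq : q.Prime) (d : q ∣ (𝐅ₕ L).relIndex L) :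
    q < p := by
  obtain ⟨V, f⟩ := PF8.T1.tf t
  rw [f.sd.relIndex_left] at d
  rcases one_cases w.l t f.sd with h | ⟨a, r⟩ | ⟨h, -⟩
  · exact absurd ⟨w.memF t, w.ne⟩ (w.not_nti h)
  · obtain ⟨Y, y, k⟩ := tf_exists f hq d
    have e := w.el.mono (w.leF t)
    have := (k.mono e.le le_rfl).card_dvd (a.eq_Om e two_pos ((pRank_le_rank p _).trans r.le) ▸
      le_norm_Om p (y.le.trans f.sd.norm))
    rw [y.card_one, e.card] at this
    exact BG2.lt_of_dvd_sq_sub_one w.prime w.ne_two hq this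
  · have := w.prime.two_le
    have := Nat.le_of_dvd (by omega)
      (((PF8.prime_dvd_exponent_iff hq).2 d).trans (h p w.prime (w.dvdF t)))
    omega

/-- (12.10) -/
theorem frob (w : Wit0 p M L P A x) (t : TypeI L) (ih : ∀ q < p, q.Prime → ¬ q ∣ ♯(𝐅ₕ L) →
    pRank q L ≤ 1) : FrobK (𝐅ₕ L) L :=
  frob_of_pRank w.l t fun q hq d => ih q (w.lt t hq d) hq (not_dvd_of_coprime (Fh_coprime L).symm hq d)

theorem tf (w : Wit0 p M L P A x) : PF8.TF M (L ⊓ M) := one_tf w.t w.supp.sdL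
theorem memD (w : Wit0 p M L P A x) : x ∈ L ⊓ M := ⟨core_le L (w.le (w.el.le w.mem)), w.memM⟩
theorem dvdD (w : Wit0 p M L P A x) : p ∣ ♯(L ⊓ M) := w.ord ▸ orderOf_dvd_card' w.memD

theorem four_lt (w : Wit0 p M L P A x) : 4 < ⁅𝐅ₕ M, 𝐅ₕ M⁆.relIndex (𝐅ₕ M) := by
  obtain ⟨Y, y, r⟩ := tf_exists w.tf w.prime w.dvdD
  exact four_lt_relIndex y r (y.le.trans w.tf.sd.norm) (Fh_nil M).sol w.tf.ne (w.m.odd' (Fh_le M)) w.ne_two

/-- (12.11) -/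
theorem inf_le (w : Wit0 p M L P A x) (f : Frob (𝐅ₕ L) E L) : L ⊓ M ≤ 𝐅ₕ L := by
  have t := FrobK.oneV ⟨E, f⟩ w.l
  have n := (Fh_normal L).norm
  refine (Fh_hall L).le_normal n inf_le_left fun q hq d => mem_piOf.2 ⟨hq, ?_⟩
  by_contra nd
  obtain ⟨Q, k⟩ := exists_elem_one hq d
  have i : ∀ a ∈ Q, a ∈ 𝐅ₕ L → a = 1 := fun a ha h => by
    by_contra a1
    exact nd (k.ab.orderOf ha a1 ▸ orderOf_dvd_card' h)
  by_cases c : 𝐅ₕ M ⊓ 𝐂 Q = ⊥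
  · obtain ⟨Y, y, r⟩ := tf_exists w.tf w.prime w.dvdD
    have := Reg.cent_of_fpf (K := 𝐅ₕ L ⊓ (L ⊓ M)) (reg_of_forall fun a ha a1 h hh e => by
        by_contra h1
        exact a1 (i a ha (f.cent1_le hh.1 h1 ⟨(k.le ha).1, mem_cent1.2 e⟩)))
      (norm_inf ((k.le.trans inf_le_left).trans n) (norm_of_le k.le)) (Fh_nil M).sol
      (k.le.trans w.tf.sd.norm) (inf_le_right.trans w.tf.sd.norm)
      (coprime_mono w.tf.cop.symm inf_le_right le_rfl) (coprime_mono w.tf.cop.symm k.le le_rfl) c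
    exact w.tf.ne (eq_bot_mono (r.cent le_rfl y.ne_bot) (le_inf le_rfl (cent_symm ((le_inf
      ((Fh_hall L).le_normal n (y.le.trans inf_le_left)
        (y.pi.of_single (mem_piOf.2 ⟨w.prime, w.dvdF t⟩))) y.le).trans this))))
  · obtain ⟨U₁, -, ab, h⟩ := w.tf.inertia
    obtain ⟨a, a1, ha, -⟩ := k.exists_gen
    obtain ⟨y, hy, y1⟩ := exists_mem_ne_one c
    obtain ⟨z, hz, z1⟩ := w.exists_cent
    exact a1 (i a ha (f.cent1_le (w.memF t) w.ne ⟨(k.le ha).1, mem_cent1.2 (ab.mul_comm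
      (h y hy.1 y1 ⟨k.le ha, mem_cent1.2 (mem_cent.1 hy.2 a ha)⟩)
      (h z hz.1 z1 ⟨w.memD, mem_cent1_comm.1 hz.2⟩))⟩))

/-- (12.12) -/
theorem two_mul_le (w : Wit0 p M L P A x) (f : Frob (𝐅ₕ L) E L) : 2 * ♯E ≤ p + 1 := by
  have t := FrobK.oneV ⟨E, f⟩ w.l
  refine PF12.two_mul_le w.prime w.ne_two (w.l.odd' f.sd.right_le) ?_
  have hP := (Fh_nil L).le_O (w.leF t) w.syl.pi
  have k := O_pi {p} (𝐅ₕ L)
  have a := k.abelem_Om_center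
  have c : 𝛀 p (𝐙 (𝐎 {p} (𝐅ₕ L))) ≤ 𝐂 P := ((Om_le _ _).trans inf_le_right).trans (cent_anti hP)
  have n : E ≤ 𝐍 (𝛀 p (𝐙 (𝐎 {p} (𝐅ₕ L)))) :=
    le_norm_Om p ((le_norm_O _ f.norm).trans (norm_center _))
  have r := f.reg.mono (((Om_le p _).trans inf_le_left).trans (O_le {p} _) :
    𝛀 p (𝐙 (𝐎 {p} (𝐅ₕ L))) ≤ _) le_rfl
  have l : 𝛀 p (𝐙 (𝐎 {p} (𝐅ₕ L))) ≤ A := w.A_eq ▸ a.le_Om (w.syl.le_of_norm
    ((c.trans (cent_le_cent1 (w.el.le w.mem))).trans w.uniq.le) a.pi (Or.inl (norm_of_cent c)))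
  rcases l.lt_or_eq with l | l
  · exact Or.inl ((w.el.one_of_lt l (k.inf_left.Om_ne_bot (k.center_ne_bot
      (ne_bot_mono w.el.ne_bot (w.el.le.trans hP))))).card_one ▸ r.card_dvd n)
  · rw [l] at n r
    have y := w.el.ab.elem_zpowers w.mem w.ne
    exact card_dvd_or w.el n r (w.l.odd' f.sd.right_le) y (eq_bot_mono f.sd.inf (le_inf ((inf_le_inf f.sd.right_le
      (w.uniq.le_of_proper (cent_zpowers x ▸ cent_le_norm _) (y.pi.norm_properV y.ne_bot w.w))).trans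
      (w.inf_le f)) inf_le_left))

theorem sq_le (w : Wit0 p M L P A x) (t : TypeI L) : p ^ 2 ≤ ♯(𝐅ₕ L) :=
  w.el.card ▸ card_le (w.el.le.trans (w.leF t))

theorem not_conj (w : Wit0 p M L P A x) (t : TypeI L) : ¬ Conj M L := by
  rintro ⟨g, rfl⟩
  exact w.nd (by simpa [← cj_Fh, card_cj] using w.dvdF t)

end Wit0

end CF.BG.Vp
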