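import Cfsg.Agent.Vp.P13a

/-!
Peterfalvi, section 13, second part: (13.6)-(13.15).
-/

set_option autoImplicit false
set_option linter.unusedSectionVars false

namespace CF.BG.Vp
open CF.PF

open Cfsg hiding typeA typeA0 Supports
open CF.Char CF.BG
open CF.PF8 (PW TF)
open scoped ComplexConjugate Classical commutatorElement

variable {G : Type*} [Group G] [Finite G] [MSO G]

section Cover
variable {H K S T : Subgroup G} {χ ψ : G → ℂ}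

end Cover

variable [BG16 G] {S T L U V W W₁ W₂ : Subgroup G} {φ χ ζ ξ : G → ℂ}
  {η μ : Lin W₁ → Lin W₂ → G → ℂ} {δ : Lin W₂ → ℝ} {i : Lin W₁} {j l : Lin W₂}
  {ν : (G → ℂ) →ₗ[ℂ] (G → ℂ)}

theorem MP.exists_cong (h : MP S U W W₁ W₂) : ∃ y ∈ W₁, ∃ x ∈ W₂, y ≠ 1 ∧ x ≠ 1 ∧
    ∀ L, W ≤ L → ∀ φ ∈ ZIrr L, CongR (♯W₁) (φ (y * x)) (φ x) := by
  obtain ⟨y, hy, y1⟩ := exists_mem_ne_one h.ne₁
  obtain ⟨x, hx, x1⟩ := exists_mem_ne_one h.ne₂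
  exact ⟨y, hy, x, hx, y1, x1, fun L l φ hφ => ZIrr.congR hφ (card_ne_zero' _) (l (h.dp.le₁ hy))
    (l (h.dp.le₂ hx)) (PF.pow_card_eq_one_of_mem hy) (h.dp.comm _ (h.dp.le₁ hy) _ (h.dp.le₂ hx))⟩

namespace TC

/-- (13.6) -/
theorem shN_irr (h : TC S U W W₁ W₂ η μ δ ν) (a : ζ ∈ irr S) (b : ζ ∈ cS S) (c : ζ ∈ cS1 S) :
    (♯S : ℝ) - (♯W₁ * uS S) ^ 2 ≤ shN (𝐅 S) (ν ζ) := by
  obtain ⟨α, -, n, -, e1, e2, e3⟩ := h.split (h.coh.zirr ζ b) c (c := 1) fun φ hφ => by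
    rw [h.coh.rip hφ b, one_mul]
  obtain ⟨y, hy, x, hx, y1, x1, g⟩ := h.exists_cong
  have := (g ⊤ le_top _ (h.coh.zirr ζ b)).sub (g S h.W_le _ (zirr_of_irr a))
  rw [h.fam.rvanish (h.coh.zirr ζ b) (h.ortho b a) _ (h.dp.mul_mem_cycV hy hx y1 x1),
    sind_supp (der_normal S) b _ fun k => y1 ((h.dp.mul_mem₂_iff hy hx).1
      ((h.pti.mem₂_iff (h.dp.mul_mem hy hx)).2 k)), e1 x hx x1] at this
  obtain ⟨m, hm⟩ := CongR.dvd h.primes.1 (m := n) (n := 0) (by simpa using this.symm)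
  rw [sub_zero] at hm
  have := mul_le_mul_of_nonneg_left (mul_int_le h.two_u_le (by positivity) m) (sq_nonneg (♯W₁ : ℝ))
  rw [e3, rip_irr_self a]
  rw [hm] at e2 ⊢
  push_cast at e2 ⊢
  linarith

/-- (13.7) -/
theorem shN_eta₁ (h : TC S U W W₁ W₂ η μ δ ν) (i : Lin W₁) :
    (♯(𝐅 S) - 1 : ℝ) ≤ shN (𝐅 S) (η i 1) := by
  obtain ⟨j, hj⟩ := h.cti.exists_ne₂ 1
  obtain ⟨α, a, n, hn, e1, e2, e3⟩ := h.split (h.fam.zirr i 1) (h.red_cS1 hj) (c := 0) fun φ hφ => by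
    rw [zero_mul]
    rcases h.pfam.sind_cases h.out.leFD hφ with ⟨l, hl, rfl⟩ | ⟨a, -⟩
    · obtain ⟨k, hk, ε, -, e⟩ := h.nured l hl
      rw [e, rip_rsmul_left, h.fam.rip_red, if_neg hk, mul_zero]
    · exact h.ortho hφ a i 1
  obtain ⟨y, hy, x, hx, y1, x1, g⟩ := h.exists_cong
  have := g ⊤ le_top _ (h.fam.zirr i 1)
  rw [h.fam.eq_on _ _ _ (h.dp.mul_mem_cycV hy hx y1 x1), h.dp.om_mul _ _ hy hx, lin_one,
    triv_of_mem hx, mul_one, e1 x hx x1] at this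
  have d := CongR.dvd h.primes.1 (m := n) (n := 1) (by
    simpa using this.symm.trans (congR_root (card_ne_zero' W₁) (by
      rw [← lin_map_pow i hy, PF.pow_card_eq_one_of_mem hy, lin_apply_one])))
  have n0 : n ≠ 0 := by
    rintro rfl
    have := Int.le_of_dvd one_pos (by simpa using d)
    have := h.three₁
    omega
  have n1 : (1 : ℝ) ≤ n ^ 2 := one_le_sq_of_int ⟨n, rfl⟩ (by exact_mod_cast n0)
  have p2 : (2 : ℝ) ≤ ♯(𝐅ₕ S) := by exact_mod_cast one_lt_card.2 (Fh_ne h.mx)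
  have p := card_pos_real (𝐅 S)
  obtain ⟨m, hm⟩ := rip_self_nat a
  rw [e3, shN_eq, hn, Complex.norm_intCast, sq_abs]
  rw [shN_eq, hn, Complex.norm_intCast, sq_abs, hm] at e2
  obtain rfl | rfl | m2 : m = 0 ∨ m = 1 ∨ 2 ≤ m := by omega
  · simp only [Nat.cast_zero] at e2; nlinarith
  · have o := fun {β : G → ℂ} =>
      irr_one_eq_one_of_comm' (H := 𝐅 S) (χ := β) fun _ ha _ hb => h.abelF.mul_comm ha hb
    have : ((n : ℂ)) ^ 2 = 1 := by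
      rcases sir_of_rip_self a (by simpa using hm) with s | s
      · rw [← hn, o s, one_pow]
      · rw [← hn, ← neg_sq, ← Pi.neg_apply, o s, one_pow]
    have : (n : ℝ) ^ 2 = 1 := by exact_mod_cast this
    rw [hm, this]; simp
  · have : (2 : ℝ) ≤ m := by exact_mod_cast m2
    rw [hm]; nlinarith

/-- (13.8) -/
theorem shN_eta₂ (h : TC S U W W₁ W₂ η μ δ ν) :
    ∃ k, k ≠ 1 ∧ (♯⁅S, S⁆ : ℝ) - uS S ^ 2 ≤ shN (𝐅 S) (η 1 k) := by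
  obtain ⟨j, hj⟩ := h.cti.exists_ne₂ 1
  obtain ⟨k, hk, ε, e0, e⟩ := h.nured j hj
  have e1 : ε = 1 ∨ ε = -1 := mul_self_eq_one_iff.1 e0
  have p := (card_pos_real W₁).ne'
  obtain ⟨α, -, n, -, -, e2, e3⟩ := h.split ((h.fam.sir 1 k).rsmul e1).zirr (h.red_cS1 hj)
    (c := (♯W₁ : ℝ)⁻¹) fun φ hφ => by
      rw [← h.coh.rip hφ (h.red_cS hj), e, rip_rsmul_right, rip_rsmul_right]
      rcases h.pfam.sind_cases h.out.leFD hφ with ⟨l, hl, rfl⟩ | ⟨a, -⟩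
      · obtain ⟨k', -, ε', -, e'⟩ := h.nured l hl
        rw [e', rip_rsmul_left, rip_rsmul_left, h.fam.rip_red, h.fam.rip_red_red]
        split_ifs
        · field_simp
        · simp
      · rw [h.ortho hφ a, rip_red_of_ortho (h.ortho hφ a), mul_zero, mul_zero]
  refine ⟨k, hk, ?_⟩
  have : shN (𝐅 S) (ε • η 1 k) = shN (𝐅 S) (η 1 k) := Finset.sum_congr rfl fun x _ => by
    rcases e1 with rfl | rfl <;> simp
  rw [← this, e3, h.pfam.rip_red_red, if_pos rfl, ← h.sdM.card]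
  have := mul_int_le h.two_u_le (by positivity) n
  push_cast
  field_simp
  linarith

/-- (13.9)(a) -/
theorem eta_ne_zero (h : TC S U W W₁ W₂ η μ δ ν) (c : ζ ∈ cS1 S) (hi : i ≠ 1) (g : G)
    (hg : g ∉ clsup ⊤ ((𝐅 S : Set G) \ {1})) (z : ν ζ g = 0) : η i 1 g ≠ 0 := fun e => by
  by_cases v : g ∈ clsup ⊤ (cycV W W₁ W₂)
  · obtain ⟨x, -, hx⟩ := v
    obtain ⟨m, hm⟩ := h.dp.exists_lin_eq_om i (1 : Lin W₂)
    rw [← (h.fam.cfn' i 1).2 x trivial, h.fam.eq_on _ _ _ hx, ← hm] at e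
    exact lin_ne_zero m hx.1 e
  obtain ⟨j, hj⟩ := h.cti.exists_ne₂ 1
  obtain ⟨k, -, ε, e0, e1⟩ := h.nured j hj
  have a := h.nu_sub_supp c (h.red_cS1 hj) g hg
  rw [Pi.sub_apply, z, zero_sub, neg_eq_zero, e1, Pi.smul_apply, smul_eq_zero, red,
    Finset.sum_apply] at a
  have a := a.resolve_left fun c => by simp [c] at e0
  have b : ∑ i, η i 1 g = 1 := by
    rw [Finset.sum_eq_single 1 (fun i' _ hi' => ?_) (by simp), h.fam.eta_one, triv_of_mem (Subgroup.mem_top g)]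
    obtain ⟨n, n1, rfl⟩ := Lin.exists_pow h.primes.1 hi hi'
    obtain ⟨u, hu, -⟩ := h.fam.exists_aut (card_ne_zero' W₁) i.pow_card (one_pow _) n1
    rw [one_pow] at hu
    rw [hu, aut_apply, e, map_zero]
  have d : ∑ i, (η i k g - η i 1 g - η 1 k g + 1) = 0 := Finset.sum_eq_zero fun i _ => by
    have := ind_supp_clsup (W := W) (L := ⊤) (h.dp.alp_supp i k) g v
    rwa [h.fam.ind_alp, h.fam.eta_one, triv_top] at this
  simp only [Finset.sum_add_distrib, Finset.sum_sub_distrib, a, b, Finset.sum_const,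
    Finset.card_univ, h.dp.card_lin₁, nsmul_eq_mul, mul_one] at d
  have p := card_ne_zero W₁
  have f : 1 - η 1 k g = (♯W₁ : ℂ)⁻¹ := by field_simp; linear_combination d
  obtain ⟨n, hn⟩ := exists_int_of_fixed (isIntegral_one.sub (ZIrr.isIntegral (h.fam.zirr 1 k) g))
    fun u => by rw [f, map_inv₀, map_natCast]
  have : ((♯W₁ : ℕ) : ℤ) ∣ 1 := ⟨n, by
    have : (1 : ℂ) = ♯W₁ * n := by rw [← hn, f, mul_inv_cancel₀ p]
    exact_mod_cast this⟩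
  have := Int.le_of_dvd one_pos this
  have := h.three₁
  omega

end TC

namespace MP

theorem card_F' (h : MP S U W W₁ W₂) : ♯(𝐅 S) = ♯W₂ ^ ♯W₁ * ♯(U ⊓ 𝐂 (𝐅ₕ S)) := by
  rw [← h.defF.card, h.card_F]

theorem card_der (h : MP S U W W₁ W₂) : ♯⁅S, S⁆ = ♯W₂ ^ ♯W₁ * ♯(U ⊓ 𝐂 (𝐅ₕ S)) * uS S := by
  rw [← h.card_F', card_mul_relIndex h.F_le]

/-- (13.10), (13.11) -/
theorem bound13 (h : MP S U W W₁ W₂) (a : ζ ∈ irr S) (b : ζ ∈ cS S) (c : ζ ∈ cS1 S) : ∃ m : ℝ,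
    m * ♯W₂ ^ (♯W₁ - 1) * ♯(U ⊓ 𝐂 (𝐅ₕ S)) ≤ ♯W₁ * uS S ∧ 40 / 81 ≤ m ∧ (5 ≤ ♯W₁ → 7 / 10 < m) ∧
      (7 ≤ ♯W₁ → 8 / 10 < m) := by
  obtain ⟨T, V, t⟩ := h.exists_pair
  obtain ⟨η, hη⟩ := h.cti.exists_fam
  obtain ⟨μ, δ, ν, s⟩ := h.exists_tc hη
  obtain ⟨μ', δ', ν', k⟩ := t.pT.exists_tc hη.swap
  obtain ⟨-, d, v⟩ := t.pT.cases13.resolve_left fun ⟨ξ, a', b', c'⟩ => s.not_irr k a b c a' b' c'
  obtain ⟨i, hi, e1⟩ := k.shN_eta₂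
  have e2 := s.shN_eta₁ i
  have e3 := s.shN_irr a b c
  have e4 := shN_nonneg (𝐅 T) (ν ζ)
  have e := cover_two h.F_ti t.pT.F_ti (h.F_disjoint t.pT) (s.coh.sir b a) (hη.sir i 1)
    (s.eta_ne_zero c hi)
  have q3 := h.three₁
  have p3 := h.three₂
  have v1 : uS T * (♯W₁ - 1) + 1 = ♯W₁ ^ ♯W₂ := by
    have := t.pT.card_U
    rw [d, Subgroup.card_bot, one_mul, v] at this
    rw [← this, Nat.div_mul_cancel (Nat.sub_one_dvd_pow_sub_one _ _),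
      Nat.sub_add_cancel (Nat.pow_pos (by omega))]
  have f1 := t.pT.card_F'
  have f2 := t.pT.card_der
  have f3 := t.pT.sdM.card
  have f4 := h.sdM.card
  rw [d, Subgroup.card_bot, mul_one] at f1 f2
  rw [h.card_der, ← Nat.sub_add_cancel (show 1 ≤ ♯W₁ by omega), pow_succ,
    Nat.sub_add_cancel (show 1 ≤ ♯W₁ by omega)] at f4
  rw [f2] at f3 e1
  have g3 : ♯W₁ ^ 3 ≤ ♯W₁ ^ ♯W₂ := Nat.pow_le_pow_right (by omega) p3
  have g5 : ♯W₁ = 3 → 243 ≤ ♯W₁ ^ ♯W₂ := fun e => by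
    have := h.cti.card_ne
    obtain ⟨r, hr⟩ := h.odd₂
    rw [e]; exact Nat.pow_le_pow_right (n := 3) (i := 5) (by omega) (by omega)
  have g4 : ♯W₁ = 3 ∨ ♯W₁ = 5 ∨ 7 ≤ ♯W₁ := by obtain ⟨r, hr⟩ := h.odd₁; omega
  have u0 : (0 : ℝ) < uS S := by exact_mod_cast BG.relIndex_pos _ _
  have v0 : (0 : ℝ) < uS T := by exact_mod_cast BG.relIndex_pos _ _
  have c0 := card_pos_real (U ⊓ 𝐂 (𝐅ₕ S))
  have r0 : (0 : ℝ) < ♯W₂ ^ (♯W₁ - 1) := pow_pos (card_pos_real W₂) _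
  have e5 : (♯S - (♯W₁ * uS S) ^ 2 : ℝ) / ♯S +
      ((♯W₁ ^ ♯W₂ * uS T : ℕ) - uS T ^ 2 - (♯(𝐅 T) - 1)) / ♯T ≤ 1 := by
    refine le_trans (add_le_add ?_ ?_) e <;>
      exact div_le_div_of_nonneg_right (by linarith) (Nat.cast_nonneg _)
  rw [f1, ← f3, ← f4] at e5
  have v2 : (uS T : ℝ) * (♯W₁ - 1) + 1 = ♯W₁ ^ ♯W₂ := by
    rw [← Nat.cast_pred (card_pos' W₁)]; exact_mod_cast v1
  have g3 : (♯W₁ : ℝ) ^ 3 ≤ ♯W₁ ^ ♯W₂ := by exact_mod_cast g3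
  have g5 : ♯W₁ = 3 → (243 : ℝ) ≤ ♯W₁ ^ ♯W₂ := fun e => by exact_mod_cast g5 e
  have q0 := card_pos_real W₁
  have p0 := card_pos_real W₂
  push_cast at e5
  generalize (♯W₁ : ℝ) ^ ♯W₂ = N at *
  have N0 : 0 < N := lt_of_lt_of_le (pow_pos q0 3) g3
  have a5 : ♯W₁ = 5 → 7 / 10 < (N - uS T - ♯W₁ + 1) / N := fun e => by
    rw [lt_div_iff₀ N0]; rw [e] at g3 v2 ⊢; push_cast at *; linarith
  have a7 : 7 ≤ ♯W₁ → 8 / 10 < (N - uS T - ♯W₁ + 1) / N := fun e => by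
    have : (7 : ℝ) ≤ ♯W₁ := by exact_mod_cast e
    have : (49 : ℝ) * ♯W₁ ≤ ♯W₁ ^ 3 := by nlinarith [mul_le_mul this this (by norm_num) q0.le]
    rw [lt_div_iff₀ N0]; nlinarith
  refine ⟨(N - uS T - ♯W₁ + 1) / N, ?_, ?_, fun e => ?_, a7⟩
  · have : N * uS T - uS T ^ 2 - (N - 1) = uS T * (N - uS T - ♯W₁ + 1) := by
      linear_combination v2
    rw [this] at e5
    field_simp at e5 ⊢
    nlinarith
  · rcases g4 with e | e | e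
    · have := g5 e
      rw [le_div_iff₀ N0]; rw [e] at v2 ⊢; push_cast at *; linarith
    · linarith [a5 e]
    · linarith [a7 e]
  · rcases g4 with e | e | e
    · omega
    · exact a5 e
    · linarith [a7 e]

theorem arith (h : MP S U W W₁ W₂) (a : ζ ∈ irr S) (b : ζ ∈ cS S) (c : ζ ∈ cS1 S) {n : ℕ}
    (hn : 2 * ♯W₁ + 1 ≤ ♯(U ⊓ 𝐂 (𝐅ₕ S)) * n) (hu : uS S * n * (♯W₂ - 1) + 1 ≤ ♯W₂ ^ ♯W₁) :
    ♯W₁ = 3 ∧ ♯(U ⊓ 𝐂 (𝐅ₕ S)) * n = 7 ∧ (♯W₂ = 5 ∨ ♯W₂ = 7) := by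
  obtain ⟨m, e, m1, m2, m3⟩ := h.bound13 a b c
  refine arith13 h.primes.2 h.odd₂ h.odd₁ h.three₁ h.cti.card_ne hn hu ?_ m1 m2 m3
  push_cast
  linarith [mul_le_mul_of_nonneg_right e (Nat.cast_nonneg n)]

/-- (13.12) -/
theorem reg_core (h : MP S U W W₁ W₂) : U ⊓ 𝐂 (𝐅ₕ S) = ⊥ := by
  by_contra ne
  obtain ⟨ζ, a, b, c⟩ := h.cases13.resolve_right fun e => ne e.2.1
  obtain ⟨q3, c7, p⟩ := h.arith a b c (n := 1) (by
    rw [mul_one]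
    exact two_mul_le_of_dvd h.odd₁ (h.mx.odd' (inf_le_left.trans h.leU)) ((h.regU.mono inf_le_left le_rfl).card_dvd
      (norm_inf_cent h.nUW h.out.norm₁)) (mt card_eq_one'.1 ne)) (by rw [mul_one]; exact h.u_le)
  rw [mul_one] at c7
  have p5 : ♯W₂ = 5 := p.resolve_right fun e => by
    have := coprime_mono h.out.copFU h.le₂H (inf_le_left (b := 𝐂 (𝐅ₕ S)))
    rw [e, c7] at this; simp at this
  have u : uS S = 31 := by
    by_cases g : Gal S U ⊥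
    · have := (h.h9.gal_facts g).2.2.1
      rw [h.u_eq, p5, q3] at this
      exact ((Nat.dvd_prime (by norm_num)).1 this).resolve_left h.one_lt_uS.ne'
    · obtain ⟨C, f, χ, k⟩ := h.h9.nonGal g
      obtain ⟨a1, a2, a3, -⟩ := h.h9.a_facts k
      rw [p5] at a3
      exact absurd ((Nat.coprime_two_right.2 a2).pow_right 2 |>.eq_one_of_dvd a3) a1.ne'
  have := le_Fh (hall_of_coprime (BG.F_le S) (by
    rw [h.card_F', h.relIndex_F, c7, p5, q3, u]; norm_num)) (F_normal S).norm (F_nil S)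
  exact ne (eq_bot_mono h.defF.inf (le_inf (h.defF.right_le.trans this) le_rfl))

theorem cU_eq (h : MP S U W W₁ W₂) : cU S U ⊥ = ⊥ := by rw [cU, centMod_bot, h.reg_core]
theorem uS_eq (h : MP S U W W₁ W₂) : uS S = ♯U := by
  rw [h.card_U, h.reg_core, Subgroup.card_bot, one_mul]
theorem F_eq (h : MP S U W W₁ W₂) : 𝐅 S = 𝐅ₕ S := by rw [← h.HC_eq, h.cU_eq, sup_bot_eq]

/-- (13.13) -/
theorem nonGal_facts (h : MP S U W W₁ W₂) (n : ¬ Gal S U ⊥) :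
    ♯W₁ = 3 ∧ ♯U = ((♯W₂ - 1) / 2) ^ 2 := by
  obtain ⟨ζ, a, b, c⟩ := h.cases13.resolve_right fun e => n e.1
  obtain ⟨m, e, m1, m2, -⟩ := h.bound13 a b c
  obtain ⟨C, f, χ, k⟩ := h.h9.nonGal n
  obtain ⟨-, a2, a3, -, -, a4⟩ := h.h9.a_facts k
  obtain ⟨r, hr⟩ := h.odd₂
  have p3 := h.three₂
  have q3 := h.three₁
  rw [hr, Nat.add_sub_cancel] at a3
  rw [h.u_eq, h.uS_eq] at a4
  have d := a4.trans (pow_dvd_pow_of_dvd ((Nat.coprime_two_right.2 a2).dvd_of_dvd_mul_left a3) _)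
  rw [h.reg_core, Subgroup.card_bot, h.uS_eq, hr, Nat.cast_one, mul_one] at e
  rw [hr, Nat.add_sub_cancel, Nat.mul_div_cancel_left _ two_pos]
  have r0 : (0 : ℝ) < r := by exact_mod_cast (by omega : 0 < r)
  have e' : m * 2 ^ (♯W₁ - 1) * r ^ (♯W₁ - 1) ≤ ♯W₁ * ♯U := by
    refine le_trans ?_ e
    rw [mul_assoc, ← mul_pow]
    push_cast
    gcongr; linarith
  obtain q | q : ♯W₁ = 3 ∨ 5 ≤ ♯W₁ := by obtain ⟨r, hr⟩ := h.odd₁; omega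
  · rw [q] at d e'
    refine ⟨q, by_contra fun c => ?_⟩
    obtain ⟨t, ht⟩ := d
    have : 2 * ♯U ≤ r ^ 2 := by
      obtain rfl | rfl | t2 : t = 0 ∨ t = 1 ∨ 2 ≤ t := by omega
      · exact absurd ht (Nat.pow_pos (by omega)).ne'
      · exact (c (by simpa using ht.symm)).elim
      · rw [show r ^ 2 = ♯U * t from ht, mul_comm]; gcongr
    have : (2 * ♯U : ℝ) ≤ r ^ 2 := by exact_mod_cast this
    norm_num at e'
    nlinarith [sq_pos_of_pos r0]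
  · have : (♯U : ℝ) ≤ r ^ (♯W₁ - 1) := by
      exact_mod_cast Nat.le_of_dvd (Nat.pow_pos (by omega)) d
    have e2 : m * 2 ^ (♯W₁ - 1) ≤ ♯W₁ := le_of_mul_le_mul_right (e'.trans (by gcongr))
      (pow_pos r0 (♯W₁ - 1))
    have : 2 * ♯W₁ ≤ 2 ^ (♯W₁ - 1) := by
      have := Nat.lt_two_pow_self (n := ♯W₁ - 3)
      rw [show ♯W₁ - 1 = ♯W₁ - 3 + 2 by omega, pow_add]; omega
    have : (2 * ♯W₁ : ℝ) ≤ 2 ^ (♯W₁ - 1) := by exact_mod_cast this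
    nlinarith [m2 q, card_pos_real W₁]

end MP

end CF.BG.Vp
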