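import Cfsg.Agent.Vp.P13b

/-!
Peterfalvi, (13.16) and (13.17).
-/

set_option autoImplicit false
set_option linter.unusedSectionVars false

namespace CF.BG.Vp
open CF.PF

open Cfsg hiding typeA typeA0 Supports
open CF.Char CF.BG
open CF.PF8 (PW TF)
open scoped ComplexConjugate Classical commutatorElement

variable {G : Type*} [Group G] [Finite G] [MSO G]

variable [BG16 G] {S T L U V W W₁ W₂ : Subgroup G}

namespace MP

theorem prime₂' (h : MP S U W W₁ W₂) : (♯W₂).Prime := h.h9.prime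
theorem prime₁' (h : MP S U W W₁ W₂) : (♯W₁).Prime := h.prime₁ h.h9.U_ne
theorem copPU (h : MP S U W W₁ W₂) : (♯U).Coprime (♯(𝐅ₕ S)) :=
  (coprime_mono h.copH le_rfl le_sup_left).symm
theorem U_le (h : MP S U W W₁ W₂) : U ≤ S := le_sup_left.trans h.sdHU.right_le
theorem F_sub_A0 (h : MP S U W W₁ W₂) : (𝐅ₕ S : Set G) \ {1} ⊆ typeA0 S :=
  ((F_sub_A1 h.mx).trans (A1_sub_A h.mx)).trans (A_sub_A0 S)

/-- (13.16) -/
theorem norm_cent (h : MP S U W W₁ W₂) : 𝐍 W₂ = 𝐅ₕ S ⊔ W₁ ∧ 𝐂 W₂ = 𝐅ₕ S ⊔ W₁ := by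
  have aP := h.abelem.abel
  have cP : 𝐅ₕ S ≤ 𝐂 W₂ := aP.cent le_rfl h.le₂H
  have c1 : W₁ ≤ 𝐂 W₂ := h.dprod.cent'
  have a : 𝐅ₕ S ⊔ W₁ ≤ 𝐂 W₂ := sup_le cP c1
  have b : 𝐍 W₂ ≤ S := fun g hg => by
    obtain ⟨x, hx, h1⟩ := exists_mem_ne_one h.ne₂
    exact h.A0_nti.ti x (h.F_sub_A0 ⟨h.le₂H hx, h1⟩) g trivial
      (h.F_sub_A0 ⟨h.le₂H (conj_mem_of_norm hg hx), PF8.conj_ne_one'.2 h1⟩)
  have k : U ⊓ 𝐍 W₂ = ⊥ := by
    set K := U ⊓ 𝐍 W₂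
    have nK : W₁ ≤ 𝐍 K := norm_inf h.nUW (norm_of_le (c1.trans (cent_le_norm _)))
    have r : Reg K W₁ := h.regU.mono inf_le_left le_rfl
    have cK : K ≤ 𝐂 W₂ := by
      rw [← r.comm_eq nK h.ne₁]
      exact (Subgroup.commutator_mono inf_le_right (c1.trans (cent_le_norm _))).trans
        (h.cyc₂.der_le_cent le_rfl)
    have nP : K ≤ 𝐍 (𝐅ₕ S) := inf_le_left.trans h.sdH.norm
    have cop : (♯K).Coprime (♯(𝐅ₕ S)) := coprime_mono h.copPU inf_le_left le_rfl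
    have le := comm_le_left nP
    have e := r.cent_of_fpf_abel nK (aP.mono le)
      (norm_commutator (le_sup_right.trans h.sdHU.norm) nK) (norm_comm_right _ _)
      (coprime_mono cop le_rfl le) (eq_bot_mono (aP.comm_inf_cent nP cop) (le_inf inf_le_left
        ((inf_le_inf_right _ le).trans (h.centH.le.trans (cent_symm cK)))))
    exact eq_bot_mono h.reg_core (le_inf inf_le_left (cent_of_comm_le_cent nP cop (cent_symm e)))
  have e : 𝐍 W₂ = 𝐅ₕ S ⊔ W₁ := by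
    rw [← inf_eq_left.2 (b.trans h.sdHU.sup.ge),
      inf_sup_left (cP.trans (cent_le_norm _)) (.inr h.sdHU.norm),
      inf_sup_right (c1.trans (cent_le_norm _)) (.inr h.nUW), inf_comm, k, bot_sup_eq]
  exact ⟨e, le_antisymm ((cent_le_norm _).trans e.le) a⟩

theorem hallU (h : MP S U W W₁ W₂) : Hall (piOf (♯U)) U S := by
  refine hall_of_coprime h.U_le ?_
  have e := card_mul_relIndex h.U_le
  rw [← h.sdHU.card, ← h.sdU.card, mul_left_comm] at e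
  rw [Nat.eq_of_mul_eq_mul_left (card_pos' U) e]
  exact h.copPU.mul_right (h.regU.coprime h.nUW).symm

end MP

/-- (13.17) -/
theorem Pair.two_support (h : Pair S T U V W W₁ W₂) (t : IsOfTypeII S) (w : Pw U) (m : Mx L)
    (n : 𝐍 U ≤ L) :
    FrobK (𝐅ₕ L) L ∧ U ≤ 𝐅ₕ L ∧
      (SDProd (𝐅ₕ L) W₁ L ∨ ∃ y ∈ 𝐅ₕ T, SDProd (𝐅ₕ L) (W₁ ⊔ BG.cj y W₂) L) := by
  obtain ⟨U1, nS⟩ := h.pS.two_iff.1 t
  have UL : U ≤ L := (le_norm_self U).trans n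
  have WL : W₁ ≤ L := h.pS.nUW.trans n
  have nH := (Fh_normal L).norm
  have hq := h.pS.prime₁'
  have hp := h.pS.prime₂'
  have c1 : ¬ Conj S L := by
    rintro ⟨g, rfl⟩
    have a := h.pS.hallU.cj g
    obtain ⟨x, hx, e⟩ := a.conj m.sol (a.of_card UL (card_cj g U).symm)
    rw [e, ← cj_norm, ← cj_norm, ← cj_of_mem hx, cj_le_cj, cj_le_cj] at n
    exact nS ⟨n, w⟩
  have c2 : ¬ Conj T L := by
    rintro ⟨g, rfl⟩
    have e : ♯(𝐅ₕ (BG.cj g T)) = ♯W₁ ^ ♯W₂ := by rw [← cj_Fh, card_cj, h.pT.card_F]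
    have a : W₁ ≤ 𝐅ₕ (BG.cj g T) := (Fh_hall _).le_normal nH WL
      ((piGrp_of_card_prime hq rfl).of_single ⟨hq, e ▸ dvd_pow_self _ hp.ne_zero⟩)
    have b : U ≤ 𝐅ₕ (BG.cj g T) := by
      rw [← h.pS.regU.comm_eq h.pS.nUW h.pS.ne₁]
      exact (Subgroup.commutator_mono le_rfl a).trans (comm_le_right (UL.trans nH))
    exact U1 (card_eq_one'.1 (((h.pS.regU.coprime h.pS.nUW).symm.pow_right _).eq_one_of_dvd
      (e ▸ card_dvd b)))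
  obtain ⟨E₀, f₀⟩ := one_frobK m ((h.all L m).resolve_right fun a => a.elim c1 c2)
  have cq : (♯W₁).Coprime (♯(𝐅ₕ L)) := coprime_mono (coprime_Fh h.pT.mx m c2) h.pT.le₂H le_rfl
  have key : ∀ {X : Subgroup G}, X ≤ L → 𝐅ₕ L ⊓ 𝐂 X ≠ ⊥ → X ≤ 𝐅ₕ L := fun hX k => by
    obtain ⟨x, hx, h1⟩ := exists_mem_ne_one k
    exact (le_inf hX (le_cent1_iff.2 hx.2)).trans (f₀.cent1_le hx.1 h1)
  have UH : U ≤ 𝐅ₕ L := by
    refine key UL fun k => ?_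
    have i : 𝐅ₕ L ⊓ U = ⊥ := eq_bot_mono k (inf_le_inf_left _ h.pS.abelU)
    have c := h.pS.regU.cent_of_fpf h.pS.nUW (Fh_nil L).sol (WL.trans nH) (UL.trans nH)
      (relIndex_of_inf_bot i ▸ ((Fh_coprime L).coprime_dvd_right (relIndex_dvd_of_norm UL nH)).symm)
      cq (by_contra fun a => h.pS.ne₁ (eq_bot_mono (inf_eq_bot_of_coprime cq)
        (le_inf le_rfl (key WL a))))
    exact f₀.ker_ne (eq_bot_mono k (le_inf le_rfl (cent_symm c)))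
  refine ⟨⟨E₀, f₀⟩, UH, ?_⟩
  obtain ⟨k, hk, le⟩ := exists_cj_le_of_le_sup f₀.norm (WL.trans f₀.sd.sup.ge) cq
    (.inr (Fh_nil L).sol)
  have f := f₀.of_sdprod (f₀.sd.cj_of_mem (inv_mem (Fh_le L hk)))
  rw [cj_le_iff] at le
  generalize BG.cj k⁻¹ E₀ = E at f le
  have nE := f.reg.norm_of_prime f.norm f.ker_ne (m.odd' f.sd.right_le) (m.sol' f.sd.right_le) le hq
  have sQ : SDProd (𝐅ₕ T) W₂ (𝐍 W₁) := h.pT.norm_cent.1 ▸ .mk' (le_sup_right.trans h.pT.sdHU.norm)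
    (inf_eq_bot_of_coprime (coprime_mono h.pT.copH le_rfl le_sup_right))
  have i : 𝐅ₕ T ⊓ E = W₁ := by
    obtain ⟨x, hx⟩ := ((f.reg.zGrp f.norm f.ker_ne (m.odd' f.sd.right_le)).cyc (inf_le_right (a := 𝐅ₕ T))
      h.pT.abelem.pi.inf_left).exists_gen
    refine (eq_of_card_le (le_inf h.pT.le₂H le) ?_).symm
    rw [← hx, Nat.card_zpowers]
    exact Nat.le_of_dvd hq.pos (orderOf_dvd_of_pow_eq_one (h.pT.abelem.pow x
      (inf_le_left.trans' hx.le (Subgroup.mem_zpowers x))))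
  have cE := card_inf_mul_relIndex (𝐅ₕ T) E
  have d := relIndex_dvd_of_norm nE sQ.normal.norm
  rw [i] at cE
  rcases (Nat.dvd_prime hp).1 (sQ.relIndex_left ▸ d) with e | e
  · rw [e, mul_one] at cE
    exact .inl (eq_of_card_eq le cE ▸ f.sd)
  rw [e] at cE
  obtain ⟨Y, hY, cY⟩ := exists_card_eq_prime hp (cE ▸ dvd_mul_left _ _ : ♯W₂ ∣ ♯E)
  obtain ⟨y, hy, l⟩ := exists_cj_le_of_le_sup sQ.norm (hY.trans (nE.trans sQ.sup.ge))
    (cY ▸ (coprime_mono h.pT.copH le_rfl le_sup_right).symm) (.inr (Fh_nil T).sol)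
  refine .inr ⟨y⁻¹, inv_mem hy, ?_⟩
  rw [← cj_eq_iff.1 (eq_of_card_eq l (by rw [card_cj, cY])), eq_of_card_eq (sup_le le hY) ?_]
  · exact f.sd
  rw [card_sup_of_inf_bot (.inr (hY.trans nE)) (inf_eq_bot_of_coprime (cY ▸ h.pS.cop)), cY, cE]

end CF.BG.Vp
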