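import Cfsg.Agent.Vp.P13w

/-!
Peterfalvi, section 14: (14.2)-(14.9).
Notation: `P = 𝐅ₕ S`, `Q = 𝐅ₕ T`, `p = ♯W₂`, `q = ♯W₁`, `q < p`, `u = ♯U`, `v = ♯V`.
-/

set_option autoImplicit false
set_option linter.unusedSectionVars false

namespace CF.BG.Vp
open CF.PF

open Cfsg hiding typeA typeA0 Supports
open CF.Char CF.BG
open CF.PF8 (PW TF)
open scoped ComplexConjugate Classical commutatorElement

variable {G : Type*} [Group G] [Finite G] [MSO G] [BG16 G] {S T L M U V W W₁ W₂ : Subgroup G}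
  {φ ψ : G → ℂ} {νL νM ν : (G → ℂ) →ₗ[ℂ] (G → ℂ)} {η : Lin W₁ → Lin W₂ → G → ℂ} {x g : G}

theorem rip_of_ip14 {a b : G → ℂ} {c : ℝ} (h : ip L a b = c) : rip L a b = c := by rw [rip, h]; simp

theorem MP.frob_of_gal14 (h : MP S U W W₁ W₂) (g : Gal S U ⊥) : Frob (𝐅ₕ S) U ⁅S, S⁆ :=
  ⟨h.sdH, Fh_ne h.mx, h.U_ne, reg_of_forall fun u hu u1 x hx c => by
    simpa using (h.h9.gal_facts g).2.2.2 u hu (by simpa [h.cU_eq] using u1) x hx
      (by simpa [commutatorElement_eq_one_iff_mul_comm] using c)⟩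

theorem MP.cyc_of_gal14 (h : MP S U W W₁ W₂) (g : Gal S U ⊥) : Cyc U := by
  have := (h.h9.gal_facts g).1
  rw [h.cU_eq] at this
  exact this.of_qt (by simp) (by simp)

theorem MP.cent1_A014 (h : MP S U W W₁ W₂) (hx : x ∈ typeA0 S) : 𝐂₁ x ≤ S := fun _ hg =>
  h.A0_nti.centralizer_le hx (Subgroup.mem_top _) (mem_cent1.mp hg)

theorem MP.F_sub_A014 (h : MP S U W W₁ W₂) : (𝐅ₕ S : Set G) \ {1} ⊆ typeA0 S := Fh_subset_A0 h.mx

theorem MP.U_le14 (h : MP S U W W₁ W₂) : U ⊔ W₁ ≤ S := h.sdHU.right_le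

namespace Pair

theorem add_two_le14 (h : Pair S T U V W W₁ W₂) (lt : ♯W₁ < ♯W₂) : ♯W₁ + 2 ≤ ♯W₂ := by
  obtain ⟨a, ha⟩ := h.pS.cti.odd₁
  obtain ⟨b, hb⟩ := h.pS.cti.odd₂
  omega

theorem not_sd14 (h : Pair S T U V W W₁ W₂) (t : IsOfTypeII S) (w : Pw U) (n : 𝐍 U ≤ L)
    (e : 𝐅ₕ L = U) : ¬ SDProd (𝐅ₕ L) W₁ L := fun sd =>
  (h.pS.two_iff.mp t).2 ⟨n.trans (sd.sup.ge.trans (e ▸ h.pS.U_le14)), w⟩

theorem card_compl14 (h : Pair S T U V W W₁ W₂) (hx : x ∈ 𝐅ₕ T) :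
    ♯(W₁ ⊔ BG.cj x W₂) = ♯W₂ * ♯W₁ := by
  have c : W₁ ≤ 𝐂 (BG.cj x W₂) := by
    rw [← cj_of_cent (h.pT.abelem.abel.cent le_rfl h.pT.le₂H hx), cj_cent_iff]
    exact h.pS.dprod.cent'
  rw [sup_comm, ← (DProd.mk' c (inf_eq_bot_of_coprime
    (by rw [card_cj]; exact h.pS.cop.symm))).card, card_cj]

/-- (14.6) -/
theorem gal_S (h : Pair S T U V W W₁ W₂) (lt : ♯W₁ < ♯W₂) : Gal S U ⊥ := by
  by_contra n
  have s := h.pS
  obtain ⟨q3, hu⟩ := s.nonGal_facts n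
  obtain ⟨C₁, f', χ, k⟩ := s.h9.nonGal n
  obtain ⟨-, ao, ad, -, ex, -⟩ := s.h9.a_facts k
  have l2 := h.add_two_le14 lt
  have ab : C₁.relIndex U ∣ (♯W₂ - 1) / 2 := by
    refine (Nat.coprime_two_right.mpr ao).dvd_of_dvd_mul_right ?_
    rwa [Nat.div_mul_cancel (Nat.Odd.sub_odd s.cti.odd₂ odd_one).two_dvd]
  have b0 : (♯W₂ - 1) / 2 ≠ 0 := by omega
  have cn : ∀ {r} {A : Subgroup G}, A ≤ U → PiGrp {r} A → ¬ Cyc A → ∃ x ∈ A, x ≠ 1 ∧ PiElt (𝛡 G) x ∧ 𝐂₁ x ≤ S :=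
    fun l k nc => by
      obtain ⟨x, hx⟩ := not_forall.mp fun r' => nc (Reg.cyc_of_pi (K := 𝐅ₕ S) r'
        ((l.trans le_sup_left).trans s.sdHU.norm) (Fh_ne s.mx) k (s.mx.odd' (l.trans s.leU)))
      push Not at hx
      exact ⟨x, hx.1, hx.2.1, s.mx.pw_Fh.elt_of_inf_cent1 hx.2.2, s.cent1_A014 (A_sub_A0 S (s.mem_A.mpr
        ⟨s.sdH.right_le (l hx.1), hx.2.1, ne_bot_mono hx.2.2 (inf_le_inf_right _ (Fh_le_core s.mx))⟩))⟩
  have ex : ∀ r, r.Prime → r ∣ ♯U → ∃ x ∈ 𝐎 {r} U, x ≠ 1 ∧ PiElt (𝛡 G) x ∧ 𝐂₁ x ≤ S := fun r hr d =>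
    cn (O_le _ U) (O_pi _ U) fun c => by
      obtain ⟨x, e⟩ := c.exists_gen
      have h1 : orderOf x ∣ C₁.relIndex U := orderOf_dvd_of_pow_eq_one
        (by simpa [s.cU_eq] using ex x (O_le {r} U (e ▸ Subgroup.mem_zpowers x)))
      have h2 := logn_le_of_dvd (p := r) (h1.trans ab) b0
      have h3 := (logn_pos b0).mpr ⟨hr, hr.dvd_of_dvd_pow (hu ▸ d)⟩
      rw [← Nat.card_zpowers, e, (s.nilU.hall_O {r}).logn_eq rfl, hu, sq, logn_mul b0 b0] at h2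
      omega
  obtain ⟨r, hr, d⟩ := exists_prime_dvd_card s.U_ne
  obtain ⟨x, hx, x1, xw, cx⟩ := ex r hr d
  have w : Pw U := (pw_cent1 x1 xw).le (le_cent1_iff.2 (s.abelU (O_le _ U hx)))
  obtain ⟨L, m, nl⟩ := exists_mx_norm s.U_ne w
  have t := s.two_of_lt lt
  obtain ⟨⟨E, f₀⟩, le, sd | ⟨y, -, sd⟩⟩ := h.two_support t w m nl <;> have f := f₀.of_sdprod sd
  · have c : (♯(𝐅ₕ S)).Coprime (♯(𝐅ₕ L)) := coprime_Fh s.mx m (by
      rintro ⟨g, rfl⟩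
      exact s.not_one ((typeI_cj g).1 (FrobK.oneV ⟨E, f₀⟩ m)))
    have eU : 𝐅ₕ L ⊓ S ≤ U := by
      have e := card_mul_relIndex s.leU
      rw [← s.sdHU.card, ← s.sdU.card, mul_left_comm] at e
      rw [← Subgroup.relIndex_eq_one]
      exact ((Nat.eq_of_mul_eq_mul_left (card_pos' U) e ▸ c.mul_left (f.reg.coprime f.norm)).coprime_dvd_left
        (relIndex_dvd_right (le_inf le s.leU) inf_le_right)).eq_one_of_dvd
          ((Subgroup.relIndex_dvd_card _ _).trans (card_dvd inf_le_left))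
    obtain ⟨r, hr, nr⟩ : ∃ r, r.Prime ∧ ¬ 𝐎 {r} (𝐅ₕ L) ≤ U := by
      by_contra! c
      exact h.not_sd14 t w nl (le_antisymm ((Fh_nil L).le_of_forall fun r hr _ => c r hr) le) sd
    have kR := O_pi {r} (𝐅ₕ L)
    have nc : ∀ x, 𝐂₁ x ≤ S → x ∉ 𝐂 (𝐎 {r} (𝐅ₕ L)) := fun x c j =>
      nr ((le_inf (O_le _ _) ((le_cent1_iff.2 j).trans c)).trans eU)
    have kU : PiGrp {r} U := fun q hq d => by_contra fun ne => by
      obtain ⟨x, hx, -, -, cx⟩ := ex q hq d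
      exact nc x cx ((Fh_nil L).cent_of_pi ((O_le _ U).trans le) (O_le _ _) (O_pi _ U) (kR.of_single' fun e : r = q => ne e.symm) hx)
    obtain ⟨x, hx, x1, -, cx⟩ := ex r hr (kU.dvd_card s.U_ne)
    have xR := (Fh_nil L).O_mono_le le {r} hx
    have a := kR.abelem_Om_center
    have c : 𝛀 r (𝐙 (𝐎 {r} (𝐅ₕ L))) ≤ 𝐙 (𝐎 {r} (𝐅ₕ L)) := Om_le _ _
    have c' := (c.trans inf_le_left).trans (O_le {r} _)
    obtain ⟨z, e⟩ := Cyc.exists_gen (by_contra fun j => by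
      obtain ⟨z, hz, -, -, cz⟩ := cn ((le_inf c' ((c.trans inf_le_right).trans ((cent_le_cent1 xR).trans cx))).trans eU) a.pi j
      exact nc z cz (c hz).2)
    have d3 := (f.reg.mono c' le_rfl).card_dvd (le_norm_Om _ ((le_norm_O _ f.norm).trans (norm_center _)))
    have z1 := (kR.le inf_le_left).Om_ne_bot (kR.center_ne_bot (ne_bot_of_mem xR x1))
    rw [← e, Nat.card_zpowers, a.orderOf (e ▸ Subgroup.mem_zpowers z) fun j => z1 (by simp [← e, j]), q3] at d3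
    obtain ⟨i, hi⟩ := PiNat.exists_pow (PiNat.dvd kU (hu ▸ dvd_pow_self _ two_ne_zero)) b0
    have := ((Nat.modEq_iff_dvd' hr.one_le).2 d3).pow i
    obtain ⟨b, hb⟩ := s.odd₂
    rw [one_pow, ← hi, Nat.ModEq] at this
    have := (Nat.prime_dvd_prime_iff_eq Nat.prime_three s.primes.2).1 (by omega)
    omega
  have db := hr.dvd_of_dvd_pow (hu ▸ d)
  have hR := s.nilU.hall_O {r}
  have hS : Syl r (𝐎 {r} U) S := (hR.trans_idx le_sup_left (by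
    rw [s.sdU.relIndex_left]
    exact (piNat_compl_single hr).mpr (not_dvd_of_coprime (s.regU.coprime s.nUW).symm hr d))).trans_idx
      s.U_le14 (by
        rw [s.sdHU.relIndex_right]
        exact (piNat_compl_single hr).mpr
          (not_dvd_of_coprime s.copH.symm hr (d.trans (card_dvd le_sup_left))))
  have l1 := (Fh_nil L).O_mono_le le {r}
  have kR := O_pi {r} (𝐅ₕ L)
  have a := kR.abelem_Om_center
  have c : 𝛀 r (𝐙 (𝐎 {r} (𝐅ₕ L))) ≤ 𝐂 (𝐎 {r} U) := (Om_le _ _).trans (inf_le_right.trans (cent_anti l1))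
  have l3 := hS.le_of_norm ((c.trans (cent_le_cent1 hx)).trans cx) a.pi (Or.inl (norm_of_cent c))
  have d2 := s.h9.rank_le k (l3.trans (O_le _ U)) a hr
  rw [s.cU_eq, Subgroup.relIndex_bot_left, q3] at d2
  have d3 := (f.reg.mono (((Om_le r _).trans inf_le_left).trans (O_le {r} _)) le_sup_right).card_dvd
    (le_norm_Om _ ((le_norm_O _ (le_sup_right.trans f.norm)).trans (norm_center _)))
  rw [card_cj] at d3
  exact N14.not_dvd6 s.primes.2 (by omega) hr (Nat.le_of_dvd (by omega) db) (one_lt_card.mpr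
    ((kR.le inf_le_left).Om_ne_bot (kR.center_ne_bot (ne_bot_mono (hR.syl_ne_bot hr d) l1)))) d2 d3

end Pair

theorem MP.gal (h : MP S U W W₁ W₂) : Gal S U ⊥ := by_contra fun n =>
  let ⟨_, _, k⟩ := h.exists_pair
  n (k.gal_S (by have := (h.nonGal_facts n).1; have := h.three₂; have := h.cti.card_ne; omega))

end CF.BG.Vp
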