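import Cfsg.Agent.Vp.P8C

/-!
Peterfalvi, section 8: structure of a minimal simple group of odd order.
-/

set_option autoImplicit false
set_option linter.unusedSectionVars false

namespace CF.BG.Vp
open CF.PF

open Cfsg hiding typeA typeA0 Supports
open CF.Char CF.BG
open CF.PF8 (PW TF)
open scoped ComplexConjugate Classical commutatorElement

variable {G : Type*} [Group G] [Finite G] [MSO G]

/-- the Dade isometry relative to `A₀(M)` (Coq `FT_Dade0`; for type I `A₀(M) = A(M)`) -/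
noncomputable abbrev tau (M : Subgroup G) := dade (typeA0 M) M (supportR M)
/-- the Dade isometry relative to `M_F^#` (Coq `FT_DadeF`) -/
noncomputable abbrev tauF (M : Subgroup G) := dade ((𝐅ₕ M : Set G) \ {1}) M (supportR M)
/-- `Ã₁(M)` -/
noncomputable abbrev tA1 (M : Subgroup G) : Set G := dsupp (typeA1 M) (supportR M)
/-- `Ã(M)` -/
noncomputable abbrev tA (M : Subgroup G) : Set G := dsupp (typeA M) (supportR M)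
/-- `Ã₀(M)` -/
noncomputable abbrev tA0 (M : Subgroup G) : Set G := dsupp (typeA0 M) (supportR M)
/-- the support of `tauF M` -/
noncomputable abbrev tAF (M : Subgroup G) : Set G := dsupp ((𝐅ₕ M : Set G) \ {1}) (supportR M)

/-- a maximal subgroup of type P with its data (Coq: `M \in 'M` and `of_typeP M U defW`) -/
structure MP (M U W W₁ W₂ : Subgroup G) : Prop where
  mx : Mx M
  out : PF8.PW M W₁ U W₂
  W_eq : W₁ ⊔ W₂ = W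

/-- the same, with the characters `η_ij`, `μ_ij` and the signs `δ_j` -/
structure TP (M U W W₁ W₂ : Subgroup G) (η μ : Lin W₁ → Lin W₂ → G → ℂ) (δ : Lin W₂ → ℝ) : Prop
    extends MP M U W W₁ W₂ where
  pfam : PFam M ⁅M, M⁆ W W₁ W₂ μ δ
  fam : Fam ⊤ W W₁ W₂ η

/-- case (b) of (8.8) (Coq: `typeP_pair` together with both `of_typeP`) -/
structure Pair (S T U V W W₁ W₂ : Subgroup G) : Prop where
  pS : MP S U W W₁ W₂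
  pT : MP T V W W₂ W₁
  inf : S ⊓ T = W
  two : IsOfTypeII S ∨ IsOfTypeII T
  all : ∀ M, Mx M → TypeI M ∨ Conj S M ∨ Conj T M

variable {M L S T U V U₀ U₁ E W W₁ W₂ P X : Subgroup G} {p : ℕ} {x g : G} {θ : G → ℂ}
  {η μ : Lin W₁ → Lin W₂ → G → ℂ} {δ : Lin W₂ → ℝ}

/-! ### type F: (8.1), (8.2) -/

theorem tildeOf_eq (M : Subgroup G) (A : Set G) : tildeOf M A = dsupp A (supportR M) := tildeOf_eq8 M A

/-! ### type P: (8.4), (8.5) -/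

namespace MP

theorem sdM (h : MP M U W W₁ W₂) : SDProd ⁅M, M⁆ W₁ M := h.out.sdM
theorem sdH (h : MP M U W W₁ W₂) : SDProd (𝐅ₕ M) U ⁅M, M⁆ := h.out.sdD
theorem nUW (h : MP M U W W₁ W₂) : W₁ ≤ 𝐍 U := h.out.U_normal
theorem nilU (h : MP M U W W₁ W₂) : Nil U := h.out.U_nilpotent
theorem sdU (h : MP M U W W₁ W₂) : SDProd U W₁ (U ⊔ W₁) := h.out.sdUW
theorem sdHU (h : MP M U W W₁ W₂) : SDProd (𝐅ₕ M) (U ⊔ W₁) M := h.out.sdF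
theorem dp (h : MP M U W W₁ W₂) : DP W W₁ W₂ := h.W_eq ▸ (cti0_of_selfNorm h.out.selfNormalizing).toDP
theorem dprod (h : MP M U W W₁ W₂) : DProd W₁ W₂ W := h.W_eq ▸ h.out.dprod
theorem ne₁ (h : MP M U W W₁ W₂) : W₁ ≠ ⊥ := h.out.W₁_ne
theorem ne₂ (h : MP M U W W₁ W₂) : W₂ ≠ ⊥ := h.out.selfNormalizing.2.1
theorem cyc (h : MP M U W W₁ W₂) : Cyc W := h.W_eq ▸ h.out.cycW
theorem cyc₁ (h : MP M U W W₁ W₂) : Cyc W₁ := h.out.W₁_cyclic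
theorem cyc₂ (h : MP M U W W₁ W₂) : Cyc W₂ := h.out.cyc₂
theorem W_le (h : MP M U W W₁ W₂) : W ≤ M := h.W_eq ▸ h.out.leW
theorem le₂H (h : MP M U W W₁ W₂) : W₂ ≤ 𝐅ₕ M := h.out.W₂_le.trans inf_le_left
theorem le₂der (h : MP M U W W₁ W₂) : W₂ ≤ ⁅⁅M, M⁆, ⁅M, M⁆⁆ := h.out.W₂_le.trans inf_le_right
theorem cent1 (h : MP M U W W₁ W₂) (hx : x ∈ W₁) (h1 : x ≠ 1) : ⁅M, M⁆ ⊓ 𝐂₁ x = W₂ :=
  h.out.W₂_centralizer x hx h1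
theorem centH1 (h : MP M U W W₁ W₂) (hx : x ∈ W₁) (h1 : x ≠ 1) : 𝐅ₕ M ⊓ 𝐂₁ x = W₂ :=
  h.out.cent1F hx h1
theorem centM1 (h : MP M U W W₁ W₂) (hx : x ∈ W₁) (h1 : x ≠ 1) : M ⊓ 𝐂₁ x = W :=
  h.W_eq ▸ h.out.cent1M hx h1
theorem centK (h : MP M U W W₁ W₂) : ⁅M, M⁆ ⊓ 𝐂 W₁ = W₂ := h.out.centD
theorem centH (h : MP M U W W₁ W₂) : 𝐅ₕ M ⊓ 𝐂 W₁ = W₂ := h.out.centF
theorem centM (h : MP M U W W₁ W₂) : M ⊓ 𝐂 W₁ = W := h.W_eq ▸ h.out.centM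
theorem regU (h : MP M U W W₁ W₂) : Reg U W₁ := h.out.regU
theorem frobU (h : MP M U W W₁ W₂) (hU : U ≠ ⊥) : Frob U W₁ (U ⊔ W₁) := h.out.frobU hU
theorem not_cyc (h : MP M U W W₁ W₂) : ¬ Cyc (𝐅ₕ M) := h.out.H_not_cyclic
theorem defF (h : MP M U W W₁ W₂) : DProd (𝐅ₕ M) (U ⊓ 𝐂 (𝐅ₕ M)) (𝐅 M) := h.out.F_dprod
theorem derU (h : MP M U W W₁ W₂) : ⁅U, U⁆ ≤ 𝐂 (𝐅ₕ M) := h.out.derU_cent
theorem ncent (h : MP M U W W₁ W₂) (hU : U ≠ ⊥) : ¬ U ≤ 𝐂 (𝐅ₕ M) := h.out.not_cent hU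
theorem der2_le (h : MP M U W W₁ W₂) : ⁅⁅M, M⁆, ⁅M, M⁆⁆ ≤ 𝐅 M := h.out.DD_le
theorem F_le (h : MP M U W W₁ W₂) : 𝐅 M ≤ ⁅M, M⁆ := h.out.fitting_le
theorem copK (h : MP M U W W₁ W₂) : (♯⁅M, M⁆).Coprime (♯W₁) := h.out.cop
theorem copH (h : MP M U W W₁ W₂) : (♯(𝐅ₕ M)).Coprime (♯(U ⊔ W₁)) := h.out.copFUW
theorem cop (h : MP M U W W₁ W₂) : (♯W₁).Coprime (♯W₂) := h.out.cop₁₂
protected theorem cj (h : MP M U W W₁ W₂) (g : G) :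
    MP (BG.cj g M) (BG.cj g U) (BG.cj g W) (BG.cj g W₁) (BG.cj g W₂) := ⟨h.mx.cj g, h.out.cj g, by rw [← cj_sup, h.W_eq]⟩

variable [BG16 G]

theorem odd (h : MP M U W W₁ W₂) : Odd (♯M) := h.mx.odd
theorem odd₁ (h : MP M U W W₁ W₂) : Odd (♯W₁) := h.mx.odd' (h.dprod.left_le.trans h.W_le)
theorem odd₂ (h : MP M U W W₁ W₂) : Odd (♯W₂) := h.mx.odd' (h.dprod.right_le.trans h.W_le)
theorem leU (h : MP M U W W₁ W₂) : U ≤ M := le_sup_left.trans h.sdHU.right_le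
theorem oddU (h : MP M U W W₁ W₂) : Odd (♯U) := h.mx.odd' h.leU
theorem pw₂ (h : MP M U W W₁ W₂) : Pw W₂ := h.mx.pw_Fh.le h.le₂H
theorem pwW (h : MP M U W W₁ W₂) : Pw W := h.pw₂.of_cent h.ne₂ (h.cyc.abel.cent le_rfl h.dprod.right_le)
theorem pw₁ (h : MP M U W W₁ W₂) : Pw W₁ := h.pwW.le h.dprod.left_le
theorem pti (h : MP M U W W₁ W₂) : PTI M ⁅M, M⁆ W W₁ W₂ := h.W_eq ▸ h.out.pti'V h.mx
theorem cti (h : MP M U W W₁ W₂) : CTI ⊤ W W₁ W₂ := h.W_eq ▸ h.out.ctiV h.mx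
theorem exists_tp' (h : MP M U W W₁ W₂) (hη : Fam ⊤ W W₁ W₂ η) :
    ∃ μ δ, TP M U W W₁ W₂ η μ δ := let ⟨μ, δ, k⟩ := h.pti.exists_pfam; ⟨μ, δ, h, k, hη⟩
theorem exists_tp (h : MP M U W W₁ W₂) : ∃ η μ δ, TP M U W W₁ W₂ η μ δ := let ⟨η, k⟩ := h.cti.exists_fam; ⟨η, h.exists_tp' k⟩
/-- Coq: `of_typeP_conj` -/
theorem conj_data (h : MP M U W W₁ W₂) {U' W' W₁' W₂' : Subgroup G} (k : MP M U' W' W₁' W₂') :
    ∃ x ∈ M, U' = BG.cj x U ∧ W' = BG.cj x W ∧ W₁' = BG.cj x W₁ ∧ W₂' = BG.cj x W₂ := by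
  obtain ⟨x, hx, a, b, c⟩ := h.out.conj k.out
  exact ⟨x, hx, b, by rw [← k.W_eq, ← h.W_eq, cj_sup, a, c], a, c⟩

/-! types II to V: (8.6), (8.7) -/
theorem not_one (h : MP M U W W₁ W₂) : ¬ TypeI M := h.out.not_t1
theorem not_frobK (h : MP M U W W₁ W₂) : ¬ FrobK (𝐅ₕ M) M := fun ⟨_, k⟩ => h.out.not_TF (PF8.TF.of_frob k)
theorem types (h : MP M U W W₁ W₂) :
    IsOfTypeII M ∨ IsOfTypeIII M ∨ IsOfTypeIV M ∨ IsOfTypeV M := h.out.casesV h.mx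
theorem two_iff (h : MP M U W W₁ W₂) : IsOfTypeII M ↔ U ≠ ⊥ ∧ ¬ NU M U := h.out.t2_iffV h.mx
theorem three_iff (h : MP M U W W₁ W₂) : IsOfTypeIII M ↔ Abel U ∧ NU M U :=
  ⟨fun t => (h.out.of_t3V t).2.2.2, fun k => ((h.out.t34_iffV h.mx).2 k.2).resolve_right
    fun t => (h.out.of_t4V t).2.2.2.1 k.1⟩
theorem four_iff (h : MP M U W W₁ W₂) : IsOfTypeIV M ↔ ¬ Abel U ∧ NU M U :=
  ⟨fun t => (h.out.of_t4V t).2.2.2, fun k => ((h.out.t34_iffV h.mx).2 k.2).resolve_left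
    fun t => k.1 (h.out.of_t3V t).2.2.2.1⟩
theorem five_iff (h : MP M U W W₁ W₂) : IsOfTypeV M ↔ U = ⊥ := h.out.t5_iffV h.mx
theorem prime₁ (h : MP M U W W₁ W₂) (hU : U ≠ ⊥) : (♯W₁).Prime := (h.out.of_t234V (h.out.t234V h.mx hU)).2.1
theorem F_nti (h : MP M U W W₁ W₂) (hU : U ≠ ⊥) : NTI ((𝐅 M : Set G) \ {1}) ⊤ M := h.out.nti_FV h.mx hU
theorem of_two (h : MP M U W W₁ W₂) (t : IsOfTypeII M) :
    Abel U ∧ PF8.TF ⁅M, M⁆ U ∧ 𝐅ₕ ⁅M, M⁆ = 𝐅ₕ M := let ⟨_, _, _, a, _, b⟩ := h.out.of_t2V t; ⟨a, b⟩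
theorem of_five (h : MP M U W W₁ W₂) (hU : U = ⊥) : NTI ((𝐅ₕ M : Set G) \ {1}) ⊤ M ∨
    (∃ p : ℕ, p.Prime ∧ p ∣ ♯(𝐅ₕ M) ∧ ♯W₁ ∣ p - 1 ∧ Cyc (𝐎 {p}ᶜ (𝐅ₕ M))) ∨
    ∃ p : ℕ, p.Prime ∧ ♯(𝐎 {p} (𝐅ₕ M)) = p ^ 3 ∧ ♯W₁ ∣ p + 1 ∧ Cyc (𝐎 {p}ᶜ (𝐅ₕ M)) :=
  (h.out.of_t5 (h.five_iff.2 hU)).2.imp (·.nti (norm_Fh_eq h.mx))
    (Or.imp_right fun ⟨p, a, _, b⟩ => ⟨p, a, b⟩)

/-! the sets of (8.10) -/
theorem core_eq_der (h : MP M U W W₁ W₂) (n : ¬ IsOfTypeII M) : typeCore M = ⁅M, M⁆ := core_of_t345 (h.types.resolve_left n)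
theorem core_le (h : MP M U W W₁ W₂) : typeCore M ≤ ⁅M, M⁆ := core_le_der h.mx
theorem A1_eq (h : MP M U W W₁ W₂) (n : ¬ IsOfTypeII M) :
    typeA1 M = ((⁅M, M⁆ : Subgroup G) : Set G) \ {1} := by rw [Vp.A1_eq, h.core_eq_der n]
theorem A_eq (h : MP M U W W₁ W₂) (n : ¬ IsOfTypeII M) :
    typeA M = ((⁅M, M⁆ : Subgroup G) : Set G) \ {1} := A_eq_der (h.types.resolve_left n)
theorem mem_A (h : MP M U W W₁ W₂) :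
    x ∈ typeA M ↔ x ∈ ⁅M, M⁆ ∧ x ≠ 1 ∧ typeCore M ⊓ 𝐂₁ x ≠ ⊥ := by rw [mem_A_not1 h.not_one, PF8.inf_cent1_ne_bot]
theorem F_sub_A (h : MP M U W W₁ W₂) : (𝐅 M : Set G) \ {1} ⊆ typeA M := F_subset_A h.mx
theorem A0_eq (h : MP M U W W₁ W₂) : typeA0 M = typeA M ∪ clsup M (cycV W W₁ W₂) := h.W_eq ▸ h.out.A0_eqV

/-- (8.8), (8.9) -/
theorem exists_pair (h : MP M U W W₁ W₂) : ∃ T V, Pair M T U V W W₁ W₂ := by
  obtain ⟨T, V, k⟩ := h.out.exists_pairV h.mx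
  exact ⟨T, V, h, ⟨k.mxT, k.pT, (sup_comm _ _).trans h.W_eq⟩, k.inf.trans h.W_eq, k.two,
    fun L l => or_iff_not_imp_left.2 (k.all L l)⟩

end MP

theorem Pair.swap (h : Pair S T U V W W₁ W₂) : Pair T S V U W W₂ W₁ :=
  ⟨h.pT, h.pS, inf_comm S T ▸ h.inf, h.two.symm, fun M m => (h.all M m).imp_right Or.symm⟩

variable [BG16 G]

theorem Pair.not_conj (h : Pair S T U V W W₁ W₂) : ¬ Conj S T := (h.pS.out.pairV h.pS.mx h.pT.out h.pT.mx).not_conj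

/-- (8.15): Hypothesis (4.6) with `H = M_s` -/
theorem TP.pdade (h : TP M U W W₁ W₂ η μ δ) :
    PDade M ⁅M, M⁆ (typeCore M) W W₁ W₂ (typeA M) (typeA0 M) (supportR M) η μ δ := by
  obtain ⟨⟨m, k, rfl⟩, a, b⟩ := h
  exact k.pdadeV m k.le₂coreV le_rfl (core_normal8 M).norm b a
/-- (8.15): Hypothesis (4.6) with `H = M_F` -/
theorem TP.pdadeF (h : TP M U W W₁ W₂ η μ δ) :
    PDade M ⁅M, M⁆ (𝐅ₕ M) W W₁ W₂ (typeA M) (typeA0 M) (supportR M) η μ δ := by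
  obtain ⟨⟨m, k, rfl⟩, a, b⟩ := h
  exact k.pdadeV m k.le₂F (Fh_le_core8 M) (Fh_normal M).norm b a
/-- (8.15) for types III to V -/
theorem TP.pdadeK (h : TP M U W W₁ W₂ η μ δ) (n : ¬ IsOfTypeII M) :
    PDade M ⁅M, M⁆ ⁅M, M⁆ W W₁ W₂ (typeA M) (typeA0 M) (supportR M) η μ δ :=
  h.core_eq_der n ▸ h.pdade

/-! ### all maximal subgroups -/

theorem mx_cases (m : Mx M) : TypeI M ∨ ∃ U W W₁ W₂, MP M U W W₁ W₂ :=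
  or_iff_not_imp_left.2 fun t => let ⟨W₁, U, W₂, h⟩ := exists_pw m t; ⟨U, _, W₁, W₂, m, h, rfl⟩
theorem exists_MP_of_two (m : Mx M) (t : IsOfTypeII M) : ∃ U W W₁ W₂, MP M U W W₁ W₂ := (mx_cases m).resolve_left (T2.not1 t)
/-- (8.8) -/
theorem pair_cases : (∀ M : Subgroup G, Mx M → TypeI M) ∨
    ∃ S T U V W W₁ W₂ : Subgroup G, Pair S T U V W W₁ W₂ := by
  refine or_iff_not_imp_left.2 fun a => ?_
  push Not at a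
  obtain ⟨S, m, t⟩ := a
  obtain ⟨U, W, W₁, W₂, h⟩ := (mx_cases m).resolve_left t
  obtain ⟨T, V, k⟩ := h.exists_pair
  exact ⟨S, T, U, V, W, W₁, W₂, k⟩
theorem Fh_ne (m : Mx M) : 𝐅ₕ M ≠ ⊥ := Fh_ne8 m
theorem norm_Fh (m : Mx M) : 𝐍 (𝐅ₕ M) = M := m.norm_eq (Fh_normal M) (Fh_ne m)
theorem core_normal (M : Subgroup G) : typeCore M ⊴ M := core_normal8 M
theorem Fh_le_core (m : Mx M) : 𝐅ₕ M ≤ typeCore M := Fh_le_core8 M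
theorem core_eq_F (m : Mx M) (t : TypeI M ∨ IsOfTypeII M ∨ IsOfTypeV M) : typeCore M = 𝐅ₕ M := t.elim PF8.T1.coreV fun t => t.elim T2.core PF8.T5.coreV
theorem F_sub_A1 (m : Mx M) : (𝐅ₕ M : Set G) \ {1} ⊆ typeA1 M := Fh_subset_A1 M
theorem A1_sub_A (m : Mx M) : typeA1 M ⊆ typeA M := A1_subset_A m
theorem A_sub_A0 (M : Subgroup G) : typeA M ⊆ typeA0 M := Set.subset_union_left
theorem A1_conj (M : Subgroup G) : ∀ x ∈ M, ∀ a ∈ typeA1 M, x * a * x⁻¹ ∈ typeA1 M := conj_mem_A1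
theorem A_conj (M : Subgroup G) : ∀ x ∈ M, ∀ a ∈ typeA M, x * a * x⁻¹ ∈ typeA M := conj_mem_A

/-! type I: (8.3) -/
theorem one_tf (t : TypeI M) (sd : SDProd (𝐅ₕ M) U M) : PF8.TF M U := tf_of t.1 sd
theorem one_cases (m : Mx M) (t : TypeI M) (sd : SDProd (𝐅ₕ M) U M) :
    NTI ((𝐅ₕ M : Set G) \ {1}) ⊤ M ∨ (Abel (𝐅ₕ M) ∧ rank (𝐅ₕ M) = 2) ∨
      ((∀ p : ℕ, p.Prime → p ∣ ♯(𝐅ₕ M) → Monoid.exponent U ∣ p - 1) ∧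
        ∃ p : ℕ, p.Prime ∧ p ∣ ♯(𝐅ₕ M) ∧ Cyc (𝐎 {p}ᶜ (𝐅ₕ M))) := (PF8.T1.cases t sd).imp_left (·.nti (norm_Fh m))
theorem one_A0 (t : TypeI M) : typeA0 M = typeA M := A0_t1 t
theorem one_mem_A (t : TypeI M) : x ∈ typeA M ↔ x ∈ M ∧ x ≠ 1 ∧ 𝐅ₕ M ⊓ 𝐂₁ x ≠ ⊥ := by rw [mem_A_t1 t, PF8.inf_cent1_ne_bot]
theorem one_A1 (m : Mx M) (t : TypeI M) : typeA1 M = (𝐅ₕ M : Set G) \ {1} := by rw [A1_eq, PF8.T1.coreV t]
theorem one_not_two (m : Mx M) (t : TypeI M) : ¬ IsOfTypeII M := fun k => T2.not1 k t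
theorem _root_.CF.PF.FrobK.oneV (h : FrobK (𝐅ₕ M) M) (m : Mx M) : TypeI M := let ⟨_, k⟩ := h; t1_of_frob m k
theorem _root_.CF.PF.FrobK.A_eqV (h : FrobK (𝐅ₕ M) M) (m : Mx M) : typeA M = (𝐅ₕ M : Set G) \ {1} := let ⟨_, k⟩ := h; A_frob m k

/-! conjugation -/
theorem typeI_cj (g : G) : TypeI (BG.cj g M) ↔ TypeI M := PF8.t1_cj' g
theorem typeII_cj (g : G) : IsOfTypeII (BG.cj g M) ↔ IsOfTypeII M := t2_cj' g
theorem typeIII_cj (g : G) : IsOfTypeIII (BG.cj g M) ↔ IsOfTypeIII M := t3_cj' g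
theorem typeIV_cj (g : G) : IsOfTypeIV (BG.cj g M) ↔ IsOfTypeIV M := t4_cj' g
theorem typeV_cj (g : G) : IsOfTypeV (BG.cj g M) ↔ IsOfTypeV M := PF8.t5_cj' g
theorem core_cj (g : G) (M : Subgroup G) : typeCore (BG.cj g M) = BG.cj g (typeCore M) := (cj_core' g M).symm
theorem mem_A1_cj : g * x * g⁻¹ ∈ typeA1 (BG.cj g M) ↔ x ∈ typeA1 M := A1_cj'
theorem mem_A_cj : g * x * g⁻¹ ∈ typeA (BG.cj g M) ↔ x ∈ typeA M := A_cj'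
theorem supportR_cj : supportR (BG.cj g M) (g * x * g⁻¹) = BG.cj g (supportR M x) := R_cj g M x
theorem tA1_cj (g : G) (M : Subgroup G) : tA1 (BG.cj g M) = tA1 M := dsupp_cj fun _ => mem_A1_cj
theorem tA_cj (g : G) (M : Subgroup G) : tA (BG.cj g M) = tA M := dsupp_cj fun _ => mem_A_cj

/-- (8.11) -/
theorem Fh_hall_top (m : Mx M) : Hall (piOf (♯(𝐅ₕ M))) (𝐅ₕ M) ⊤ := hall_Fh_top m
theorem core_hall_top (m : Mx M) : Hall (piOf (♯(typeCore M))) (typeCore M) ⊤ := hall_of_coprime le_top (hall_core_top m).coprime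
/-- (8.13), (8.14) -/
theorem supportR_eq_bot (h : 𝐂₁ x ≤ M) : supportR M x = ⊥ := R_of_le h
theorem supp_facts (m : Mx M) (hx : x ∈ typeA0 M) (h : ¬ 𝐂₁ x ≤ M) :
    x ∈ typeA1 M ∧ ∃ L, UniqIn (𝐂₁ x) L ∧ supportR M x = 𝐅ₕ L ⊓ 𝐂₁ x ∧
      SDProd (𝐅ₕ L) (M ⊓ L) L ∧ SDProd (𝐅ₕ L ⊓ 𝐂₁ x) (M ⊓ 𝐂₁ x) (𝐂₁ x) ∧
      (∀ y ∈ typeA0 M, (♯(𝐅ₕ L)).Coprime (♯(M ⊓ 𝐂₁ y))) ∧ x ∈ typeA L ∧ x ∉ typeA1 L ∧
      (TypeI L ∨ IsOfTypeII L) ∧ (IsOfTypeII L → FrobK (𝐅ₕ M) M) :=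
  let ⟨L, k⟩ := exists_suppAt m hx h
  ⟨k.memA1, L, k.uniq, k.R_eq, k.sdL, k.sdC, k.cop, k.memA, k.notA1, k.type, k.frob⟩

/-- (8.15) -/
theorem dade0 (m : Mx M) : DadeHypothesis (typeA0 M) M (supportR M) := dade_A0 m
theorem dadeA (m : Mx M) : DadeHypothesis (typeA M) M (supportR M) := dade_A m
theorem dade1 (m : Mx M) : DadeHypothesis (typeA1 M) M (supportR M) := dade_A1 m
theorem dadeF (m : Mx M) : DadeHypothesis ((𝐅ₕ M : Set G) \ {1}) M (supportR M) := dade_Fh m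
theorem nti_of_cent (m : Mx M) {A : Set G} (hA : A ⊆ typeA0 M)
    (hc : ∀ x ∈ M, ∀ a ∈ A, x * a * x⁻¹ ∈ A) (h : ∀ a ∈ A, 𝐂₁ a ≤ M) : NTI A ⊤ M := nti_of_cent1 m hA hc h

/-- (8.16) -/
theorem two_nti (m : Mx M) (t : IsOfTypeII M) : NTI (typeA0 M) ⊤ M := T2.nti_A0 t m

/-- (8.17) -/
theorem exists_dvd_core (hp : p.Prime) (h : p ∣ Nat.card G) (w : p ∈ 𝛡 G) :
    ∃ M : Subgroup G, Mx M ∧ p ∣ ♯(typeCore M) := exists_dvd_core8 hp h w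
theorem core_coprime (m : Mx M) (l : Mx L) (n : ¬ Conj M L) :
    (♯(typeCore M)).Coprime (♯(typeCore L)) := coprime_core m l n
theorem card_tA1 (m : Mx M) : (tA1 M).ncard = (♯(typeCore M) - 1) * M.index := by
  rw [card_dsupp (dade1 m), mul_comm, A1_eq, Set.ncard_sdiff_singleton_of_mem (one_mem _)]
  rfl
theorem tA1_disjoint (m : Mx M) (l : Mx L) (n : ¬ Conj M L) : Disjoint (tA1 M) (tA1 L) := disjoint_A1 m l n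
/-- (8.18); `Supports T S` reads "`T` supports `S`" -/
theorem supports_iff (s : Mx S) (t : Mx T) (n : ¬ Conj S T) :
    Supports T S ↔ (typeA1 S ∩ typeA T).Nonempty := supports_iff8 s t n
theorem cent_of_A1_A (s : Mx S) (t : Mx T) (n : ¬ Conj S T) (h1 : x ∈ typeA1 S) (h2 : x ∈ typeA T) :
    ¬ 𝐂₁ x ≤ S ∧ 𝐂₁ x ≤ T := let ⟨u, c, _⟩ := uniqIn_of_mem s t n h1 h2; ⟨c, u.le⟩
theorem exists_supports_iff (s : Mx S) (t : Mx T) (n : ¬ Conj S T) :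
    (∃ g, Supports (BG.cj g T) S) ↔ ¬ Disjoint (tA1 S) (tA T) := supports_cj_iff s t n
end CF.BG.Vp
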