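import Cfsg.Agent.Vp.P8S

/-!
The types and the supports are invariant under conjugation (for arbitrary subgroups).
-/

set_option autoImplicit false
set_option linter.unusedSectionVars false

namespace CF.BG.Vp
open CF.PF8

open Subgroup CF.BG
open CF.PF hiding cj

variable {G : Type*} [Group G] [Finite G] [MSO G] {H M U W₁ W₂ : Subgroup G} {a x y g : G}

theorem T2.cj (t : T2 M) (g : G) : T2 (BG.cj g M) := by
  obtain ⟨W₁, U, W₂, h, a, b, c, d, e, f, i⟩ := t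
  exact ⟨_, _, _, PW.cj h g, by simpa [cj_eq_bot] using a, by rwa [card_cj],
    cj_F g M ▸ TI.cj c g, (abel_cj.2 (Abel.of_comm d)).comm, by rwa [nu_cj],
    cj_comm g M M ▸ typeF_cj f g, by rw [← cj_comm, ← cj_Fh, ← cj_Fh, i]⟩

theorem T3.cj (t : T3 M) (g : G) : T3 (BG.cj g M) := by
  obtain ⟨W₁, U, W₂, h, a, b, c, d, e⟩ := t
  exact ⟨_, _, _, PW.cj h g, by simpa [cj_eq_bot] using a, by rwa [card_cj],
    cj_F g M ▸ TI.cj c g, (abel_cj.2 (Abel.of_comm d)).comm, by rwa [nu_cj]⟩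

theorem T4.cj (t : T4 M) (g : G) : T4 (BG.cj g M) := by
  obtain ⟨W₁, U, W₂, h, a, b, c, d, e⟩ := t
  exact ⟨_, _, _, PW.cj h g, by simpa [cj_eq_bot] using a, by rwa [card_cj],
    cj_F g M ▸ TI.cj c g, fun z => d (abel_cj.1 (Abel.of_comm z)).comm,
    by rwa [nu_cj]⟩

theorem t2_cj' (g : G) : T2 (cj g M) ↔ T2 M := iff_cj (P := T2) (fun _ g t => t.cj g) g
theorem t3_cj' (g : G) : T3 (cj g M) ↔ T3 M := iff_cj (P := T3) (fun _ g t => t.cj g) g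
theorem t4_cj' (g : G) : T4 (cj g M) ↔ T4 M := iff_cj (P := T4) (fun _ g t => t.cj g) g

theorem cj_core' (g : G) (M : Subgroup G) : cj g (𝐌ₛ M) = 𝐌ₛ (cj g M) := by
  by_cases t : T3 M ∨ T4 M
  · rw [core_of_t34 t, core_of_t34 (t.imp (·.cj g) (·.cj g)), cj_comm]
  · rw [core_of_not34 t, core_of_not34 (by rwa [t3_cj', t4_cj']), cj_Fh]

theorem A1_cj' : g * a * g⁻¹ ∈ 𝐀₁ (cj g M) ↔ a ∈ 𝐀₁ M := by
  rw [mem_A1, mem_A1, ← cj_core', conj_mem_cj, conj_ne_one']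

theorem A_cj' : g * a * g⁻¹ ∈ 𝐀 (cj g M) ↔ a ∈ 𝐀 M := by
  rw [mem_A, mem_A, ← PF8.inf_cent1_ne_bot, ← PF8.inf_cent1_ne_bot, ← cj_core', ← cj_comm, conj_mem_cj,
    conj_mem_cj, conj_ne_one', t1_cj', ← cj_cent1, ← cj_inf, Ne, Ne, Ne, cj_eq_bot]

end CF.BG.Vp
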