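import Cfsg.Agent.Vp.P8T

/-!
The supports `A₁(M) ⊆ A(M) ⊆ A₀(M)`, the Dade hypothesis for them, Peterfalvi (8.13)-(8.18).
-/

set_option autoImplicit false
set_option linter.unusedSectionVars false

namespace CF.BG.Vp
open CF.PF8

open Subgroup CF.BG
open CF.PF hiding cj

/-- `A(M)` -/
scoped notation (priority := high) "𝐀" => typeA
/-- `A₀(M)` -/
scoped notation (priority := high) "𝐀₀" => typeA0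
/-- `A₁(M)` -/
scoped notation (priority := high) "𝐀₁" => typeA1
/-- `R(x)` -/
scoped notation (priority := high) "𝐑" => supportR

variable {G : Type*} [Group G] [Finite G] [MSO G]
  {A B E H K L M N P S T U V W W₁ W₂ X : Subgroup G} {a x y g : G}

theorem mem_A1 : a ∈ 𝐀₁ M ↔ a ∈ 𝐌ₛ M ∧ a ≠ 1 := Iff.rfl
theorem A1_eq (M : Subgroup G) : 𝐀₁ M = (𝐌ₛ M)^# := rfl

theorem mem_A_t1 (t : PF8.T1 M) :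
    a ∈ 𝐀 M ↔ a ∈ M ∧ a ≠ 1 ∧ ∃ x ∈ 𝐅ₕ M, x ≠ 1 ∧ a * x = x * a := by
  rw [typeA, if_pos t]; rfl

theorem mem_A_not1 (t : ¬ PF8.T1 M) :
    a ∈ 𝐀 M ↔ a ∈ ⁅M, M⁆ ∧ a ≠ 1 ∧ ∃ x ∈ 𝐌ₛ M, x ≠ 1 ∧ a * x = x * a := by
  rw [typeA, if_neg t]; rfl

theorem mem_A_t2 (t : T2 M) :
    a ∈ 𝐀 M ↔ a ∈ ⁅M, M⁆ ∧ a ≠ 1 ∧ ∃ x ∈ 𝐅ₕ M, x ≠ 1 ∧ a * x = x * a := by
  rw [mem_A_not1 t.not1, t.core]

theorem mem_A : a ∈ 𝐀 M ↔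
    (a ∈ ⁅M, M⁆ ∨ (PF8.T1 M ∧ a ∈ M)) ∧ a ≠ 1 ∧ ∃ x ∈ 𝐌ₛ M, x ≠ 1 ∧ a * x = x * a := by
  by_cases t : PF8.T1 M
  · rw [mem_A_t1 t, t.coreV]
    exact and_congr_left' ⟨fun h => Or.inr ⟨t, h⟩, fun h => h.elim (der_le M ·) (·.2)⟩
  · rw [mem_A_not1 t]; simp [t]

theorem A_subset (M : Subgroup G) : 𝐀 M ⊆ M := fun _ h =>
  (mem_A.1 h).1.elim (der_le M ·) (·.2)
theorem A_subset_der (t : ¬ PF8.T1 M) : 𝐀 M ⊆ (⁅M, M⁆ : Subgroup G) := fun _ h => ((mem_A_not1 t).1 h).1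
theorem ne_one_of_A (h : a ∈ 𝐀 M) : a ≠ 1 := (mem_A.1 h).2.1
theorem A_subset_A0 (M : Subgroup G) : 𝐀 M ⊆ 𝐀₀ M := Set.subset_union_left
theorem A0_t1 (t : PF8.T1 M) : 𝐀₀ M = 𝐀 M := Set.union_eq_left.2 fun _ h => (h.1 t).elim

/-- `A(M)` is closed under non-trivial powers -/
theorem mem_A_of_zpowers (h : a ∈ 𝐀 M) (hx : x ∈ zpowers a) (h1 : x ≠ 1) : x ∈ 𝐀 M := by
  obtain ⟨k, -, y, hy, y1, c⟩ := mem_A.1 h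
  exact mem_A.2 ⟨k.imp (fun k => zpowers_le.2 k hx) (And.imp_right fun k => zpowers_le.2 k hx), h1,
    y, hy, y1, mem_cent1.1 (zpowers_le.2 (mem_cent1.2 c) hx)⟩

theorem conj_mem_A1 : ∀ g ∈ M, ∀ a ∈ 𝐀₁ M, g * a * g⁻¹ ∈ 𝐀₁ M :=
  conj_mem_sharp (core_normal8 M).norm

theorem conj_mem_A : ∀ g ∈ M, ∀ a ∈ 𝐀 M, g * a * g⁻¹ ∈ 𝐀 M := fun g hg a h => by
  obtain ⟨k, a1, y, hy, y1, c⟩ := mem_A.1 h
  refine mem_A.2 ⟨k.imp ((der_normal M).conj_mem hg) (And.imp_right ((NormalIn.refl M).conj_mem hg)),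
    conj_ne_one'.2 a1, _, (core_normal8 M).conj_mem hg hy, conj_ne_one'.2 y1, ?_⟩
  simp only [conj_mul, c]

/-- `FTtypeP_supp0_def` -/
theorem _root_.CF.PF8.PW.A0_eqV (h : PW M W₁ U W₂) : 𝐀₀ M = 𝐀 M ∪ clsup M (cycV (W₁ ⊔ W₂) W₁ W₂) := by
  rw [typeA0]
  congr 1
  ext v
  constructor
  · rintro ⟨-, W₁', U', W₂', k, m, hm, w, hw, h1, h2, rfl⟩
    obtain ⟨g, hg, rfl, rfl, rfl⟩ := h.conj k
    rw [← cj_sup] at hw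
    refine ⟨g⁻¹ * m⁻¹, M.mul_mem (M.inv_mem hg) (M.inv_mem hm), ?_⟩
    have e : g⁻¹ * m⁻¹ * (m * w * m⁻¹) * (g⁻¹ * m⁻¹)⁻¹ = g⁻¹ * w * g := by group
    rw [e]
    exact ⟨mem_cj.1 hw, fun z => h1 (mem_cj.2 z), fun z => h2 (mem_cj.2 z)⟩
  · rintro ⟨m, hm, hv⟩
    exact ⟨h.not_t1, W₁, U, W₂, h, m⁻¹, M.inv_mem hm, _, hv.1, hv.2.1, hv.2.2, by group⟩

theorem A0_cases (h : a ∈ 𝐀₀ M) :
    a ∈ 𝐀 M ∨ ∃ W₁ U W₂, PW M W₁ U W₂ ∧ a ∈ clsup M (cycV (W₁ ⊔ W₂) W₁ W₂) := by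
  refine or_iff_not_imp_left.2 fun n => ?_
  obtain ⟨-, W₁, U, W₂, k, -⟩ := h.resolve_left n
  exact ⟨W₁, U, W₂, k, ((PW.A0_eqV k).subset h).resolve_left n⟩

theorem A0_subset (M : Subgroup G) : 𝐀₀ M ⊆ M := fun _ h =>
  (A0_cases h).elim (A_subset M ·) fun ⟨_, _, _, k, h⟩ =>
    clsup_subset (fun _ hv => k.leW hv.1) h

theorem ne_one_of_A0 (h : a ∈ 𝐀₀ M) : a ≠ 1 :=
  (A0_cases h).elim ne_one_of_A fun ⟨W₁, _, _, _, x, _, h⟩ e => h.2.1 (by simp [e])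

theorem conj_mem_A0 : ∀ g ∈ M, ∀ a ∈ 𝐀₀ M, g * a * g⁻¹ ∈ 𝐀₀ M := fun g hg a h =>
  (A0_cases h).elim (fun h => Or.inl (conj_mem_A g hg a h)) fun ⟨_, _, _, k, h⟩ =>
    k.A0_eqV.superset (Or.inr (conj_mem_clsup hg h))

theorem A_eq_A1 (t : T3 M ∨ T4 M ∨ T5 M) : 𝐀 M = 𝐀₁ M := by
  ext a
  rw [mem_A_not1 (t.elim T3.not1 fun t => t.elim T4.not1 T5.not1), mem_A1, core_of_t345 t]
  exact ⟨fun h => ⟨h.1, h.2.1⟩, fun h => ⟨h.1, h.2, a, h.1, h.2, rfl⟩⟩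

theorem A_eq_der (t : T3 M ∨ T4 M ∨ T5 M) : 𝐀 M = ⁅M, M⁆^# := by
  rw [A_eq_A1 t, A1_eq, core_of_t345 t]

theorem R_of_le (c : 𝐂₁ x ≤ M) : 𝐑 M x = ⊥ := dif_neg fun h => h.1 c

theorem R_eq (c : ¬ 𝐂₁ x ≤ M) (u : UniqIn (𝐂₁ x) L) : 𝐑 M x = 𝐅ₕ L ⊓ 𝐂₁ x := by
  have k : ¬ 𝐂₁ x ≤ M ∧ ∃! L, Mx L ∧ 𝐂₁ x ≤ L := ⟨c, u.toUniq⟩
  rw [supportR, dif_pos k, u.uniq _ (Classical.choose_spec k.2.exists).1
    (Classical.choose_spec k.2.exists).2]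

theorem R_le (M : Subgroup G) (x : G) : 𝐑 M x ≤ 𝐂₁ x := by
  rw [supportR]; split_ifs; exacts [inf_le_right, bot_le]

theorem R_cj (g : G) (M : Subgroup G) (x : G) : 𝐑 (cj g M) (g * x * g⁻¹) = cj g (𝐑 M x) := by
  by_cases k : ¬ 𝐂₁ x ≤ M ∧ Uniq (𝐂₁ x)
  · obtain ⟨L, u⟩ := k.2.exists
    rw [R_eq k.1 u, R_eq (L := cj g L) (by rw [← cj_cent1, cj_le_cj]; exact k.1)
      (by rw [← cj_cent1]; exact u.cj g), cj_inf, cj_Fh, cj_cent1]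
  · have e1 : 𝐑 M x = ⊥ := dif_neg k
    rw [e1, cj_bot]
    refine dif_neg ?_
    rw [← cj_cent1, cj_le_cj]
    exact fun z => k ⟨z.1, uniq_cj.1 z.2⟩

theorem tildeOf_eq8 (M : Subgroup G) (A : Set G) : tildeOf M A = dsupp A (𝐑 M) := by
  ext g
  exact ⟨fun ⟨a, ha, r, hr, y, e⟩ => ⟨a, ha, r, hr, y⁻¹, by rw [e]; group⟩,
    fun ⟨a, ha, r, hr, y, e⟩ => ⟨a, ha, r, hr, y⁻¹, by rw [← e]; group⟩⟩

theorem dsupp_cj_subset {A B : Set G} (h : ∀ a ∈ A, g * a * g⁻¹ ∈ B) :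
    dsupp A (𝐑 M) ⊆ dsupp B (𝐑 (cj g M)) := fun z ⟨a, ha, r, hr, y, e⟩ =>
  ⟨_, h a ha, g * r * g⁻¹, by rw [R_cj]; exact conj_mem_cj.2 hr, g * y, by
    rw [conj_mul, ← e]; group⟩

theorem dsupp_cj {A B : Set G} (h : ∀ a, g * a * g⁻¹ ∈ B ↔ a ∈ A) :
    dsupp B (𝐑 (cj g M)) = dsupp A (𝐑 M) := by
  refine (dsupp_cj_subset fun a ha => (h a).2 ha).antisymm' ?_
  have := dsupp_cj_subset (M := cj g M) (g := g⁻¹) (A := B) (B := A) fun a ha =>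
    (h _).1 (by simpa [mul_assoc] using ha)
  rwa [BG.cj_inv_cj] at this

variable [BG16 G]

/-- (8.5 c) -/
theorem _root_.CF.PF8.PW.ctiV (h : PW M W₁ U W₂) (m : Mx M) : CTI ⊤ (W₁ ⊔ W₂) W₁ W₂ :=
  ⟨cti0_of_selfNorm h.selfNormalizing, m.odd' h.leW⟩

/-- `FT_primeTI_hyp` -/
theorem _root_.CF.PF8.PW.pti'V (h : PW M W₁ U W₂) (m : Mx M) : PTI M ⁅M, M⁆ (W₁ ⊔ W₂) W₁ W₂ := h.pti (mOdd M)

theorem A1_subset_A (m : Mx M) : 𝐀₁ M ⊆ 𝐀 M := fun a h =>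
  mem_A.2 ⟨Or.inl (core_le_der m h.1), h.2, a, h.1, h.2, rfl⟩
theorem A1_subset_A0 (m : Mx M) : 𝐀₁ M ⊆ 𝐀₀ M := (A1_subset_A m).trans (A_subset_A0 M)
theorem Fh_subset_A1 (M : Subgroup G) : (𝐅ₕ M)^# ⊆ 𝐀₁ M := fun _ h => ⟨Fh_le_core8 M h.1, h.2⟩
theorem Fh_subset_A (m : Mx M) : (𝐅ₕ M)^# ⊆ 𝐀 M := (Fh_subset_A1 M).trans (A1_subset_A m)
theorem Fh_subset_A0 (m : Mx M) : (𝐅ₕ M)^# ⊆ 𝐀₀ M := (Fh_subset_A m).trans (A_subset_A0 M)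

/-- `Fitting_sub_FTsupp` -/
theorem F_subset_A (m : Mx M) : (𝐅 M)^# ⊆ 𝐀 M := fun a h => by
  obtain ⟨x, hx, x1⟩ := exists_mem_ne_one ((F_nil M).inf_cent_ne_bot
    ((Fh_normal M).of_le (Fh_le_F M) (F_le M)) (Fh_ne8 m))
  refine mem_A.2 ⟨?_, h.2, x, Fh_le_core8 M hx.1, x1, mem_cent.1 hx.2 a h.1⟩
  by_cases t : PF8.T1 M
  · exact Or.inr ⟨t, F_le M h.1⟩
  · obtain ⟨_, _, _, k⟩ := exists_pw m t
    exact Or.inl (k.F_le h.1)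
theorem F_subset_A0 (m : Mx M) : (𝐅 M)^# ⊆ 𝐀₀ M := (F_subset_A m).trans (A_subset_A0 M)

/-- `FTsupp_Frobenius` -/
theorem A_frob (m : Mx M) (h : Frob (𝐅ₕ M) E M) : 𝐀 M = (𝐅ₕ M)^# := by
  refine (Fh_subset_A m).antisymm' fun a ha => ?_
  obtain ⟨a0, a1, x, hx, x1, c⟩ := (mem_A_t1 (t1_of_frob m h)).1 ha
  exact ⟨h.cent1_le hx x1 ⟨a0, mem_cent1.2 c⟩, a1⟩

theorem A0_frob (m : Mx M) (h : Frob (𝐅ₕ M) E M) : 𝐀₀ M = (𝐅ₕ M)^# := by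
  rw [A0_t1 (t1_of_frob m h), A_frob m h]

theorem A1_cj (m : Mx M) (g a : G) : g * a * g⁻¹ ∈ 𝐀₁ (cj g M) ↔ a ∈ 𝐀₁ M := by
  rw [mem_A1, mem_A1, ← cj_core m, conj_mem_cj, conj_ne_one']

theorem A_cj (m : Mx M) (g a : G) : g * a * g⁻¹ ∈ 𝐀 (cj g M) ↔ a ∈ 𝐀 M := by
  rw [mem_A, mem_A, ← cj_core m, ← cj_comm, conj_mem_cj, conj_mem_cj, conj_ne_one', t1_cj m]
  refine and_congr_right' (and_congr_right' ⟨fun ⟨x, hx, x1, c⟩ => ?_, fun ⟨x, hx, x1, c⟩ =>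
    ⟨_, conj_mem_cj.2 hx, conj_ne_one'.2 x1, by simp only [conj_mul, c]⟩⟩)
  obtain ⟨y, hy, rfl⟩ := mem_cj_iff.1 hx
  exact ⟨y, hy, conj_ne_one'.1 x1, by simpa only [conj_mul, mul_left_inj, mul_right_inj] using c⟩

theorem dsupp_A1_cj (m : Mx M) (g : G) :
    dsupp (𝐀₁ (cj g M)) (𝐑 (cj g M)) = dsupp (𝐀₁ M) (𝐑 M) := dsupp_cj (A1_cj m g)
theorem dsupp_A_cj (m : Mx M) (g : G) :
    dsupp (𝐀 (cj g M)) (𝐑 (cj g M)) = dsupp (𝐀 M) (𝐑 M) := dsupp_cj (A_cj m g)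
theorem dsupp_Fh_cj (M : Subgroup G) (g : G) :
    dsupp (𝐅ₕ (cj g M))^# (𝐑 (cj g M)) = dsupp (𝐅ₕ M)^# (𝐑 M) :=
  dsupp_cj fun a => by rw [mem_sharp, mem_sharp, ← cj_Fh, conj_mem_cj, conj_ne_one']

/-- (8.12 c) -/
theorem set_norm_le_norm_closure (B : Set G) : normalizer B ≤ 𝐍 (closure B) := fun y hy =>
  mem_norm_of_cj_le (by
    rintro _ ⟨x, hx, rfl⟩
    show y * x * y⁻¹ ∈ closure B
    refine closure_induction (fun z hz => subset_closure ((mem_set_normalizer_iff.1 hy z).1 hz))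
      (by simp) (fun u v _ _ hu hv => by simpa only [conj_mul] using mul_mem hu hv)
      (fun u _ hu => by simpa only [conj_inv] using inv_mem hu) hx)

theorem Mx.set_norm_le (m : Mx M) {B : Set G} (hB : B ⊆ M) (ha : a ∈ B) (a1 : a ≠ 1)
    (n : M ≤ normalizer B) : normalizer B ≤ M :=
  (set_norm_le_norm_closure B).trans (m.norm_le ⟨(closure_le M).2 hB,
    n.trans (set_norm_le_norm_closure B)⟩ (ne_bot_of_mem (subset_closure ha) a1))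

theorem nti_A_diff (m : Mx M) (t : PF8.T1 M ∨ T2 M) : NTI (𝐀 M \ 𝐀₁ M) ⊤ M := by
  have n : ∀ g ∈ M, ∀ a ∈ 𝐀 M \ 𝐀₁ M, g * a * g⁻¹ ∈ 𝐀 M \ 𝐀₁ M := fun g hg a ha =>
    ⟨conj_mem_A g hg a ha.1, fun z => ha.2 (by
      simpa [mul_assoc] using conj_mem_A1 _ (M.inv_mem hg) _ z)⟩
  have ti : Cfsg.IsTISubset (𝐀 M \ 𝐀₁ M) := by
    rcases t with t | t
    · obtain ⟨U, h⟩ := t.tf
      exact (BG16.s1390 M m U (Or.inl ⟨t, h.sd.isComplIn⟩)).2.2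
    · obtain ⟨_, U, _, h⟩ := t.pw
      exact (BG16.s1390 M m U (Or.inr ⟨t, h.U_compl⟩)).2.2
  refine ⟨fun a ha => A_subset M ha.1, le_top, n, fun a ha g _ hg => ?_⟩
  have k := tiIn_of_isTI ti a ha (ne_one_of_A ha.1) g hg
  exact m.set_norm_le (fun a ha => A_subset M ha.1) ha (ne_one_of_A ha.1) (mem_set_norm n) k

/-- (8.13 a) -/
theorem A0_fusion (m : Mx M) (ha : a ∈ 𝐀₀ M) (hg : g * a * g⁻¹ ∈ 𝐀₀ M) :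
    ∃ x ∈ M, x * a * x⁻¹ = g * a * g⁻¹ := (BG16.s1391 M m _ (Or.inr rfl)).1 a ha g hg

/-- (8.13 b) -/
theorem mem_A1_of_not_le (m : Mx M) (hx : x ∈ 𝐀₀ M) (c : ¬ 𝐂₁ x ≤ M) : x ∈ 𝐀₁ M :=
  ((BG16.s1391 M m _ (Or.inr rfl)).2.1 x hx c).1

/-- (8.13 b) -/
theorem exists_supp (m : Mx M) (hx : x ∈ 𝐀₀ M) (c : ¬ 𝐂₁ x ≤ M) : ∃ L, UniqIn (𝐂₁ x) L :=
  Uniq.exists ((BG16.s1391 M m _ (Or.inr rfl)).2.1 x hx c).2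

theorem cent1_le_of_A_diff (m : Mx M) (hx : x ∈ 𝐀₀ M) (h1 : x ∉ 𝐀₁ M) : 𝐂₁ x ≤ M :=
  not_not.1 fun c => h1 (mem_A1_of_not_le m hx c)

/-- the conclusions of (8.13 c) -/
structure SuppAt (M L : Subgroup G) (x : G) : Prop where
  uniq : UniqIn (𝐂₁ x) L
  sdL : SDProd (𝐅ₕ L) (M ⊓ L) L
  sdC : SDProd (𝐅ₕ L ⊓ 𝐂₁ x) (M ⊓ 𝐂₁ x) (𝐂₁ x)
  cop : ∀ y ∈ 𝐀₀ M, (♯(𝐅ₕ L)).Coprime (♯(M ⊓ 𝐂₁ y))
  memA : x ∈ 𝐀 L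
  notA1 : x ∉ 𝐀₁ L
  type : PF8.T1 L ∨ T2 L
  frob : T2 L → ∃ E, Frob (𝐅ₕ M) E M
  R_eq : 𝐑 M x = 𝐅ₕ L ⊓ 𝐂₁ x
  memA1 : x ∈ 𝐀₁ M

/-- (8.13 c) -/
theorem suppAt (m : Mx M) (hx : x ∈ 𝐀₀ M) (c : ¬ 𝐂₁ x ≤ M) (l : Mx L) (hl : 𝐂₁ x ≤ L) :
    SuppAt M L x := by
  obtain ⟨a, b, d, e, f, i, j⟩ := (BG16.s1391 M m _ (Or.inr rfl)).2.2 x hx c L l hl
  obtain ⟨L', u⟩ := exists_supp m hx c
  obtain rfl := u.uniq L l hl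
  refine ⟨u, SDProd.of_isComplIn a (inf_le_right.trans (Fh_normal L).norm),
    SDProd.of_isComplIn d (inf_le_right.trans b), e, f.1, f.2, i, fun t => ?_, R_eq c u,
    mem_A1_of_not_le m hx c⟩
  obtain ⟨E, k, k'⟩ := j t
  exact ⟨_, frob_of_kernel k (by rw [k', fittingHall_eq]) (Fh_le M)⟩

theorem exists_suppAt (m : Mx M) (hx : x ∈ 𝐀₀ M) (c : ¬ 𝐂₁ x ≤ M) : ∃ L, SuppAt M L x :=
  let ⟨L, u⟩ := exists_supp m hx c; ⟨L, suppAt m hx c u.mx u.le⟩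

/-- (8.15) -/
theorem dade_A0 (m : Mx M) : Cfsg.DadeHypothesis (𝐀₀ M) M (𝐑 M) := by
  have sd : ∀ a ∈ 𝐀₀ M, SDProd (𝐑 M a) (M ⊓ 𝐂₁ a) (𝐂₁ a) := fun a ha => by
    by_cases c : 𝐂₁ a ≤ M
    · rw [R_of_le c, inf_of_le_right c]
      exact ⟨by simp [norm_bot], bot_sup_eq _, bot_inf_eq _⟩
    · obtain ⟨L, h⟩ := exists_suppAt m ha c
      exact h.R_eq ▸ h.sdC
  refine ⟨fun h => ne_one_of_A0 h rfl, A0_subset M, conj_mem_A0, fun a ha g => A0_fusion m ha,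
    fun a _ => R_le M a, fun a ha c hc u hu => (sd a ha).normal.conj_mem hc hu,
    fun a ha => (sd a ha).inf, fun a ha => (sd a ha).sup, fun a ha b hb => ?_⟩
  by_cases c : 𝐂₁ a ≤ M
  · rw [R_of_le c]; simp
  · obtain ⟨L, h⟩ := exists_suppAt m ha c
    exact (h.cop b hb).coprime_dvd_left (card_dvd (h.R_eq.le.trans inf_le_left))

theorem dade_A (m : Mx M) : Cfsg.DadeHypothesis (𝐀 M) M (𝐑 M) :=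
  dade_mono (dade_A0 m) (A_subset_A0 M) conj_mem_A
theorem dade_A1 (m : Mx M) : Cfsg.DadeHypothesis (𝐀₁ M) M (𝐑 M) :=
  dade_mono (dade_A0 m) (A1_subset_A0 m) conj_mem_A1
theorem dade_sharp (m : Mx M) (hH : H ⊴ M) (h : H^# ⊆ 𝐀₀ M) : Cfsg.DadeHypothesis H^# M (𝐑 M) :=
  dade_mono (dade_A0 m) h (conj_mem_sharp hH.norm)
theorem dade_Fh (m : Mx M) : Cfsg.DadeHypothesis (𝐅ₕ M)^# M (𝐑 M) :=
  dade_sharp m (Fh_normal M) (Fh_subset_A0 m)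

/-- (8.15): Hypothesis (4.6) holds for `H = M_s`, `H = M_F` -/
theorem _root_.CF.PF8.PW.pdadeV (h : PW M W₁ U W₂) (m : Mx M) (h2 : W₂ ≤ H) (hs : H ≤ 𝐌ₛ M) (n : M ≤ 𝐍 H)
    {η μ : Lin W₁ → Lin W₂ → G → ℂ} {δ : Lin W₂ → ℝ} (hη : Fam ⊤ (W₁ ⊔ W₂) W₁ W₂ η)
    (hμ : PFam M ⁅M, M⁆ (W₁ ⊔ W₂) W₁ W₂ μ δ) :
    PDade M ⁅M, M⁆ H (W₁ ⊔ W₂) W₁ W₂ (𝐀 M) (𝐀₀ M) (𝐑 M) η μ δ :=
  ⟨hμ, hη, h2, hs.trans (core_le_der m), n, dade_A0 m, h.A0_eqV, A_subset_der h.not_t1,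
    fun x hx x1 _ ha a1 c => (mem_A_not1 h.not_t1).2 ⟨ha, a1, x, hs hx, x1, c⟩⟩

theorem nti_of_cent1 (m : Mx M) {A : Set G} (hA : A ⊆ 𝐀₀ M)
    (n : ∀ g ∈ M, ∀ a ∈ A, g * a * g⁻¹ ∈ A) (c : ∀ a ∈ A, 𝐂₁ a ≤ M) : NTI A ⊤ M :=
  nti_of_dade (dade_mono (dade_A0 m) hA n) fun a ha => R_of_le (c a ha)

theorem T2.cent1_le (t : T2 M) (m : Mx M) (hx : x ∈ 𝐀₀ M) : 𝐂₁ x ≤ M := by
  by_contra c
  have k := mem_A1_of_not_le m hx c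
  obtain ⟨_, _, _, h⟩ := t.pw
  exact c (((h.of_t2V t).2.2.1.cent1_le (Fh_le_F M (t.core ▸ k.1)) k.2).trans (norm_F_eq m).le)

/-- (8.16) -/
theorem T2.nti_A0 (t : T2 M) (m : Mx M) : NTI (𝐀₀ M) ⊤ M :=
  nti_of_cent1 m subset_rfl conj_mem_A0 fun _ => t.cent1_le m
theorem T2.nti_A (t : T2 M) (m : Mx M) : NTI (𝐀 M) ⊤ M :=
  (t.nti_A0 m).mono (A_subset_A0 M) conj_mem_A
theorem T2.nti_A1 (t : T2 M) (m : Mx M) : NTI (𝐀₁ M) ⊤ M :=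
  (t.nti_A0 m).mono (A1_subset_A0 m) conj_mem_A1

theorem _root_.CF.PF8.PW.nti_FV (h : PW M W₁ U W₂) (m : Mx M) (u : U ≠ ⊥) : NTI (𝐅 M)^# ⊤ M :=
  (h.of_t234V (h.t234V m u)).2.2.nti (norm_F_eq m)

/-- (8.17 a) -/
theorem exists_dvd_core8 {p : ℕ} (hp : p.Prime) (h : p ∣ Nat.card G) (w : p ∈ 𝛡 G) :
    ∃ M : Subgroup G, Mx M ∧ p ∣ ♯(𝐌ₛ M) := by
  obtain ⟨M, m, k⟩ := (BG16.s1378 (G := G)).1 p hp h w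
  exact ⟨M, m, (hall_core m).prime_dvd hp k (dvd_of_sigma k)⟩

/-- (8.17 a) -/
theorem coprime_core (m : Mx M) (l : Mx L) (h : ¬ Conj M L) : (♯(𝐌ₛ M)).Coprime (♯(𝐌ₛ L)) :=
  coprime_of_primes fun p hp a b =>
    h ((BG16.s1378 (G := G)).2 M L m l ⟨p, (hall_core m).pi p hp a, (hall_core l).pi p hp b⟩)

theorem coprime_Fh (m : Mx M) (l : Mx L) (h : ¬ Conj M L) : (♯(𝐅ₕ M)).Coprime (♯(𝐅ₕ L)) :=
  coprime_mono (coprime_core m l h) (Fh_le_core8 M) (Fh_le_core8 L)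

theorem tilde_eq (m : Mx M) :
    tildeOf M ((sigmaCore M : Set G) \ {1}) = dsupp (𝐀₁ M) (𝐑 M) := by
  rw [tildeOf_eq8, A1_eq, core_eq m, sigmaCore_eq]

/-- (8.17 c) -/
theorem disjoint_A1 (m : Mx M) (l : Mx L) (h : ¬ Conj M L) :
    Disjoint (dsupp (𝐀₁ M) (𝐑 M)) (dsupp (𝐀₁ L) (𝐑 L)) := by
  rw [← tilde_eq m, ← tilde_eq l, Set.disjoint_iff_inter_eq_empty]
  exact BG16.s1379 (G := G) M L m l fun g e => h ⟨g, e⟩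

theorem disjoint_Fh (m : Mx M) (l : Mx L) (h : ¬ Conj M L) :
    Disjoint (dsupp (𝐅ₕ M)^# (𝐑 M)) (dsupp (𝐅ₕ L)^# (𝐑 L)) :=
  (disjoint_A1 m l h).mono (dsupp_mono (Fh_subset_A1 M) _) (dsupp_mono (Fh_subset_A1 L) _)

/-- (8.18 a) -/
theorem uniqIn_of_mem (s : Mx S) (t : Mx T) (h : ¬ Conj S T) (hS : x ∈ 𝐀₁ S) (hT : x ∈ 𝐀 T) :
    UniqIn (𝐂₁ x) T ∧ ¬ 𝐂₁ x ≤ S ∧ x ∉ 𝐀₁ T := by
  have cop := coprime_core s t h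
  have n1 : x ∉ 𝐀₁ T := fun k => hS.2 (eq_one_of_coprime cop hS.1 k.1)
  have ty : PF8.T1 T ∨ T2 T := (or_assoc.2 (type_cases t)).resolve_right fun k => n1 (A_eq_A1 k ▸ hT)
  have co : 𝐌ₛ T = 𝐅ₕ T := ty.elim T1.coreV T2.core
  have px : PiElt (piOf (♯(𝐅ₕ T)))ᶜ x :=
    piNat_compl_piOf.2 (co ▸ cop.coprime_dvd_left (orderOf_dvd_card' hS.1))
  obtain ⟨k, -, y, hy, y1, c⟩ := mem_A.1 hT
  have c' : 𝐅ₕ T ⊓ 𝐂₁ x ≠ ⊥ := ne_bot_of_mem (x := y) ⟨co ▸ hy, mem_cent1.2 c.symm⟩ y1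
  have u : UniqIn (𝐂₁ x) T := by
    rcases ty with ty | ty
    · obtain ⟨U, hU, le⟩ := t.sol.exists_hall_le (zpowers_le.2 (A_subset T hT)) px.zpowers
      exact uniqIn_cent1 t (Or.inl ⟨ty, (Fh_hall T).sdprod (Fh_normal T).norm hU⟩)
        (le (mem_zpowers x)) hS.2 c'
    · obtain ⟨U, hU, le⟩ := (t.sol' (der_le T)).exists_hall_le
        (zpowers_le.2 (A_subset_der ty.not1 hT)) px.zpowers
      exact uniqIn_cent1 t (Or.inr ⟨ty, ((Fh_hall T).of_le (Fh_le_der t) (der_le T)).sdprod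
        ((der_le T).trans (Fh_normal T).norm) hU⟩) (le (mem_zpowers x)) hS.2 c'
  exact ⟨u, fun k => h (u.uniq S s k ▸ Conj.refl S), n1⟩

theorem suppAt_of_mem (s : Mx S) (t : Mx T) (h : ¬ Conj S T) (hS : x ∈ 𝐀₁ S) (hT : x ∈ 𝐀 T) :
    SuppAt S T x :=
  let ⟨u, c, _⟩ := uniqIn_of_mem s t h hS hT; suppAt s (A1_subset_A0 s hS) c t u.le

/-- (8.18 a) -/
theorem supports_iff8 (s : Mx S) (t : Mx T) (h : ¬ Conj S T) :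
    Supports T S ↔ (𝐀₁ S ∩ 𝐀 T).Nonempty :=
  ⟨fun ⟨_, x, hx, c, l⟩ => let k := suppAt s hx c t l; ⟨x, k.memA1, k.memA⟩,
    fun ⟨x, hS, hT⟩ => let ⟨u, c, _⟩ := uniqIn_of_mem s t h hS hT;
      ⟨t, x, A1_subset_A0 s hS, c, u.le⟩⟩

/-- (8.18 b) -/
theorem exists_mem_of_not_disjoint (s : Mx S) (t : Mx T) (h : ¬ Conj S T)
    (d : ¬ Disjoint (dsupp (𝐀₁ S) (𝐑 S)) (dsupp (𝐀 T) (𝐑 T))) :
    ∃ g x, x ∈ 𝐀₁ S ∧ x ∈ 𝐀 (cj g T) := by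
  obtain ⟨z, hz, y, hy, r', hr', b, e'⟩ := Set.not_disjoint_iff.1 d
  have n1 : y ∉ 𝐀₁ T := fun k => Set.disjoint_left.1 (disjoint_A1 s t h) hz ⟨y, k, r', hr', b, e'⟩
  rw [R_of_le (cent1_le_of_A_diff t (A_subset_A0 T hy) n1), mem_bot] at hr'
  obtain ⟨x, hx, r, hr, a, e⟩ := hz
  have D := dade_A1 s
  have k : x * r ∈ 𝐀 (cj (a * b⁻¹) T) := by
    have := (A_cj t (a * b⁻¹) y).2 hy
    rwa [show y = b * z * b⁻¹ by rw [e', hr', mul_one],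
      show a * b⁻¹ * (b * z * b⁻¹) * (a * b⁻¹)⁻¹ = a * z * a⁻¹ by group, e] at this
  exact ⟨_, x, hx, mem_A_of_zpowers k (mem_zpowers_mul_left (dade_commute D hx hr)
    ((dade_orderOf_coprime D hx hx).coprime_dvd_right (orderOf_dvd_card' hr))) hx.2⟩

/-- (8.18 b) -/
theorem supports_cj_iff (s : Mx S) (t : Mx T) (h : ¬ Conj S T) : (∃ g, Supports (cj g T) S) ↔
    ¬ Disjoint (dsupp (𝐀₁ S) (𝐑 S)) (dsupp (𝐀 T) (𝐑 T)) := by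
  refine ⟨fun ⟨g, k⟩ => ?_, fun d => ?_⟩
  · obtain ⟨x, a, b⟩ := (supports_iff8 s (t.cj g) (conj_cj_right.not.2 h)).1 k
    exact Set.not_disjoint_iff.2 ⟨x, subset_dsupp a, dsupp_A_cj t g ▸ subset_dsupp b⟩
  · obtain ⟨g, x, k⟩ := exists_mem_of_not_disjoint s t h d
    exact ⟨g, (supports_iff8 s (t.cj g) (conj_cj_right.not.2 h)).2 ⟨x, k⟩⟩

end CF.BG.Vp
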