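import Cfsg.Agent.Vp.Ty

/-!
The five types of maximal subgroups (Peterfalvi (8.6)-(8.12)), under `[BG16 G]`.
-/

set_option autoImplicit false
set_option linter.unusedSectionVars false

namespace CF.BG.Vp
open CF.PF8

open Subgroup CF.BG

variable {G : Type*} [Group G] [Finite G] [MSO G]

/-- type II -/
abbrev T2 (M : Subgroup G) : Prop := IsOfTypeII M
/-- type III -/
abbrev T3 (M : Subgroup G) : Prop := IsOfTypeIII M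
/-- type IV -/
abbrev T4 (M : Subgroup G) : Prop := IsOfTypeIV M
/-- the standard factorisation `M = K U M_σ` -/
abbrev SD (M K U : Subgroup G) : Prop := IsSigmaDecomposition M K U

/-- `M_s` -/
scoped notation (priority := high) "𝐌ₛ" => typeCore

variable {A B H K L M N P S T U V W W₁ W₂ U' W₁' W₂' X : Subgroup G} {x y g : G}

theorem T2.pw (t : T2 M) : ∃ W₁ U W₂, PW M W₁ U W₂ := let ⟨a, b, c, h, _⟩ := t; ⟨a, b, c, h⟩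
theorem T3.pw (t : T3 M) : ∃ W₁ U W₂, PW M W₁ U W₂ := let ⟨a, b, c, h, _⟩ := t; ⟨a, b, c, h⟩
theorem T4.pw (t : T4 M) : ∃ W₁ U W₂, PW M W₁ U W₂ := let ⟨a, b, c, h, _⟩ := t; ⟨a, b, c, h⟩

theorem nu_cj : NU (cj g M) (cj g U) ↔ NU M U := by
  rw [NU, NU, ← cj_norm, cj_le_cj, Pw, piGrp_cj]
theorem nu_cj_of_mem (hg : g ∈ M) : NU M (cj g U) ↔ NU M U := by
  rw [← nu_cj (g := g) (M := M) (U := U), BG.cj_of_mem hg]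
theorem Mx.not_nu_bot (m : Mx M) : ¬ NU M ⊥ := fun n =>
  m.ne_top' (by have := n.1; rwa [norm_bot, top_le_iff] at this)

namespace PW

theorem _root_.CF.PF8.PW.of_t2V (h : PW M W₁ U W₂) (t : T2 M) : U ≠ ⊥ ∧ (♯W₁).Prime ∧ TI (𝐅 M) ∧ Abel U ∧
    ¬ NU M U ∧ TF ⁅M, M⁆ U ∧ 𝐅ₕ ⁅M, M⁆ = 𝐅ₕ M := by
  obtain ⟨W₁', U', W₂', k, a, b, c, d, e, f, i⟩ := t
  obtain ⟨g, hg, rfl, rfl, rfl⟩ := PW.conj k h
  obtain ⟨V, hV⟩ := TF.of_typeF f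
  refine ⟨by simpa [cj_eq_bot] using a, by rwa [card_cj], c, abel_cj.2 (Abel.of_comm d),
    fun n => e ?_, hV.of_sd h.solD (i ▸ h.sdD), i⟩
  exact (nu_cj_of_mem hg).1 n

theorem _root_.CF.PF8.PW.of_t3V (h : PW M W₁ U W₂) (t : T3 M) : U ≠ ⊥ ∧ (♯W₁).Prime ∧ TI (𝐅 M) ∧ Abel U ∧
    NU M U := by
  obtain ⟨W₁', U', W₂', k, a, b, c, d, e⟩ := t
  obtain ⟨g, hg, rfl, rfl, rfl⟩ := PW.conj k h
  exact ⟨by simpa [cj_eq_bot] using a, by rwa [card_cj], c, abel_cj.2 (Abel.of_comm d),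
    (nu_cj_of_mem hg).2 e⟩

theorem _root_.CF.PF8.PW.of_t4V (h : PW M W₁ U W₂) (t : T4 M) : U ≠ ⊥ ∧ (♯W₁).Prime ∧ TI (𝐅 M) ∧ ¬ Abel U ∧
    NU M U := by
  obtain ⟨W₁', U', W₂', k, a, b, c, d, e⟩ := t
  obtain ⟨g, hg, rfl, rfl, rfl⟩ := PW.conj k h
  exact ⟨by simpa [cj_eq_bot] using a, by rwa [card_cj], c, fun z => d (abel_cj.1 z).comm,
    (nu_cj_of_mem hg).2 e⟩

theorem _root_.CF.PF8.PW.of_t34V (h : PW M W₁ U W₂) (t : T3 M ∨ T4 M) : U ≠ ⊥ ∧ (♯W₁).Prime ∧ TI (𝐅 M) ∧ NU M U :=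
  t.elim (fun t => let ⟨a, b, c, _, d⟩ := h.of_t3V t; ⟨a, b, c, d⟩)
    fun t => let ⟨a, b, c, _, d⟩ := h.of_t4V t; ⟨a, b, c, d⟩

theorem _root_.CF.PF8.PW.of_t234V (h : PW M W₁ U W₂) (t : T2 M ∨ T3 M ∨ T4 M) : U ≠ ⊥ ∧ (♯W₁).Prime ∧ TI (𝐅 M) :=
  t.elim (fun t => let ⟨a, b, c, _⟩ := h.of_t2V t; ⟨a, b, c⟩)
    fun t => let ⟨a, b, c, _⟩ := h.of_t34V t; ⟨a, b, c⟩

end PW

theorem T2.not1 (t : T2 M) : ¬ PF8.T1 M := let ⟨_, _, _, h⟩ := t.pw; h.not_t1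
theorem T3.not1 (t : T3 M) : ¬ PF8.T1 M := let ⟨_, _, _, h⟩ := t.pw; h.not_t1
theorem T4.not1 (t : T4 M) : ¬ PF8.T1 M := let ⟨_, _, _, h⟩ := t.pw; h.not_t1
theorem T2.not34 (t : T2 M) : ¬ (T3 M ∨ T4 M) := fun k =>
  let ⟨_, _, _, h⟩ := t.pw; (h.of_t2V t).2.2.2.2.1 (h.of_t34V k).2.2.2
theorem T2.not3 (t : T2 M) : ¬ T3 M := fun k => t.not34 (Or.inl k)
theorem T2.not4 (t : T2 M) : ¬ T4 M := fun k => t.not34 (Or.inr k)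
theorem T3.not4 (t : T3 M) : ¬ T4 M := fun k =>
  let ⟨_, _, _, h⟩ := t.pw; (h.of_t4V k).2.2.2.1 (h.of_t3V t).2.2.2.1
theorem _root_.CF.PF8.T5.not234V (t : T5 M) : ¬ (T2 M ∨ T3 M ∨ T4 M) := fun k =>
  let ⟨_, _, _, h⟩ := t.pw; (h.of_t234V k).1 (h.of_t5 t).1
theorem _root_.CF.PF8.T5.not2V (t : T5 M) : ¬ T2 M := fun k => t.not234V (Or.inl k)
theorem _root_.CF.PF8.T5.not34V (t : T5 M) : ¬ (T3 M ∨ T4 M) := fun k => t.not234V (Or.inr k)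
theorem _root_.CF.PF8.T1.not34V (t : PF8.T1 M) : ¬ (T3 M ∨ T4 M) := fun k => k.elim (·.not1 t) (·.not1 t)

theorem core_of_t34 (t : T3 M ∨ T4 M) : 𝐌ₛ M = ⁅M, M⁆ := if_pos t
theorem core_of_not34 (t : ¬ (T3 M ∨ T4 M)) : 𝐌ₛ M = 𝐅ₕ M := if_neg t
theorem _root_.CF.PF8.T1.coreV (t : PF8.T1 M) : 𝐌ₛ M = 𝐅ₕ M := core_of_not34 t.not34V
theorem T2.core (t : T2 M) : 𝐌ₛ M = 𝐅ₕ M := core_of_not34 t.not34
theorem _root_.CF.PF8.T5.coreV (t : T5 M) : 𝐌ₛ M = 𝐅ₕ M := core_of_not34 t.not34V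
theorem core_of_t345 (t : T3 M ∨ T4 M ∨ T5 M) : 𝐌ₛ M = ⁅M, M⁆ :=
  (or_assoc.2 t).elim core_of_t34 fun t => t.coreV.trans t.Fh_eq

theorem core_normal8 (M : Subgroup G) : 𝐌ₛ M ⊴ M := by
  by_cases t : T3 M ∨ T4 M
  · rw [core_of_t34 t]; exact der_normal M
  · rw [core_of_not34 t]; exact Fh_normal M

theorem core_le (M : Subgroup G) : 𝐌ₛ M ≤ M := (core_normal8 M).le

theorem Fh_le_core8 (M : Subgroup G) : 𝐅ₕ M ≤ 𝐌ₛ M := by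
  by_cases t : T3 M ∨ T4 M
  · obtain ⟨_, _, _, h⟩ := t.elim T3.pw T4.pw
    rw [core_of_t34 t]; exact h.leFD
  · rw [core_of_not34 t]

theorem _root_.CF.PF8.PW.le₂coreV (h : PW M W₁ U W₂) : W₂ ≤ 𝐌ₛ M := h.le₂F.trans (Fh_le_core8 M)

variable [BG16 G]

theorem hall_Ms (m : Mx M) : Hall (𝛔 M) (Mσ M) M := hall_iff.2 (BG16.s1350 M m).1
theorem hall_Ms_top (m : Mx M) : Hall (𝛔 M) (Mσ M) ⊤ := hall_top_iff.2 (BG16.s1350 M m).2.1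
theorem Fh_ne8 (m : Mx M) : 𝐅ₕ M ≠ ⊥ := (BG16.s1355 M m).1
theorem Fh_le_Ms (m : Mx M) : 𝐅ₕ M ≤ Mσ M := (BG16.s1355 M m).2.1
theorem Ms_le_der (m : Mx M) : Mσ M ≤ ⁅M, M⁆ := (BG16.s1355 M m).2.2.1
theorem Fh_le_der (m : Mx M) : 𝐅ₕ M ≤ ⁅M, M⁆ := (Fh_le_Ms m).trans (Ms_le_der m)
theorem der_lt (m : Mx M) : ⁅M, M⁆ < M := (BG16.s1355 M m).2.2.2.1
theorem DD_le_F (m : Mx M) : ⁅⁅M, M⁆, ⁅M, M⁆⁆ ≤ 𝐅 M := (BG16.s1356 M m).1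
theorem F_eq (m : Mx M) : 𝐅 M = (M ⊓ 𝐂 (𝐅ₕ M)) ⊔ 𝐅ₕ M := (BG16.s1356 M m).2.1
theorem norm_Fh_eq (m : Mx M) : 𝐍 (𝐅ₕ M) = M := m.norm_eq (Fh_normal M) (Fh_ne8 m)
theorem norm_F_eq (m : Mx M) : 𝐍 (𝐅 M) = M := m.norm_eq (F_normal M) m.F_ne_bot

theorem exists_sd_of (m : Mx M) (k : Hall (𝛋 M) K M) : ∃ U, SD M K U :=
  (BG16.s1352 M m K ((BG16.s1351 M m).2 K (hall_iff.1 k)) (hall_iff.1 k)).1

theorem exists_sd (m : Mx M) : ∃ K U, SD M K U :=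
  let ⟨K, k⟩ := (BG16.s1351 M m).1; ⟨K, exists_sd_of m (hall_iff.2 k)⟩

namespace SD

theorem hallK (h : SD M K U) : Hall (𝛋 M) K M := hall_iff.2 h.hall
theorem leU (h : SD M K U) : U ≤ M := h.compl.1

theorem piU (h : SD M K U) (m : Mx M) : PiGrp (𝛔 M)ᶜ U ∧ PiGrp (𝛋 M)ᶜ U := by
  have e := complIn_relIndex h.compl
  exact ⟨by rw [PiGrp, ← e]; exact (hall_Ms m).idx_of_le le_sup_right,
    by rw [PiGrp, ← e]; exact h.hallK.idx_of_le le_sup_left⟩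

theorem ne_bot (h : SD M K U) (m : Mx M) (k : K = ⊥) : U ≠ ⊥ := fun u => by
  have e := complIn_sup h.compl
  rw [k, u, bot_sup_eq, bot_sup_eq] at e
  exact ((Ms_le_der m).trans_lt (der_lt m)).ne e

theorem der_eq (h : SD M K U) (m : Mx M) (k : K ≠ ⊥) : ⁅M, M⁆ = U ⊔ Mσ M :=
  (BG16.s1365 M m K U h k).1

theorem sdK (h : SD M K U) (m : Mx M) (k : K ≠ ⊥) : SDProd ⁅M, M⁆ K M := by
  refine SDProd.of_normal (der_normal M) ?_ (PiGrp.inf_eq_bot' ?_ h.hallK.pi)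
  · rw [h.der_eq m k, sup_assoc, sup_comm _ K]; exact complIn_sup h.compl
  · rw [h.der_eq m k]
    exact (h.piU m).2.sup ((O_pi _ _).mono fun p hp hk => kappa_sigma' hk hp)
      (Or.inl (h.leU.trans (O_normal _ _).norm))

theorem t1_iff (h : SD M K U) (m : Mx M) : PF8.T1 M ↔ K = ⊥ :=
  (BG16.s1380 M m K U h).trans ⟨fun a => a.1, fun a => ⟨a, h.ne_bot m a⟩⟩

end SD

theorem type_cases (m : Mx M) : PF8.T1 M ∨ T2 M ∨ T3 M ∨ T4 M ∨ T5 M := by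
  obtain ⟨K, U, h⟩ := exists_sd m
  by_cases k : K = ⊥
  · exact Or.inl ((h.t1_iff m).2 k)
  by_cases u : U = ⊥
  · by_cases f : 𝐅ₕ M = Mσ M
    · exact Or.inr (Or.inr (Or.inr (Or.inr ((BG16.s1383 M m K U h).2 ⟨k, u, f⟩))))
    · exact Or.inr (Or.inr (((BG16.s1382 M m K U h).2 ⟨k, u, f⟩).imp_right Or.inl))
  · exact Or.inr (Or.inl ((BG16.s1381 M m K U h).2 ⟨k, u⟩))

theorem typeP_cases (m : Mx M) (t : ¬ PF8.T1 M) : T2 M ∨ T3 M ∨ T4 M ∨ T5 M :=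
  (type_cases m).resolve_left t

/-- `FTtypeP_witness` -/
theorem exists_pw (m : Mx M) (t : ¬ PF8.T1 M) : ∃ W₁ U W₂, PW M W₁ U W₂ :=
  (typeP_cases m t).elim T2.pw fun k => k.elim T3.pw fun k => k.elim T4.pw T5.pw

theorem t1_iff (m : Mx M) : PF8.T1 M ↔ 𝛋 M = ∅ := by
  obtain ⟨K, U, h⟩ := exists_sd m
  rw [h.t1_iff m, ← not_iff_not, ← Ne, h.hallK.kappa_ne_bot_iffV, Set.nonempty_iff_ne_empty]

theorem t34_iff (m : Mx M) : (T3 M ∨ T4 M) ↔ 𝐅ₕ M ≠ Mσ M := by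
  obtain ⟨K, U, h⟩ := exists_sd m
  refine (BG16.s1382 M m K U h).trans ⟨fun a => a.2.2, fun a => ?_⟩
  obtain ⟨u, -, k⟩ := BG16.s1357 M m K U h a
  exact ⟨ne_bot_of_prime_card k, u, a⟩

theorem core_eq (m : Mx M) : 𝐌ₛ M = Mσ M := by
  by_cases t : T3 M ∨ T4 M
  · obtain ⟨K, U, h⟩ := exists_sd m
    obtain ⟨k, u, -⟩ := (BG16.s1382 M m K U h).1 t
    rw [core_of_t34 t, h.der_eq m k, u, bot_sup_eq]
  · rw [core_of_not34 t]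
    exact not_not.1 ((t34_iff m).not.1 t)

theorem core_le_der (m : Mx M) : 𝐌ₛ M ≤ ⁅M, M⁆ := core_eq m ▸ Ms_le_der m
theorem core_ne (m : Mx M) : 𝐌ₛ M ≠ ⊥ := ne_bot_mono (Fh_ne8 m) (Fh_le_core8 M)
theorem norm_core_eq (m : Mx M) : 𝐍 (𝐌ₛ M) = M := m.norm_eq (core_normal8 M) (core_ne m)
theorem hall_core (m : Mx M) : Hall (𝛔 M) (𝐌ₛ M) M := core_eq m ▸ hall_Ms m
theorem hall_core_top (m : Mx M) : Hall (𝛔 M) (𝐌ₛ M) ⊤ := core_eq m ▸ hall_Ms_top m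

theorem t5_iff (m : Mx M) : T5 M ↔ ¬ PF8.T1 M ∧ 𝐅ₕ M = ⁅M, M⁆ := by
  refine ⟨fun t => ⟨t.not1, t.Fh_eq⟩, fun ⟨t, e⟩ => ?_⟩
  obtain ⟨_, _, _, h⟩ := exists_pw m t
  have := typeP_cases m t
  rw [← or_assoc, ← or_assoc, or_assoc (a := T2 M)] at this
  exact this.resolve_left fun k => (h.of_t234V k).1 (h.eq_bot_iff.2 e)

theorem t1_cj (m : Mx M) (g : G) : PF8.T1 (cj g M) ↔ PF8.T1 M := by
  rw [t1_iff m, t1_iff (m.cj g), kappa_cj]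
theorem t34_cj (m : Mx M) (g : G) : (T3 (cj g M) ∨ T4 (cj g M)) ↔ (T3 M ∨ T4 M) := by
  rw [t34_iff m, t34_iff (m.cj g), ← cj_Fh, ← cj_Ms, Ne, cj_inj]
theorem t5_cj (m : Mx M) (g : G) : T5 (cj g M) ↔ T5 M := by
  rw [t5_iff m, t5_iff (m.cj g), t1_cj m, ← cj_comm, ← cj_Fh, cj_inj]
theorem cj_core (m : Mx M) (g : G) : cj g (𝐌ₛ M) = 𝐌ₛ (cj g M) := by
  rw [core_eq m, core_eq (m.cj g), cj_Ms]

/-- `FT_Frobenius_type1` -/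
theorem t1_of_tf (m : Mx M) (h : TF M U) : PF8.T1 M :=
  not_not.1 fun t => let ⟨_, _, _, k⟩ := exists_pw m t; k.not_TF h

theorem t1_of_frob (m : Mx M) (h : Frob (𝐅ₕ M) U M) : PF8.T1 M := t1_of_tf m (TF.of_frob h)

namespace PW

theorem _root_.CF.PF8.PW.casesV (h : PW M W₁ U W₂) (m : Mx M) : T2 M ∨ T3 M ∨ T4 M ∨ T5 M := typeP_cases m h.not_t1

theorem _root_.CF.PF8.PW.t5_iffV (h : PW M W₁ U W₂) (m : Mx M) : T5 M ↔ U = ⊥ := by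
  rw [t5_iff m, h.eq_bot_iff]; exact and_iff_right h.not_t1

theorem _root_.CF.PF8.PW.t234V (h : PW M W₁ U W₂) (m : Mx M) (u : U ≠ ⊥) : T2 M ∨ T3 M ∨ T4 M :=
  (h.casesV m).imp_right (Or.imp_right fun k => k.resolve_right fun t => u ((h.t5_iffV m).1 t))

theorem _root_.CF.PF8.PW.t34_iffV (h : PW M W₁ U W₂) (m : Mx M) : (T3 M ∨ T4 M) ↔ NU M U := by
  refine ⟨fun t => (h.of_t34V t).2.2.2, fun n => (h.t234V m ?_).resolve_left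
    fun t => (h.of_t2V t).2.2.2.2.1 n⟩
  rintro rfl
  exact m.not_nu_bot n

theorem _root_.CF.PF8.PW.t2_iffV (h : PW M W₁ U W₂) (m : Mx M) : T2 M ↔ U ≠ ⊥ ∧ ¬ NU M U :=
  ⟨fun t => ⟨(h.of_t2V t).1, (h.of_t2V t).2.2.2.2.1⟩,
    fun ⟨u, n⟩ => (h.t234V m u).resolve_right fun t => n (h.of_t34V t).2.2.2⟩

theorem _root_.CF.PF8.PW.hall_kappaV (h : PW M W₁ U W₂) (m : Mx M) : Hall (𝛋 M) W₁ M := by
  obtain ⟨K, V, k⟩ := exists_sd m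
  have k1 : K ≠ ⊥ := fun e => h.not_t1 ((k.t1_iff m).2 e)
  exact k.hallK.of_card h.le₁ (h.relIndex_der.symm.trans (k.sdK m k1).relIndex_left)

theorem _root_.CF.PF8.PW.exists_sdV (h : PW M W₁ U W₂) (m : Mx M) : ∃ V, SD M W₁ V := exists_sd_of m (h.hall_kappaV m)

theorem _root_.CF.PF8.PW.core_centV (h : PW M W₁ U W₂) (m : Mx M) : 𝐌ₛ M ⊓ 𝐂 W₁ = W₂ :=
  h.cent_of_le h.le₂coreV (core_le_der m)

theorem _root_.CF.PF8.PW.Ms_centV (h : PW M W₁ U W₂) (m : Mx M) : sigmaCore M ⊓ 𝐂 W₁ = W₂ := by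
  rw [sigmaCore_eq, ← core_eq m, h.core_centV m]

/-- `W₂` has prime order unless `M` is of type II -/
theorem _root_.CF.PF8.PW.prime₂V (h : PW M W₁ U W₂) (m : Mx M) (t : ¬ T2 M) : (♯W₂).Prime := by
  obtain ⟨V, k⟩ := h.exists_sdV m
  have := BG16.s1373 M m W₁ V k h.ne₁
    (not_not.1 fun v => t ((BG16.s1381 M m W₁ V k).2 ⟨h.ne₁, v⟩))
  rwa [h.Ms_centV m] at this

theorem _root_.CF.PF8.PW.of_hallV (h : PW M W₁ U W₂) (m : Mx M) (k : Hall (𝛋 M) K M) :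
    ∃ V, PW M K V (𝐌ₛ M ⊓ 𝐂 K) := by
  obtain ⟨g, hg, rfl⟩ := (h.hall_kappaV m).conj h.sol k
  have h' := h.cj_of_mem hg
  exact ⟨_, (h'.core_centV m).symm ▸ h'⟩

end PW

/-- (8.11) -/
theorem hall_Fh_top (m : Mx M) : Hall (piOf (♯(𝐅ₕ M))) (𝐅ₕ M) ⊤ :=
  hall_of_coprime le_top (by rw [relIndex_top_right]; exact (BG16.s1389 M m).2.1)

/-- (8.12 a) -/
theorem syl_abel (m : Mx M) (h : (PF8.T1 M ∧ SDProd (𝐅ₕ M) U M) ∨ (T2 M ∧ SDProd (𝐅ₕ M) U ⁅M, M⁆))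
    {p : ℕ} (s : Syl p P U) : Abel P ∧ pRank p P ≤ 2 := by
  by_cases hp : p.Prime
  · have := Fact.mk hp
    obtain ⟨Q, rfl⟩ := s.exists_sylow
    obtain ⟨a, b⟩ := (BG16.s1390 M m U (h.imp (And.imp_right SDProd.isComplIn)
      (And.imp_right SDProd.isComplIn))).1 p hp Q
    exact ⟨(Abel.of_comm a).map _, by
      rw [pRank_map p _ (Subgroup.subtype_injective _)]; exact (pRankLE_iff hp).1 b⟩
  · rw [piGrp_eq_bot_of_not_prime hp s.pi]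
    exact ⟨abel_bot, (cyc_bot.pRank_le p).trans one_le_two⟩

/-- (8.12 b) -/
theorem uniqIn_cent_set (m : Mx M)
    (h : (PF8.T1 M ∧ SDProd (𝐅ₕ M) U M) ∨ (T2 M ∧ SDProd (𝐅ₕ M) U ⁅M, M⁆)) {X : Set G}
    (hX : X ⊆ (U : Set G) \ {1}) (ne : X.Nonempty) (c : 𝐅ₕ M ⊓ centralizer X ≠ ⊥) :
    UniqIn (centralizer X) M :=
  (uniqIn_iff m).2 ((BG16.s1390 M m U (h.imp (And.imp_right SDProd.isComplIn)
      (And.imp_right SDProd.isComplIn))).2.1 X hX ne c)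

theorem uniqIn_cent1 (m : Mx M)
    (h : (PF8.T1 M ∧ SDProd (𝐅ₕ M) U M) ∨ (T2 M ∧ SDProd (𝐅ₕ M) U ⁅M, M⁆)) (hx : x ∈ U) (h1 : x ≠ 1)
    (c : 𝐅ₕ M ⊓ 𝐂₁ x ≠ ⊥) : UniqIn (𝐂₁ x) M :=
  uniqIn_cent_set m h (by rintro _ rfl; exact ⟨hx, h1⟩) (Set.singleton_nonempty x) c

theorem uniqIn_cent (m : Mx M)
    (h : (PF8.T1 M ∧ SDProd (𝐅ₕ M) U M) ∨ (T2 M ∧ SDProd (𝐅ₕ M) U ⁅M, M⁆)) (hX : X ≤ U) (h1 : X ≠ ⊥)
    (c : 𝐅ₕ M ⊓ 𝐂 X ≠ ⊥) : UniqIn (𝐂 X) M := by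
  have e : centralizer ((X : Set G) \ {1}) = 𝐂 X := by
    refine le_antisymm (fun z hz => mem_cent.2 fun y hy => ?_) (centralizer_le Set.sdiff_subset)
    by_cases y1 : y = 1
    · simp [y1]
    · exact mem_centralizer_iff.1 hz y ⟨hy, y1⟩
  obtain ⟨x, hx, x1⟩ := exists_mem_ne_one h1
  exact e ▸ uniqIn_cent_set m h (Set.sdiff_subset_sdiff_left hX) ⟨x, hx, x1⟩ (e ▸ c)

/-! ### the pair of maximal subgroups of type P -/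

/-- (8.8 b), with type P data for both members. -/
structure PPair8 (S T W₁ W₂ U V : Subgroup G) : Prop where
  mxS : Mx S
  mxT : Mx T
  pS : PW S W₁ U W₂
  pT : PW T W₂ V W₁
  inf : S ⊓ T = W₁ ⊔ W₂
  two : T2 S ∨ T2 T
  all : ∀ M, Mx M → ¬ PF8.T1 M → Conj S M ∨ Conj T M

theorem PPair8.symm (h : PPair8 S T W₁ W₂ U V) : PPair8 T S W₂ W₁ V U :=
  ⟨h.mxT, h.mxS, h.pT, h.pS, by rw [inf_comm, sup_comm, h.inf], h.two.symm,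
    fun M m t => (h.all M m t).symm⟩

theorem PPair8.not_conj (h : PPair8 S T W₁ W₂ U V) : ¬ Conj S T := by
  rintro ⟨g, rfl⟩
  have e := h.pT.relIndex_der
  rw [← cj_comm, relIndex_cj, h.pS.relIndex_der] at e
  have := h.pS.cop₁₂
  rw [← e, Nat.coprime_self] at this
  exact h.pS.ne₁ (card_eq_one'.1 this)

/-- `of_typeP_pair` -/
theorem _root_.CF.PF8.PW.pairV (h : PW S W₁ U W₂) (m : Mx S) (k : PW T W₂ V W₁) (n : Mx T) :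
    PPair8 S T W₁ W₂ U V := by
  obtain ⟨U', s⟩ := h.exists_sdV m
  obtain ⟨V', t⟩ := k.exists_sdV n
  have e1 : W₁ = sigmaCore T ⊓ 𝐂 (sigmaCore S ⊓ 𝐂 W₁) := by
    rw [h.Ms_centV m, k.Ms_centV n]
  have e2 : Cfsg.IsPiHallOf (𝛋 T) (sigmaCore S ⊓ 𝐂 W₁) T := by
    rw [h.Ms_centV m]; exact t.hall
  have a := (BG16.s1368 S m W₁ U' s h.ne₁ T n e1 e2).1
  obtain ⟨b, c⟩ := BG16.s1369 S m W₁ U' s h.ne₁ T n e1 e2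
  rw [h.Ms_centV m] at a b
  refine ⟨m, n, h, k, a, b.imp (fun u => (BG16.s1381 S m _ _ s).2 ⟨h.ne₁, u⟩)
    fun u => (BG16.s1381 T n _ _ t).2 ⟨k.ne₁, u V' t⟩, fun M mM tM => ?_⟩
  obtain ⟨g, hg⟩ := c M mM (Set.nonempty_iff_ne_empty.2 ((t1_iff mM).not.1 tM))
  exact hg.imp (fun e => ⟨g, e⟩) fun e => ⟨g, e⟩

/-- `FTtypeP_pair_witness` -/
theorem _root_.CF.PF8.PW.exists_pairV (h : PW S W₁ U W₂) (m : Mx S) : ∃ T V, PPair8 S T W₁ W₂ U V := by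
  obtain ⟨U', s⟩ := h.exists_sdV m
  obtain ⟨T, ⟨n, e1, e2⟩, -⟩ := BG16.s1366 S m W₁ U' s h.ne₁
  replace e1 : W₁ = sigmaCore T ⊓ 𝐂 (sigmaCore S ⊓ 𝐂 W₁) := e1
  rw [h.Ms_centV m] at e1 e2
  have e2 := hall_iff.2 e2
  obtain ⟨_, _, _, k⟩ := exists_pw n ((t1_iff n).not.2
    (Set.nonempty_iff_ne_empty.1 (e2.kappa_ne_bot_iffV.1 h.ne₂)))
  obtain ⟨V, k⟩ := k.of_hallV n e2
  rw [core_eq n, ← sigmaCore_eq, ← e1] at k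
  exact ⟨T, V, h.pairV m k n⟩

end CF.BG.Vp
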