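import Cfsg.Agent.Vp.S10a
/-
BG section 10: the subgroups M_α, M_β, M_σ (second part).
-/
set_option autoImplicit false
set_option linter.unusedSectionVars false

namespace CF.BG.Vp
open Subgroup
open scoped commutatorElement Pointwise

variable {G : Type*} [Group G] [Finite G] [MSO G]
variable {A A₀ A₁ B C D E E₁ E₂ E₃ H K L M N P Q R S T U V W X Y Z : Subgroup G} {p q r : ℕ}
variable {π : Set ℕ} {x y g : G}

theorem Mx.exists_prime_dvd_der (m : Mx M) : ∃ q : ℕ, q.Prime ∧ q ∣ ⁅M, M⁆.relIndex M :=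
  Nat.exists_prime_and_dvd fun e => (m.sol.der_lt m.ne_bot).not_ge (relIndex_eq_one.mp e)

/-- BG 10.6 -/
theorem mPLen1 (p : ℕ) (h : Pr H) : PLen1 p H := by
  obtain ⟨M, m, l⟩ := exists_mx h
  refine PLen1.mono ?_ l
  by_cases a : p ∈ 𝛂 M
  · refine PLen1.of_idx (O_normal (𝛂 M) M) (m.hall_Ma.idx.to_compl_single' a) ?_
    obtain ⟨K, sd, hK⟩ := m.hall_Ma.exists_compl (O_normal _ M).norm
    have c := sd.coprime m.hall_Ma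
    rw [← (sd.comm_eq_of_le_der c (m.sol' (O_le _ M)) (m.Ma_le_Ms.trans m.Ms_le_der)).1]
    obtain ⟨q, hq, d⟩ := m.exists_prime_dvd_der
    have s := m.not_sigma_of_dvd d
    obtain ⟨Q, hQ⟩ := exists_syl q K
    have hQ' := hQ.syl_trans hK fun a => s (m.alpha_sub_sigma a)
    obtain ⟨x, hx, x1, -, z⟩ := m.exists_cent1_zGrp s hQ'
      (hQ'.syl_ne_bot hq (d.trans (relIndex_dvd_card _ _)))
    have y := hQ.pi.abelem_Om_center.elem_zpowers hx x1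
    exact pLen1_comm_of_zGrp sd.norm c.symm (sd.sup.symm ▸ m.sol) (sd.sup.symm ▸ m.odd)
      (y.le.trans ((Om_le _ _).trans (inf_le_left.trans hQ.le))) y.card_prime
      (by rwa [cent_zpowers]) p
  · exact rank2_pLen1 m.sol (mOdd M) (not_mem_alpha.mp a)

theorem _root_.CF.BG.Hall.exists_mx_sigmaV (hP : Syl p P ⊤) (P1 : P ≠ ⊥) (w : p ∈ 𝛡 G) :
    ∃ M, Mx M ∧ 𝐍 P ≤ M ∧ p ∈ 𝛔 M ∧ Syl p P M := by
  obtain ⟨M, m, l⟩ := exists_mx (hP.pi.norm_properV P1 w)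
  have s := hP.of_le ((le_norm_self P).trans l) le_top
  exact ⟨M, m, l, s.mem_sigmaV m.ne_top l w, s⟩

/-- BG 10.7 (a) -/
theorem _root_.CF.BG.Hall.le_der_normV (hP : Syl p P ⊤) (w : p ∈ 𝛡 G) : P ≤ ⁅𝐍 P, 𝐍 P⁆ := by
  by_cases P1 : P = ⊥
  · exact P1.le.trans bot_le
  obtain ⟨M, m, -, s, h⟩ := hP.exists_mx_sigmaV P1 w
  exact ((mPLen1 p m.ne_top).le_der_norm h (m.syl_le_der s h)).trans (der_mono inf_le_right)

/-- BG 10.7 (a) -/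
theorem _root_.CF.BG.Hall.comm_complV (hP : Syl p P ⊤) (v : SDProd P V (𝐍 P)) (w : p ∈ 𝛡 G) : ⁅P, V⁆ = P :=
  (v.comm_eq_of_le_der (v.coprime (hP.of_le (le_norm_self P) le_top)) hP.pi.sol (hP.le_der_normV w)).1

/-- BG 10.7 (b) -/
theorem _root_.CF.BG.Hall.cprod_of_rank2V (hP : Syl p P ⊤) (r : pRank p P ≤ 2) (na : ¬ Abel P) (w : p ∈ 𝛡 G) :
    ∃ S C, S ⊔ C = P ∧ C ≤ 𝐂 S ∧ ¬ Abel S ∧ logn p (♯S) = 3 ∧ (∀ x ∈ S, x ^ p = 1) ∧ Cyc C ∧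
      𝛀 p C = 𝐙 S := by
  obtain ⟨V, v, hV⟩ := (hP.of_le (le_norm_self P) le_top).exists_compl le_rfl
  obtain ⟨S, C, a, b, c, d, e, f, g⟩ := hP.pi.cprod_of_rank2 (hP.pi.oddV w) r v.norm hV.pi
    ((hP.pi.norm_properV (fun e => na (e ▸ abel_bot)) w).mono hV.le).odd (hP.comm_complV v w) na
  exact ⟨S, C, a, b, c, d, e, f, g.trans ((hP.pi.le (a ▸ le_sup_left)).der_eq_center d c).1⟩

theorem Mx.narrow (m : Mx M) (hp : p ∉ 𝛃 M) (hP : Syl p P M) : Narrow p P := by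
  by_cases a : p ∈ 𝛂 M
  · exact by_contra fun h => hp (mem_beta.mpr
      ⟨a, (idl_iff (hP.syl_top_of_sigmaV (m.alpha_sub_sigma a))).mpr h⟩)
  · exact narrow_of_pRank (hP.syl_pRank ▸ not_mem_alpha.mp a)

/-- BG 10.8 (c) -/
theorem Mx.npc_der (m : Mx M) (hp : p ∉ 𝛃 M) : NPC p ⁅M, M⁆ :=
  let ⟨_, hP⟩ := exists_syl p M
  (m.narrow hp hP).npc_der hP m.sol (mOdd M) (mPLen1 p m.ne_top)

/-- BG 10.8 (c) -/
theorem Mx.npc_Ms (m : Mx M) (hp : p ∉ 𝛃 M) : NPC p (Mσ M) := (m.npc_der hp).mono m.Ms_le_der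

/-- BG 10.8 (c) -/
theorem Mx.max_pdiv (m : Mx M) (hp : p ∉ 𝛃 M) (hq : q.Prime) (d : q ∣ (𝐎 {p}ᶜ M).relIndex M) :
    q ≤ p :=
  let ⟨_, hP⟩ := exists_syl p M
  (m.narrow hp hP).max_pdiv hP m.sol (mOdd M) (mPLen1 p m.ne_top) hq d

/-- BG 10.8 (a) -/
theorem Mx.hall_Mb (m : Mx M) : Hall (𝛃 M) (Mβ M) M := by
  obtain ⟨H, hH⟩ := m.sol.exists_hall (𝛃 M)
  have l := m.le_der_of_sigma hH.le (hH.pi.mono m.beta_sub_sigma)
  have := le_O_compl_of_forall (π := (𝛃 M)ᶜ) l fun q _ b =>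
    (m.npc_der b).le_O l (hH.pi.to_compl_single b)
  rw [O_compl_compl] at this
  exact hH.hall_O_of_le (this.trans (O_le_O_of_normal (der_normal M) _))

theorem Mx.hall_Mb_top (m : Mx M) : Hall (𝛃 M) (Mβ M) ⊤ := m.hall_Mb.top_of_sigmaV m.beta_sub_sigma
theorem Mx.le_Mb (m : Mx M) (hX : X ≤ M) (k : PiGrp (𝛃 M) X) : X ≤ Mβ M := m.hall_Mb.le_O hX k

/-- BG 10.8 (b) -/
theorem Mx.nil_qt_Mb (m : Mx M) : Nil (qt (Mβ M) ⁅M, M⁆) := by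
  have n := (O_normal (𝛃 M) M).norm
  exact nil_of_forall_npc fun p hp d => (m.npc_der ((((piGrp_qt_iff n).mpr m.hall_Mb.idx).le
    (qt_mono _ (der_le M))) p hp d)).qt ((der_le M).trans n)

/-- BG 10.8 (b) -/
theorem Mx.nil_of_beta' (m : Mx M) (hH : H ≤ ⁅M, M⁆) (k : PiGrp (𝛃 M)ᶜ H) : Nil H :=
  (m.nil_qt_Mb.mono (qt_mono _ hH)).of_qt ((hH.trans (der_le M)).trans (O_normal _ M).norm)
    ((O_pi _ M).inf_eq_bot k)

theorem Mx.Mb_sup_norm (m : Mx M) (hX : Syl q X ⁅M, M⁆) : Mβ M ⊔ (M ⊓ 𝐍 X) = M := by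
  have n := hX.sup_normal_of_nil (O_normal _ M) m.nil_qt_Mb
  have := (hX.of_le le_sup_right (sup_le (m.Mb_le_Ms.trans m.Ms_le_der) hX.le)).syl_frattini_sup n
  rwa [sup_assoc, sup_eq_right.mpr (le_inf (hX.le.trans (der_le M)) (le_norm_self X))] at this

theorem Mx.exists_syl_cent (m : Mx M) (hp : p ∉ 𝛃 M) (hq : q ∉ 𝛃 M) (k : PiGrp {q} X)
    (h : p ≠ q ∧ X ≤ ⁅M, M⁆ ∨ p < q ∧ X ≤ M) : ∃ P, Syl p P ⁅M, M⁆ ∧ X ≤ 𝐂 P := by
  have hX : X ≤ M := h.elim (fun h => h.2.trans (der_le M)) fun h => h.2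
  obtain ⟨W, hW, l⟩ := m.sol.exists_hall_le (π := {p, q}) hX (k.of_single (by simp))
  have hW' := hW.inf_normal (der_normal M)
  have n := m.nil_of_beta' inf_le_right (hW'.pi.mono (by rintro _ (rfl | rfl) <;> assumption))
  refine ⟨_, (n.hall_O {p}).syl_trans hW' (by simp), ?_⟩
  rcases h with ⟨e, h⟩ | ⟨e, h⟩
  · exact cent_symm (n.cent_of_pi (O_le _ _) (le_inf l h) (O_pi _ _) (k.of_single_ne e.symm))
  · have xO : X ≤ 𝐎 {p}ᶜ M := k.le_of_relIndex h (O_normal _ M).norm fun r hr d e' =>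
      absurd (m.max_pdiv hp hr d) (by rw [Set.mem_singleton_iff.mp e']; omega)
    refine comm_eq_bot.mp (eq_bot_mono ((O_pi {p} (W ⊓ ⁅M, M⁆)).inf_eq_bot (O_pi _ M)) (le_inf ?_ ?_))
    · exact comm_le_right (le_norm_O _ (norm_inf (norm_of_le l) (h.trans (der_normal M).norm)))
    · exact (commutator_mono xO le_rfl).trans (comm_le_left
        (((O_le _ _).trans (inf_le_left.trans hW.le)).trans (O_normal _ M).norm))

theorem Mx.syl_of_syl_der (m : Mx M) (hp : p ∈ 𝛔 M) (hP : Syl p P ⁅M, M⁆) : Syl p P M :=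
  hP.trans_idx (der_le M) ((m.hall_Ms.idx_of_le m.Ms_le_der).to_compl_single' hp)

/-- BG 10.9 (a) -/
theorem Mx.beta'_cent_syl (m : Mx M) (hp : p ∉ 𝛃 M) (hq : q ∉ 𝛃 M) (k : PiGrp {q} X)
    (h : p ≠ q ∧ X ≤ ⁅M, M⁆ ∨ p < q ∧ X ≤ M) :
    (∃ P, Syl p P (Mσ M) ∧ X ≤ 𝐂 P) ∧ (p ∈ 𝛂 M → Uniq (M ⊓ 𝐂 X)) ∧
      (Syl q X ⁅M, M⁆ → ∃ P, Syl p P ⁅M, M⁆ ∧ P ≤ ⁅M ⊓ 𝐍 X, M ⊓ 𝐍 X⁆) := by
  obtain ⟨P, hP, c⟩ := m.exists_syl_cent hp hq k h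
  have l := le_inf (hP.le.trans (der_le M)) (cent_symm c)
  refine ⟨⟨_, hP.inf_normal ((O_normal _ M).of_le m.Ms_le_der (der_le M)),
    c.trans (cent_anti inf_le_left)⟩, fun a => ?_, fun s => ⟨P, hP, ?_⟩⟩
  · refine uniq_of_pRank3 (p := p) (m.proper inf_le_left) (lt_of_lt_of_le ?_ (pRank_mono p l))
    rw [(m.syl_of_syl_der (m.alpha_sub_sigma a) hP).syl_pRank]; exact mem_alpha.mp a
  · have := inf_der_of_coprime (O_normal _ M) (m.Mb_sup_norm s)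
      (l.trans (inf_le_inf_left _ (cent_le_norm X))) ((hP.pi.of_single' hp).coprime' (O_pi _ M))
    rw [inf_eq_left.mpr hP.le] at this
    exact this.le.trans inf_le_right

/-- BG 10.9 (b) -/
theorem Mx.Mb_sup_inf (m : Mx M) (h : Mx H) (ne : H ≠ M) (hS : Syl p S ⊤) (a : 𝐍 S ≤ H)
    (b : 𝐍 S ≤ M) (w : p ∈ 𝛡 G) : Mβ M ⊔ (H ⊓ M) = M ∧ 𝛂 M = 𝛃 M := by
  have s := hS.of_le ((le_norm_self S).trans b) le_top
  have l := m.syl_le_der (s.mem_sigmaV m.ne_top b w) s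
  have a' : p ∉ 𝛂 M := fun a' => ne ((m.uniqIn_of_pRank3 s.le (s.syl_pRank ▸ mem_alpha.mp a')).uniq
    H h ((le_norm_self S).trans a))
  refine ⟨le_antisymm (sup_le (O_le _ M) inf_le_right) ?_,
    Set.Subset.antisymm (fun q hq => by_contra fun hb => ne ?_) (beta_sub_alpha M)⟩
  · exact (m.Mb_sup_norm (s.of_le l (der_le M))).ge.trans
      (sup_le_sup_left (le_inf (inf_le_right.trans a) inf_le_left) _)
  · exact ((m.beta'_cent_syl hb (fun e => a' (beta_sub_alpha M e)) hS.pi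
      (Or.inl ⟨fun e => a' (e ▸ hq), l⟩)).2.1 hq).eq h
        (inf_le_right.trans ((cent_le_norm S).trans a)) m inf_le_left

/-- BG 10.10 -/
theorem _root_.CF.BG.MaxInv.signalizerV (h : MaxInv A q Q) (pq : p ≠ q) (a : Elem p 2 A ⊤) (am : MaxElem p A ⊤)
    (d : q ∣ ♯(𝐂 A)) (w : p ∈ 𝛡 G) (wq : q ∈ 𝛡 G) :
    ∃ P, Syl p P ⊤ ∧ A ≤ P ∧ 𝐎 {p}ᶜ (𝐂 P) ⊔ (𝐍 P ⊓ 𝐍 Q) = 𝐍 P ∧ P ≤ ⁅𝐍 Q, 𝐍 Q⁆ ∧
      (Narrow q Q → P ≤ 𝐂 Q) := by
  have nc := am.ncV a.ne_bot (fun _ => mPLen1 p) w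
  have e := a.pi.piOf_eq a.ne_bot
  have hq : q ∉ piOf (♯A) := by rw [e]; exact pq.symm
  have tr := nc.rank2_trans hq d (by rw [inf_eq_left.mpr a.abel, a.rank_eq]; omega)
  obtain ⟨P₀, h0, l0⟩ := exists_syl_le le_top a.pi
  obtain ⟨Q₀, q0, -⟩ := exists_maxInv (A := P₀) (piGrp_bot {q}) (by simp)
  obtain ⟨k, hk, rfl⟩ := tr _ _ ((nc.trans_superset hq (h0.pi.nil.subN l0) wq
    (by rw [e]; exact h0.pi) tr).2.2.1 _ q0) h
  have hP := h0.cj_top k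
  have l : A ≤ BG.cj k P₀ := by
    rw [← cj_of_cent (O_le _ _ hk)]; exact cj_mono k l0
  obtain ⟨b, c⟩ := (nc.trans_superset hq (hP.pi.nil.subN l) wq
    (by rw [e]; exact hP.pi) tr).2.2.2 _ (q0.cj k)
  rw [inf_eq_left.mpr (hP.le_der_normV w)] at b
  refine ⟨_, hP, l, e ▸ c, b, fun n => ?_⟩
  by_cases Q1 : BG.cj k Q₀ = ⊥
  · simp [Q1]
  exact hP.pi.le_of_relIndex' (((n.der_relIndex_cent h.pi (h.pi.oddV wq) le_rfl
    (sol_norm Q1 (h.pi.pw wq)) (h.pi.norm_properV Q1 wq).odd).dvd (relIndex_dvd_of_norm b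
      ((der_le _).trans (norm_le_norm_cent _)))).to_compl_single pq)

/-- BG 10.11 (b) -/
theorem Mx.rank_cent_Ms (m : Mx M) (hK : K ≤ M) (k : PiGrp (𝛔 M)ᶜ K) :
    rank (K ⊓ 𝐂 (Mσ M)) ≤ 1 := by
  by_contra r
  obtain ⟨p, A, -, a⟩ := exists_elem_of_le_rank (not_le.mp r)
  have aK := a.le.trans inf_le_left
  have c := cent_symm (a.le.trans inf_le_right)
  have w := m.w_of_elem (a.of_le (aK.trans hK))
  have u := m.not_uniq_of_sigma' (aK.trans hK) (k.le aK) (a.pw w)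
  have hp : p ∉ 𝛔 M := a.mem_of_pi k.inf_left
  obtain ⟨q, hq, d⟩ := exists_prime_dvd_card m.Ms_ne_bot
  have s := (m.dvd_Ms_iff hq).mp d
  obtain ⟨Q, hQ⟩ := exists_syl q (Mσ M)
  have hQ' := hQ.syl_trans m.hall_Ms s
  have mx : MaxInv A q Q := ⟨hQ.pi, norm_of_cent' (hQ.le.trans c), fun R k _ l =>
    ((hQ'.syl_top_of_sigmaV s).eq_of_le l le_top k).symm⟩
  obtain ⟨P, hP, l, -, b, -⟩ := mx.signalizerV (fun e : p = q => hp (e ▸ s)) a.top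
    (by_contra fun h => u (a.uniq_of_not_maxV h w)) (d.trans (card_dvd c)) w (w_of_sigma s)
  have b' := b.trans (der_mono (hQ'.norm_le_of_sigmaV s))
  have a0 : Mα M = ⊥ := by_contra fun h => by
    obtain ⟨r, hr, d⟩ := exists_prime_dvd_card h
    have a' := (m.dvd_Ma_iff hr).mp d
    refine u (uniq_of_cent_rank3' (by rw [a.rank_eq]; omega) (lt_of_lt_of_le ?_
      ((pRank_mono r (m.Ma_le_Ms.trans c)).trans (pRank_le_rank _ _))) (a.pw w).pr)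
    rw [m.hall_Ma.pRank_eq a']; exact mem_alpha.mp a'
  have n := (der_normal M).norm.trans ((m.nil_der_of_Ma a0).hall_norm (hP.of_le b' le_top))
  have pM := b'.trans (der_le M)
  exact hp ((hP.of_le pM le_top).mem_sigmaV m.ne_top (m.norm_le ⟨pM, n⟩ (ne_bot_mono a.ne_bot l)) w)

theorem Mx.cyc_O_sigma'_F (m : Mx M) : Cyc (𝐎 (𝛔 M)ᶜ (𝐅 M)) := by
  have n := (F_normal M).O (𝛔 M)ᶜ
  have := m.rank_cent_Ms n.le (O_pi _ _)
  rw [inf_eq_left.mpr (cent_symm (O_cent_normal n (O_pi _ _)))] at this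
  exact ((F_nil M).mono (O_le _ _)).cyc_of_rank (m.odd' n.le) this

theorem Mx.le_O_sigma'_F (m : Mx M) (hY : Y ≤ ⁅M, M⁆) (k : PiGrp (𝛔 M)ᶜ Y) (c : Y ≤ 𝐂 (Mσ M)) :
    Y ≤ 𝐎 (𝛔 M)ᶜ (𝐅 M) := by
  refine (F_nil M).le_O ((le_inf (hY.trans (der_le M)) ?_).trans m.sol.cent_F_le) k
  rw [← (BG.F_dprod (𝛔 M) M).sup]
  exact le_cent_sup (c.trans (cent_anti (O_F_le _ M)))
    (hY.trans (m.cyc_O_sigma'_F.der_le_cent ((F_normal M).O _).norm))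

/-- BG 10.11 (d) -/
theorem Mx.comm_sigma'_cyc (m : Mx M) (hK : K ≤ M) (k : PiGrp (𝛔 M)ᶜ K) (hp : p ∉ 𝛔 M)
    (a : Elem p 1 P M) (n : P ≤ 𝐍 K) (e : Mσ M ⊓ 𝐂 P = ⊥) (k' : PiGrp {p}ᶜ K) (ab : Abel K) :
    ⁅K, P⁆ ≤ 𝐂 (Mσ M) ∧ Cyc ⁅K, P⁆ ∧ ⁅K, P⁆ ⊴ M := by
  have l := comm_le_left n
  have nM := (O_normal (𝛔 M) M).norm
  have c := (a.reg (ab.comm_inf_cent n (a.pi.coprime k'))).cent_of_fpf (norm_comm_right K P)
    (m.sol' (O_le _ M)) (a.le.trans nM) ((l.trans hK).trans nM) ((k.le l).coprime' (O_pi _ M))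
    ((a.pi.of_single' hp).coprime' (O_pi _ M)) e
  have := m.le_O_sigma'_F (commutator_mono hK a.le) (k.le l) c
  exact ⟨c, m.cyc_O_sigma'_F.mono this, m.cyc_O_sigma'_F.normalIn this ((F_normal M).O _)⟩

theorem _root_.CF.BG.MaxElem.struct_sylV (am : MaxElem p A S) (a : Elem p 2 A S) (hS : Syl p S ⊤) (na : ¬ Abel S) (w : p ∈ 𝛡 G) :
    Elem p 1 (𝛀 p (𝐙 S)) A ∧ ∃ X Y, Elem p 1 X A ∧ Cyc Y ∧ 𝛀 p (𝐙 S) ≤ Y ∧
      DProd X Y (S ⊓ 𝐂 A) := by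
  have k := hS.pi
  have uA := am.Om_center_le a.prime
  have uC : 𝛀 p (𝐙 S) ≤ 𝐂 S := (Om_le _ _).trans inf_le_right
  obtain ⟨X, x, ne⟩ := a.exists_ne (𝛀 p (𝐙 S))
  by_cases r : 2 < pRank p S
  · obtain ⟨u, T, t1, -, -, t2, h⟩ := Narrow.struct (fun _ => ⟨A, a, am⟩) k (k.oddV w) r
    have u := u.of_le uA
    have e : S ⊓ 𝐂 X = S ⊓ 𝐂 A := by
      rw [← (a.dprod_two x u ne).sup, cent_sup, ← inf_assoc]
      exact (inf_eq_left.mpr (inf_le_left.trans (cent_symm uC))).symm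
    obtain ⟨h1, -, h2⟩ := h X (x.mono a.le) (by rw [e, am.pRank_cent, a.log])
    exact ⟨u, X, _, x, h1, le_inf ((Om_le _ _).trans t2) (uC.trans (cent_anti (x.le.trans a.le))),
      e ▸ h2⟩
  · obtain ⟨S₀, C, e, c, na0, l, ex, cy, o⟩ := hS.cprod_of_rank2V (not_lt.mp r) na w
    have s0 : S₀ ≤ S := e ▸ le_sup_left
    have cS : C ≤ S := e ▸ le_sup_right
    have cZ : C ≤ 𝐂 S := e ▸ le_cent_sup c cy.abel
    have nA : ¬ S ≤ 𝐂 A := fun h => na0 (a.abel.mono fun y hy =>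
      am.mem a.prime (s0 hy) (h (s0 hy)) (ex y hy))
    have z := ((k.le s0).der_eq_center l na0).2
    have u : Elem p 1 (𝛀 p (𝐙 S)) A := a.one_of_lt (lt_of_le_of_ne uA fun h => nA (cent_symm
      (h ▸ uC))) (k.inf_left.Om_ne_bot (k.center_ne_bot (ne_bot_mono a.ne_bot a.le)))
    have oe : 𝛀 p C = 𝛀 p (𝐙 S) := eq_of_prime_of_ne_bot u.card_prime (Om_mono p (le_inf cS cZ))
      (o ▸ (k.le s0).inf_left.logn_pos.mp (by omega))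
    have i : X ⊓ C = ⊥ := inf_eq_bot_of_prime_of_not_le x.card_prime fun h =>
      ne ((cy.eq_Om (x.of_le h)).trans oe)
    have d := DProd.mk' (cZ.trans (cent_anti (x.le.trans a.le))) i
    refine ⟨u, X, C, x, cy, oe ▸ Om_le _ _, k.inf_left.eq_of_logn_le (sup_le (le_inf
      (x.le.trans a.le) (a.abel.cent x.le le_rfl)) (le_inf cS (cZ.trans (cent_anti a.le)))) ?_ ▸ d⟩
    have l1 := logn_sup_add (p := p) (Or.inr (norm_of_cent c))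
    have l2 := logn_sup_add (p := p) (Or.inr (norm_of_cent d.cent))
    have l3 := k.logn_lt (inf_lt_left.mpr nA)
    have l4 := logn_card_le (p := p) (le_inf (inf_le_left : 𝐙 S₀ ≤ S₀) (o ▸ Om_le p C))
    rw [i, card_bot, x.log] at l2
    rw [e] at l1
    simp only [logn, Nat.factorization_one, Finsupp.coe_zero, Pi.zero_apply] at *
    omega

/-- BG 10.13 -/
theorem _root_.CF.BG.MaxElem.structV (am : MaxElem p A ⊤) (a : Elem p 2 A P) (k : PiGrp {p} P) (na : ¬ Abel P) (w : p ∈ 𝛡 G) :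
    Elem p 1 (𝛀 p (𝐙 P)) A ∧
    (∃ Y, Cyc Y ∧ 𝛀 p (𝐙 P) ≤ Y ∧ ∀ X, Elem p 1 X A → X ≠ 𝛀 p (𝐙 P) → DProd X Y (P ⊓ 𝐂 A)) ∧
    ∀ X Y, Elem p 1 X A → X ≠ 𝛀 p (𝐙 P) → Elem p 1 Y A → Y ≠ 𝛀 p (𝐙 P) →
      ∃ g ∈ P ⊓ 𝐍 A, Y = BG.cj g X := by
  obtain ⟨S, hS, l⟩ := exists_syl_le le_top k
  obtain ⟨u, X₀, Y₀, x0, cy, uY, d⟩ := (am.of_le (a.le.trans l) le_top).struct_sylV (a.mono l) hS
    (fun h => na (h.mono l)) w
  have am' := am.of_le a.le le_top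
  have d' := d.inf_of_left_le (x0.le.trans a.le)
  rw [inf_right_comm, inf_eq_right.mpr l] at d'
  have cy' : Cyc (Y₀ ⊓ P) := cy.mono inf_le_left
  have ab := d'.abel x0.abel cy'.abel
  have nA : ¬ P ≤ 𝐂 A := fun h => na (inf_eq_left.mpr h ▸ ab)
  have zC : 𝛀 p (𝐙 P) ≤ 𝐂 P := (Om_le _ _).trans inf_le_right
  have z : Elem p 1 (𝛀 p (𝐙 P)) A := a.one_of_lt (lt_of_le_of_ne (am'.Om_center_le a.prime)
    fun h => nA (cent_symm (h ▸ zC))) (k.inf_left.Om_ne_bot (k.center_ne_bot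
      (ne_bot_mono a.ne_bot a.le)))
  have e : 𝛀 p (𝐙 S) = 𝛀 p (𝐙 P) := u.eq_of_le z (u.of_le (le_inf (u.le.trans a.le)
    ((Om_le _ _).trans (inf_le_right.trans (cent_anti l))))).le_Om
  have zY : 𝛀 p (𝐙 P) ≤ Y₀ ⊓ P := le_inf (e ▸ uY) (z.le.trans a.le)
  refine ⟨z, ⟨_, cy', zY, fun X x ne => ?_⟩, fun X Y x xz y yz => ?_⟩
  · have xC : X ≤ P ⊓ 𝐂 A := le_inf (x.le.trans a.le) (a.abel.cent x.le le_rfl)
    have i : X ⊓ (Y₀ ⊓ P) = ⊥ := inf_eq_bot_of_prime_of_not_le x.card_prime fun h =>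
      ne ((cy'.eq_Om (x.of_le h)).trans (cy'.eq_Om (z.of_le zY)).symm)
    have d2 := DProd.mk' (ab.cent d'.right_le xC) i
    refine eq_of_card_eq (sup_le xC d'.right_le) ?_ ▸ d2
    rw [← d2.card, ← d'.card, x.card_one, x0.card_one]
  · obtain ⟨g, hg, gC⟩ := SetLike.exists_of_lt (k.nil.lt_inf_norm (inf_lt_left.mpr nA))
    have gA : g ∈ 𝐍 A := am'.Om_cent a.prime ▸ norm_Om p _ hg.2
    obtain ⟨n, e⟩ := a.exists_cj_of_not_cent z gA (k.elt hg.1) (cent_symm zC hg.1)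
      (fun h => gC ⟨hg.1, h⟩) x xz y yz
    exact ⟨g ^ n, pow_mem (⟨hg.1, gA⟩ : g ∈ P ⊓ 𝐍 A) n, e⟩

end CF.BG.Vp
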