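import Cfsg.Agent.Vp.S9
/-
BG section 10, first part: 10.1-10.5, 10.12, 10.14 (no use of BG 3.6).
-/
set_option autoImplicit false
set_option linter.unusedSectionVars false

namespace CF.BG.Vp
open Subgroup
open scoped commutatorElement Pointwise

variable {G : Type*} [Group G] [Finite G] [MSO G]
variable {A A₀ A₁ B C D E E₁ E₂ E₃ H K L M N P Q R S T U V W X Y Z : Subgroup G} {p q r : ℕ}
variable {π : Set ℕ} {x y g : G}

theorem Mx.alpha_sub_sigma (m : Mx M) : 𝛂 M ⊆ 𝛔 M := fun p hp => by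
  obtain ⟨P, hP⟩ := exists_syl p M
  exact hP.mem_sigmaV m.ne_top (m.uniqIn_of_pRank3 hP.le
    (hP.syl_pRank ▸ mem_alpha.mp hp)).norm_le (m.w_of_alpha hp)

theorem Mx.beta_sub_sigma (m : Mx M) : 𝛃 M ⊆ 𝛔 M := (beta_sub_alpha M).trans m.alpha_sub_sigma

theorem Mx.mem_beta_iff (m : Mx M) : p ∈ 𝛃 M ↔ p ∈ 𝛔 M ∧ Idl G p :=
  ⟨fun h => ⟨m.beta_sub_sigma h, idl_of_beta h⟩, fun h => mem_beta.mpr
    ⟨mem_alpha.mpr (pRank_of_sigma h.1 ▸ h.2.pRank), h.2⟩⟩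

theorem Mx.pRank_le_of_sigma' (m : Mx M) (hp : p ∉ 𝛔 M) : pRank p M ≤ 2 :=
  not_mem_alpha.mp fun h => hp (m.alpha_sub_sigma h)

theorem exists_le_cj_of_sigma (hp : p ∈ 𝛔 M) (k : PiGrp {p} X) : ∃ g, X ≤ cj g M := by
  obtain ⟨P, hP⟩ := exists_syl p M
  obtain ⟨g, -, l⟩ := (hP.syl_top_of_sigmaV hp).syl_le_cj le_top k
  exact ⟨g, l.trans (cj_mono g hP.le)⟩

theorem sigma_trans_aux (p n : ℕ) : ∀ (X M : Subgroup G) (g : G), ♯(⊤ : Subgroup G) < ♯X + n →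
    Mx M → p ∈ 𝛔 M → PiGrp {p} X → X ≠ ⊥ → X ≤ M → X ≤ cj g M → ∃ c ∈ 𝐂 X, cj g M = cj c M := by
  induction n with
  | zero => exact fun X _ _ l => absurd (card_le (le_top : X ≤ ⊤)) (by omega)
  | succ n ih =>
    intro X M g l m hp k x1 a b
    have ih' : ∀ (Y M : Subgroup G) (g : G), X < Y → Mx M → p ∈ 𝛔 M → PiGrp {p} Y → Y ≤ M →
        Y ≤ cj g M → ∃ c ∈ 𝐂 X, cj g M = cj c M := fun Y M g lt m hp k a b =>
      let ⟨c, hc, e⟩ := ih Y M g (by have := card_lt lt; omega) m hp k (ne_bot_mono x1 lt.le) a b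
      ⟨c, cent_anti lt.le hc, e⟩
    have key : ∀ L : Subgroup G, X ≤ L → Syl p X L ∨ ∃ Y, X < Y ∧ Y ≤ L ⊓ 𝐍 X ∧ PiGrp {p} Y :=
      fun L a => by
        obtain ⟨Y, hY, l⟩ := exists_syl_le (le_inf a (le_norm_self X)) k
        rcases l.lt_or_eq with l | rfl
        · exact Or.inr ⟨Y, l, hY.le, hY.pi⟩
        · exact Or.inl (syl_of_syl_norm a hY)
    rcases key M a with s | ⟨X₁, l1, a1, k1⟩
    · exact ⟨1, one_mem _, by rw [cj_one, cj_of_mem ((inv_mem_iff (H := M)).mp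
        (s.mem_of_cj_le_sigmaV hp (le_cj_iff.mp b)))]⟩
    rcases key _ b with s | ⟨X₂, l2, a2, k2⟩
    · have := s.mem_of_cj_le_sigmaV (by simpa using hp) (cj_mono g a)
      exact ⟨1, one_mem _, by rw [cj_one, cj_of_mem (by simpa [mem_cj] using this)]⟩
    have t' := k.norm_properV x1 (w_of_sigma hp)
    obtain ⟨P, hP, l3⟩ := exists_syl_le (a1.trans inf_le_right) k1
    obtain ⟨t, ht, l4⟩ := hP.syl_le_cj (a2.trans inf_le_right) k2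
    obtain ⟨u, l5⟩ := exists_le_cj_of_sigma hp hP.pi
    have mu := m.cj u
    have pu : p ∈ 𝛔 (cj u M) := by simpa using hp
    obtain ⟨c1, h1, e1⟩ := ih' X₁ M u l1 m hp k1 (a1.trans inf_le_left) (l3.trans l5)
    obtain ⟨c2, h2, e2⟩ := ih' X₂ (cj t (cj u M)) (g * (t * u)⁻¹) l2 (mu.cj t) (by simpa using hp) k2
      (l4.trans (cj_mono t l5)) (by rw [cj_cj, cj_cj]; simpa [mul_assoc] using a2.trans inf_le_left)
    have e2' : cj g M = cj c2 (cj t (cj u M)) := by rw [← e2, cj_cj, cj_cj]; simp [mul_assoc]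
    suffices ∃ c ∈ 𝐂 X, cj t (cj u M) = cj c (cj u M) by
      obtain ⟨c, hc, e⟩ := this
      exact ⟨c2 * (c * c1), mul_mem h2 (mul_mem hc h1), by rw [e2', e, e1, cj_cj, cj_cj, mul_assoc]⟩
    by_cases r : 2 < pRank p P
    · exact ⟨1, one_mem _, by
        rw [cj_one, cj_of_mem ((mu.uniqIn_of_pRank3 l5 r).le_of_proper hP.le t' ht)]⟩
    · have pl := rank2_pLen1 (mSol t') t'.odd (hP.syl_pRank ▸ not_lt.mp r)
      rw [← pl.frattini hP] at ht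
      obtain ⟨v, hv, w, hw, rfl⟩ := (mem_sup_norm' (inf_le_left.trans (O_normal _ _).norm)).mp ht
      obtain ⟨c, hc, e⟩ := ih' P (cj u M) w (l1.trans_le l3) mu pu hP.pi l5
        (by rw [le_cj_iff, cj_of_norm (inv_mem hw.2)]; exact l5)
      exact ⟨v * c, mul_mem (O_compl_cent_normal (normalIn_norm X) k hv) hc,
        by rw [← cj_cj, e, cj_cj]⟩

/-- BG 10.1 (b) -/
theorem Mx.sigma_trans_cj (m : Mx M) (hp : p ∈ 𝛔 M) (k : PiGrp {p} X) (x1 : X ≠ ⊥) {a b : G}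
    (ha : X ≤ BG.cj a M) (hb : X ≤ BG.cj b M) : ∃ c ∈ 𝐂 X, BG.cj b M = BG.cj c (BG.cj a M) := by
  have := sigma_trans_aux p _ X (BG.cj a M) (b * a⁻¹) (Nat.lt_add_left _ (Nat.lt_succ_self _)) (m.cj a)
    (by simpa using hp) k x1 ha (by simpa [cj_cj] using hb)
  simpa [cj_cj] using this

/-- BG 10.1 (a) -/
theorem Mx.sigma_trans (m : Mx M) (hp : p ∈ 𝛔 M) (k : PiGrp {p} X) (x1 : X ≠ ⊥) (hX : X ≤ M)
    (l : BG.cj g X ≤ M) : ∃ a ∈ M, ∃ c ∈ 𝐂 X, g = a * c := by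
  obtain ⟨c, hc, e⟩ := sigma_trans_aux p _ X M g⁻¹ (Nat.lt_add_left _ (Nat.lt_succ_self _)) m hp k
    x1 hX (cj_le_iff.mp l)
  exact ⟨g * c, by simpa using inv_mem (m.cj_eq_iff.mp e), c⁻¹, inv_mem hc, by simp⟩

/-- BG 10.1 (c) -/
theorem Mx.sigma_norm_eq (m : Mx M) (hp : p ∈ 𝛔 M) (k : PiGrp {p} X) (x1 : X ≠ ⊥) (hX : X ≤ M) :
    (M ⊓ 𝐍 X) ⊔ 𝐂 X = 𝐍 X := by
  refine le_antisymm (sup_le inf_le_right (cent_le_norm X)) fun g hg => ?_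
  obtain ⟨a, ha, c, hc, rfl⟩ := m.sigma_trans hp k x1 hX ((cj_of_norm hg).le.trans hX)
  refine mul_mem (mem_sup_left ⟨ha, ?_⟩) (mem_sup_right hc)
  have := (𝐍 X).mul_mem hg ((𝐍 X).inv_mem (cent_le_norm X hc))
  simpa using this

/-- BG 10.1 (e) -/
theorem Mx.sigma_tame (m : Mx M) (hp : p ∈ 𝛔 M) (k : PiGrp {p} X) (x1 : X ≠ ⊥) (hX : X ≤ M)
    (c : 𝐂 X ≤ M) (l : BG.cj g X ≤ M) : g ∈ M := by
  obtain ⟨a, ha, b, hb, rfl⟩ := m.sigma_trans hp k x1 hX l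
  exact mul_mem ha (c hb)

theorem Mx.syl_le_der (m : Mx M) (hp : p ∈ 𝛔 M) (hP : Syl p P M) : P ≤ ⁅M, M⁆ := by
  have := (hP.syl_top_of_sigmaV hp).focal (K := ⁅M, M⁆) fun x hx g _ e => by
    by_cases x1 : x = 1
    · simp [x1]
    have l := zpowers_le.mpr hx
    obtain ⟨a, ha, c, hc, rfl⟩ := m.sigma_trans (g := g) hp (hP.pi.le l) (by simpa using x1)
      (l.trans hP.le) (by rw [cj_zpowers]; exact zpowers_le.mpr (hP.le e))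
    rw [cent_zpowers, mem_cent1] at hc
    have : x⁻¹ * (a * c * x * (a * c)⁻¹) = ⁅x⁻¹, a⁆ := by
      rw [mul_assoc a c x, hc, commutatorElement_def]; group
    rw [this]; exact commutator_mem_commutator (inv_mem (hP.le hx)) ha
  rwa [der_top, inf_top_eq] at this

theorem Mx.le_der_of_sigma (m : Mx M) (hX : X ≤ M) (k : PiGrp (𝛔 M) X) : X ≤ ⁅M, M⁆ :=
  le_of_forall_syl' fun p hp d Q hQ => by
    obtain ⟨P, hP, l⟩ := exists_syl_le (hQ.le.trans hX) hQ.pi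
    exact l.trans (m.syl_le_der (k p hp d) hP)

theorem Mx.Ms_le_der (m : Mx M) : Mσ M ≤ ⁅M, M⁆ := m.le_der_of_sigma (O_le _ M) (O_pi _ M)

theorem Mx.der_qt_Ma_le (m : Mx M) : PiGrp (𝛂 M)ᶜ (𝐅 (qt (Mα M) M)) ∧
    qt (Mα M) ⁅M, M⁆ ≤ 𝐅 (qt (Mα M) M) := by
  have n := (O_normal (𝛂 M) M).norm
  have k : PiGrp (𝛂 M)ᶜ (𝐅 (qt (Mα M) M)) := by
    have := ((F_nil (qt (Mα M) M)).hall_O (𝛂 M))
    rw [eq_bot_mono (O_qt_O (𝛂 M) M) (O_F_le _ _)] at this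
    exact this.pi'_of_eq_bot
  refine ⟨k, ?_⟩
  rw [qt_comm n n]
  refine rank2_der_le_F (m.sol.qt _) (mOdd_qt _ _) (rank_le_iff.mpr fun p hp => ?_)
  by_cases a : p ∈ 𝛂 M
  · rw [pRank_eq_zero.mpr (k.to_compl_single' a)]; omega
  · refine (pRank_mono p (F_le _)).trans ?_
    rw [pRank_qt n ((O_pi _ M).to_compl_single a)]; exact not_mem_alpha.mp a

theorem Mx.nil_qt_Ma (m : Mx M) : Nil (qt (Mα M) ⁅M, M⁆) := nil_of_le_F m.der_qt_Ma_le.2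

/-- BG 10.2 (a) -/
theorem Mx.hall_Ma (m : Mx M) : Hall (𝛂 M) (Mα M) M := by
  obtain ⟨H, hH⟩ := m.sol.exists_hall (𝛂 M)
  refine hH.hall_O_of_le ((qt_eq_bot (hH.le.trans (O_normal _ M).norm)).mp ((hH.pi.qt _).eq_bot ?_))
  exact m.der_qt_Ma_le.1.le ((qt_mono _ (m.le_der_of_sigma hH.le
    (hH.pi.mono m.alpha_sub_sigma))).trans m.der_qt_Ma_le.2)

/-- BG 10.2 (c) -/
theorem Mx.Ma_le_Ms (m : Mx M) : Mα M ≤ Mσ M := O_mono M m.alpha_sub_sigma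
theorem Mx.Mb_le_Ms (m : Mx M) : Mβ M ≤ Mσ M := O_mono M m.beta_sub_sigma

/-- BG 10.2 (b) -/
theorem Mx.hall_Ms (m : Mx M) : Hall (𝛔 M) (Mσ M) M := by
  obtain ⟨H, hH⟩ := m.sol.exists_hall (𝛔 M)
  have := (hH.of_le (m.le_der_of_sigma hH.le hH.pi) (der_le M)).sup_normal_of_nil
    (O_normal _ M) m.nil_qt_Ma
  rw [sup_eq_right.mpr (hH.O_le' m.alpha_sub_sigma)] at this
  exact hH.hall_O this.norm

theorem _root_.CF.BG.Hall.top_of_sigmaV (h : Hall π H M) (s : π ⊆ 𝛔 M) : Hall π H ⊤ :=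
  h.trans_idx le_top fun q hq d k => by
    obtain ⟨P, hP⟩ := exists_syl q M
    exact (hP.syl_top_of_sigmaV (s k)).not_dvd hq (d.trans (relIndex_dvd_left ⊤ hP.le))

theorem Mx.hall_Ma_top (m : Mx M) : Hall (𝛂 M) (Mα M) ⊤ := m.hall_Ma.top_of_sigmaV m.alpha_sub_sigma
theorem Mx.hall_Ms_top (m : Mx M) : Hall (𝛔 M) (Mσ M) ⊤ := m.hall_Ms.top_of_sigmaV subset_rfl

theorem Mx.dvd_Ms_iff (m : Mx M) (hp : p.Prime) : p ∣ ♯(Mσ M) ↔ p ∈ 𝛔 M :=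
  ⟨O_pi _ M p hp, fun h => m.hall_Ms.prime_dvd hp h (dvd_of_sigma h)⟩

theorem Mx.dvd_Ma_iff (m : Mx M) (hp : p.Prime) : p ∣ ♯(Mα M) ↔ p ∈ 𝛂 M :=
  ⟨O_pi _ M p hp, fun h => m.hall_Ma.prime_dvd hp h (dvd_of_alpha h)⟩

theorem Mx.rank_le_of_Ma (m : Mx M) (h : Mα M = ⊥) : rank M ≤ 2 :=
  rank_le_iff.mpr fun _ hp => not_mem_alpha.mp fun a =>
    m.hall_Ma.ne_bot hp a (dvd_of_alpha a) h

/-- BG 10.2 (e) -/
theorem Mx.Ms_ne_bot (m : Mx M) : Mσ M ≠ ⊥ := fun e => by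
  obtain ⟨q, hq, d, mx⟩ := exists_max_prime m.ne_bot
  have s := CF.BG2.syl_O_of_rank m.sol (mOdd M)
    ((rank_mono (F_le M)).trans (m.rank_le_of_Ma (eq_bot_mono e m.Ma_le_Ms))) mx
  exact m.hall_Ms.ne_bot hq (s.mem_sigmaV m.ne_top (m.norm_O (s.syl_ne_bot hq d)).le
    ((m.pw_of_le_F (O_le_F q M)).mem_of (O_pi _ _) (s.syl_ne_bot hq d))) d e

theorem Mx.le_Ms (m : Mx M) (hX : X ≤ M) (k : PiGrp (𝛔 M) X) : X ≤ Mσ M := m.hall_Ms.le_O hX k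
theorem Mx.le_Ms' (m : Mx M) (hX : X ≤ M) (k : PiGrp {p} X) (hp : p ∈ 𝛔 M) : X ≤ Mσ M :=
  m.le_Ms hX (k.of_single hp)
theorem Mx.le_Ma (m : Mx M) (hX : X ≤ M) (k : PiGrp (𝛂 M) X) : X ≤ Mα M := m.hall_Ma.le_O hX k
theorem Mx.norm_Ms (m : Mx M) : 𝐍 (Mσ M) = M := m.norm_O m.Ms_ne_bot
theorem SigE.sdprod (h : SigE M E) : SDProd (Mσ M) E M :=
  h.mx.hall_Ms.sdprod (O_normal _ M).norm h.hall

theorem Mx.nil_der_of_Ma (m : Mx M) (h : Mα M = ⊥) : Nil ⁅M, M⁆ :=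
  m.nil_qt_Ma.of_qt ((der_le M).trans (O_normal _ M).norm) (by rw [h, bot_inf_eq])

/-- BG 10.3 -/
theorem Mx.uniq_cent_alpha' (m : Mx M) (hX : X ≤ M) (k : PiGrp (𝛂 M)ᶜ X)
    (r : 1 < rank (Mα M ⊓ 𝐂 X)) : Uniq (M ⊓ 𝐂 X) := by
  obtain ⟨p, B, hp, b⟩ := exists_elem_of_le_rank r
  have l : Mα M ⊓ 𝐂 X ≤ M ⊓ 𝐂 X := inf_le_inf_right _ (O_le _ M)
  by_cases mx : MaxElem p B ⊤
  · have a : p ∈ 𝛂 M := b.mem_of_pi (O_pi _ M).inf_left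
    obtain ⟨P, hP, n, l'⟩ := exists_syl_inv_le (hX.trans (O_normal _ M).norm)
      (k.coprime' (O_pi _ M)) (Or.inl (m.sol' hX)) (b.le.trans inf_le_left) b.pi
      (norm_of_cent' (b.le.trans inf_le_right))
    have c := hP.pi.cent_of_Om_cent (m.odd' (hP.le.trans (O_le _ M))) l' b.ab n ((k.to_compl_single' a).coprime' hP.pi)
      (by rw [(mx.of_le l' le_top).Om_cent hp]; exact cent_symm (b.le.trans inf_le_right))
    refine uniq_of_pRank3 (p := p) (m.proper inf_le_left) (lt_of_lt_of_le ?_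
      (pRank_mono p (le_inf (hP.le.trans (O_le _ M)) (cent_symm c))))
    rw [(hP.syl_trans m.hall_Ma a).syl_pRank]; exact mem_alpha.mp a
  · exact (b.uniq_of_not_maxV mx (b.w_of_le (m.pw_Ma.le inf_le_left))).mono (b.le.trans l) (m.proper inf_le_left)

/-- BG 10.4 (a) -/
theorem Mx.not_sigma_of_dvd (m : Mx M) (d : p ∣ ⁅M, M⁆.relIndex M) : p ∉ 𝛔 M := fun hp =>
  m.hall_Ms.idx_of_le m.Ms_le_der p (prime_of_sigma hp) d hp

/-- BG 10.4 (b) -/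
theorem Mx.exists_cent1_zGrp (m : Mx M) (hp : p ∉ 𝛔 M) (hP : Syl p P M) (p1 : P ≠ ⊥) :
    ∃ x ∈ 𝛀 p (𝐙 P), x ≠ 1 ∧ (p ∈ 𝛡 G → ¬ UniqIn (𝐂₁ x) M) ∧ ZGrp (Mα M ⊓ 𝐂₁ x) := by
  have l : 𝛀 p (𝐙 P) ≤ P := (Om_le _ _).trans inf_le_left
  by_cases w : p ∉ 𝛡 G
  · obtain ⟨y, hy, y1⟩ := exists_mem_ne_one (hP.pi.inf_left.Om_ne_bot (hP.pi.center_ne_bot p1))
    refine ⟨y, hy, y1, fun k => absurd k w, zGrp_of_rank (m.odd' (inf_le_left.trans (O_le _ M))) ?_⟩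
    rw [← cent_zpowers, m.pw_Ma.inf_cent_eq_bot (hP.pi.le (zpowers_le.mpr (l hy))) (by simpa using y1) w]
    exact rank_le_iff.mpr fun q _ => cyc_bot.pRank_le q
  rw [not_not] at w
  obtain ⟨x, hx, x1, u⟩ : ∃ x ∈ 𝛀 p (𝐙 P), x ≠ 1 ∧ ¬ UniqIn (𝐂₁ x) M := by
    by_contra h
    push Not at h
    obtain ⟨y, hy, y1⟩ := exists_mem_ne_one (hP.pi.inf_left.Om_ne_bot (hP.pi.center_ne_bot p1))
    refine hp (hP.mem_sigmaV m.ne_top (fun g hg => (h y hy y1).mem_of_cj_le ?_) w)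
    rw [cj_cent1]
    exact (h _ (conj_mem_of_norm (norm_Om p _ (norm_center P hg)) hy)
      (by simpa [mul_inv_eq_one] using y1)).le
  refine ⟨x, hx, x1, fun _ => u, zGrp_of_rank (m.odd' (inf_le_left.trans (O_le _ M)))
    (not_lt.mp fun r => u ?_)⟩
  rw [← cent_zpowers] at r ⊢
  have l' := zpowers_le.mpr (l hx)
  exact ((m.uniq_cent_alpha' (l'.trans hP.le) ((hP.pi.le l').of_single'
    fun a => hp (m.alpha_sub_sigma a)) r).uniqIn m inf_le_left).mono inf_le_right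
      (cent_proper (by simpa using x1) ((hP.pi.le l').pw w))

/-- BG 10.4 (c) -/
theorem Mx.maxElem_of_sigma' (m : Mx M) (hp : p ∉ 𝛔 M) (a : Elem p 2 A M) : MaxElem p A ⊤ := by
  by_contra h
  obtain ⟨P, hP, l⟩ := exists_syl_le a.le a.pi
  exact hp (hP.mem_sigmaV m.ne_top (((a.uniq_of_not_maxV h (m.w_of_elem a)).uniqIn m a.le).of_le l hP.le).norm_le
    (m.w_of_elem a))

/-- BG 10.4 (c) -/
theorem Mx.not_idl_of_sigma' (m : Mx M) (hp : p ∉ 𝛔 M) (r : pRank p M = 2) : ¬ Idl G p := fun h =>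
  let ⟨_, a⟩ := exists_elem r.ge; h.not_maxElem a (m.maxElem_of_sigma' hp a)

/-- BG 10.5 -/
theorem Mx.pRank_of_norm_le (m : Mx M) (hp : p ∉ 𝛔 M) (k : PiGrp {p} X) (n : 𝐍 X ≤ M) (w : p ∈ 𝛡 G) :
    pRank p M = 2 := by
  refine le_antisymm (m.pRank_le_of_sigma' hp) (not_lt.mp fun r => hp ?_)
  obtain ⟨P, hP, l⟩ := exists_syl_le ((le_norm_self X).trans n) k
  exact hP.mem_sigmaV m.ne_top (((hP.pi.mcycV (by rw [hP.syl_pRank]; omega) (m.proper hP.le)).norm_le l).trans n) w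

/-- BG 10.11 (a) -/
theorem Mx.not_uniq_of_sigma' (m : Mx M) (hK : K ≤ M) (k : PiGrp (𝛔 M)ᶜ K) (w : Pw K) : ¬ Uniq K := fun u => by
  obtain ⟨E, hE, l⟩ := m.sol.exists_hall_le (π := (𝛔 M)ᶜ ∩ 𝛡 G) hK fun q a b => ⟨k q a b, w q a b⟩
  have eP : PiGrp (𝛔 M)ᶜ E := hE.pi.mono Set.inter_subset_left
  obtain ⟨p, hp, d, mx⟩ := exists_max_prime (ne_bot_mono u.ne_bot l)
  have s := CF.BG2.syl_O_of_rank (m.sol' hE.le) (m.odd' hE.le) ((rank_mono (F_le E)).trans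
    (rank_le_iff.mpr fun q hq => by
      by_cases a : q ∈ 𝛔 M
      · rw [pRank_eq_zero.mpr (eP.to_compl_single' a)]; omega
      · exact (pRank_mono q hE.le).trans (m.pRank_le_of_sigma' a))) mx
  exact eP p hp d ((s.syl_trans hE (hE.pi p hp d)).mem_sigmaV m.ne_top
    ((u.uniqIn m hK).le_of_proper (l.trans (O_normal _ E).norm)
      (s.pi.norm_properV (s.syl_ne_bot hp d) (hE.pi p hp d).2)) (hE.pi p hp d).2)

theorem Mx.exists_cj_of_sigma (hH : p ∈ 𝛔 H) (nc : ¬ Conj M H) (hS : Syl p S ⊤) :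
    ∃ g, S ≤ BG.cj g H ∧ BG.cj g H ≠ M :=
  let ⟨g, l⟩ := exists_le_cj_of_sigma hH hS.pi
  ⟨g, l, fun e => nc (e ▸ (conj_cj H g).symm)⟩

/-- BG 10.12 (a) -/
theorem Mx.alpha_not_sigma (m : Mx M) (h : Mx H) (nc : ¬ Conj M H) (hp : p ∈ 𝛂 M) : p ∉ 𝛔 H :=
  fun hH => by
    obtain ⟨S, hS⟩ := exists_syl p M
    obtain ⟨g, l, ne⟩ := Mx.exists_cj_of_sigma hH nc (hS.syl_top_of_sigmaV (m.alpha_sub_sigma hp))
    exact ne ((m.uniqIn_of_pRank3 hS.le (hS.syl_pRank ▸ mem_alpha.mp hp)).uniq _ (h.cj g) l)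

/-- BG 10.12 (b) -/
theorem Mx.sigma_not_sigma_of_nil (m : Mx M) (h : Mx H) (nc : ¬ Conj M H) (n : Nil (Mσ M))
    (hp : p ∈ 𝛔 M) : p ∉ 𝛔 H := fun hH => by
  obtain ⟨S, hS⟩ := exists_syl p M
  have hS' := hS.syl_top_of_sigmaV hp
  obtain ⟨g, l, ne⟩ := Mx.exists_cj_of_sigma hH nc hS'
  refine ne (m.eq (h.cj g) (le_trans ?_ ((hS'.of_le l le_top).norm_le_of_sigmaV
    (by simpa using hH)))).symm
  exact (O_normal _ M).norm.trans (n.hall_norm (hS.of_le (m.le_Ms' hS.le hS.pi hp) (O_le _ M)))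

/-- BG 10.14 (b) -/
theorem _root_.CF.BG.Idl.uniqV (h : Idl G p) (k : PiGrp {p} R) (c : ¬ Cyc R) (w : p ∈ 𝛡 G) : Uniq R :=
  let ⟨_, a⟩ := k.exists_elem_two (k.oddV w) c
  (a.uniq_of_not_maxV (h.not_maxElem a) w).mono a.le (k.properV w)

/-- BG 10.14 (c) -/
theorem _root_.CF.BG.Idl.uniq_normV (h : Idl G p) (hP : Syl p P ⊤) (hX : X ≤ P) (w : p ∈ 𝛡 G) : Uniq (P ⊓ 𝐍 X) := by
  refine h.uniqV hP.pi.inf_left (fun c => ?_) w
  have e := hP.pi.nil.eq_of_inf_norm_le inf_le_left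
    (inf_le_inf_left P (c.norm_le (le_inf hX (le_norm_self X))))
  have := c.pRank_le p
  rw [e, hP.syl_pRank] at this
  have := h.pRank
  omega

/-- BG 10.14 (d) -/
theorem Mx.norm_le_of_beta (m : Mx M) (hY : Y ≤ M) (k : PiGrp (𝛃 M) Y) (y1 : Y ≠ ⊥) : 𝐍 Y ≤ M := by
  obtain ⟨q, -, x1⟩ := (m.sol' hY).exists_O_ne_bot y1
  have b := (O_pi {q} Y).mem_of_ne_bot x1 (k.le (O_le _ Y))
  obtain ⟨P, hP, l⟩ := exists_syl_le ((O_le {q} Y).trans hY) (O_pi _ Y)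
  exact (BG.norm_O {q} Y).trans ((((idl_of_beta b).uniq_normV (hP.syl_top_of_sigmaV
    (m.beta_sub_sigma b)) l (w_of_sigma (m.beta_sub_sigma b))).uniqIn m (inf_le_left.trans hP.le)).le_of_proper inf_le_right
      ((O_pi _ Y).norm_properV x1 (w_of_sigma (m.beta_sub_sigma b))))

end CF.BG.Vp
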