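import Cfsg.Agent.Vp.S12a4
/-
BG section 12, first part (12.1 - 12.12): the complement E.
-/
set_option autoImplicit false

namespace CF.BG.Vp

variable {G : Type*} [Group G] [Finite G] [MSO G] {M E : Subgroup G}

theorem Mx.sigE_of_isComplIn (m : Mx M) (h : Cfsg.IsComplIn E (sigmaCore M) M) : SigE M E :=
  ⟨m, (SDProd.of_isComplIn' h (h.1.trans (O_normal _ M).norm)).hall_compl_right m.hall_Ms⟩

theorem SigE.isComplIn (h : SigE M E) : Cfsg.IsComplIn E (sigmaCore M) M :=
  h.sdprod.isComplIn'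

end CF.BG.Vp
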