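import Cfsg.Agent.Vp.S12a3
/-
BG section 12 (12.12): the Frobenius type criterion.
-/
set_option autoImplicit false
set_option linter.unusedSectionVars false

namespace CF.BG.Vp
open Subgroup
open scoped commutatorElement Pointwise

variable {G : Type*} [Group G] [Finite G] [MSO G]
variable {A A₀ A₁ B C D E E₁ E₂ E₃ H K L M N P Q R S T U V W X Y Z : Subgroup G} {p q r : ℕ}
variable {π : Set ℕ} {x y g : G}

theorem SigE.reg_of_norm (h : SigE M E) (a : Elem p 2 A E) (hS : Syl p S ⊤) (l : A ≤ S)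
    (s : Abel S) (x : Elem p 1 X S) (n : 𝐍 S ≤ 𝐍 X) : Mσ M ⊓ 𝐂 X = ⊥ := by_contra fun c =>
  h.not_norm_syl_le a hS l s (n.trans ((h.mx.tau2_uniqIn (h.tau2_of_elem a) (x.mono
    ((s.cent le_rfl l).trans (h.mx.cent_elem_two_le (a.mono h.le)))) c).norm_of_cent
      (x.pw (h.w2 a))).le)

theorem SigE.exists_reg_cyc (h : SigE M E) (a : Elem p 2 A E) (hS : Syl p S ⊤) (l : A ≤ S)
    (s : Abel S) : ∃ Z, Z ≤ S ∧ Cyc Z ∧ (∀ x ∈ S, x ^ ♯Z = 1) ∧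
      ∀ X, Elem p 1 X Z → Mσ M ⊓ 𝐂 X = ⊥ := by
  obtain ⟨e, h1, w, hw, hw1⟩ := hS.pi.exists_exp (ne_bot_mono a.ne_bot l)
  have hp := a.prime
  have := Fact.mk hp
  have lT : s.pows (p ^ e) ≤ A := by
    rintro _ ⟨x, hx, rfl⟩
    rw [← h.Om_syl a hS l s]
    exact mem_Om (S.pow_mem hx _) (by rw [← pow_mul, ← pow_succ, h1 x hx])
  obtain ⟨z, hz, z1, c⟩ : ∃ z ∈ S, z ^ p ^ e ≠ 1 ∧ Mσ M ⊓ 𝐂 (zpowers (z ^ p ^ e)) = ⊥ := by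
    by_cases eT : s.pows (p ^ e) = A
    · obtain ⟨X, x, c⟩ := h.mx.tau2_exists_reg (h.tau2_of_elem a) (a.mono h.le)
      obtain ⟨y, y1, hy, rfl⟩ := x.exists_gen
      obtain ⟨z, hz, rfl⟩ := eT.ge (x.le hy)
      exact ⟨z, hz, y1, c⟩
    · have t := a.one_of_lt (lt_of_le_of_ne lT eT) (ne_bot_of_mem ⟨w, hw, rfl⟩ hw1)
      refine ⟨w, hw, hw1, ?_⟩
      rw [zpowers_eq_of_prime t.card_prime ⟨w, hw, rfl⟩ hw1]
      exact h.reg_of_norm a hS l s (t.mono l) (s.norm_pows _)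
  refine ⟨zpowers z, zpowers_le.mpr hz, cyc_zpowers z, fun x hx => ?_, fun X x => ?_⟩
  · rw [Nat.card_zpowers, orderOf_eq_prime_pow z1 (h1 z hz), h1 x hx]
  · rw [(cyc_zpowers z).eq_Om x, ← (cyc_zpowers z).eq_Om (elem_zpowers' hp
      (pow_mem (mem_zpowers z) _) (by rw [← pow_mul, ← pow_succ, h1 z hz]) z1)]
    exact c

theorem SigE.exists_nonreg (h : SigE M E) (a : Elem p 2 A E) (hS : Syl p S ⊤) (l : A ≤ S)
    (s : Abel S) (hq : q.Prime) (s1 : Syl q P E) (nc : ¬ P ≤ 𝐂 S)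
    (c : ∀ X, Elem q 1 X P → q ∈ 𝛕₁ M → Mσ M ⊓ 𝐂 X = ⊥) :
    ∃ X, X ≤ 𝐍 S ∧ S ⊓ 𝐂 X ≠ ⊥ ∧ ¬ S ≤ 𝐂 X ∧ PiGrp {p}ᶜ X := by
  have t := h.tau2_of_elem a
  obtain ⟨E₁, E₂, E₃, sc⟩ := h.exists_sigC
  obtain ⟨n1, -⟩ := sc.abel_tau2_norm a hS l s
  obtain ⟨k1, k2, k3, k4⟩ := h.abel_tau2_le_F a hS l s
  have nE : E ≤ 𝐍 S := n1 ▸ (h.elem_two_normal a).norm
  have lS : S ≤ E := (k1.trans k2).trans (F_le E)
  have qp : q ≠ p := by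
    rintro rfl
    exact nc (((hS.of_le lS le_top).eq_of_normal nE s1).le.trans s)
  have cA : ∀ Q, PiGrp {q} Q → Q ≤ 𝐍 S → Q ≤ 𝐂 A → Q ≤ 𝐂 S := fun Q k n c =>
    s.cent_of_Om hS.pi n (k.coprime (hS.pi.of_single_ne qp.symm)) (by rwa [h.Om_syl a hS l s])
  have ncA : ¬ P ≤ 𝐂 A := fun c => nc (cA P s1.pi (s1.le.trans nE) c)
  have d : q ∣ (𝐂 A).relIndex E := by_contra fun d => ncA (s1.pi.le_of_relIndex s1.le
    (norm_cent (h.elem_two_normal a).norm) ((piNat_compl_single hq).mpr d))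
  have t1 := h.tau1_cent_elem_two a q hq d
  have p1 : P ≠ ⊥ := fun e => nc (e ▸ bot_le)
  obtain ⟨Y, y⟩ := s1.pi.exists_elem_one p1
  have cY : Y ≤ 𝐂 A := (h.abel_tau2_center a hS l s t1 (y.mono s1.le) (c Y y t1)).trans
    (cent_anti a.le)
  obtain ⟨K, mK, nK⟩ := exists_mx_norm a.ne_bot (a.pw (h.w2 a))
  obtain ⟨tq, ⟨S', s', nS'⟩, -⟩ := h.pi_qt_cent_cent a mK nK hq d (y.dvd.trans (card_dvd cY))
  have lK : 𝐍 S ≤ K := n1 ▸ nK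
  have eK : 𝐍 S = K := by
    rw [(s'.of_le nS'.le le_top).eq_of_normal nS'.norm (hS.of_le ((le_norm_self S).trans lK) le_top)]
    exact mK.norm_eq nS' (s'.syl_ne_bot a.prime a.top.dvd')
  obtain ⟨Q, sQ, lQ⟩ := exists_syl_le (s1.le.trans nE) s1.pi
  have abQ : Abel Q := mK.tau2_abel tq (eK ▸ sQ.le) sQ.pi
  obtain ⟨B, b⟩ := exists_elem (H := Q) (by rw [sQ.syl_pRank, eK, tau2_pRank tq])
  by_contra hn
  push Not at hn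
  have reg : ∀ x ∈ Q, x ∉ 𝐂 S → S ⊓ 𝐂₁ x = ⊥ := fun x hx xc => by_contra fun e =>
    hn (zpowers x) (zpowers_le.mpr (sQ.le hx)) (by rwa [cent_zpowers])
      (fun c => xc (cent_symm c (mem_zpowers x))) ((sQ.pi.le (zpowers_le.mpr hx)).of_single_ne qp)
  have nQ : Q ≤ 𝐍 (Q ⊓ 𝐂 S) := norm_inf_cent (le_norm_self Q) sQ.le
  have nS : S ≤ 𝐍 (Q ⊓ 𝐂 S) := norm_of_cent' inf_le_right
  have iS : Q ⊓ 𝐂 S ⊓ S = ⊥ := sQ.pi.inf_left.inf_eq_bot (hS.pi.of_single_ne qp.symm)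
  have cp : (♯Q).Coprime (♯S) := sQ.pi.coprime (hS.pi.of_single_ne qp.symm)
  have rg : Reg (qt (Q ⊓ 𝐂 S) S) (qt (Q ⊓ 𝐂 S) Q) := by
    intro z hz z1
    obtain ⟨x, hx, nx, rfl⟩ := mem_qt.mp hz
    rw [← cent_zpowers, ← qt_zpowers nx, ← qt_inf_cent (zpowers_le.mpr nx)
      (zpowers_le.mpr (sQ.le hx)) (coprime_mono cp (zpowers_le.mpr hx) inf_le_left)
      (Or.inl (cyc_zpowers x).sol), cent_zpowers, reg x hx fun c => z1 (qe_of_mem ⟨hx, c⟩), qt_bot]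
  have cy : Cyc (qt (Q ⊓ 𝐂 S) Q) := rg.cyc_of_abel (qt_norm _ sQ.le) (fun e => ne_bot_mono a.ne_bot l
    (eq_bot_mono iS (le_inf ((qt_eq_bot nS).mp e) le_rfl))) (abQ.qt _)
  have l0 : Q ⊓ 𝐂 S ≤ P := (s1.eq_of_le le_sup_left (sup_le s1.le (inf_le_right.trans k4))
    (sQ.pi.le (sup_le lQ inf_le_left))).ge.trans' le_sup_right
  have lB : B ≤ P := by
    rw [← qt_le_qt_iff' (b.le.trans nQ) l0]
    refine ((b.ab.qt _).le_Om (qt_mono _ b.le)).trans (cy.Om_le (sQ.pi.qt _) (qt_mono _ lQ) ?_)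
    exact fun e => nc (((qt_eq_bot (lQ.trans nQ)).mp e).trans inf_le_right)
  have := (b.of_le (lB.trans (s1.le.trans h.le))).le_pRank
  rw [tau1_pRank t1] at this
  omega

theorem SigE.exists_inv_cyc (h : SigE M E) (a : Elem p 2 A E) (hS : Syl p S ⊤) (l : A ≤ S)
    (s : Abel S) (u : Hall π U E)
    (c : ∀ e ∈ U, e ≠ 1 → PiElt (𝛕₁ M ∪ 𝛕₃ M) e → Mσ M ⊓ 𝐂₁ e = ⊥) :
    ∃ Z, Z ≤ S ∧ U ≤ 𝐍 Z ∧ Cyc Z ∧ (∀ x ∈ S, x ^ ♯Z = 1) ∧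
      ∀ X, Elem p 1 X Z → Mσ M ⊓ 𝐂 X = ⊥ := by
  by_cases cU : U ≤ 𝐂 S
  · obtain ⟨Z, a1, a2⟩ := h.exists_reg_cyc a hS l s
    exact ⟨Z, a1, norm_of_cent (cU.trans (cent_anti a1)), a2⟩
  obtain ⟨q, hq, d, P, sP, nc⟩ : ∃ q : ℕ, q.Prime ∧ q ∣ ♯U ∧ ∃ P, Syl q P U ∧ ¬ P ≤ 𝐂 S := by
    by_contra k
    push Not at k
    exact cU (le_of_forall_syl' k)
  obtain ⟨X, nX, c1, c2, kX⟩ := h.exists_nonreg a hS l s hq (sP.syl_trans u (u.pi q hq d)) nc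
    fun Y y t => by
      obtain ⟨e, e1, he, rfl⟩ := y.exists_gen
      rw [cent_zpowers]
      exact c e (sP.le (y.le he)) e1 (piGrp_zpowers.mp (y.pi.of_single (Or.inl t)))
  obtain ⟨E₁, E₂, E₃, sc⟩ := h.exists_sigC
  have nE : E ≤ 𝐍 S := (sc.abel_tau2_norm a hS l s).1 ▸ (h.elem_two_normal a).norm
  obtain ⟨n0, n1⟩ := h.abel_tau2_normal a hS l s nX
  have dS := s.dprod_cent_comm nX (kX.coprime' hS.pi)
  have k0 := hS.pi.le dS.left_le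
  have k1 := hS.pi.le dS.right_le
  have r := dS.pRank_eq p
  have r0 := k0.pRank_pos.mpr c1
  have r1 := k1.pRank_pos.mpr fun e => c2 (comm_eq_bot.mp e)
  have r2 : pRank p S ≤ 2 := (pRank_mono p ((s.cent le_rfl l).trans
    (h.mx.cent_elem_two_le (a.mono h.le)))).trans (tau2_pRank (h.tau2_of_elem a)).le
  have key : ∀ Z W, DProd Z W S → Z ⊴ 𝐍 S → pRank p Z ≤ 1 → ♯W ∣ ♯Z →
      ∃ Z, Z ≤ S ∧ U ≤ 𝐍 Z ∧ Cyc Z ∧ (∀ x ∈ S, x ^ ♯Z = 1) ∧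
        ∀ X, Elem p 1 X Z → Mσ M ⊓ 𝐂 X = ⊥ := fun Z W dZ nZ rZ dv => by
    have cy := (hS.pi.le dZ.left_le).mcycV rZ ((hS.pi.le dZ.left_le).properV (h.w2 a))
    exact ⟨Z, dZ.left_le, u.le.trans (nE.trans nZ.norm), cy, fun x => dZ.pow_card dv,
      fun Y y => h.reg_of_norm a hS l s (y.mono dZ.left_le) (cy.le_norm y.le nZ.norm)⟩
  rcases k0.card_dvd_or k1 with dv | dv
  · exact key _ _ dS.symm n1 (by omega) dv
  · exact key _ _ dS n0 (by omega) dv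

theorem SigE.typeF_nonabel (h : SigE M E) (a : Elem p 2 A E) (k : PiGrp {p} P) (na : ¬ Abel P)
    (lU : U ≤ E) (l : A ≤ U)
    (c : ∀ e ∈ U, e ≠ 1 → PiElt (𝛕₁ M ∪ 𝛕₃ M) e → Mσ M ⊓ 𝐂₁ e = ⊥) :
    (∃ A, A ⊴ U ∧ Abel A ∧ ∀ x ∈ Mσ M, x ≠ 1 → U ⊓ 𝐂₁ x ≤ A) ∧
    ∃ U₀, U₀ ≤ U ∧ Monoid.exponent U₀ = Monoid.exponent U ∧ Reg (Mσ M) U₀ := by
  obtain ⟨-, c0, -, -, E₀, d0, hE⟩ := h.nonabel_tau2 a k na
  have hp := a.prime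
  have t := h.tau2_of_elem a
  set A₀ := A ⊓ 𝐂 (Mσ M)
  have k0 : PiGrp {p} A₀ := a.pi.inf_left
  have d := d0.inf_of_left_le (inf_le_left.trans l)
  rw [inf_eq_right.mpr lU] at d
  have key : ∀ x ∈ Mσ M, x ≠ 1 → E₀ ⊓ U ⊓ 𝐂₁ x = ⊥ := fun x hx x1 =>
    eq_bot_of_forall fun e he => by_contra fun e1 => x1 (eq_one_of_mem_bot (c e he.1.2 e1
      (((hE x hx x1).elt ⟨he.1.1, he.2⟩).mono Set.subset_union_left)) ⟨hx, mem_cent1_comm.mp he.2⟩)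
  refine ⟨⟨A₀, d.normal, a.abel.mono inf_le_left, fun x hx x1 => ?_⟩, E₀ ⊓ U, inf_le_right, ?_,
    Reg.symm key⟩
  · have := (d.inf_of_left_le (inf_le_right.trans (cent_le_cent1 hx))).sup
    rw [key x hx x1, sup_bot_eq] at this
    exact this.ge
  have dp : p ∣ Monoid.exponent (E₀ ⊓ U : Subgroup G) := by
    have h1 : ♯A ∣ ♯U := card_dvd l
    rw [← d.card, a.card, c0, sq] at h1
    obtain ⟨X, x⟩ := exists_elem_one hp (Nat.dvd_of_mul_dvd_mul_left hp.pos h1)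
    exact x.card_one ▸ x.cyc.card_dvd_exponent x.le
  refine exponent_eq_of_le inf_le_right fun x => pow_eq_one_of_parts {p} (fun y hy ky => ?_)
    fun y hy ky => ?_
  · obtain ⟨b, hb, v, hv, rfl⟩ := d.exists_mul hy
    have ab : Abel (A₀ ⊔ zpowers (b * v)) := h.mx.tau2_abel t
      ((sup_le d.left_le (zpowers_le.mpr hy)).trans (lU.trans h.le))
      (k0.sup ky.zpowers (Or.inr ((zpowers_le.mpr hy).trans d.normal.norm)))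
    have hv' : v ∈ A₀ ⊔ zpowers (b * v) := by
      simpa using mul_mem (mem_sup_left (inv_mem hb)) (mem_sup_right (mem_zpowers (b * v)))
    rw [Commute.mul_pow (ab.mul_comm (mem_sup_left hb) hv'), pow_exponent_of_mem hv, mul_one]
    exact orderOf_dvd_iff_pow_eq_one.mp ((orderOf_dvd_card' hb).trans (c0 ▸ dp))
  · obtain ⟨b, hb, v, hv, rfl⟩ := d.exists_mul hy
    refine PiElt.eq_one (k0.elt ?_) (ky.pow _)
    rw [← qe_eq_one (pow_mem (d.normal.norm hy) _), qe_pow (d.normal.norm hy),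
      qe_mul (le_norm_self _ hb) (d.norm hv), qe_of_mem hb, one_mul, ← qe_pow (d.norm hv),
      pow_exponent_of_mem hv, qe_one]

theorem SigE.typeF_abel (h : SigE M E) (u : Hall π U E)
    (c : ∀ e ∈ U, e ≠ 1 → PiElt (𝛕₁ M ∪ 𝛕₃ M) e → Mσ M ⊓ 𝐂₁ e = ⊥)
    (ab : ∀ p ∈ 𝛕₂ M, p ∣ ♯U → ∀ S : Subgroup G, Syl p S ⊤ → Abel S) :
    (∃ A, A ⊴ U ∧ Abel A ∧ ∀ x ∈ Mσ M, x ≠ 1 → U ⊓ 𝐂₁ x ≤ A) ∧
    ∃ U₀, U₀ ≤ U ∧ Monoid.exponent U₀ = Monoid.exponent U ∧ Reg (Mσ M) U₀ := by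
  have u2 : Hall (𝛕₂ M) (𝐎 (𝛕₂ M) U) U := by
    by_cases e : PiGrp (𝛕₂ M)ᶜ U
    · rw [O_of_pi' e]; exact Hall.bot e
    obtain ⟨p, hp, d, t⟩ : ∃ p : ℕ, p.Prime ∧ p ∣ ♯U ∧ p ∈ 𝛕₂ M := by
      by_contra k
      push Not at k
      exact e k
    obtain ⟨A, a⟩ := h.exists_elem_two t
    obtain ⟨S, s, l⟩ := exists_syl_le le_top a.pi
    obtain ⟨E₂, e2⟩ := h.sol.exists_hall (𝛕₂ M)
    have n := u.le.trans (h.abel_tau2 a s l (ab p t d S s) e2).1.norm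
    exact (e2.inf_of_norm u.le n).hall_O (normalIn_inf_left n).norm
  set U₂ := 𝐎 (𝛕₂ M) U
  have n2 : U₂ ⊴ U := O_normal _ U
  have a2 : Abel U₂ := h.mx.abel_of_tau2 (u2.le.trans (u.le.trans h.le)) u2.pi
  have t13 : ∀ q, q.Prime → q ∣ ♯U → q ∉ 𝛕₂ M → q ∈ 𝛕₁ M ∪ 𝛕₃ M := fun q hq d t => by
    rcases h.partition_pi hq (d.trans (card_dvd u.le)) with t' | t' | t'
    exacts [Or.inl t', absurd t' t, Or.inr t']
  have reg : ∀ q X, Elem q 1 X U → q ∉ 𝛕₂ M → Mσ M ⊓ 𝐂 X = ⊥ := fun q X x t => by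
    obtain ⟨e, e1, he, rfl⟩ := x.exists_gen
    rw [cent_zpowers]
    exact c e (x.le he) e1 (piGrp_zpowers.mp (x.pi.of_single (t13 q x.prime x.dvd' t)))
  refine ⟨⟨U₂, n2, a2, fun x hx x1 => u2.le_O inf_le_left fun q hq d => by_contra fun t => ?_⟩, ?_⟩
  · obtain ⟨X, e⟩ := exists_elem_one hq d
    exact x1 (eq_one_of_mem_bot (reg q X (e.mono inf_le_left) t)
      ⟨hx, le_cent1_iff.mp (e.le.trans inf_le_right)⟩)
  have : ∀ p : ℕ, ∃ Z, Z ≤ 𝐎 {p} U₂ ∧ U ≤ 𝐍 Z ∧ Cyc Z ∧ (∀ x ∈ 𝐎 {p} U₂, x ^ ♯Z = 1) ∧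
      ∀ X, Elem p 1 X Z → Mσ M ⊓ 𝐂 X = ⊥ := fun p => by
    by_cases e : 𝐎 {p} U₂ = ⊥
    · exact ⟨⊥, bot_le, by simp, cyc_bot, fun x hx => by rw [eq_one_of_mem_bot e hx, one_pow],
        fun X x => absurd (le_bot_iff.mp x.le) x.ne_bot⟩
    have t : p ∈ 𝛕₂ M := (O_pi _ _).mem_of_ne_bot e (u2.pi.le (O_le _ _))
    have d : p ∣ ♯U := ((O_pi _ _).dvd_card e).trans (card_dvd ((O_le _ _).trans u2.le))
    obtain ⟨A, a⟩ := h.exists_elem_two t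
    obtain ⟨S, s, l⟩ := exists_syl_le le_top a.pi
    have s' := ab p t d S s
    obtain ⟨k1, k2, -⟩ := h.abel_tau2_le_F a s l s'
    have nS : S ⊴ E := (F_normal E).char (k1.trans k2)
      ((F_nil E).hall_norm (s.of_le (k1.trans k2) le_top))
    have lS : S ≤ U := u.le_of_normal nS (s.pi.of_single (u.pi p a.prime d))
    have eS : 𝐎 {p} U₂ = S :=
      (a2.nil.hall_eq (s.of_le (u2.le_O lS (s.pi.of_single t)) le_top)).symm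
    rw [eS]
    exact h.exists_inv_cyc a s l s' u c
  choose Z z1 z2 z3 z4 z5 using this
  obtain ⟨V, dV, hV⟩ := u2.exists_compl n2.norm
  have lW : ⨆ p, Z p ≤ U₂ := iSup_le fun p => (z1 p).trans (O_le _ _)
  have nW : U ≤ 𝐍 (⨆ p, Z p) := norm_iSup z2
  have dW : SDProd (⨆ p, Z p) V ((⨆ p, Z p) ⊔ V) :=
    SDProd.mk' (hV.le.trans nW) (eq_bot_mono dV.inf (inf_le_inf_right _ lW))
  have lU : (⨆ p, Z p) ⊔ V ≤ U := sup_le (lW.trans u2.le) hV.le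
  refine ⟨_, lU, exponent_eq_of_le lU fun x => pow_eq_one_of_parts (𝛕₂ M) (fun y hy ky => ?_)
    (fun y hy ky => ?_), reg_of_elem fun q X x => ?_⟩
  · refine (a2.mem_Om.mp (a2.nil.le_of_forall (fun p _ _ w hw => mem_Om (O_le _ _ hw) ?_)
      (u2.mem_O hy ky))).2
    exact orderOf_dvd_iff_pow_eq_one.mp ((orderOf_dvd_of_pow_eq_one (z4 p w hw)).trans
      ((z3 p).card_dvd_exponent ((le_iSup Z p).trans le_sup_left)))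
  · obtain ⟨g, -, hg⟩ := hV.conj_mem (h.sol.mono u.le) hy ky
    have := pow_exponent_of_mem (dW.right_le hg)
    rwa [conj_pow, conj_eq_one_iff] at this
  · by_cases t : q ∈ 𝛕₂ M
    swap
    · exact reg q X (x.mono lU) t
    have l1 : X ≤ ⨆ p, Z p := (dW.hall_left (u2.pi.le lW) hV.pi).le_normal dW.normal.norm x.le
      (x.pi.of_single t)
    have k : PiGrp {q} (Z q) := (O_pi _ _).le (z1 q)
    have dq : DProd (Z q) (𝐎 {q}ᶜ U₂) (Z q ⊔ 𝐎 {q}ᶜ U₂) := DProd.mk'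
      (a2.cent (O_le _ _) ((z1 q).trans (O_le _ _))) (k.inf_eq_bot (O_pi _ _))
    refine z5 q X (x.of_le ((dq.sdprod.hall_left k (O_pi _ _)).le_normal dq.normal_left.norm
      (l1.trans (iSup_le fun p => ?_)) x.pi))
    by_cases e : p = q
    · exact e ▸ le_sup_left
    · exact ((z1 p).trans (O_mono _ (Set.singleton_subset_iff.mpr e))).trans le_sup_right

theorem SigE.typeF_aux (h : SigE M E) (u : Hall π U E)
    (c : ∀ e ∈ U, e ≠ 1 → PiElt (𝛕₁ M ∪ 𝛕₃ M) e → Mσ M ⊓ 𝐂₁ e = ⊥) :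
    (∃ A, A ⊴ U ∧ Abel A ∧ ∀ x ∈ Mσ M, x ≠ 1 → U ⊓ 𝐂₁ x ≤ A) ∧
    ∃ U₀, U₀ ≤ U ∧ Monoid.exponent U₀ = Monoid.exponent U ∧ Reg (Mσ M) U₀ := by
  by_cases ab : ∀ p ∈ 𝛕₂ M, p ∣ ♯U → ∀ S : Subgroup G, Syl p S ⊤ → Abel S
  · exact h.typeF_abel u c ab
  push Not at ab
  obtain ⟨p, t, d, S, s, na⟩ := ab
  obtain ⟨A, a⟩ := h.exists_elem_two t
  exact h.typeF_nonabel a s.pi na u.le
    (u.le_of_normal (h.elem_two_normal a) (a.pi.of_single (u.pi p a.prime d))) c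

/-- BG 12.12 (generalized as in the Coq proof) -/
theorem Mx.typeF_compl (m : Mx M) (u : Hall π U M) (k : PiGrp (𝛔 M)ᶜ U) (u1 : U ≠ ⊥)
    (h : ∀ e ∈ U, e ≠ 1 → PiElt (𝛕₁ M ∪ 𝛕₃ M) e → Mσ M ⊓ 𝐂₁ e = ⊥) :
    (∃ A, A ⊴ U ∧ Abel A ∧ ∀ x ∈ Mσ M, x ≠ 1 → U ⊓ 𝐂₁ x ≤ A) ∧
    ∃ U₀, U₀ ≤ U ∧ Monoid.exponent U₀ = Monoid.exponent U ∧ Frob (Mσ M) U₀ (Mσ M ⊔ U₀) := by
  obtain ⟨E, e, l⟩ := m.exists_sigE u.le k
  obtain ⟨a, U₀, l0, ex, rg⟩ := e.typeF_aux (u.of_le l e.le) h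
  refine ⟨a, U₀, l0, ex, Frob.mk' (l0.trans (l.trans e.norm)) m.Ms_ne_bot ?_ rg⟩
  rintro rfl
  refine u1 (eq_bot_of_forall fun x hx => ?_)
  have := pow_exponent_of_mem hx
  rwa [← ex, Monoid.exp_eq_one_of_subsingleton, pow_one] at this

end CF.BG.Vp
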