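import Cfsg.Agent.Vp.S12b
/-
BG section 13: prime action.
-/
set_option autoImplicit false
set_option linter.unusedSectionVars false

namespace CF.BG.Vp
open Subgroup
open scoped commutatorElement Pointwise

variable {G : Type*} [Group G] [Finite G] [MSO G]
variable {A A₀ A₁ B C D E E₁ E₂ E₃ H K L M N P Q R S T U V W X Y Z : Subgroup G} {p q r : ℕ}
variable {π : Set ℕ} {x y g : G}

theorem _root_.CF.BG.Hall.sup_normal_of_nil_qtV (hS : Hall π S ⁅H, H⁆) (hN : N ⊴ H) (n : Nil (qt N ⁅H, H⁆)) :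
    N ⊔ S ⊴ H := by
  have l : S ≤ H := hS.le.trans (der_le H)
  refine ⟨sup_le hN.le l, norm_sup_of_qt (l.trans hN.norm) hN.norm ?_⟩
  exact (qt_norm N (der_normal H).norm).trans
    (n.hall_norm (hS.qt ((der_le H).trans hN.norm)))

theorem _root_.CF.BG.Hall.sup_norm_of_nil_qtV (hS : Syl q S ⁅H, H⁆) (hN : N ⊴ H) (l : N ≤ ⁅H, H⁆)
    (n : Nil (qt N ⁅H, H⁆)) : N ⊔ (H ⊓ 𝐍 S) = H := by
  have e := (hS.of_le le_sup_right (sup_le l hS.le)).syl_frattini_sup (hS.sup_normal_of_nil_qtV hN n)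
  rwa [sup_assoc, sup_eq_right.mpr (le_inf (hS.le.trans (der_le H)) (le_norm_self S))] at e

theorem Mx.le_der_of_sigma_tau3 (m : Mx M) (hP : P ≤ M) (k : PiGrp {p} P)
    (hp : p ∈ 𝛔 M ∨ p ∈ 𝛕₃ M) : P ≤ ⁅M, M⁆ :=
  hp.elim (fun s => (m.le_Ms' hP k s).trans m.Ms_le_der) fun t => tau3_le_der hP (k.of_single t)

theorem Mx.Ma_sigma' (m : Mx M) (h : Mx H) (nc : ¬ Conj M H) : PiGrp (𝛔 M)ᶜ (Mα H) :=
  (O_pi _ H).mono fun _ a => h.alpha_not_sigma m (fun c => nc c.symm) a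

/-- BG 13.1 -/
theorem Mx.Ms_inf_central (m : Mx M) (h : Mx H) (hp : p.Prime) (hs : p ∉ 𝛔 M) (d : p ∣ ♯M)
    (d' : p ∣ ♯H) (t : p ∉ 𝛕₁ H) (c : ⁅Mσ M ⊓ H, M ⊓ H⁆ ≠ ⊥) (nc : ¬ Conj M H) :
    (∀ P, P ≤ M ⊓ H → PiGrp {p} P → P ≤ 𝐂 (Mσ M ⊓ H)) ∧ p ∉ 𝛕₂ H ∧ (p ∈ 𝛕₁ M → Idl G p) := by
  have nI : M ⊓ H ≤ 𝐍 (Mσ M ⊓ H) :=
    norm_inf (inf_le_left.trans (O_normal _ M).norm) (norm_of_le inf_le_right)
  obtain ⟨q, hq, dq⟩ := exists_prime_dvd_card c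
  have sq : q ∈ 𝛔 M := ((O_pi _ M).le ((comm_le_left nI).trans inf_le_left)) q hq dq
  obtain ⟨Y, sY⟩ := exists_syl q ⁅H, H⁆
  have y1 : Y ≠ ⊥ :=
    sY.syl_ne_bot hq (dq.trans (card_dvd (commutator_mono inf_le_right inf_le_right)))
  have e := sY.sup_norm_of_nil_qtV (O_normal _ H) (h.Mb_le_Ms.trans h.Ms_le_der) h.nil_qt_Mb
  have f := fun b => m.sigma_norm_facts (sY.pi.of_single sq) y1 hs d b h (sY.le.trans (der_le H)) nc
  have kb : ¬ Idl G p → PiGrp {p}ᶜ (Mβ H) := fun b =>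
    (O_pi _ H).to_compl_single (not_beta_of_not_idl b)
  have t2 : p ∉ 𝛕₂ H := fun t2 => by
    have b := h.tau2_not_idl t2
    obtain ⟨P, sP⟩ := exists_syl p (H ⊓ 𝐍 Y)
    have := (f b).1
    rw [← sP.syl_pRank, (sP.of_sup_normal (O_normal _ H) e (kb b)).syl_pRank, tau2_pRank t2] at this
    omega
  have t3 : p ∈ 𝛔 H ∨ p ∈ 𝛕₃ H := by
    rcases h.partition_pi hp d' with a | a | a | a
    exacts [.inl a, (t a).elim, (t2 a).elim, .inr a]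
  refine ⟨fun P l k => ?_, t2, fun t1 => by_contra fun b => (f b).2 t1 ?_⟩
  · obtain ⟨S, sS, lS⟩ := exists_syl_le (l.trans inf_le_right) k
    have lS' := h.le_der_of_sigma_tau3 sS.le sS.pi t3
    have n := (sS.of_le lS' (der_le H)).sup_normal_of_nil_qtV (O_normal _ H) h.nil_qt_Ma
    have k' : PiGrp (𝛔 M)ᶜ (Mα H ⊔ S) :=
      (m.Ma_sigma' h nc).sup (sS.pi.of_single' hs) (.inr (sS.le.trans (O_normal _ H).norm))
    refine comm_eq_bot'.mp (eq_bot_mono ((O_pi (𝛔 M) M).inf_eq_bot k') (le_inf ?_ ?_))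
    · exact (comm_le_left (l.trans nI)).trans inf_le_left
    · exact (commutator_mono inf_le_right (lS.trans le_sup_right)).trans (comm_le_right n.norm)
  · obtain ⟨X, x⟩ := exists_elem_one hp d'
    have d1 : p ∣ ♯⁅H, H⁆ := x.dvd.trans (card_dvd (h.le_der_of_sigma_tau3 x.le x.pi t3))
    have d2 := (d1.trans (card_dvd (der_le_sup (O_normal _ H) e))).trans (card_sup_dvd (.inr
      (((der_le _).trans inf_le_left).trans (O_normal _ H).norm)))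
    exact ((hp.dvd_mul.mp d2).resolve_left ((piNat_compl_single hp).mp (kb b)))

theorem tau13_sigma' (h : p ∈ 𝛕₁ M ∪ 𝛕₃ M) : p ∉ 𝛔 M := (mem_tau13.mp h).1

/-- BG 13.2 -/
theorem Mx.cent_norm_tau13 (m : Mx M) (hp : p ∈ 𝛕₁ M ∪ 𝛕₃ M) (hP : P ≤ M) (k : PiGrp {p} P)
    (h : Mx H) (n : 𝐍 P ≤ H) (w : p ∈ 𝛡 G) :
    (∀ X, X ≤ M ⊓ H → PiGrp {p} X → X ≤ 𝐂 (Mσ M ⊓ H)) ∧
    (∀ X, X ≤ M ⊓ H → PiGrp (𝛔 M)ᶜ X → PiGrp (𝛕₁ H)ᶜ X → X ≤ 𝐂 (Mσ M ⊓ H)) ∧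
    (⁅Mσ M ⊓ H, M ⊓ H⁆ ≠ ⊥ → p ∈ 𝛔 H ∧ (p ∈ 𝛕₁ M → p ∈ 𝛃 H)) := by
  by_cases c : ⁅Mσ M ⊓ H, M ⊓ H⁆ = ⊥
  · have c' := comm_eq_bot'.mp c
    exact ⟨fun X l _ => l.trans c', fun X l _ _ => l.trans c', fun e => (e c).elim⟩
  have nc := m.not_conj_of_norm h k hP n (.inr hp) w
  have p1 : P ≠ ⊥ := by
    rintro rfl
    exact (h.proper n).ne_top norm_bot
  have s2 := h.sigma_or_tau2 k n w
  have d := k.dvd_card p1
  obtain ⟨a, b, e⟩ := m.Ms_inf_central h (k.prime p1) (tau13_sigma' hp) (d.trans (card_dvd hP))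
    (d.trans (card_dvd ((le_norm_self P).trans n)))
    (fun t => s2.elim (tau1_sigma' t) (tau1_not_tau2 t)) c nc
  have s := s2.resolve_right b
  refine ⟨a, fun X l k1 k2 => le_of_forall_syl' fun q hq dq Q sQ => ?_,
    fun _ => ⟨s, fun t => h.mem_beta_iff.mpr ⟨s, e t⟩⟩⟩
  exact (m.Ms_inf_central h hq (k1 q hq dq) (dq.trans (card_dvd (l.trans inf_le_left)))
    (dq.trans (card_dvd (l.trans inf_le_right))) (k2 q hq dq) c nc).1 Q (sQ.le.trans l) sQ.pi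

theorem Mx.primeAct_tau13 (m : Mx M) (hp : p ∈ 𝛕₁ M ∪ 𝛕₃ M) (hP : P ≤ M) (k : PiGrp {p} P) :
    PrimeAct (Mσ M) P := by
  refine primeAct_of_elem fun q X x => ?_
  have kX := k.le x.le
  by_cases e0 : Mσ M ⊓ 𝐂 X = ⊥
  · exact e0.le.trans bot_le
  obtain ⟨H, h, n⟩ := exists_mx_norm x.ne_bot (pw_of_Ms_cent e0)
  have c := (m.cent_norm_tau13 hp (x.le.trans hP) kX h n ((pw_of_Ms_cent e0).mem_of kX x.ne_bot)).1 P
    (le_inf hP (((cyc_of_tau13 hP k hp).abel.le_norm x.le).trans n)) k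
  exact (inf_le_inf_left _ ((cent_le_norm X).trans n)).trans (cent_symm c)

/-- BG 13.3 (b) -/
theorem SigE.primeAct3 (h : SigE M E) (k : Hall (𝛕₃ M) E₃ E) : PrimeAct (Mσ M) E₃ := by
  refine primeAct_of_elem fun q X x => ?_
  obtain ⟨c, d, n3⟩ := h.tau3_facts k
  by_cases e0 : Mσ M ⊓ 𝐂 X = ⊥
  · exact e0.le.trans bot_le
  obtain ⟨H, mH, n⟩ := exists_mx_norm x.ne_bot (pw_of_Ms_cent e0)
  have lE : E ≤ H := (c.normalIn x.le n3).norm.trans n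
  have e := (h.mx.cent_norm_tau13 (.inr (x.mem_of_pi k.pi)) ((x.le.trans k.le).trans h.le) x.pi mH
    n (x.w_of (pw_of_Ms_cent e0))).2.1 E₃ (le_inf (k.le.trans h.le) (k.le.trans lE)) (h.pi.le k.le)
    (pi'_tau1_der (d.trans (der_mono lE)))
  exact (inf_le_inf_left _ ((cent_le_norm X).trans n)).trans (cent_symm e)

theorem exists_syl_inv_not_cent (n : A ≤ 𝐍 K) (c : (♯A).Coprime (♯K)) (s : Sol A ∨ Sol K)
    (hB : ¬ K ≤ L) : ∃ q S, q.Prime ∧ q ∣ ♯K ∧ Syl q S K ∧ A ≤ 𝐍 S ∧ ¬ S ≤ L := by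
  by_contra e
  refine hB (le_of_forall_syl fun q hq d => ?_)
  obtain ⟨S, sS, nS⟩ := exists_syl_inv n c s q
  exact ⟨S, sS, by_contra fun l => e ⟨q, S, hq, d, sS, nS, l⟩⟩

theorem Mx.cent_tau1_aux (m : Mx M) (hp : p ∈ 𝛕₁ M) (a : Elem p 1 P M) (hr : r ∉ 𝛔 M)
    (b : Elem r 1 R (M ⊓ 𝐂 P)) (k : PiGrp {q} S) (l : S ≤ Mσ M ⊓ 𝐂 P) (n : R ≤ 𝐍 S)
    (c : ¬ S ≤ 𝐂 R) : r ∈ 𝛕₁ M ∧ q ∉ 𝛂 M ∧ Mα M ⊓ 𝐂 R ≠ ⊥ ∧ Mα M ⊓ 𝐂 (R ⊔ ⁅S, R⁆) = ⊥ := by
  have w := a.w_of (pw_of_Ms_cent (ne_bot_mono (fun e => c (e.le.trans bot_le)) l))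
  obtain ⟨H, h, nH⟩ := exists_mx_norm a.ne_bot (a.pw w)
  have cH : 𝐂 P ≤ H := (cent_le_norm P).trans nH
  have nc := m.not_conj_of_norm h a.pi a.le nH (.inr (.inl hp)) w
  have ne : H ≠ M := by
    rintro rfl
    exact nc (Conj.refl _)
  have lS : S ≤ Mσ M ⊓ H := l.trans (inf_le_inf_left _ cH)
  have lR : R ≤ M ⊓ H := b.le.trans (inf_le_inf_left _ cH)
  have q1 : ⁅S, R⁆ ≠ ⊥ := fun e => c (comm_eq_bot.mp e)
  have s1 : S ≠ ⊥ := ne_bot_mono q1 (comm_le_left n)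
  have sq : q ∈ 𝛔 M := k.mem_of_ne_bot s1 ((O_pi _ M).le (l.trans inf_le_left))
  obtain ⟨-, f2, f3⟩ := m.cent_norm_tau13 (.inl hp) a.le a.pi h nH w
  have bp := (f3 (ne_bot_mono q1 (commutator_mono lS lR))).2 hp
  have tr : r ∈ 𝛕₁ H := by_contra fun t =>
    c (lS.trans (cent_symm (f2 R lR (b.pi.of_single' hr) (b.pi.of_single' t))))
  have lM : S ≤ M := (l.trans inf_le_left).trans (O_le _ M)
  have ab : Abel S := by_contra fun na =>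
    ne ((k.uniq_of_not_abelV na (w_of_sigma sq)).eq h (lS.trans inf_le_right) m lM)
  have cop : (♯R).Coprime (♯S) :=
    (b.pi.of_single' hr).coprime' ((O_pi _ M).le (l.trans inf_le_left))
  have fp := ab.comm_inf_cent n cop
  have lQ : ⁅S, R⁆ ≤ S := comm_le_left n
  have lP : P ≤ Mα H := h.le_Ma ((le_norm_self P).trans nH) (a.pi.of_single (beta_sub_alpha H bp))
  have u : UniqIn (𝐍 ⁅S, R⁆) H := by_contra fun u => by
    have := (h.cent_Ma_tau1 tr (b.of_le (lR.trans inf_le_right)) q1 (norm_comm_right S R) fp u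
      (ne_bot_mono a.ne_bot lP) (fun aq => h.alpha_not_sigma m (fun c => nc c.symm) aq sq)
      (k.le lQ) ((lQ.trans lS).trans inf_le_right)).2
    exact a.ne_bot (eq_bot_mono this (le_inf lP (cent_symm (sup_le (b.le.trans inf_le_right)
      ((lQ.trans l).trans inf_le_right)))))
  have sH : q ∈ 𝛔 H := by_contra fun sH => by
    have e := (m.sigma_embed_tau2 sq (lQ.trans lM) (k.le lQ) h u.le ne sH).2.2
    exact a.self.mem_of_pi (e.pi.le (le_inf a.le ((le_norm_self P).trans nH)))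
      (h.beta_sub_sigma bp)
  obtain ⟨-, t, -, a1⟩ := m.sigma_embed_sigma sq (lQ.trans lM) (k.le lQ) h u.le ne sH
  have tr' : r ∈ 𝛕₁ M := (t tr).resolve_right fun ar => hr (m.alpha_sub_sigma ar)
  have aq : q ∉ 𝛂 M := fun aq => m.alpha_not_sigma h nc aq sH
  exact ⟨tr', aq, m.cent_Ma_tau1 tr' (b.mono inf_le_left) q1 (norm_comm_right S R) fp
    (fun u' => ne (u.eq u')) a1 aq (k.le lQ) (lQ.trans lM)⟩

theorem Mx.cent_tau1_Ma (m : Mx M) (hp : p ∈ 𝛕₁ M) (a : Elem p 1 P M) (hr : r ∉ 𝛔 M)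
    (b : Elem r 1 R (M ⊓ 𝐂 P)) : Mα M ⊓ 𝐂 P ≤ 𝐂 R := by
  by_contra c
  have l := inf_le_inf_right (𝐂 P) m.Ma_le_Ms
  obtain ⟨q, S, hq, d, sS, nS, c⟩ := exists_syl_inv_not_cent (A := R)
    (norm_inf_cent ((b.le.trans inf_le_left).trans (O_normal _ M).norm)
      (norm_of_cent (b.le.trans inf_le_right)))
    ((b.pi.of_single' hr).coprime' ((O_pi _ M).le (l.trans inf_le_left))) (.inl b.abel.sol) c
  exact (m.cent_tau1_aux hp a hr b sS.pi (sS.le.trans l) nS c).2.1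
    ((O_pi _ M).inf_left q hq d)

/-- BG 13.4 -/
theorem Mx.cent_tau1_le (m : Mx M) (hp : p ∈ 𝛕₁ M) (a : Elem p 1 P M) (hr : r ∉ 𝛔 M)
    (b : Elem r 1 R (M ⊓ 𝐂 P)) : Mσ M ⊓ 𝐂 P ≤ 𝐂 R := by
  by_contra c
  have cop := (b.pi.of_single' hr).coprime' ((O_pi _ M).inf_left (K := 𝐂 P))
  obtain ⟨q, S, hq, d, sS, nS, c⟩ := exists_syl_inv_not_cent (A := R)
    (norm_inf_cent ((b.le.trans inf_le_left).trans (O_normal _ M).norm)
      (norm_of_cent (b.le.trans inf_le_right))) cop (.inl b.abel.sol) c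
  obtain ⟨tr, -, c1, c2⟩ := m.cent_tau1_aux hp a hr b sS.pi sS.le nS c
  have e1 := m.cent_tau1_Ma hp a hr b
  have e2 := m.cent_tau1_Ma tr (b.mono inf_le_left) (tau1_sigma' hp)
    (a.of_le (le_inf a.le (cent_symm (b.le.trans inf_le_right))))
  have lQ : ⁅S, R⁆ ≤ Mσ M ⊓ 𝐂 P := (comm_le_left nS).trans sS.le
  have nQ : ⁅S, R⁆ ≤ 𝐍 (𝐂 (Mα M ⊓ 𝐂 P)) := norm_cent (norm_inf_cent
    (((lQ.trans inf_le_left).trans (O_le _ M)).trans (O_normal _ M).norm)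
    (norm_of_cent (lQ.trans inf_le_right)))
  have cQ : ⁅S, R⁆ ≤ 𝐂 (Mα M ⊓ 𝐂 P) := by
    rw [← comm_comm_eq nS (coprime_mono cop le_rfl sS.le) (.inl b.abel.sol)]
    exact (commutator_mono le_rfl (cent_symm e1)).trans (comm_le_right nQ)
  refine c1 (eq_bot_mono c2 (le_inf inf_le_left (le_cent_sup inf_le_right ?_)))
  exact (le_inf inf_le_left e2).trans (cent_symm cQ)

/-- BG 13.5 -/
theorem Mx.primeAct1 (m : Mx M) (hX : X ≤ M) (k : PiGrp (𝛕₁ M) X) : PrimeAct (Mσ M) X := by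
  refine primeAct_of_elem fun p P a => cent_symm (le_of_forall_syl' fun r hr d R sR => ?_)
  obtain ⟨R₁, b⟩ := sR.pi.exists_elem_one (sR.syl_ne_bot hr d)
  have tr := k r hr d
  have ab := (m.cyc_of_tau1 hX k).abel
  have e := m.cent_tau1_le (a.mem_of_pi k) (a.mono hX) (tau1_sigma' tr)
    (b.of_le (le_inf ((b.le.trans sR.le).trans hX) (ab.cent (b.le.trans sR.le) a.le)))
  have e' := (m.primeAct_tau13 (.inl tr) (sR.le.trans hX) sR.pi).cent b.le b.ne_bot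
  exact cent_symm (((le_inf inf_le_left e).trans e'.le).trans inf_le_right)

theorem _root_.CF.BG.Abelem.le_of_elemV (a : Abelem p A) (h : ∀ X, Elem p 1 X A → X ≤ L) : A ≤ L := fun x hx => by
  by_cases x1 : x = 1
  · exact x1 ▸ L.one_mem
  · exact h _ (a.elem_zpowers hx x1) (mem_zpowers x)

/-- BG 13.6 -/
theorem Mx.uniqIn_cent_tau1 (m : Mx M) (hP : P ≤ M) (k : PiGrp (𝛕₁ M) P) (p1 : P ≠ ⊥)
    (x : Elem q 1 X (Mσ M ⊓ 𝐂 P)) : UniqIn (𝐂 X) M ∧ ∀ S, Syl q S (Mσ M) → UniqIn S M := by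
  have lX : X ≤ Mσ M := x.le.trans inf_le_left
  refine m.uniqIn_cent_der (x.of_le (lX.trans (O_le _ M))) (by_contra fun e => ?_)
  obtain ⟨b, nd⟩ := not_or.mp e
  obtain ⟨E, h, lP⟩ := m.exists_sigE hP (k.mono (tau1_sub M))
  obtain ⟨E₁, E₂, E₃, s, l1⟩ := h.exists_sigC_le1 lP k
  have pa := m.primeAct1 (s.h1.le.trans h.le) s.h1.pi
  have cX : X ≤ Mσ M ⊓ 𝐂 E₁ := x.le.trans (pa.cent l1 p1).le
  obtain ⟨Hh, hH, cH⟩ := h.der_cent_beta'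
  have n1 : E₁ ≤ 𝐍 (Mσ M) := s.h1.le.trans h.norm
  have cop : (♯E₁).Coprime (♯(Mσ M)) := coprime_mono h.coprime s.h1.le le_rfl
  have sol := s.cyc1.sol
  obtain ⟨S, sS, nS⟩ := exists_syl_inv (K := Mσ M ⊓ 𝐂 ⁅E, E⁆)
    (norm_inf_cent n1 (s.h1.le.trans (der_normal E).norm)) (coprime_mono cop le_rfl inf_le_left)
    (.inl sol) q
  obtain ⟨S₀, s0⟩ := exists_syl q Hh
  have s0' := s0.syl_trans hH b
  have sS' : Syl q S (Mσ M) := s0'.of_card (sS.le.trans inf_le_left) (sS.card_eq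
    (s0'.of_le (le_inf s0'.le (s0.le.trans (cent_symm cH))) inf_le_left))
  obtain ⟨T, sT, nT, lT⟩ := exists_syl_inv_le n1 cop (.inl sol) lX x.pi
    (norm_of_cent' (cX.trans inf_le_right))
  obtain ⟨g, hg, rfl⟩ := sT.syl_conj_inv sS' n1 cop (.inl sol) nT nS
  have c1 : BG.cj g X ≤ Mσ M ⊓ 𝐂 E₁ := cj_le_of_mem hg cX
  have c2 : BG.cj g X ≤ 𝐂 ⁅E, E⁆ := ((cj_mono g lT).trans sS.le).trans inf_le_right
  by_cases e2 : E₂ = ⊥
  · have e3 := s.sdprod3.sup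
    rw [e2, bot_sup_eq] at e3
    have : BG.cj g X ≤ ⁅Mσ M, Mσ M⁆ := (le_inf (c1.trans inf_le_left) (e3 ▸ le_cent_sup
      (c2.trans (cent_anti s.le_der3)) (c1.trans inf_le_right))).trans h.cent_le_der.1
    rw [cj_le_iff, cj_of_norm ((der_normal (Mσ M)).norm (inv_mem hg.1))] at this
    exact nd this
  obtain ⟨p, hp, d⟩ := exists_prime_dvd_card e2
  have t2 := s.h2.pi p hp d
  obtain ⟨A, a⟩ := h.exists_elem_two t2
  obtain ⟨r, R, y⟩ := exists_prime_elem_one (ne_bot_mono p1 l1)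
  have tr := y.mem_of_pi s.h1.pi
  have lR := y.le.trans s.h1.le
  have cA : A ≤ 𝐂 (BG.cj g X) := by
    rw [← comm_sup_inf_cent (lR.trans (h.elem_two_normal a).norm) (y.pi.coprime
      (a.pi.of_single_ne fun e => tau1_not_tau2 tr (e ▸ t2))) (.inl y.abel.sol)]
    refine sup_le ((commutator_mono a.le lR).trans (cent_symm c2))
      ((a.ab.le inf_le_left).le_of_elemV fun Y z => cent_symm ?_)
    refine ((c1.trans (inf_le_inf_left _ (cent_anti y.le))).trans ?_)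
    exact m.cent_tau1_le tr (y.of_le (lR.trans h.le)) (tau2_sigma' t2)
      (z.mono (inf_le_inf_right _ (a.le.trans h.le)))
  exact x.ne_bot (cj_eq_bot.mp (eq_bot_mono (m.tau2_cent t2 (a.mono h.le))
    (le_inf (c1.trans inf_le_left) (cent_symm cA))))

theorem SigC.eq_bot2 (h : SigC M E E₁ E₂ E₃) (r : ¬ Reg (Mσ M) E₃) : E₂ = ⊥ := by
  by_contra e
  obtain ⟨p, hp, d⟩ := exists_prime_dvd_card e
  exact r (h.reg3 (h.h2.pi p hp d))

theorem SigC.sdprod31 (h : SigC M E E₁ E₂ E₃) (e : E₂ = ⊥) : SDProd E₃ E₁ E := by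
  have := h.sdprod3
  rwa [e, bot_sup_eq] at this

/-- BG 13.7 -/
theorem SigC.primeAct13 (h : SigC M E E₁ E₂ E₃) (r : ¬ Reg E₃ E₁) :
    PrimeAct (Mσ M) (E₃ ⊔ E₁) := by
  have m := h.mx
  obtain ⟨p, P, a, c⟩ := exists_elem_of_not_reg r
  obtain ⟨r, R, b⟩ := exists_prime_elem_one c
  have l1 := h.h1.le.trans h.le
  have l3 := h.h3.le.trans h.le
  have lR := b.le.trans inf_le_left
  have tr := (b.of_le lR).mem_of_pi h.h3.pi
  have pa1 := m.primeAct1 l1 h.h1.pi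
  have pa3 := h.toSigE.primeAct3 h.h3
  have l : Mσ M ⊓ 𝐂 E₁ ≤ Mσ M ⊓ 𝐂 E₃ := by
    rw [← pa1.cent a.le a.ne_bot, ← pa3.cent lR b.ne_bot]
    exact le_inf inf_le_left (m.cent_tau1_le (a.mem_of_pi h.h1.pi) (a.mono l1) (tau3_sigma' tr)
      (b.mono (inf_le_inf_right _ l3)))
  have l' : Mσ M ⊓ 𝐂 E₃ ≤ 𝐂 E₁ := by
    by_contra nl
    have e2 := h.eq_bot2 fun rg => nl ((rg.cent le_rfl (ne_bot_mono b.ne_bot lR)).le.trans bot_le)
    have wR : Pw R := (pw_of_Ms_cent fun e => nl (e.le.trans bot_le)).le lR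
    obtain ⟨H, mH, n⟩ := exists_mx_norm b.ne_bot wR
    have lE : E ≤ H := (h.cyc3.normalIn lR h.normal3).norm.trans n
    have lC : Mσ M ⊓ 𝐂 E₃ ≤ Mσ M ⊓ H :=
      inf_le_inf_left _ (((cent_anti lR).trans (cent_le_norm R)).trans n)
    obtain ⟨-, f2, f3⟩ := m.cent_norm_tau13 (.inr tr) (lR.trans l3) b.pi mH n (b.w_of wR)
    have l1' : E₁ ≤ M ⊓ H := le_inf l1 (h.h1.le.trans lE)
    have sr := (f3 fun e => nl (lC.trans (cent_symm (l1'.trans (comm_eq_bot'.mp e))))).1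
    have t1 : PiGrp (𝛕₁ H) E₁ := fun q hq d => by_contra fun t => by
      obtain ⟨Y, y⟩ := exists_elem_one hq d
      have := f2 Y (y.le.trans l1') (h.pi.le (y.le.trans h.h1.le)) (y.pi.of_single' t)
      exact nl (((le_inf inf_le_left (lC.trans (cent_symm this))).trans
        (pa1.cent y.le y.ne_bot).le).trans inf_le_right)
    have cR : R ≤ 𝐂 E₁ := ((le_inf (mH.le_Ms' ((le_norm_self R).trans n) b.pi sr)
      (b.le.trans inf_le_right)).trans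
        ((mH.primeAct1 (h.h1.le.trans lE) t1).cent a.le a.ne_bot).le).trans inf_le_right
    refine b.ne_bot (eq_bot_mono h.cent3 (le_inf lR ?_))
    rw [← (h.sdprod31 e2).sup]
    exact le_cent_sup (h.cyc3.abel.cent lR le_rfl) cR
  have l'' : Mσ M ⊓ 𝐂 E₃ ≤ 𝐂 (E₃ ⊔ E₁) := le_cent_sup inf_le_right l'
  refine primeAct_of_elem fun s X x => le_trans ?_ l''
  have lX : X ≤ E := x.le.trans (sup_le h.h3.le h.h1.le)
  have k : PiGrp (𝛕₁ M ∪ 𝛕₃ M) (E₃ ⊔ E₁) := (h.h3.pi.mono Set.subset_union_right).sup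
    (h.h1.pi.mono Set.subset_union_left) (.inr (h.h1.le.trans h.normal3.norm))
  rcases x.mem_of_pi k with t | t
  · obtain ⟨g, hg, lg⟩ := h.h1.cj_le h.sol lX (x.pi.of_single t)
    have e := (pa1.cent lg (x.cj g).ne_bot).le.trans l
    rwa [← cj_of_norm (h.norm hg), ← cj_cent, ← cj_of_norm (h.normal3.norm hg), ← cj_cent, ← cj_inf,
      ← cj_inf, cj_le_cj] at e
  · exact (pa3.cent (h.h3.le_normal h.normal3.norm lX (x.pi.of_single t)) x.ne_bot).le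

theorem Mx.tau1_asym_facts (m : Mx M) (h : Mx H) (nc : ¬ Conj M H) (hp : p ∈ 𝛕₁ M)
    (a : Elem p 1 P M) (hQ : Syl q Q (M ⊓ H)) (nQ : P ≤ 𝐍 Q) (cQ : Q ⊓ 𝐂 P = ⊥) (lQ : 𝐍 Q ≤ H) :
    Syl q Q M ∧ 𝛂 M = 𝛃 M ∧ Mα M ≠ ⊥ ∧ q ∉ 𝛂 M ∧ Mα M ⊓ 𝐂 P ≠ ⊥ ∧ Mα M ⊓ 𝐂 (P ⊔ Q) = ⊥ := by
  have q1 : Q ≠ ⊥ := by
    rintro rfl
    exact (h.proper lQ).ne_top norm_bot
  have sQ := hQ.syl_of_inf_norm lQ
  refine ⟨sQ, m.cent_Ma_tau1_syl hp a q1 nQ cQ (fun u => nc ?_) sQ⟩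
  rw [u.uniq H h lQ]
  exact Conj.refl _

theorem Mx.tau1_asym_aux (m : Mx M) (h : Mx H) (nc : ¬ Conj M H) (hp : p ∈ 𝛕₁ M)
    (a : Elem p 1 P M) (lP : P ≤ H) (hQ : Syl q Q (M ⊓ H)) (nQ : P ≤ 𝐍 Q) (cQ : Q ⊓ 𝐂 P = ⊥)
    (lQ : 𝐍 Q ≤ H) (cH : Mβ H ⊓ 𝐂 P ≠ ⊥) (hK : Hall (𝛃 M ∪ 𝛃 H) K (𝐂 P)) (hr : r ∈ 𝛃 M)
    (o : 𝐎 {r} K ≠ ⊥) : False := by
  obtain ⟨sQ, ab, -, aq, c1, c2⟩ := m.tau1_asym_facts h nc hp a hQ nQ cQ lQ
  have nc' : ¬ Conj H M := fun c => nc c.symm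
  have kb : PiGrp (𝛃 M) (Mα M) := ab ▸ O_pi _ M
  obtain ⟨g, hg, lK⟩ := hK.le_cj (sol_cent a.ne_bot (m.pw_Ma.of_inf_cent c1)) (K := Mα M ⊓ 𝐂 P) inf_le_right
    (kb.inf_left.mono Set.subset_union_left)
  rw [← cj_eq_bot (g := g) |>.ne, cj_O] at o
  replace hK := hK.cj_of_mem hg
  generalize BG.cj g K = K at hK o lK
  clear hg g
  obtain ⟨t, Y, y⟩ := exists_prime_elem_one c1
  have lY := (y.le.trans inf_le_left).trans (O_le _ M)
  have bt := y.mem_of_pi kb.inf_left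
  obtain ⟨S, sS⟩ := exists_syl r M
  obtain ⟨g, -, lg⟩ := (sS.syl_top_of_sigmaV (m.beta_sub_sigma hr)).syl_cj_le le_top (O_pi {r} K)
  have lgK : BG.cj g K ≤ M := (cj_mono g (O_normal {r} K).norm).trans <| by
    rw [cj_norm]
    exact m.norm_le_of_beta (lg.trans sS.le) (((O_pi _ K).cj g).of_single hr) (cj_eq_bot.ne.mpr o)
  have hg := m.sigma_tame (m.beta_sub_sigma bt) y.pi y.ne_bot lY ((cent_le_norm Y).trans
    (m.norm_le_of_beta lY (y.pi.of_single bt) y.ne_bot)) ((cj_mono g (y.le.trans lK)).trans lgK)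
  rw [cj_le_iff, cj_of_mem (inv_mem hg)] at lgK
  obtain ⟨s, hs, ds⟩ := exists_prime_dvd_card cH
  have bs := (O_pi _ H).inf_left s hs ds
  have ss : s ∉ 𝛔 M := h.alpha_not_sigma m nc' (beta_sub_alpha H bs)
  have d1 : s ∣ ♯(M ⊓ 𝐂 P) := (hK.prime_dvd hs (.inr bs) (ds.trans (card_dvd inf_le_right))).trans
    (card_dvd (le_inf lgK hK.le))
  have eQ := (a.reg cQ).comm_eq nQ a.ne_bot
  have lQM : Q ≤ ⁅M, M⁆ := eQ.ge.trans (commutator_mono sQ.le a.le)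
  have e := (sQ.of_le lQM (der_le M)).sup_norm_of_nil_qtV (O_normal _ M)
    (m.Ma_le_Ms.trans m.Ms_le_der) m.nil_qt_Ma
  have nM : M ⊓ 𝐍 Q ≤ 𝐍 (Mα M) := inf_le_left.trans (O_normal _ M).norm
  have e' := sup_inf_cent (a.le.trans (O_normal (𝛂 M) M).norm) (norm_of_le (le_inf a.le nQ))
    (.inr nM) ((a.pi.of_single' fun ap => tau1_sigma' hp (m.alpha_sub_sigma ap)).coprime'
      (O_pi _ M).inf_left) (.inl a.abel.sol)
  rw [e] at e'
  have d2 := (d1.trans (card_dvd e'.le)).trans (card_sup_dvd (.inr (norm_inf (inf_le_left.trans nM)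
    (norm_of_le inf_le_right))))
  obtain ⟨R, b⟩ := exists_elem_one hs ((hs.dvd_mul.mp d2).resolve_left fun d =>
    ss (m.alpha_sub_sigma ((O_pi _ M).inf_left s hs d)))
  have nR : 𝐍 R ≤ H := h.norm_le_of_beta (((b.le.trans inf_le_left).trans inf_le_right).trans lQ)
    (b.pi.of_single bs) b.ne_bot
  have lX : Mα M ⊓ 𝐂 P ≤ H := (((inf_le_inf_right _ m.Ma_le_Ms).trans (m.cent_tau1_le hp a ss
    (b.mono (inf_le_inf_right _ inf_le_left)))).trans (cent_le_norm R)).trans nR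
  have lQH := hQ.le.trans inf_le_right
  obtain ⟨T, sT, lT⟩ := exists_syl_le (eQ.ge.trans (commutator_mono lQH lP)) hQ.pi
  have n := sT.sup_normal_of_nil_qtV (O_normal _ H) h.nil_qt_Ma
  have k' : PiGrp (𝛂 M)ᶜ (Mα H ⊔ T) := ((m.Ma_sigma' h nc).mono (Set.compl_subset_compl.mpr
    m.alpha_sub_sigma)).sup (sT.pi.of_single' aq) (.inr ((sT.le.trans (der_le H)).trans
      (O_normal _ H).norm))
  refine c1 (eq_bot_mono c2 (le_inf inf_le_left (le_cent_sup inf_le_right ?_)))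
  refine comm_eq_bot.mp (eq_bot_mono ((O_pi (𝛂 M) M).inf_eq_bot k') (le_inf ?_ ?_))
  · exact (commutator_mono inf_le_left le_rfl).trans
      (comm_le_left (sQ.le.trans (O_normal _ M).norm))
  · exact (commutator_mono lX (lT.trans le_sup_right)).trans (comm_le_right n.norm)

/-- BG 13.8 -/
theorem Mx.tau1_asymmetry (m : Mx M) (h : Mx H) (nc : ¬ Conj M H) (hp : p ∈ 𝛕₁ M) (hp' : p ∈ 𝛕₁ H)
    (a : Elem p 1 P (M ⊓ H)) (hQ : Syl q Q (M ⊓ H)) (hR : Syl r R (M ⊓ H)) (nQ : P ≤ 𝐍 Q)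
    (nR : P ≤ 𝐍 R) (cQ : Q ⊓ 𝐂 P = ⊥) (cR : R ⊓ 𝐂 P = ⊥) (lQ : 𝐍 Q ≤ H) (lR : 𝐍 R ≤ M) :
    False := by
  have nc' : ¬ Conj H M := fun c => nc c.symm
  rw [inf_comm] at hR
  have aM := a.mono inf_le_left
  have aH := a.mono inf_le_right
  obtain ⟨-, ab, -, -, c1, -⟩ := m.tau1_asym_facts h nc hp aM hQ nQ cQ lQ
  obtain ⟨-, ab', -, -, c2, -⟩ := h.tau1_asym_facts m nc' hp' aH hR nR cR lR
  rw [ab] at c1
  rw [ab'] at c2
  have s := sol_cent a.ne_bot (m.pw_Mb.of_inf_cent c1)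
  obtain ⟨K, hK, lK⟩ := s.exists_hall_le (π := 𝛃 M ∪ 𝛃 H) (K := Mβ M ⊓ 𝐂 P) inf_le_right
    ((O_pi _ M).inf_left.mono Set.subset_union_left)
  obtain ⟨t, -, o⟩ := (s.mono hK.le).exists_O_ne_bot (ne_bot_mono c1 lK)
  rcases (O_pi _ K).mem_of_ne_bot o (hK.pi.le (O_le _ K)) with b | b
  · exact m.tau1_asym_aux h nc hp aM aH.le hQ nQ cQ lQ c2 hK b o
  · rw [Set.union_comm] at hK
    exact h.tau1_asym_aux m nc' hp' aH aM.le hR nR cR lR c1 hK b o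

theorem SigE.exists_sigC_of_inf (h : SigE M E) (k : Mx H) (l : E ≤ H) (ne : H ≠ M)
    (i : Mσ M ⊓ H ≠ ⊥) : ∃ p P, p ∈ 𝛕₁ M ∧ Elem p 1 P E := by
  obtain ⟨E₁, E₂, E₃, s⟩ := h.exists_sigC
  have e2 : E₂ = ⊥ := by_contra fun e => by
    obtain ⟨p, hp, d⟩ := exists_prime_dvd_card e
    have t := s.h2.pi p hp d
    obtain ⟨A, a⟩ := h.exists_elem_two t
    exact i (h.mx.tau2_inf t (a.mono h.le) k (a.le.trans l) ne)
  obtain ⟨p, P, a⟩ := exists_prime_elem_one (s.ne_bot1 e2)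
  exact ⟨p, P, a.mem_of_pi s.h1.pi, a.mono s.h1.le⟩

/-- BG 13.9 -/
theorem Mx.sigma_partition (m : Mx M) (h : Mx H) (nc : ¬ Conj M H) (hp : p ∈ 𝛔 M) : p ∉ 𝛔 H := by
  intro hp'
  obtain ⟨E, e⟩ := m.exists_sigE'
  obtain ⟨S, sS, nS⟩ := exists_syl_inv e.norm e.coprime (.inl e.sol) p
  have sM := sS.syl_trans m.hall_Ms hp
  obtain ⟨T, sT⟩ := exists_syl p H
  obtain ⟨g, -, rfl⟩ := (sT.syl_top_of_sigmaV hp').syl_conj (sM.syl_top_of_sigmaV hp)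
  rw [← conj_cj_right (g := g)] at nc
  rw [← sigma_cj g] at hp'
  replace h := h.cj g
  replace sT := sT.cj g
  generalize BG.cj g H = H at h sT nc hp'
  generalize BG.cj g T = S at sT sS sM nS
  have nH := sT.norm_le_of_sigmaV hp'
  have ne : H ≠ M := by
    rintro rfl
    exact nc (Conj.refl _)
  have s1 := sM.ne_bot_of_sigmaV hp
  have lS : S ≤ Mσ M ⊓ H := le_inf sS.le sT.le
  obtain ⟨q, P, t, a⟩ := e.exists_sigC_of_inf h (nS.trans nH) ne (ne_bot_mono s1 lS)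
  have aM := a.mono e.le
  have lP : P ≤ M ⊓ H := le_inf aM.le ((a.le.trans nS).trans nH)
  have c : S ⊓ 𝐂 P = ⊥ := by_contra fun c => by
    obtain ⟨X, x⟩ := sS.pi.inf_left.exists_elem_one c
    exact ne (((m.uniqIn_cent_tau1 aM.le (a.pi.of_single t) a.ne_bot
      (x.mono (inf_le_inf_right _ sS.le))).2 S sS).uniq H h sT.le)
  have nc1 : ¬ S ≤ 𝐂 P := fun l => s1 (eq_bot_mono c (le_inf le_rfl l))
  have t' : q ∈ 𝛕₁ H := by_contra fun t' => nc1 (lS.trans (cent_symm ((m.Ms_inf_central h a.prime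
    (tau1_sigma' t) aM.dvd' (a.of_le (lP.trans inf_le_right)).dvd' t' (fun e => nc1 (lS.trans
      (cent_symm (lP.trans (comm_eq_bot'.mp e))))) nc).1 P lP a.pi)))
  have sI := sM.of_le (le_inf sM.le sT.le) inf_le_left
  exact m.tau1_asymmetry h nc t t' (a.of_le lP) sI sI (a.le.trans nS) (a.le.trans nS) c c nH
    (sM.norm_le_of_sigmaV hp)

theorem Mx.conj_of_sigma (m : Mx M) (h : Mx H) (hp : p ∈ 𝛔 M) (hp' : p ∈ 𝛔 H) : Conj M H :=
  by_contra fun nc => m.sigma_partition h nc hp hp'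

/-- BG 13.10 -/
theorem SigC.tau13_reg (h : SigC M E E₁ E₂ E₃) (a : Elem p 1 P E₁) (c : ¬ P ≤ 𝐂 E₃) :
    Reg E₃ E₁ ∧ Reg (Mσ M) E₃ ∧ Mσ M ⊓ 𝐂 P ≠ ⊥ := by
  have m := h.mx
  have tp := a.mem_of_pi h.h1.pi
  have lE := a.le.trans h.h1.le
  have aM := a.of_le (lE.trans h.le)
  have l3 := h.h3.le.trans h.le
  have n3 : P ≤ 𝐍 E₃ := lE.trans h.normal3.norm
  have cop : (♯P).Coprime (♯E₃) := (a.pi.of_single' (tau1_not_tau3 tp)).coprime' h.h3.pi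
  obtain ⟨q, Q, hq, d, sQ, nQ, nc⟩ := exists_syl_inv_not_cent n3 cop (.inl a.abel.sol)
    (fun l => c (cent_symm l))
  have tq := h.h3.pi q hq d
  have q1 := sQ.syl_ne_bot hq d
  have cQ := h.cyc3.mono sQ.le
  have cop' := coprime_mono cop le_rfl sQ.le
  have fp : Q ⊓ 𝐂 P = ⊥ := cQ.abel.inf_cent_eq_bot nQ cop'
    ((cQ.comm_eq_bot_or sQ.pi nQ cop').resolve_left fun l => nc (cent_symm l)).ge
  have sM : Syl q Q M := (sQ.syl_trans h.h3 tq).syl_trans h.hall (tau3_sigma' tq)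
  by_cases wq : q ∉ 𝛡 G
  · have c1 : Mσ M ⊓ 𝐂 P ≠ ⊥ := fun e => m.Ms_ne_bot (by
      have := (a.reg fp).cent_of_fpf nQ (m.sol' (O_le _ M)) (lE.trans h.norm)
        (sM.le.trans (O_normal _ M).norm) (coprime_mono h.coprime (sQ.le.trans h.h3.le) le_rfl)
        (coprime_mono h.coprime lE le_rfl) e
      rw [← Ms_cent_eq_bot (M := M) sQ.pi q1 wq]
      exact (inf_eq_left.mpr (cent_symm this)).symm)
    have w1 : Pw E₁ := (pw_of_Ms_cent c1).of_cent a.ne_bot (h.cyc1.abel.cent le_rfl a.le)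
    have k3 : ∀ X, X ≤ E₃ → Pw X → X = ⊥ := fun X l w => by_contra fun e =>
      wq ((w.of_cent e (h.cyc3.abel.cent sQ.le l)).mem_of sQ.pi q1)
    exact ⟨reg_of_elem fun s X x => k3 _ inf_le_left (Pw.of_cent (w1.le x.le) x.ne_bot inf_le_right),
      reg_of_elem fun s X x => by_contra fun e => x.ne_bot (k3 X x.le (pw_of_Ms_cent e)), c1⟩
  rw [not_not] at wq
  obtain ⟨H, mH, n⟩ := exists_mx_norm q1 (sQ.pi.pw wq)
  have ncj := m.not_conj_of_norm mH sQ.pi sM.le n (.inr (.inr tq)) wq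
  have ne : H ≠ M := by
    rintro rfl
    exact ncj (Conj.refl _)
  obtain ⟨ab, -, -, c1, c2⟩ := m.cent_Ma_tau1_syl tp aM q1 nQ fp (fun u => ne (u.uniq H mH n)) sM
  have lA := inf_le_inf_right (𝐂 P) m.Ma_le_Ms
  have pa3 := h.toSigE.primeAct3 h.h3
  refine ⟨by_contra fun r => c1 (eq_bot_mono c2 (le_inf inf_le_left ?_)),
    pa3.reg' sQ.le q1 (by_contra fun c3 => ?_), ne_bot_mono c1 lA⟩
  · exact ((lA.trans ((h.primeAct13 r).cent (a.le.trans le_sup_right) a.ne_bot).le).trans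
      inf_le_right).trans (cent_anti (sup_le (a.le.trans le_sup_right) (sQ.le.trans le_sup_left)))
  obtain ⟨r, hr, dr⟩ := exists_prime_dvd_card c3
  have sr := (O_pi _ M).inf_left r hr dr
  obtain ⟨R, sR, nR⟩ := exists_syl_inv (K := Mσ M ⊓ 𝐂 Q) (norm_inf_cent (lE.trans h.norm) nQ)
    (coprime_mono h.coprime lE inf_le_left) (.inl a.abel.sol) r
  have r1 := sR.syl_ne_bot hr dr
  have lR := sR.le.trans inf_le_left
  have lRM := lR.trans (O_le _ M)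
  have lC : Mσ M ⊓ 𝐂 Q ≤ Mσ M ⊓ H := inf_le_inf_left _ ((cent_le_norm Q).trans n)
  obtain ⟨f1, f2, -⟩ := m.cent_norm_tau13 (.inr tq) sM.le sQ.pi mH n wq
  have lQ : Q ≤ M ⊓ H := le_inf sM.le ((le_norm_self Q).trans n)
  have eC : Mσ M ⊓ 𝐂 Q = M ⊓ H ⊓ Mσ M := le_antisymm
    (le_inf (lC.trans (inf_le_inf_right _ (O_le _ M))) inf_le_left)
    (le_inf inf_le_right ((le_inf inf_le_right (inf_le_left.trans inf_le_right)).trans
      (cent_symm (f1 Q lQ sQ.pi))))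
  have sI : Syl r R (M ⊓ H) := (eC ▸ sR).syl_trans
    (m.hall_Ms.inf_of_norm inf_le_left (inf_le_left.trans (O_normal _ M).norm)) sr
  have f : R ⊓ 𝐂 P = ⊥ ∧ 𝐍 R ≤ M := by
    by_cases b : r ∈ 𝛃 M
    · refine ⟨eq_bot_mono c2 (le_inf (inf_le_left.trans (m.le_Ma lRM (sR.pi.of_single
        (beta_sub_alpha M b)))) (le_cent_sup inf_le_right ((inf_le_left.trans sR.le).trans
          inf_le_right))), m.norm_le_of_beta lRM (sR.pi.of_single b) r1⟩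
    obtain ⟨K, hK, cK⟩ := h.toSigE.der_cent_beta'
    obtain ⟨S, sS⟩ := exists_syl r K
    have sS' := sS.syl_trans hK b
    have sR' : Syl r R (Mσ M) := sS'.of_card lR (sR.card_eq (sS'.of_le (le_inf sS'.le
      (sS.le.trans (cent_symm ((sQ.le.trans h.le_der3).trans cK)))) inf_le_left))
    refine ⟨by_contra fun c => ?_, (sR'.syl_trans m.hall_Ms sr).norm_le_of_sigmaV sr⟩
    obtain ⟨X, x⟩ := sR.pi.inf_left.exists_elem_one c
    exact ne (((m.uniqIn_cent_tau1 aM.le (a.pi.of_single tp) a.ne_bot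
      (x.mono (inf_le_inf_right _ lR))).2 R sR').uniq H mH (sI.le.trans inf_le_right))
  have lP : P ≤ M ⊓ H := le_inf aM.le (nQ.trans n)
  have tp' : p ∈ 𝛕₁ H := by_contra fun t => r1 (eq_bot_mono f.1 (le_inf le_rfl ((sR.le.trans
    lC).trans (cent_symm (f2 P lP (h.pi.le lE) (a.pi.of_single' t))))))
  exact m.tau1_asymmetry mH ncj tp tp' (a.of_le lP) (sM.of_le lQ inf_le_left) sI nQ nR fp f.1 n f.2

/-- BG 13.11 -/
theorem SigC.tau13_nonreg (h : SigC M E E₁ E₂ E₃) (r : ¬ Reg (Mσ M) E₃) :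
    E₁ ≠ ⊥ ∧ SDProd E₃ E₁ E ∧ PrimeAct (Mσ M) E ∧ ∀ p X, Elem p 1 X E → X ⊴ E := by
  have e2 := h.eq_bot2 r
  have d := h.sdprod31 e2
  have e1 := h.ne_bot1 e2
  have c : ∀ p P, Elem p 1 P E₁ → P ≤ 𝐂 E₃ := fun p P a =>
    by_contra fun c => r (h.tau13_reg a c).2.1
  refine ⟨e1, d, d.sup ▸ h.primeAct13 fun rg => r ?_, fun p X x => ?_⟩
  · obtain ⟨p, P, a⟩ := exists_prime_elem_one e1
    rw [eq_bot_mono (rg.cent a.le a.ne_bot) (le_inf le_rfl (cent_symm (c p P a)))]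
    exact reg_bot _
  rcases h.toSigE.partition_pi x.prime x.dvd' with t | t | t
  · obtain ⟨g, hg, l⟩ := h.h1.cj_le h.sol x.le (x.pi.of_single t)
    have n : E ≤ 𝐍 (cj g X) := d.sup.ge.trans (sup_le (norm_of_cent' (c p _ ((x.cj g).of_le l)))
      (h.cyc1.abel.le_norm l))
    rw [← cj_of_mem hg, cj_norm_iff] at n
    exact ⟨x.le, n⟩
  · exact (h.h2.ne_bot x.prime t x.dvd' e2).elim
  · exact h.cyc3.normalIn (h.h3.le_normal h.normal3.norm x.le (x.pi.of_single t)) h.normal3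

/-- BG 13.12 -/
theorem SigE.tau12_reg (h : SigE M E) (hp : p ∈ 𝛕₁ M) (a : Elem p 1 P E) (b : Elem q 2 A E)
    (c : A ⊓ 𝐂 P ≠ ⊥) : Mσ M ⊓ 𝐂 P = ⊥ := by
  by_contra c1
  have m := h.mx
  have tq := h.tau2_of_elem b
  have bM := b.mono h.le
  have aM := a.mono h.le
  obtain ⟨Y, y⟩ := b.pi.inf_left.exists_elem_one c
  have lY := y.le.trans inf_le_left
  have l := m.cent_tau1_le hp aM (tau2_sigma' tq) (y.mono (inf_le_inf_right _ bM.le))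
  have u := m.tau2_uniqIn tq (y.of_le (lY.trans bM.le)) (ne_bot_mono c1 (le_inf inf_le_left l))
  have nc : ¬ P ≤ 𝐂 A := fun e =>
    c1 ((h.reg13 b e (a.pi.of_single' (tau1_not_tau2 hp))).cent le_rfl a.ne_bot)
  obtain ⟨H, mH, n⟩ := exists_mx_norm b.ne_bot (b.pw (h.w2 b))
  have ne : H ≠ M := by
    rintro rfl
    exact m.tau2_norm_not_le tq bM n
  have lA := (le_norm_self A).trans n
  have nE := (h.elem_two_normal b).norm
  have aH := a.of_le ((a.le.trans nE).trans n)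
  have lY' : Y ≤ Mσ H ⊓ 𝐂 P := le_inf (mH.le_Ms' (lY.trans lA) y.pi
    (m.tau2_sub_sigma tq bM mH n tq).1) (y.le.trans inf_le_right)
  have t : p ∈ 𝛕₁ H ∪ 𝛕₂ H := by_contra fun t => nc ((a.pi.of_single' t).le_of_relIndex a.le
    (norm_cent nE) (h.pi_qt_cent b mH n).compl_compl)
  rcases t with t | t
  · exact ne ((mH.uniqIn_cent_tau1 aH.le (a.pi.of_single t) a.ne_bot (y.of_le lY')).1.eq u)
  · exact c1 (eq_bot_mono (m.tau2_inf tq bM mH lA ne) (inf_le_inf_left _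
      (mH.tau2_uniqIn t aH (ne_bot_mono y.ne_bot lY')).le))

theorem Mx.uniqIn_cent_tau13 (m : Mx M) (hp : p ∈ 𝛕₁ M ∪ 𝛕₃ M) (a : Elem p 1 P M)
    (x : Elem q 1 X (Mσ M ⊓ 𝐂 P)) : UniqIn (𝐂 X) M ∧ ∀ S, Syl q S (Mσ M) → UniqIn S M := by
  rcases hp with t | t
  · exact m.uniqIn_cent_tau1 a.le (a.pi.of_single t) a.ne_bot x
  obtain ⟨E, e, l⟩ := m.exists_sigE a.le (a.pi.of_single' (tau3_sigma' t))
  obtain ⟨E₁, E₂, E₃, s⟩ := e.exists_sigC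
  have l3 := s.h3.le_normal s.normal3.norm l (a.pi.of_single t)
  obtain ⟨e1, -, pa, -⟩ := s.tau13_nonreg fun r =>
    x.ne_bot (eq_bot_mono (r.cent l3 a.ne_bot) x.le)
  exact m.uniqIn_cent_tau1 (s.h1.le.trans e.le) s.h1.pi e1 (x.mono ((pa.cent l a.ne_bot).le.trans
    (inf_le_inf_left _ (cent_anti s.h1.le))))

/-- BG 13.13 -/
theorem Mx.tau13_nonreg_sigma (m : Mx M) (hp : p ∈ 𝛕₁ M ∪ 𝛕₃ M) (a : Elem p 1 P M)
    (c : Mσ M ⊓ 𝐂 P ≠ ⊥) (h : Mx H) (n : 𝐍 P ≤ H) : p ∈ 𝛔 H := by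
  have w := a.w_of (pw_of_Ms_cent c)
  refine (h.sigma_or_tau2 a.pi n w).resolve_right fun t => ?_
  obtain ⟨q, Q, b⟩ := exists_prime_elem_one c
  have sq := b.mem_of_pi (O_pi _ M).inf_left
  have sq' := m.sigma_partition h (m.not_conj_of_norm h a.pi a.le n (.inr hp) w) sq
  have cQ : Q ≤ 𝐂 P := b.le.trans inf_le_right
  have cH := (cent_le_norm P).trans n
  obtain ⟨F, f, l⟩ := h.exists_sigE (sup_le ((le_norm_self P).trans n) (cQ.trans cH))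
    ((a.pi.of_single' (tau2_sigma' t)).sup (b.pi.of_single' sq') (.inr (norm_of_cent cQ)))
  obtain ⟨A, d⟩ := f.exists_elem_two t
  have lP := f.le_elem_two d (a.of_le (le_sup_left.trans l))
  have bF := b.of_le (le_sup_right.trans l)
  have nc : ¬ A ≤ 𝐂 Q := fun e => by
    have := (d.of_le (e.trans (m.uniqIn_cent_tau13 hp a b).1.le)).le_pRank
    rw [(mem_tau13.mp hp).2] at this
    omega
  have tq : q ∈ 𝛕₁ H := by_contra fun t => nc (cent_symm ((b.pi.of_single' t).le_of_relIndex bF.le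
    (norm_cent (f.elem_two_normal d).norm) (f.tau1_cent_elem_two d).compl_compl))
  have lP' : P ≤ A ⊓ 𝐂 Q := le_inf lP (cent_symm cQ)
  obtain ⟨-, -, -, -, e, ne⟩ := f.tau1_act_tau2 d tq bF
    (f.tau12_reg tq bF d (ne_bot_mono a.ne_bot lP')) fun e => nc (comm_eq_bot.mp e)
  exact ne (a.eq_of_le e lP' ▸ cH)

end CF.BG.Vp
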