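import Cfsg.Agent.Vp.S14c
/-
BG section 14, second part (14.7 - 14.13).
-/
set_option autoImplicit false
set_option linter.unusedSectionVars false

namespace CF.BG.Vp
open Subgroup
open scoped commutatorElement Pointwise

variable {G : Type*} [Group G] [Finite G] [MSO G]
variable {A A₀ A₁ B C D E E₁ E₂ E₃ H K L M N P Q R S T U V W X Y Z : Subgroup G} {p q r : ℕ}
variable {π : Set ℕ} {x y g : G}

/-- The conclusions (a) - (h) of BG 14.7 for the pair `(M, K)`, with partner `N = M*`. -/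
structure PPair (M K N : Subgroup G) : Prop where
  tyP : TyP N
  not_conj : ¬ Conj M N
  uniq : ∀ p X, Elem p 1 X K → UniqIn (𝐂 X) N
  hall_kappa : Hall (𝛋 N) (Mσ M ⊓ 𝐂 K) N
  hall_sigma : Hall (𝛔 M) (Mσ M ⊓ 𝐂 K) N
  cent_eq : Mσ N ⊓ 𝐂 (Mσ M ⊓ 𝐂 K) = K
  kappa_eq : 𝛋 M = 𝛕₁ M
  cyc : Cyc (K ⊔ (Mσ M ⊓ 𝐂 K))
  inf_eq : M ⊓ N = K ⊔ (Mσ M ⊓ 𝐂 K)
  cent_K : ∀ x ∈ K, x ≠ 1 → M ⊓ 𝐂₁ x = K ⊔ (Mσ M ⊓ 𝐂 K)
  cent_Ks : ∀ y ∈ Mσ M ⊓ 𝐂 K, y ≠ 1 → N ⊓ 𝐂₁ y = K ⊔ (Mσ M ⊓ 𝐂 K)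
  cent_mul : ∀ x ∈ K, x ≠ 1 → ∀ y ∈ Mσ M ⊓ 𝐂 K, y ≠ 1 → 𝐂₁ (x * y) = K ⊔ (Mσ M ⊓ 𝐂 K)
  ti : TIIn (Zhat K (Mσ M ⊓ 𝐂 K)) (K ⊔ (Mσ M ⊓ 𝐂 K))
  not_mem_cj : ∀ g, g ∉ M → ∀ z ∈ Zhat K (Mσ M ⊓ 𝐂 K), z ∉ cj g M
  card_eq : ♯K * ♯(Mσ M ⊓ 𝐂 K) * (clSupp (Zhat K (Mσ M ⊓ 𝐂 K)) ⊤).ncard =
    (♯K - 1) * (♯(Mσ M ⊓ 𝐂 K) - 1) * Nat.card G
  half : Nat.card G < 2 * (clSupp (Zhat K (Mσ M ⊓ 𝐂 K)) ⊤).ncard
  p2 : TyP2 M ∧ (♯K).Prime ∨ TyP2 N ∧ (♯(Mσ M ⊓ 𝐂 K)).Prime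
  conj : ∀ H : Subgroup G, TyP H → Conj M H ∨ Conj N H
  der : SDProd ⁅M, M⁆ K M

theorem Mx.kappa_cyc (m : Mx M) (k : Hall (𝛋 M) K M) : Cyc K := by
  by_cases k1 : K = ⊥
  · exact k1 ▸ cyc_bot
  exact (ZP.cyc ⟨m.tyP_of k k1, k, rfl⟩).mono le_sup_left

theorem TyP.kappa_eq (h : TyP M) : 𝛋 M = 𝛕₁ M := by
  obtain ⟨U, K, c⟩ := h.mx.exists_kapC'
  rcases c.cases (h.ne_bot c.hK) with ⟨rfl, ⟨p, pk, p3⟩, -⟩ | ⟨e, -⟩
  · have e := c.sigE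
    rw [bot_sup_eq] at e
    have d := (e.dvd_der_iff (prime_of_kappa pk) (kappa_sigma' pk)).mpr (mem_tau3.mp p3).2.2
    rw [der_eq_bot.mpr (h.mx.kappa_cyc c.hK).abel, Subgroup.card_bot] at d
    exact ((prime_of_kappa pk).not_dvd_one d).elim
  · exact e

theorem KapC.sup_eq_der (h : KapC M U K) (k1 : K ≠ ⊥) : Mσ M ⊔ U = ⁅M, M⁆ := by
  refine le_antisymm (sup_le h.mx.Ms_le_der ((h.le_der k1).trans (der_mono h.hUK.le))) ?_
  have := der_le_sup h.sd_MsU.normal h.sd_MsU.sup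
  rwa [der_eq_bot.mpr (h.mx.kappa_cyc h.hK).abel, sup_bot_eq] at this

theorem TyP.conj_of_pair (h : TyP M) (k : Hall (𝛋 M) K M) (n : Mx N) (l : K ≤ Mσ N) (t : TyP H) :
    Conj M H ∨ Conj N H := by
  obtain ⟨L, hL⟩ := t.mx.sol.exists_hall (𝛋 H)
  have z : ZP M K _ := ⟨h, k, rfl⟩
  have z' : ZP H L _ := ⟨t, hL, rfl⟩
  have h1 := z.half z.cyc.abel
  have h2 := z'.half z'.cyc.abel
  obtain ⟨g, a, b⟩ : (clSupp (Zhat K (Mσ M ⊓ 𝐂 K)) ⊤ ∩ clSupp (Zhat L (Mσ H ⊓ 𝐂 L)) ⊤).Nonempty := by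
    by_contra e
    have h3 := Set.ncard_union_eq (Set.disjoint_iff_inter_eq_empty.mpr
      (Set.not_nonempty_iff_eq_empty.mp e))
    have h4 := Set.ncard_le_card (clSupp (Zhat K (Mσ M ⊓ 𝐂 K)) ⊤ ∪ clSupp (Zhat L (Mσ H ⊓ 𝐂 L)) ⊤)
    omega
  obtain ⟨u, _, hu, rfl⟩ := mem_clSupp_top.mp a
  obtain ⟨v, _, hv, e⟩ := mem_clSupp_top.mp b
  obtain ⟨x, hx, -, y, hy, -, rfl⟩ := z.dprod.mem_Zhat.mp hu
  obtain ⟨x', hx', -, y', hy', y1, rfl⟩ := z'.dprod.mem_Zhat.mp hv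
  by_contra nc
  push Not at nc
  have p1 : PiElt (𝛔 H)ᶜ (x * y) := (((O_pi _ N).elt (l hx)).mono fun p a =>
    n.sigma_partition t.mx nc.2 a).mul (((O_pi _ M).elt hy.1).mono fun p a =>
    h.mx.sigma_partition t.mx nc.1 a) (ZP.comm hx hy)
  have p2 : PiElt (𝛔 H)ᶜ (x' * y') := piElt_conj_iff.mp (e ▸ p1.conj u)
  exact y1 ((z'.constt_eq hx' hy').1.symm.trans (constt_of_pi' p2))

/-- BG 14.7 -/
theorem TyP.exists_pPair (h : TyP M) (k : Hall (𝛋 M) K M) : ∃ N, PPair M K N := by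
  have z : ZP M K _ := ⟨h, k, rfl⟩
  obtain ⟨N, ne, z', e, t⟩ := z.pair
  have nc := z.not_conj_of_ne z' ne
  have l : K ≤ Mσ N := e.ge.trans inf_le_left
  have i1 := z.Ms_inf z'.mx nc l
  have i2 : Mσ N ⊓ M = K := le_antisymm
    ((z'.Ms_inf h.mx (fun c => nc c.symm) inf_le_left).trans e.le) (le_inf l k.le)
  obtain ⟨U, c⟩ := h.mx.exists_kapC k
  refine ⟨N, z'.tyP, nc, fun p X x => z'.tyP.uniqIn_cent z'.hall (e.symm ▸ x), z'.hall, ?_, e,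
    h.kappa_eq, z.cyc, ?_, fun x => z.inf_cent1, fun x => z'.inf_cent1, fun x hx x1 y hy y1 => ?_,
    fun a ha _ g b => z.ti ha (mem_Zhat.mp b).1, fun g hg _ => z.not_mem_cj hg,
    z.card_clSupp z.cyc.abel, z.half z.cyc.abel, t, fun H => h.conj_of_pair k z'.mx l,
    c.sup_eq_der z.K_ne ▸ c.sd_MsU⟩
  · obtain ⟨H, hH, l'⟩ := z'.mx.sol.exists_hall_le z'.hall.le z.hallKs.pi
    have l2 := h.le_Ms k hH.pi (by rw [inf_eq_right.mpr l']; exact z.Ks_ne)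
    exact le_antisymm ((le_inf l2 hH.le).trans i1) l' ▸ hH
  · refine le_antisymm ?_ (le_inf z.le z'.le)
    rw [← z.norm_eq]
    exact le_inf inf_le_left (i2 ▸ norm_inf (inf_le_right.trans (O_normal _ N).norm)
      (norm_of_le inf_le_left))
  · rw [cent1_mul (ZP.comm hx hy) ((z.hallK.pi.elt hx).coprime' (z.hallKs.pi.elt hy))]
    refine le_antisymm ?_ (le_inf (z.cyc.abel.trans (cent_le_cent1 (z.dprod.left_le hx)))
      (z.cyc.abel.trans (cent_le_cent1 (z.dprod.right_le hy))))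
    rw [← z.inf_cent1 hx x1]
    exact le_inf (inf_le_right.trans (h.cent1_le k hy y1)) inf_le_left

theorem TyP.pPair (h : TyP M) (k : Hall (𝛋 M) K M) (n : Mx N) (x : Elem p 1 X K) (c : 𝐂 X ≤ N) :
    PPair M K N := by
  obtain ⟨L, l⟩ := h.exists_pPair k
  exact (l.uniq p X x).uniq N n c ▸ l

theorem TyP2.pPair (h : TyP2 M) (k : Hall (𝛋 M) K M) (n : Mx N) (c : 𝐂 K ≤ N) : PPair M K N :=
  h.toTyP.pPair k n (elem_one_of_prime le_rfl (h.facts k).2.1) c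

theorem TyP.pPair' (h : TyP M) (k : Hall (𝛋 M) K M) (n : Mx N)
    (e : K = Mσ N ⊓ 𝐂 (Mσ M ⊓ 𝐂 K)) (k' : Hall (𝛋 N) (Mσ M ⊓ 𝐂 K) N) : PPair M K N := by
  obtain ⟨p, X, x⟩ := exists_prime_elem_one (h.ne_bot k)
  exact h.pPair k n x ((n.tyP_of k' (h.Kstar_ne_bot k)).uniqIn_cent k' (x.mono e.le)).le

theorem PPair.symm (h : PPair M K N) (m : TyP M) (k : Hall (𝛋 M) K M) :
    PPair N (Mσ M ⊓ 𝐂 K) M :=
  h.tyP.pPair' h.hall_kappa m.mx (by rw [h.cent_eq]) (h.cent_eq.symm ▸ k)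

theorem PPair.mx (h : PPair M K N) : Mx N := h.tyP.mx
theorem PPair.le_Ms (h : PPair M K N) : K ≤ Mσ N := h.cent_eq.ge.trans inf_le_left

theorem TyP1.of_conj (h : TyP1 M) (c : Conj M H) : TyP1 H := by
  obtain ⟨g, rfl⟩ := c; exact h.cj g
theorem TyP2.of_conj (h : TyP2 M) (c : Conj M H) : TyP2 H := by
  obtain ⟨g, rfl⟩ := c; exact h.cj g
theorem _root_.CF.BG.Conj.kappa_eqV (h : Conj M H) : 𝛋 H = 𝛋 M := by obtain ⟨g, rfl⟩ := h; exact kappa_cj g M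

theorem mem_tilde_of (h : Ell1 x) (a : x⁻¹ * g ∈ sigR x) : ∃ M, Mx M ∧ g ∈ Tilde M :=
  let ⟨M, s⟩ := h.2; ⟨M, s.mx, x, s.mem, h.1, _, a, 1, by group⟩

theorem SigE.dvd_relIndex_cent (x : Elem q 1 Q E) (n : E ≤ 𝐍 A) (c : ¬ Q ≤ 𝐂 A) :
    q ∣ (𝐂 A).relIndex E := by
  have := relIndex_dvd_of_norm x.le (norm_cent n)
  rwa [relIndex_of_inf_bot (inf_comm Q _ ▸ inf_eq_bot_of_prime_of_not_le x.card_prime c),
    x.card_one] at this

/-- BG 14.11 -/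
theorem TyF.non_fitting (h : TyF M) (e : SigE M E) (k : Elem q 1 Q E) (f : ¬ Q ≤ 𝐅 E) :
    ∃ N, Mx N ∧ (q ∈ 𝛕₂ N ∧ UniqIn (𝐂 Q) N ∨ q ∈ 𝛋 N ∧ TyP1 N) := by
  have t1 : q ∈ 𝛕₁ M := by
    rcases e.partition_pi k.prime k.dvd' with a | a | a
    · exact a
    · obtain ⟨A, a2⟩ := e.exists_elem_two a
      exact (f ((e.le_elem_two a2 k).trans (le_F (e.elem_two_normal a2) a2.abel.nil))).elim
    · obtain ⟨E₁, E₂, E₃, c⟩ := e.exists_sigC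
      exact (f ((c.h3.le_normal c.normal3.norm k.le (k.pi.of_single a)).trans c.le_F3)).elim
  have lD : ⁅E, E⁆ ≤ M := (der_le E).trans e.le
  have qD : PiGrp {q}ᶜ ⁅E, E⁆ := (pi'_tau1_der (der_mono e.le)).to_compl_single' t1
  have nD : Q ≤ 𝐍 ⁅E, E⁆ := k.le.trans (der_normal E).norm
  have rQ := Mx.tau13_reg_of_not_kappa (.inl t1) (h.not_mem q) (k.mono e.le)
  have cK := (h.mx.comm_sigma'_cyc lD (e.pi.le (der_le E)) (tau1_sigma' t1) (k.mono e.le) nD rQ qD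
    e.abel_der).1
  have iK := e.abel_der.comm_inf_cent nD (k.pi.coprime qD)
  have k1 : ⁅⁅E, E⁆, Q⁆ ≠ ⊥ := fun b => f (le_sup_right.trans (le_F (normalIn_of_der_le
    (sup_le (der_le E) k.le) le_sup_left) (e.abel_der.sup k.abel (comm_eq_bot.mp b)).nil))
  obtain ⟨p, P, x⟩ := exists_prime_elem_one k1
  have xE := x.mono ((comm_le_left nD).trans (der_le E))
  have t2 : p ∈ 𝛕₂ M := by_contra fun n => h.mx.Ms_ne_bot (by
    rw [← Mx.tau13_reg_of_not_kappa (p := p) (by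
      rcases e.partition_pi x.prime xE.dvd' with a | a | a
      exacts [.inl a, (n a).elim, .inr a]) (h.not_mem p) (xE.mono e.le),
      inf_eq_left.mpr (cent_symm (x.le.trans cK))])
  obtain ⟨A, a⟩ := e.exists_elem_two t2
  have nc : ¬ Q ≤ 𝐂 A := fun c => x.ne_bot (eq_bot_mono iK
    (le_inf x.le ((e.le_elem_two a xE).trans (cent_symm c))))
  have y := (e.tau1_act_tau2 a t1 k rQ fun b => nc (comm_eq_bot'.mp b)).2.2.2.2.1
  obtain ⟨N, n, l⟩ := exists_mx_norm a.ne_bot (a.pw (e.w2 a))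
  have nA := (e.elem_two_normal a).norm
  obtain ⟨s, b⟩ := h.mx.tau2_sub_sigma t2 (a.mono e.le) n l t2
  have kN := k.mono (nA.trans l)
  have c : Mσ N ⊓ 𝐂 Q ≠ ⊥ := ne_bot_mono y.ne_bot
    (inf_le_inf_right _ (n.le_Ms' ((le_norm_self A).trans l) a.pi s))
  refine ⟨N, n, ?_⟩
  rcases e.pi_qt_cent a n l q k.prime (SigE.dvd_relIndex_cent k nA nc) with t | t
  · have qk := mem_kappa_of (.inl t) kN c
    refine .inr ⟨qk, (TyP.mk n ⟨q, qk⟩).one_or_two.resolve_right fun t2 => b ?_⟩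
    obtain ⟨K, hK⟩ := n.sol.exists_hall (𝛋 N)
    exact (t2.facts hK).1 ▸ s
  · exact .inl ⟨t, n.tau2_uniqIn t kN c⟩

theorem SigE.comm_le_sup (e : SigE H D) (hQ : Q ⊴ D) (lU : U ≤ H) (lK : K ≤ Q) :
    ⁅U, K⁆ ≤ Mσ H ⊔ Q := by
  have n : H ≤ 𝐍 (Mσ H ⊔ Q) := by
    conv_lhs => rw [← e.sdprod.sup]
    exact sup_le (norm_of_le le_sup_left) (norm_sup e.norm hQ.norm)
  exact (commutator_mono lU (lK.trans le_sup_right)).trans (comm_le_right n)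

/-- BG 14.12 -/
theorem TyP2.signalizer (h : TyP2 M) (k : KapC M U K) (n : Mx N) (c : 𝐂 K ≤ N) (hR : Syl r R U)
    (m : Mx H) (l : 𝐍 R ≤ H) (w : r ∈ 𝛡 G) :
    TyF H ∧ U ≤ Mσ H ∧ M ⊓ H = U ⊔ K ∧ ¬ H ⊓ 𝐍 U ≤ M ∧ K ≤ 𝐅 (H ⊓ N) ∧ SigE H (H ⊓ N) := by
  have pp := h.pPair k.hK n c
  have k1 := h.toTyP.ne_bot k.hK
  have u1 := h.ne_bot k
  have r1 : R ≠ ⊥ := by rintro rfl; exact m.ne_top' (top_le_iff.mp (norm_bot (G := G) ▸ l))
  have rU := hR.pi.mem_of_ne_bot r1 (k.hU.pi.le hR.le)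
  have lE : U ⊔ K ≤ H := (sup_le (le_norm_self U) k.sd.norm).trans
    (((k.abel k1).nil.hall_norm hR).trans l)
  have lU := le_sup_left.trans lE
  have lK := le_sup_right.trans lE
  have ncM : ¬ Conj M H := by
    rintro ⟨g, rfl⟩
    have s := ((hR.syl_trans k.hU rU).cj g).of_card (hR.le.trans lU) (card_cj g R).symm
    exact rU (.inl (sigma_cj g M ▸ s.mem_sigmaV m.1 l w))
  have ncN : ¬ Conj N H := by
    rintro ⟨g, rfl⟩
    have hg : g ∈ N := by_contra fun hg => k1 (eq_bot_mono (pp.tyP.Kstar_inf_cj pp.hall_kappa hg)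
      (le_inf pp.cent_eq.ge lK))
    rw [cj_of_mem hg] at lU
    exact u1 ((k.comm_eq k1).symm.trans (comm_eq_bot.mpr (pp.cyc.abel.cent
      (pp.inf_eq ▸ le_inf k.hU.le lU) le_sup_left)))
  have f : TyF H := m.tyF_of_not fun t => (pp.conj H t).elim ncM ncN
  have sN : 𝛔 N ⊆ (𝛔 H)ᶜ := fun p a => n.sigma_partition m ncN a
  have sM : 𝛔 M ⊆ (𝛔 H)ᶜ := fun p a => h.mx.sigma_partition m ncM a
  have kH : PiGrp (𝛔 H)ᶜ K := ((O_pi _ N).le pp.le_Ms).mono sN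
  obtain ⟨D, e, lD⟩ := m.exists_sigE lK kH
  have x := elem_one_of_prime lD (h.facts k.hK).2.1
  have qN : ♯K ∈ 𝛔 N := x.self.mem_of_pi ((O_pi _ N).le pp.le_Ms)
  have uK := pp.uniq _ K x.self
  have lF : K ≤ 𝐅 D := by_contra fun nf => by
    obtain ⟨L, hL, ⟨t, u⟩ | ⟨t, t1⟩⟩ := f.non_fitting e x nf
    · exact tau2_sigma' t (uK.eq u ▸ qN)
    · rcases pp.conj L t1.toTyP with a | a
      · exact t1.not_tyP2 (h.of_conj a)
      · exact kappa_sigma' (a.kappa_eqV ▸ t) qN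
  have lQ : K ≤ 𝐎 {♯K} D := le_O_of_le_F lF x.pi
  have qU : PiGrp {♯K}ᶜ U := k.hallU.pi.to_compl_single' (x.self.mem_of_pi k.hK.pi)
  have nQ : 𝐎 {♯K} D ≤ 𝐍 (Mσ H) := (O_le _ D).trans e.norm
  have lUs : U ≤ Mσ H := qU.le_of_relIndex (k.comm_eq k1 ▸ e.comm_le_sup (O_normal _ D) lU lQ)
    (normalIn_sup_left nQ).norm (by
      rw [relIndex_sup_norm' (.inl nQ)]; exact ((O_pi _ D).relIndex _).compl_compl)
  have i1 : Mσ M ⊓ H = ⊥ := by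
    refine eq_bot_mono (k.Ms_inf_cent u1) (le_inf inf_le_left (comm_eq_bot.mp (eq_bot_mono
      (((O_pi _ M).mono sM).inf_eq_bot' (O_pi _ H)) (le_inf ?_ ?_))))
    · exact (commutator_mono inf_le_left k.hU.le).trans (comm_le_left (O_normal _ M).norm)
    · exact (commutator_mono inf_le_right lUs).trans (comm_le_right (O_normal _ H).norm)
  have i2 : M ⊓ H = U ⊔ K := by
    rw [← (k.sigE.sdprod.inf_of_right_le lE).sup, i1, bot_sup_eq]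
  have lDN : D ≤ N := by
    have l1 := pp.tyP.le_Ms pp.hall_kappa ((O_pi {♯K} D).of_single qN)
      (by rw [pp.cent_eq, inf_eq_right.mpr lQ]; exact k1)
    by_cases cQ : Cyc (𝐎 {♯K} D)
    · exact (cQ.le_norm lQ (O_normal _ D).norm).trans (uK.norm_of_cent (pw_of_kappa k.hK.pi)).le
    · exact (O_normal _ D).norm.trans
        (n.norm_le_of_not_cyc qN (O_pi _ D) (l1.trans (O_le _ N)) cQ)
  have i3 : Mσ H ⊓ 𝐂 K = ⊥ := by_contra fun b => by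
    rcases e.partition_pi x.prime x.dvd' with a | a | a
    · exact f.not_mem _ (mem_kappa_of (.inl a) (x.mono e.le) b)
    · exact ncN (uK.eq (m.tau2_uniqIn a (x.mono e.le) b) ▸ Conj.refl N)
    · exact f.not_mem _ (mem_kappa_of (.inr a) (x.mono e.le) b)
  have i4 : Mσ H ⊓ N = ⊥ := by
    refine eq_bot_mono i3 (le_inf inf_le_left (comm_eq_bot.mp (eq_bot_mono
      ((O_pi _ H).inf_eq_bot ((O_pi _ N).mono sN)) (le_inf ?_ ?_))))
    · exact (commutator_mono inf_le_left lK).trans (comm_le_left (O_normal _ H).norm)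
    · exact (commutator_mono inf_le_right pp.le_Ms).trans (comm_le_right (O_normal _ N).norm)
  have i5 : H ⊓ N = D := by rw [← (e.sdprod.inf_of_right_le lDN).sup, i4, bot_sup_eq]
  refine ⟨f, lUs, i2, fun b => ncM ?_, i5 ▸ lF, i5 ▸ e⟩
  have i6 : U = Mσ H := f.nil_Ms.eq_of_inf_norm_le lUs (by
    have := (k.sd.inf_of_left_le lUs).sup
    rw [kH.inf_eq_bot' (O_pi _ H), sup_bot_eq, ← i2] at this
    exact (le_inf (le_inf ((inf_le_inf_right _ (O_le _ H)).trans b)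
      (inf_le_left.trans (O_le _ H))) inf_le_left).trans this.ge)
  rw [i6, m.norm_Ms, inf_idem] at b
  exact m.eq h.mx b ▸ Conj.refl H

/-- BG 14.13 (a) -/
theorem SigMany.frob (h : SigMany x) (x1 : x ≠ 1) (m : SigMx x M)
    (k : ¬ PiGrp (𝛔 (sigN x))ᶜ M) : TyF M ∧ 𝛕₂ M = ∅ ∧ ∃ E, Frob (Mσ M) E M := by
  obtain ⟨u, -, t, -, a⟩ := h.facts x1
  obtain ⟨t2, b, -⟩ := a M m
  have ss := h.sigma_sub x1 m
  generalize sigN x = N at *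
  obtain ⟨q, k⟩ := not_forall.mp k
  push Not at k
  obtain ⟨hq, d, qN⟩ := k
  rw [Set.notMem_compl_iff] at qN
  obtain ⟨Q, e⟩ := exists_elem_one hq d
  obtain ⟨g, l⟩ := exists_le_cj_of_sigma qN e.pi
  have uQ := ((u.mx.cj g).uniqIn_cent_der (e.of_le l) (.inl (by simpa using b q d qN))).1
  have lQ : Q ≤ Mσ (cj g N) := (u.mx.cj g).le_Ms' l e.pi (by simpa using qN)
  have f : TyF M := m.mx.tyF_of_not fun tp => by
    obtain ⟨p, hp, dp⟩ := exists_prime_orderOf x1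
    have pN := t p hp dp
    rcases tp.one_or_two with t1 | t1
    · have qk := (t1.pi q hq d).resolve_left (ss qN)
      obtain ⟨K, hK, lK⟩ := m.mx.sol.exists_hall_le e.le (e.pi.of_single qk)
      have pp := tp.pPair hK (u.mx.cj g) (e.of_le lK) uQ.le
      have r := pp.hall_sigma.pRank_eq (t2 pN)
      have := (pp.cyc.mono le_sup_right).pRank_le p
      rw [r, pRank_cj, tau2_pRank pN] at this
      omega
    · obtain ⟨K, hK⟩ := m.mx.sol.exists_hall (𝛋 M)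
      exact u.mx.tau2_not_idl pN (idl_of_beta ((t1.facts hK).1 ▸ t2 pN))
  obtain ⟨E, s, lE⟩ := m.mx.exists_sigE e.le (e.pi.of_single (ss qN))
  have t0 : 𝛕₂ M = ∅ := Set.eq_empty_of_forall_notMem fun p pM => by
    obtain ⟨A, a⟩ := s.exists_elem_two pM
    have r : pRank p N ≤ 1 := by
      have p1 : p ∉ 𝛔 N := fun c =>
        m.mx.tau2_not_idl pM (idl_of_beta (b p (a.mono s.le).dvd' c))
      have := u.mx.pRank_le_two p1
      have : pRank p N ≠ 2 := fun c => tau2_sigma' pM (t2 (mem_tau2.mpr ⟨p1, c⟩))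
      omega
    have nc : ¬ Q ≤ 𝐂 A := fun c => by
      have := (a.of_le ((cent_symm c).trans uQ.le)).le_pRank
      rw [pRank_cj] at this
      omega
    have t1 := s.tau1_cent_elem_two a q hq
      (SigE.dvd_relIndex_cent (e.of_le lE) (s.elem_two_normal a).norm nc)
    obtain ⟨y0, e0, -, nc', y1, -⟩ := s.tau1_act_tau2 a t1 (e.of_le lE)
      (Mx.tau13_reg_of_not_kappa (.inl t1) (f.not_mem q) e) fun c => nc (comm_eq_bot'.mp c)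
    have l0 : ⁅A, Q⁆ ≤ N := e0 ▸ inf_le_right.trans ((cent_le_cent1 m.mem).trans u.le)
    obtain ⟨v, -, e1⟩ := ((y0.of_le l0).cj g).conj_of_pRankV (y1.of_le (inf_le_right.trans uQ.le))
      (by simpa using r)
    exact nc' (Conj.symm ⟨v * g, by rw [e1, cj_cj]⟩)
  refine ⟨f, t0, E, s.sdprod, m.mx.Ms_ne_bot, s.ne_bot, reg_of_elem fun p X y => ?_⟩
  refine Mx.tau13_reg_of_not_kappa ?_ (f.not_mem p) (y.mono s.le)
  rcases s.partition_pi y.prime y.dvd' with a | a | a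
  exacts [.inl a, (Set.notMem_empty p (t0 ▸ a)).elim, .inr a]

end CF.BG.Vp
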