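import Cfsg.Agent.Vp.S14b
/-
BG section 15, first part (15.1, 15.2): the subgroup M_F.
-/
set_option autoImplicit false
set_option linter.unusedSectionVars false
set_option linter.unusedVariables false

namespace CF.BG.Vp
open Subgroup
open scoped commutatorElement Pointwise

section general
variable {G : Type*} [Group G] [Finite G] [MSO G]
variable {A D H K L M N Q R V W : Subgroup G} {x : G}

end general

variable {G : Type*} [Group G] [Finite G] [MSO G]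
variable {A A₀ A₁ B C D E E₁ E₂ E₃ H K L M N P Q R S T U V W X Y Z : Subgroup G} {p q r : ℕ}
variable {π : Set ℕ} {x y g : G}

theorem Mx.Fh_le_Ms (m : Mx M) : 𝐅ₕ M ≤ Mσ M := by
  refine m.le_Ms (Fh_le M) fun p hp d => ?_
  have s := syl_O_of_dvd_Fh hp d
  exact s.mem_sigmaV m.ne_top
    (m.norm_le (O_normal _ M) (s.syl_ne_bot hp (d.trans (card_dvd (Fh_le M))))) (m.pw_Fh.mem hp d)

theorem Mx.Fh_eq_iff (m : Mx M) : 𝐅ₕ M = Mσ M ↔ Nil (Mσ M) :=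
  ⟨fun e => e ▸ Fh_nil M, fun n => le_antisymm m.Fh_le_Ms (le_Fh m.hall_Ms (O_normal _ M).norm n)⟩

theorem KapC.pi_U (h : KapC M U K) : PiGrp (𝛔 M)ᶜ U := h.hU.pi.mono fun _ a b => a (Or.inl b)

theorem KapC.pi_U' (h : KapC M U K) : PiGrp (𝛋 M)ᶜ U := h.hU.pi.mono fun _ a b => a (Or.inr b)

theorem kappa_pi_sigma' (k : Hall (𝛋 M) K M) : PiGrp (𝛔 M)ᶜ K := k.pi.mono (kappa_sub M)

theorem Ms_pi_kappa' (M : Subgroup G) : PiGrp (𝛋 M)ᶜ (Mσ M) :=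
  (O_pi _ M).mono fun _ a b => kappa_sigma' b a

theorem KapC.pi_MsU (h : KapC M U K) : PiGrp (𝛋 M)ᶜ (Mσ M ⊔ U) :=
  (Ms_pi_kappa' M).sup h.pi_U' (Or.inr (h.hU.le.trans (O_normal _ M).norm))

/-- BG 15.1 (a) -/
theorem KapC.sdprod (h : KapC M U K) :
    SDProd (Mσ M) U (Mσ M ⊔ U) ∧ SDProd (Mσ M ⊔ U) K M ∧ ⁅⁅M, M⁆, ⁅M, M⁆⁆ ≤ Mσ M := by
  refine ⟨SDProd.mk' (h.hU.le.trans (O_normal _ M).norm) ((O_pi _ M).inf_eq_bot h.pi_U),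
    ⟨norm_sup (h.hK.le.trans (O_normal _ M).norm) h.context.1.norm, ?_,
      h.pi_MsU.inf_eq_bot' h.hK.pi⟩, ?_⟩
  · rw [sup_assoc, h.sigE.sdprod.sup]
  · have d := h.sigE.der_sdprod
    have := der_le_sup d.normal d.sup
    rwa [der_eq_bot.mpr h.sigE.abel_der, sup_bot_eq] at this

theorem Mx.der2_le_Ms (m : Mx M) : ⁅⁅M, M⁆, ⁅M, M⁆⁆ ≤ Mσ M :=
  let ⟨_, _, h⟩ := m.exists_kapC'; h.sdprod.2.2

theorem KapC.normal_MsU (h : KapC M U K) : Mσ M ⊔ U ⊴ M := h.sdprod.2.1.normal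

theorem KapC.hall_MsU (h : KapC M U K) : Hall (𝛋 M)ᶜ (Mσ M ⊔ U) M :=
  h.sdprod.2.1.hall_compl_left h.hK

theorem KapC.mem_MsU (h : KapC M U K) (hx : x ∈ M) (k : PiElt (𝛋 M)ᶜ x) : x ∈ Mσ M ⊔ U :=
  h.hall_MsU.mem_normal h.normal_MsU.norm hx k

/-- BG 15.1 (b) -/
theorem KapC.der_eq (h : KapC M U K) (k1 : K ≠ ⊥) : Mσ M ⊔ U = ⁅M, M⁆ := by
  apply le_antisymm
  · refine sup_le h.mx.Ms_le_der ?_
    rw [← h.context.2.2.1.comm_eq h.context.1.norm k1]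
    exact commutator_mono h.hU.le h.hK.le
  · have := der_le_sup h.normal_MsU h.sdprod.2.1.sup
    rwa [der_eq_bot.mpr (h.mx.kappa_cyc h.hK).abel, sup_bot_eq] at this

theorem KapC.tau2_of_cent (h : KapC M U K) (hx : x ∈ U) (x1 : x ≠ 1) (c : Mσ M ⊓ 𝐂₁ x ≠ ⊥) :
    PiElt (𝛕₂ M) x ∧ Ell1 x ∧ UniqIn (𝐂₁ x) M := by
  obtain ⟨y, hy, y1⟩ := exists_mem_ne_one c
  refine (h.mx.pi_of_cent_sigma hy.1 y1 (h.hU.le hx) (mem_cent1_comm.mp hy.2) x1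
    (h.pi_U.elt hx)).resolve_left fun k => x1 (k.1.eq_one (h.pi_U'.elt hx))

/-- BG 15.1 (c) -/
theorem KapC.of_cent (h : KapC M U K) (hX : X ≤ U) (x1 : X ≠ ⊥) (c : Mσ M ⊓ 𝐂 X ≠ ⊥) :
    UniqIn (𝐂 X) M ∧ Cyc X ∧ PiGrp (𝛕₂ M) X := by
  have c1 : ∀ x ∈ X, Mσ M ⊓ 𝐂₁ x ≠ ⊥ := fun x hx =>
    ne_bot_mono c (inf_le_inf_left _ (cent_le_cent1 hx))
  have t : PiGrp (𝛕₂ M) X := piGrp_of_forall_elt fun x hx => by
    by_cases e : x = 1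
    · exact e ▸ piElt_one _
    · exact (h.tau2_of_cent (hX hx) e (c1 x hx)).1
  have l := hX.trans h.hU.le
  have cy : Cyc X := by
    by_contra nc
    obtain ⟨p, A, a⟩ := (h.mx.abel_of_tau2 l t).exists_elem_two nc
    exact c (eq_bot_mono (h.mx.tau2_cent (a.mem_of_pi t) (a.mono l))
      (inf_le_inf_left _ (cent_anti a.le)))
  refine ⟨?_, cy, t⟩
  obtain ⟨x, rfl⟩ := cy.exists_gen
  rw [cent_zpowers]
  exact (h.tau2_of_cent (hX (mem_zpowers x)) (by simpa using x1) (c1 x (mem_zpowers x))).2.2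

theorem KapC.reg13 (h : KapC M U K) :
    ∀ e ∈ U, e ≠ 1 → PiElt (𝛕₁ M ∪ 𝛕₃ M) e → Mσ M ⊓ 𝐂₁ e = ⊥ := fun e he e1 k =>
  by_contra fun c => e1 ((h.tau2_of_cent he e1 c).1.eq_one (k.mono fun _ => tau13_not_tau2))

/-- BG 15.1 (d) -/
theorem KapC.exists_abel (h : KapC M U K) :
    ∃ A, A ⊴ U ∧ Abel A ∧ ∀ x ∈ Mσ M, x ≠ 1 → U ⊓ 𝐂₁ x ≤ A := by
  by_cases u : U = ⊥
  · exact ⟨U, NormalIn.refl U, u ▸ abel_bot, fun _ _ _ => inf_le_left⟩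
  · exact (h.mx.typeF_compl h.hU h.pi_U u h.reg13).1

/-- BG 15.1 (e) -/
theorem KapC.exists_frob (h : KapC M U K) (u1 : U ≠ ⊥) :
    ∃ U₀, U₀ ≤ U ∧ Monoid.exponent U₀ = Monoid.exponent U ∧ Frob (Mσ M) U₀ (Mσ M ⊔ U₀) :=
  (h.mx.typeF_compl h.hU h.pi_U u1 h.reg13).2

theorem Mx.tyP1_of_not_nil (m : Mx M) (n : ¬ Nil (Mσ M)) : TyP1 M :=
  ⟨m.tyP_of_not fun f => n f.nil_Ms, by_contra fun e => n (m.nil_Ms_of_not_pi e)⟩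

theorem TyP1.sigE (h : TyP1 M) (k : Hall (𝛋 M) K M) : SigE M K := by
  obtain ⟨U, u⟩ := h.mx.exists_kapC k
  have := u.sigE
  rwa [h.eq_bot u, bot_sup_eq] at this

theorem TyP1.Ms_eq (h : TyP1 M) : Mσ M = ⁅M, M⁆ := by
  obtain ⟨U, K, u⟩ := h.mx.exists_kapC'
  rw [← u.der_eq (h.ne_bot u.hK), h.eq_bot u, sup_bot_eq]

theorem TyP1.Kstar_prime (h : TyP1 M) (k : Hall (𝛋 M) K M) : (♯(Mσ M ⊓ 𝐂 K)).Prime := by
  obtain ⟨N, pp⟩ := h.toTyP.exists_pPair k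
  exact (pp.p2.resolve_left fun e => h.not_tyP2 e.1).2

theorem Mx.not_nil_aux (m : Mx M) (k : Hall (𝛋 M) K M) (n : ¬ Nil (Mσ M))
    (hq : ♯(Mσ M ⊓ 𝐂 K) = q) :
    q.Prime ∧ q ∈ 𝛔 M ∧ Mσ M ⊓ 𝐂 K ≤ 𝐎 {q} M ∧ Nil (qt (𝐎 {q} M) (Mσ M)) ∧
      Syl q (𝐎 {q} M) M := by
  have t := m.tyP1_of_not_nil n
  have e := t.sigE k
  have pr := t.Kstar_prime k
  have pa := m.kappa_primeAct k
  have hq' : q.Prime := hq ▸ pr
  have qs : q ∈ 𝛔 M := (m.dvd_Ms_iff hq').mp (hq ▸ card_dvd inf_le_left)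
  have l : Mσ M ⊓ 𝐂 K ≤ 𝐅 (Mσ M) := by
    refine le_of_prime_of_inf_ne_bot pr fun c => n ?_
    have := pa.comm_le_F e.norm e.coprime (m.sol' e.sdprod.sup.le) (m.odd' e.sdprod.sup.le) (by
      rw [← c]; exact le_antisymm (le_inf (inf_le_inf_right _ (F_le _)) inf_le_left)
        (by rw [c]; exact bot_le))
    rw [e.cent_le_der.2] at this
    exact nil_of_le_F this
  have l' : Mσ M ⊓ 𝐂 K ≤ 𝐎 {q} M :=
    (le_O_of_le_F l (piGrp_of_card_prime hq' hq)).trans (O_le_O_of_normal (O_normal _ M) _)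
  have nQ := (O_normal {q} M).norm
  have cK : (♯K).Coprime (♯(𝐎 {q} M)) := e.pi.coprime' ((O_pi _ M).of_single qs)
  have lQ : 𝐎 {q} M ≤ Mσ M := m.le_Ms' (O_le _ M) (O_pi _ M) qs
  have nl : Nil (qt (𝐎 {q} M) (Mσ M)) := by
    refine ((pa.qt e.norm (k.le.trans nQ) cK).reg ?_).nil (qt_norm _ e.norm) ?_
      ((m.sol' (O_le _ M)).qt _)
    · rw [← qt_inf_cent' (k.le.trans nQ) e.norm cK (Or.inl e.sol)]
      exact qt_of_le l'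
    · rw [Ne, qt_eq_bot (k.le.trans nQ)]
      exact fun c => t.ne_bot k (e.pi.eq_bot ((O_pi _ M).le (c.trans lQ)).compl_compl)
  refine ⟨hq', qs, l', nl, ?_⟩
  have h0 := O_qt_O {q} (Mσ M)
  rw [m.hall_Ms.O_eq_O (O_normal _ M).norm (Set.singleton_subset_iff.mpr qs)] at h0
  have := nl.hall_O {q}
  rw [h0] at this
  have s := this.qp (O_pi _ M) ((O_normal _ M).of_le lQ (O_le _ M))
  rw [qp_bot] at s
  exact s.syl_trans m.hall_Ms qs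

/-- BG 15.2, first part -/
theorem Mx.Fh_ne_bot (m : Mx M) : 𝐅ₕ M ≠ ⊥ := by
  by_cases n : Nil (Mσ M)
  · rw [m.Fh_eq_iff.mpr n]; exact m.Ms_ne_bot
  · obtain ⟨K, k⟩ := m.sol.exists_hall (𝛋 M)
    obtain ⟨a, -, b, -, c⟩ := m.not_nil_aux k n rfl
    exact ne_bot_mono (ne_bot_of_prime_card a) (b.trans (O_le_Fh c))

theorem Mx.not_nil_hall (m : Mx M) (k : Hall (𝛋 M) K M) (n : ¬ Nil (Mσ M))
    (hq : ♯(Mσ M ⊓ 𝐂 K) = q) (hQ : 𝐎 {q} M = Q) (d : Hall {q}ᶜ D (Mσ M)) :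
    SDProd Q D (Mσ M) ∧ Nil D ∧ ¬ D ≤ 𝐂 Q := by
  obtain ⟨-, qs, -, nl, s⟩ := m.not_nil_aux k n hq
  rw [hQ] at nl s
  have nQ : M ≤ 𝐍 Q := hQ ▸ (O_normal {q} M).norm
  have sd := (s.of_le (m.le_Ms' s.le s.pi qs) (O_le _ M)).sdprod ((O_le _ M).trans nQ) d
  have nD : Nil D := by
    rw [sd.qt_eq] at nl
    exact nl.of_qt sd.norm sd.inf
  exact ⟨sd, nD, fun c => n ((sd.dprod c).nil s.pi.nil nD)⟩

theorem Mx.not_nil_core (m : Mx M) (k : Hall (𝛋 M) K M) (n : ¬ Nil (Mσ M))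
    (hq : ♯(Mσ M ⊓ 𝐂 K) = q) (hQ : 𝐎 {q} M = Q) (d : Hall {q}ᶜ D (Mσ M)) (nD : K ≤ 𝐍 D) :
    Q ⊓ 𝐂 D ⊴ M ∧ (∀ W, Q ⊓ 𝐂 D < W → W ≤ Q → D ⊔ K ≤ 𝐍 W → W = Q) ∧
      Mσ M ⊓ 𝐂 K ⊓ (Q ⊓ 𝐂 D) = ⊥ ∧ (♯K).Prime ∧ (Q ⊓ 𝐂 D).relIndex Q = q ^ ♯K ∧
      ⁅Q, ⁅D, D⁆⁆ ≤ Q ⊓ 𝐂 D := by
  obtain ⟨hq', qs, l, -, s⟩ := m.not_nil_aux k n hq
  obtain ⟨sd, nilD, ncD⟩ := m.not_nil_hall k n hq hQ d
  rw [hQ] at l s
  have t := m.tyP1_of_not_nil n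
  have e := t.sigE k
  have pr := t.Kstar_prime k
  have pa := m.kappa_primeAct k
  have nQ : M ≤ 𝐍 Q := hQ ▸ (O_normal {q} M).norm
  have lDK : D ⊔ K ≤ M := sup_le (d.le.trans (O_le _ M)) k.le
  have piDK : PiGrp {q}ᶜ (D ⊔ K) := d.pi.sup (e.pi.to_compl_single' qs) (Or.inr nD)
  have rg : Reg D K := (pa.mono_left d.le).reg
    (eq_bot_mono sd.inf (le_inf ((inf_le_inf_right _ d.le).trans l) inf_le_left))
  have nQ0 : D ⊔ K ≤ 𝐍 (Q ⊓ 𝐂 D) := norm_inf_cent (lDK.trans nQ) (sup_le (le_norm_self D) nD)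
  have step : ∀ V W, V ≤ W → W ≤ Q → W ≤ 𝐍 V → D ⊔ K ≤ 𝐍 V → D ⊔ K ≤ 𝐍 W → W ⊓ 𝐂 K ≤ V →
      W ≤ V ⊔ (Q ⊓ 𝐂 D) := fun V W a b c d' f g =>
    (rg.le_sup_cent nD (s.pi.le b).sol a c d' f (piDK.coprime' (s.pi.le b)) g).trans
      (sup_le_sup_left (inf_le_inf_right _ b) _)
  have key : ∀ W, Q ⊓ 𝐂 D < W → W ≤ Q → W ≤ 𝐍 (Q ⊓ 𝐂 D) → D ⊔ K ≤ 𝐍 W →
      W = Q ∧ Mσ M ⊓ 𝐂 K ⊓ (Q ⊓ 𝐂 D) = ⊥ := by
    intro W a b c f
    have lc : ∀ V, V ≤ Q → V ⊓ 𝐂 K ≤ Mσ M ⊓ 𝐂 K := fun V hV =>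
      inf_le_inf_right _ (hV.trans sd.left_le)
    have nl : ¬ W ⊓ 𝐂 K ≤ Q ⊓ 𝐂 D := fun g =>
      a.not_ge ((step _ W a.le b c nQ0 f g).trans (sup_idem _).le)
    have e1 : W ⊓ 𝐂 K = Mσ M ⊓ 𝐂 K := eq_of_prime_of_ne_bot pr (lc W b) fun g => nl (g ▸ bot_le)
    refine ⟨s.pi.nil.eq_of_inf_norm_le b ((step W _ (le_inf b (le_norm_self W)) inf_le_left
      inf_le_right f (norm_inf (lDK.trans nQ) (f.trans (norm_le_norm_norm W)))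
      ((lc _ inf_le_left).trans (e1.ge.trans inf_le_left))).trans (sup_le le_rfl a.le)),
      inf_eq_bot_of_prime_of_not_le pr (e1 ▸ nl)⟩
  have lt : Q ⊓ 𝐂 D < Q := inf_lt_left.mpr fun c => ncD (cent_symm c)
  obtain ⟨e1, i0⟩ := key _ (s.pi.nil.lt_inf_norm lt) inf_le_left inf_le_right
    (norm_inf (lDK.trans nQ) (nQ0.trans (norm_le_norm_norm _)))
  have nQQ : Q ≤ 𝐍 (Q ⊓ 𝐂 D) := e1.ge.trans inf_le_right
  have nM : M ≤ 𝐍 (Q ⊓ 𝐂 D) := by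
    rw [← e.sdprod.sup, ← sd.sup, sup_assoc]
    exact sup_le nQQ nQ0
  generalize hQ0 : Q ⊓ 𝐂 D = Q₀ at *
  have nD0 := le_sup_left.trans nQ0
  have nK0 := le_sup_right.trans nQ0
  have p0 : PiGrp {q} Q₀ := s.pi.le lt.le
  have iK : Q₀ ⊓ K = ⊥ := p0.inf_eq_bot (piDK.le le_sup_right)
  have cK := (piDK.le le_sup_right).coprime' p0
  have fr : Frob (qt Q₀ D) (qt Q₀ K) (qt Q₀ (D ⊔ K)) := by
    rw [qt_sup nD0 nK0]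
    refine Frob.mk' (qt_norm _ nD) ?_ ?_ (rg.qt nD _)
    · rw [Ne, qt_eq_bot nD0]
      exact fun c => ncD ((d.pi.eq_bot (p0.le c).compl_compl).le.trans bot_le)
    · rw [Ne, qt_eq_bot nK0]
      exact fun c => t.ne_bot k ((p0.le c).eq_bot (piDK.le le_sup_right))
  have eK : qt Q₀ Q ⊓ 𝐂 (qt Q₀ K) = qt Q₀ (Mσ M ⊓ 𝐂 K) := by
    rw [← qt_inf_cent' nK0 (k.le.trans nQ) cK (Or.inr p0.sol)]
    congr 1
    exact le_antisymm (inf_le_inf_right _ sd.left_le) (le_inf l inf_le_right)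
  have cKs : ♯(qt Q₀ (Mσ M ⊓ 𝐂 K)) = q := by
    rw [card_qt_of_inf_bot (l.trans nQQ) (by rwa [inf_comm]), hq]
  obtain ⟨a, b, c⟩ := fr.primeAct ((m.sol' lDK).qt _) (mOdd_qt _ _ (m.proper lDK)) (qt_norm _ (lDK.trans nQ))
    (coprime_qt _ (piDK.coprime' s.pi)) (s.pi.nil.qt _)
    (by rw [Ne, qt_eq_bot nQQ]; exact lt.not_ge)
    ((pa.mono_left sd.left_le).qt (k.le.trans nQ) nK0 cK) (by
      rw [← qt_inf_cent' nD0 sd.norm (d.pi.coprime' p0) (Or.inr p0.sol), hQ0, qt_self])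
  rw [card_qt_of_inf_bot nK0 iK] at a b
  rw [eK, cKs, card_qt nQQ] at b
  rw [eK] at c
  have c' := c (cyc_of_prime (cKs ▸ hq'))
  rw [← qt_comm nD0 nD0, cent_comm, qt_cent_iff nQQ ((der_le D).trans nD0)] at c'
  exact ⟨⟨lt.le.trans s.le, nM⟩, fun W x y z => (key W x y (y.trans nQQ) z).1, i0, a, b, c'⟩

/-- BG 15.2 (a), (b), (c) -/
theorem Mx.of_not_nil (m : Mx M) (k : Hall (𝛋 M) K M) (n : ¬ Nil (Mσ M))
    (hq : ♯(Mσ M ⊓ 𝐂 K) = q) :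
    TyP1 M ∧ SDProd (Mσ M) K M ∧ Mσ M = ⁅M, M⁆ ∧ (♯K).Prime ∧ q.Prime ∧ q ∣ ♯(𝐅ₕ M) ∧ q ∈ 𝛃 M ∧
      Syl q (𝐎 {q} M) M := by
  obtain ⟨hq', qs, l, -, s⟩ := m.not_nil_aux k n hq
  have t := m.tyP1_of_not_nil n
  have e := t.sigE k
  obtain ⟨D, d, nD⟩ := exists_hall_inv e.norm e.coprime (m.sol' (O_le _ M)) {q}ᶜ
  refine ⟨t, e.sdprod, t.Ms_eq, (m.not_nil_core k n hq rfl d nD).2.2.2.1, hq',
    hq ▸ card_dvd (l.trans (O_le_Fh s)), by_contra fun b => ?_, s⟩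
  have np := m.npc_Ms b
  exact (m.not_nil_hall k n hq rfl np).2.2
    (((O_normal _ M).O _).cent_of_inf_eq_bot (O_normal _ M) ((O_pi _ _).inf_eq_bot' (O_pi _ M)))

theorem Mx.F_le_Ms_of_not_nil (m : Mx M) (n : ¬ Nil (Mσ M)) : 𝐅 M ≤ Mσ M := by
  obtain ⟨K, k⟩ := m.sol.exists_hall (𝛋 M)
  have t := m.tyP1_of_not_nil n
  have e := t.sigE k
  have nY := (F_normal M).O (𝛔 M)ᶜ
  have : 𝐎 (𝛔 M)ᶜ (𝐅 M) = ⊥ := by
    by_contra y1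
    have := (m.kappa_primeAct k).cent (e.hall.le_of_normal nY (O_pi _ _)) y1
    rw [inf_eq_left.mpr (O_cent_normal nY (O_pi _ _))] at this
    exact n (this ▸ (cyc_of_prime (t.Kstar_prime k)).nil)
  rw [← (BG.F_dprod (𝛔 M) M).sup, this, sup_bot_eq]
  exact O_F_le _ M

/-- BG 15.2 (d) - (g) -/
theorem Mx.of_not_nil' (m : Mx M) (k : Hall (𝛋 M) K M) (n : ¬ Nil (Mσ M))
    (hq : ♯(Mσ M ⊓ 𝐂 K) = q) (hQ : 𝐎 {q} M = Q) (d : Hall {q}ᶜ D (Mσ M)) :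
    Nil D ∧ Q ⊓ 𝐂 D ⊴ M ∧ Chief M (Q ⊓ 𝐂 D) Q ∧ (Q ⊓ 𝐂 D).relIndex Q = q ^ ♯K ∧
      ⁅Mσ M, Mσ M⁆ ≤ 𝐅 M ∧ Q ⊔ (M ⊓ 𝐂 Q) = 𝐅 M ∧ Mσ M ⊓ centMod Q (Q ⊓ 𝐂 D) = 𝐅 M ∧
      Mσ M ⊓ centMod (Mσ M ⊓ 𝐂 K) (Q ⊓ 𝐂 D) = 𝐅 M ∧ 𝐅 M < Mσ M := by
  refine ⟨(m.not_nil_hall k n hq hQ d).2.1, ?_⟩
  obtain ⟨hq', qs, l, -, s⟩ := m.not_nil_aux k n hq
  rw [hQ] at l s
  have t := m.tyP1_of_not_nil n
  have e := t.sigE k
  have nQ : M ≤ 𝐍 Q := hQ ▸ (O_normal {q} M).norm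
  have nlQ : Q ⊴ M := ⟨s.le, nQ⟩
  obtain ⟨D₀, d₀, nD⟩ := exists_hall_inv e.norm e.coprime (m.sol' (O_le _ M)) {q}ᶜ
  obtain ⟨n0, mn, i0, pK, ix, dd⟩ := m.not_nil_core k n hq hQ d₀ nD
  have eD : Q ⊓ 𝐂 D = Q ⊓ 𝐂 D₀ := by
    obtain ⟨g, hg, rfl⟩ := d₀.conj (m.sol' (O_le _ M)) d
    rw [← cj_of_norm (n0.norm (O_le _ M hg)), cj_inf, cj_cent, cj_of_norm (nQ (O_le _ M hg))]
  rw [eD]
  clear eD d
  obtain ⟨sd, nilD, ncD⟩ := m.not_nil_hall k n hq hQ d₀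
  have cD : D₀ ≤ 𝐂 (Q ⊓ 𝐂 D₀) := cent_symm inf_le_right
  have lt : Q ⊓ 𝐂 D₀ < Q := inf_lt_left.mpr fun c => ncD (cent_symm c)
  generalize Q ⊓ 𝐂 D₀ = Q₀ at *
  have lDK : D₀ ⊔ K ≤ M := sup_le (d₀.le.trans (O_le _ M)) k.le
  have ch : Chief M Q₀ Q := ⟨lt, n0.norm, nlQ, fun W a b c => by_contra fun f =>
    b.ne (mn W (lt_of_le_of_ne a (Ne.symm f)) b.le (lDK.trans c))⟩
  have p0 : PiGrp {q} Q₀ := s.pi.le lt.le
  have lF := m.F_le_Ms_of_not_nil n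
  have F1 : 𝐅 M ≤ centMod Q Q₀ := le_centMod.mpr ⟨(F_le M).trans n0.norm, by
    rw [commutator_comm]; exact ch.comm_F_le (NormalIn.refl M)⟩
  have QF : Q ≤ 𝐅 M := le_F nlQ s.pi.nil
  have F2 : Mσ M ⊓ centMod Q Q₀ = 𝐅 M := by
    refine le_antisymm (le_F ⟨inf_le_left.trans (O_le _ M),
      norm_inf (O_normal _ M).norm (norm_centMod nQ n0.norm)⟩ ?_) (le_inf lF F1)
    have sd' := sd.inf_of_left_le (QF.trans F1)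
    refine (sd'.dprod ?_).nil s.pi.nil (nilD.mono inf_le_left)
    refine cent_of_stable ((d₀.pi.le inf_le_left).coprime' p0) ?_ (inf_le_left.trans cD)
    rw [commutator_comm]
    exact (le_centMod.mp inf_le_right).2
  have F3 : Mσ M ⊓ centMod (Mσ M ⊓ 𝐂 K) Q₀ = 𝐅 M := by
    have mono : centMod Q Q₀ ≤ centMod (Mσ M ⊓ 𝐂 K) Q₀ := fun x hx =>
      mem_centMod.mpr ⟨(mem_centMod.mp hx).1, fun u hu => (mem_centMod.mp hx).2 u (l hu)⟩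
    refine le_antisymm ?_ (le_inf lF (F1.trans mono))
    rw [← (sd.inf_of_left_le (QF.trans (F1.trans mono))).sup]
    refine sup_le QF ?_
    generalize hD₁ : D₀ ⊓ centMod (Mσ M ⊓ 𝐂 K) Q₀ = D₁
    have l1 : D₁ ≤ D₀ := hD₁ ▸ inf_le_left
    have c1 : ⁅D₁, Mσ M ⊓ 𝐂 K⁆ ≤ Q₀ := (le_centMod.mp (hD₁ ▸ inf_le_right)).2
    have n1 : D₀ ⊔ K ≤ 𝐍 D₁ := by
      refine sup_le (norm_of_der_le l1 ?_) ?_
      · rw [← hD₁]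
        refine le_inf (der_le _) (le_trans (le_centMod.mpr ⟨(der_le _).trans
          ((le_sup_left.trans lDK).trans n0.norm), by rwa [commutator_comm]⟩) mono)
      · rw [← hD₁]
        exact norm_inf nD (norm_centMod (norm_of_cent' inf_le_right) (k.le.trans n0.norm))
    have lK : Mσ M ⊓ 𝐂 K ≤ Q ⊓ centMod D₁ Q₀ := le_inf l (le_centMod.mpr
      ⟨l.trans (s.le.trans n0.norm), by rwa [commutator_comm]⟩)
    have l0 : Q₀ ≤ Q ⊓ centMod D₁ Q₀ := le_inf lt.le (le_centMod.mpr ⟨le_norm_self _,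
      comm_le_left ((l1.trans (le_sup_left.trans lDK)).trans n0.norm)⟩)
    have := mn _ (lt_of_le_of_ne l0 fun c => t.toTyP.Kstar_ne_bot k
      (by rwa [inf_eq_left.mpr (lK.trans c.ge)] at i0)) inf_le_left
      (norm_inf (lDK.trans nQ) (norm_centMod n1 (lDK.trans n0.norm)))
    rw [← F2]
    refine le_inf (l1.trans d₀.le) (le_centMod.mpr ⟨(l1.trans (le_sup_left.trans lDK)).trans
      n0.norm, ?_⟩)
    rw [commutator_comm]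
    exact (le_centMod.mp (this.ge.trans inf_le_right)).2
  refine ⟨n0, ch, ix, ?_, le_antisymm (sup_le QF ?_) ?_, F2, F3,
    lt_of_le_of_ne lF fun c => n (c ▸ F_nil M)⟩
  · refine (der_le_sup sd.normal sd.sup).trans (sup_le QF ?_)
    rw [← F2]
    exact le_inf ((der_le _).trans d₀.le) (le_centMod.mpr ⟨(der_le _).trans
      ((le_sup_left.trans lDK).trans n0.norm), by rwa [commutator_comm]⟩)
  · have sd' := e.sdprod.inf_of_norm e.coprime.symm (norm_cent nQ)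
    have : K ⊓ 𝐂 Q = ⊥ := by
      refine inf_eq_bot_of_prime_of_not_le pK fun c => ?_
      have h1 : q ^ ♯K ≤ q ^ 1 := by
        rw [← ix, pow_one, ← hq]
        refine le_trans (Nat.le_of_dvd (card_pos' Q) (relIndex_dvd_card _ _)) (card_le ?_)
        exact le_inf sd.left_le (cent_symm c)
      have := (Nat.pow_le_pow_iff_right hq'.one_lt).mp h1
      have := pK.one_lt
      omega
    rw [← sd'.sup, this, sup_bot_eq, ← F2]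
    refine le_inf inf_le_left (le_centMod.mpr ⟨(inf_le_left.trans (O_le _ M)).trans n0.norm, ?_⟩)
    rw [comm_eq_bot.mpr inf_le_right]
    exact bot_le
  · rw [← (BG.F_dprod {q} M).sup, O_F, hQ]
    refine sup_le_sup_left (le_inf ((O_le _ _).trans (F_le M)) ?_) _
    rw [← hQ, ← O_F]
    exact O_compl_cent_O _ _

end CF.BG.Vp
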