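import Cfsg.Agent.Vp.S15b
/-
BG section 15, third part (15.7 - 15.9).
-/
set_option autoImplicit false
set_option linter.unusedSectionVars false
set_option linter.unusedVariables false

namespace CF.BG.Vp
open Subgroup
open scoped commutatorElement Pointwise

variable {G : Type*} [Group G] [Finite G] [MSO G]
variable {A A₀ A₁ B C D E E₁ E₂ E₃ H K L M N P Q R S T U V W X Y Z : Subgroup G} {p q r : ℕ}
variable {π : Set ℕ} {x y g : G}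

theorem Mx.not_uniq_of_cent (m : Mx M) (x1 : X ≠ ⊥) (w : Pw X) (c : ¬ 𝐂 X ≤ M) (a : K ≤ M) (b : K ≤ 𝐂 X) :
    ¬ Uniq K := fun u => c ((u.uniqIn m a).le_of_proper b (cent_proper x1 w))

theorem Mx.nonTI_elem (m : Mx M) (hg : g ∉ M) (x : Elem p 1 X (𝐅 M ⊓ BG.cj g (𝐅 M))) :
    p ∈ 𝛔 M ∧ ¬ 𝐂 X ≤ M := by
  have a : X ≤ 𝐅 M := x.le.trans inf_le_left
  have b : BG.cj g⁻¹ X ≤ 𝐅 M := le_cj_iff.mp (x.le.trans inf_le_right)
  have ps : p ∈ 𝛔 M := by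
    by_contra ps
    have key : ∀ Y, Y ≤ 𝐅 M → PiGrp {p} Y → M ≤ 𝐍 Y := fun Y h k =>
      (m.cyc_O_F.1.normalIn ((F_nil M).le_O h (k.of_single' ps)) ((F_normal M).O _)).norm
    have := (cj_norm_iff (g := g)).mpr (key _ b (x.pi.cj _))
    rw [cj_cj_inv] at this
    exact m.cj_ne hg ((m.cj g).eq_of_norm m x.ne_bot (m.pw_of_le_F a) this (key _ a x.pi))
  exact ⟨ps, fun c => hg (inv_mem_iff.mp
    (m.sigma_tame ps x.pi x.ne_bot (a.trans (F_le M)) c (b.trans (F_le M))))⟩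

theorem Mx.nonTI_le (m : Mx M) (hg : g ∉ M) : 𝐅 M ⊓ BG.cj g (𝐅 M) ≤ Mσ M ⊓ BG.cj g M := by
  refine le_inf (m.le_Ms (inf_le_left.trans (F_le M)) fun p hp d => ?_)
    (inf_le_right.trans (cj_mono g (F_le M)))
  obtain ⟨X, x⟩ := exists_elem_one hp d
  exact (m.nonTI_elem hg x).1

theorem Mx.syl_O_of_nil (m : Mx M) (n : Nil (Mσ M)) (hp : p ∈ 𝛔 M) : Syl p (𝐎 {p} M) M :=
  syl_O_of_dvd_Fh (prime_of_sigma hp)
    (m.Fh_eq_iff.mpr n ▸ (m.dvd_Ms_iff (prime_of_sigma hp)).mpr hp)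

theorem Mx.nonTI_aux (m : Mx M) (hg : g ∉ M) (x1 : 𝐅 M ⊓ BG.cj g (𝐅 M) ≠ ⊥) :
    Nil (Mσ M) ∧ 𝛃 M = ∅ ∧ ∀ E, SigE M E → ⁅E, E⁆ ≤ 𝐂 (Mσ M) := by
  obtain ⟨p, X, x⟩ := exists_prime_elem_one x1
  obtain ⟨ps, c⟩ := m.nonTI_elem hg x
  have pb : p ∉ 𝛃 M := (x.mono (m.nonTI_le hg)).mem_of_pi (m.Ms_inf_cj hg).2.1
  have nb : ∀ r ∈ 𝛃 M, ¬ Syl r (𝐎 {r} M) M := fun r hr s =>
    m.not_uniq_of_cent x.ne_bot (m.pw_of_le_F (x.le.trans inf_le_left)) c s.le ((F_nil M).cent_of_pi (O_le_F r M) (x.le.trans inf_le_left)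
      s.pi (x.pi.of_single_ne (by rintro rfl; exact pb hr)))
      (uniq_of_pRank3 (m.proper s.le) (s.syl_pRank ▸ mem_alpha.mp (beta_sub_alpha M hr)))
  have n : Nil (Mσ M) := by
    by_contra n
    obtain ⟨K, k⟩ := m.sol.exists_hall (𝛋 M)
    obtain ⟨-, -, -, -, -, -, a, b⟩ := m.of_not_nil k n rfl
    exact nb _ a b
  have b0 : 𝛃 M = ∅ := Set.eq_empty_of_forall_notMem fun r hr =>
    nb r hr (m.syl_O_of_nil n (m.beta_sub_sigma hr))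
  refine ⟨n, b0, fun E e => ?_⟩
  obtain ⟨H, a, b⟩ := e.der_cent_beta'
  rwa [a.eq_of_pi (by rw [b0, Set.compl_empty]; exact piNat_univ _)] at b

/-- BG 15.7 (a), (b), (c) -/
theorem Mx.nonTI_facts (m : Mx M) (hg : g ∉ M) (x1 : 𝐅 M ⊓ BG.cj g (𝐅 M) ≠ ⊥) :
    (TyF M ∨ TyP1 M) ∧ 𝐅ₕ M = Mσ M ∧ 𝐅 M ⊓ BG.cj g (𝐅 M) ≤ 𝐅ₕ M ∧ Cyc (𝐅 M ⊓ BG.cj g (𝐅 M)) ∧
      𝛃 M = ∅ ∧ ⁅M, M⁆ ≤ 𝐅 M := by
  obtain ⟨n, b0, c⟩ := m.nonTI_aux hg x1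
  have e := m.Fh_eq_iff.mpr n
  refine ⟨?_, e,
    (m.nonTI_le hg).trans (inf_le_left.trans e.ge), (m.Ms_inf_cj hg).1.mono (m.nonTI_le hg),
    b0, ?_⟩
  · refine m.tyF_or.imp_right fun t => t.one_or_two.resolve_right fun t2 => ?_
    obtain ⟨K, k⟩ := m.sol.exists_hall (𝛋 M)
    obtain ⟨p, X, x⟩ := exists_prime_elem_one x1
    have := (m.nonTI_elem hg x).1
    rw [(t2.facts k).1, b0] at this
    exact this
  · obtain ⟨E, s⟩ := m.exists_sigE'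
    exact s.der_sdprod.sup.ge.trans (sup_le (le_F (O_normal _ M) n)
      ((le_inf ((der_le E).trans s.le) (e ▸ c E s)).trans m.cent_Fh_le))

/-- BG 15.7 (d) -/
theorem SigC.nonTI (h : SigC M E E₁ E₂ E₃) (hg : g ∉ M) (x1 : 𝐅 M ⊓ cj g (𝐅 M) ≠ ⊥) :
    E₃ = ⊥ ∧ SDProd E₂ E₁ E := by
  have l : E₃ ≤ 𝐅 M :=
    h.le_der3.trans ((der_mono h.toSigE.le).trans (h.mx.nonTI_facts hg x1).2.2.2.2.2)
  have e : E₃ = ⊥ := (h.mx.cyc_O_F.2.le ((F_nil M).le_O l (h.h3.pi.mono (tau3_sub M)))).eq_bot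
    (h.h3.pi.mono fun _ => tau3_not_tau2)
  have := h.sdprod1
  rw [e, bot_sup_eq] at this
  exact ⟨e, this⟩

theorem Mx.nonTI_nonabel (m : Mx M) (hg : g ∉ M) (x1 : 𝐅 M ⊓ BG.cj g (𝐅 M) ≠ ⊥)
    (hp : ♯(𝐅 M ⊓ BG.cj g (𝐅 M)) = p) (na : ¬ Abel (Mσ M)) :
    p.Prime ∧ p ∈ 𝛔 M ∧ ¬ Abel (𝐎 {p} (Mσ M)) ∧ Cyc (𝐎 {p}ᶜ (Mσ M)) ∧
      Elem p 1 (𝛀 p (𝐙 (𝐎 {p} (Mσ M)))) (𝐎 {p} (Mσ M)) ∧ Narrow p (𝐎 {p} (Mσ M)) := by
  obtain ⟨n, -, -⟩ := m.nonTI_aux hg x1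
  have lX := (m.nonTI_le hg).trans inf_le_left
  have cX := (m.nonTI_facts hg x1).2.2.2.1
  have key : ∀ p X, Elem p 1 X (𝐅 M ⊓ BG.cj g (𝐅 M)) → ∀ r, ¬ Abel (𝐎 {r} (Mσ M)) → r = p :=
    fun p X x r a => by_contra fun c => m.not_uniq_of_cent x.ne_bot (m.pw_of_le_F (x.le.trans inf_le_left)) (m.nonTI_elem hg x).2
      ((O_le _ _).trans (O_le _ M)) (n.cent_of_pi (O_le _ _) (x.le.trans lX) (O_pi _ _)
        (x.pi.of_single_ne (Ne.symm c))) ((O_pi _ _).uniq_of_not_abelV a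
          (Pw.mem_of ((pw_Ms M).le (O_le _ _)) (O_pi _ _) fun e => a (e ▸ abel_bot)))
  obtain ⟨r, nr⟩ : ∃ r, ¬ Abel (𝐎 {r} (Mσ M)) :=
    by_contra fun c => na (n.abel_of_forallV fun r _ _ => by_contra fun d => c ⟨r, d⟩)
  obtain ⟨p', X, x⟩ := exists_prime_elem_one x1
  obtain rfl := key _ _ x r nr
  obtain ⟨rs, c⟩ := m.nonTI_elem hg x
  have pX : PiGrp {r} (𝐅 M ⊓ BG.cj g (𝐅 M)) := fun s hs d =>
    let ⟨_, y⟩ := exists_elem_one hs d; (key _ _ y r nr).symm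
  have lP := n.le_O lX pX
  have pP := O_pi {r} (Mσ M)
  have lM : 𝐎 {r} (Mσ M) ≤ M := (O_le _ _).trans (O_le _ M)
  have uP := pP.uniq_of_not_abelV nr (w_of_sigma rs)
  have cy : Cyc (𝐎 {r}ᶜ (Mσ M)) := (n.mono (O_le _ _)).cyc_of_rank (m.odd' ((O_le _ _).trans (O_le _ M))) (by
    by_contra d
    exact m.not_uniq_of_cent x.ne_bot (m.pw_of_le_F (x.le.trans inf_le_left)) c ((O_le _ _).trans (O_le _ M))
      ((O_compl_cent_O _ _).trans (cent_anti (x.le.trans lP)))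
      (uP.of_cent (O_compl_cent_O _ _) (by omega)))
  generalize hP : 𝐎 {r} (Mσ M) = P at *
  have nc : ¬ X ≤ 𝐂 P := fun d => m.not_uniq_of_cent x.ne_bot (m.pw_of_le_F (x.le.trans inf_le_left)) c lM (cent_symm d) uP
  obtain ⟨Z, z⟩ := pP.exists_elem_center (NormalIn.refl P) (ne_bot_mono x1 lP)
  have zc : Z ≤ 𝐂 P := z.le.trans (inf_le_right.trans inf_le_right)
  have xP := x.mono lP
  have b : Elem r 2 (X ⊔ Z) P := xP.sup (z.mono inf_le_left) (cent_symm (zc.trans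
    (cent_anti xP.le))) (x.inf_eq_bot z fun d => nc (d ▸ zc))
  have mx : MaxElem r (X ⊔ Z) ⊤ := by_contra fun d => m.not_uniq_of_cent x.ne_bot (m.pw_of_le_F (x.le.trans inf_le_left)) c
    (b.le.trans lM) (b.abel.cent le_rfl le_sup_left) (b.uniq_of_not_maxV d (w_of_sigma rs))
  obtain ⟨z0, ⟨Y, -, -, dY⟩, -⟩ := mx.structV b pP nr (w_of_sigma rs)
  have e := cX.eq_of_complV pX x (dY X (x.of_le le_sup_left)
    (fun d => nc (d ▸ (Om_le _ _).trans inf_le_right))).sdprod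
    (le_inf lP (le_cent_sup (cX.abel.cent le_rfl x.le) (cent_symm (zc.trans (cent_anti lP)))))
  rw [e, x.card_one] at hp
  subst hp
  rw [hP]
  exact ⟨x.prime, rs, nr, cy, z0.mono b.le, fun _ => ⟨_, b, mx.of_le b.le le_top⟩⟩

/-- BG 15.7 (e) -/
theorem Mx.nonTI_struct (m : Mx M) (hg : g ∉ M) (x1 : 𝐅 M ⊓ BG.cj g (𝐅 M) ≠ ⊥)
    (hp : ♯(𝐅 M ⊓ BG.cj g (𝐅 M)) = p) :
    (TyF M ∧ Abel (𝐅ₕ M) ∧ rank (𝐅ₕ M) = 2) ∨
    (p.Prime ∧ p ∈ 𝛔 M ∧ ¬ Abel (𝐎 {p} (𝐅ₕ M)) ∧ Cyc (𝐎 {p}ᶜ (𝐅ₕ M)) ∧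
      ((∀ q : ℕ, q.Prime → q ∣ ♯(𝐅ₕ M) → ∀ x ∈ M, x ^ (q - 1) ∈ 𝐅ₕ M) ∨
       (♯(𝐎 {p} (𝐅ₕ M)) = p ^ 3 ∧ TyP1 M ∧ (𝐅ₕ M).relIndex M ∣ p + 1))) := by
  obtain ⟨n, -, cE⟩ := m.nonTI_aux hg x1
  obtain ⟨ty, e, -⟩ := m.nonTI_facts hg x1
  rw [e]
  obtain ⟨U, K, u⟩ := m.exists_kapC'
  by_cases ab : Abel (Mσ M)
  · obtain ⟨p, X, x⟩ := exists_prime_elem_one x1
    have c := (m.nonTI_elem hg x).2
    have lX := x.le.trans ((m.nonTI_le hg).trans inf_le_left)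
    refine Or.inl ⟨m.tyF_of_not fun t => t.Kstar_ne_bot u.hK (eq_bot_mono ?_ (t.cyclics u.hK).2.1),
      ab, le_antisymm ?_ ?_⟩
    · rw [der_eq_bot, ← u.sigE.der_sdprod.sup]
      exact ab.sup u.sigE.abel_der (cent_symm (cE _ u.sigE))
    · by_contra d
      exact m.not_uniq_of_cent x.ne_bot (m.pw_of_le_F (x.le.trans inf_le_left)) c (O_le _ M) (ab.cent le_rfl lX)
        (uniq_of_rank3 (pw_Ms M).pr (by omega))
    · by_contra d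
      exact c (m.cent_le ((ab.cyc_iff.mpr (by omega)).normalIn lX (O_normal _ M)) x.ne_bot)
  obtain ⟨hp', ps, nP, cy, z0, nr⟩ := m.nonTI_nonabel hg x1 hp ab
  refine Or.inr ⟨hp', ps, nP, cy, ?_⟩
  have nPM : 𝐎 {p} (Mσ M) ⊴ M := (O_normal _ M).O _
  have nZ : 𝛀 p (𝐙 (𝐎 {p} (Mσ M))) ⊴ M := (nPM.char inf_le_left (norm_center _)).Om p
  have ex : ∀ q : ℕ, q.Prime → q ∣ ♯(Mσ M) → ∃ Z, Elem q 1 Z (Mσ M) ∧ Z ⊴ M := by
    intro q hq d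
    by_cases c : q = p
    · exact c ▸ ⟨_, z0.mono (O_le _ _), nZ⟩
    · exact ⟨_, ((cy.mono (O_mono _ (Set.singleton_subset_iff.mpr c))).elem_Om' (O_pi _ _)
        (n.O_ne_bot hq d)).mono (O_le _ _), ((O_normal _ M).O _).Om q⟩
  rcases ty with t | t
  · refine Or.inl fun q hq d x hx => ?_
    obtain ⟨Z, z, nz⟩ := ex q hq d
    obtain ⟨U₀, l, e0, f⟩ := u.exists_frob fun c => t.not_pi (u.eq_bot_iff.mp c)
    have := (f.reg.mono z.le le_rfl).card_dvd ((l.trans u.hU.le).trans nz.norm)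
    rw [z.card_one] at this
    have sd := u.sigE.sdprod
    rw [t.eq_bot u.hK, sup_bot_eq] at sd
    refine sd.pow_mem (fun y hy => ?_) hx
    obtain ⟨c, hc⟩ := (e0 ▸ Group.exponent_dvd_nat_card (G := U₀)).trans this
    rw [hc, pow_mul, pow_exponent_of_mem hy, one_pow]
  have k := u.hK
  have s := t.sigE k
  have pa := m.kappa_primeAct k
  have pr := t.Kstar_prime k
  have lK : Mσ M ⊓ 𝐂 K ≤ 𝐎 {p} (Mσ M) := by
    have := (t.toTyP.cyclics k).2.1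
    rw [← t.Ms_eq, ← (n.dprod {p}).sup, der_sup_of_cent (n.dprod {p}).cent,
      der_eq_bot.mpr cy.abel, sup_bot_eq, (n.dprod {p}).sup] at this
    exact this.trans (der_le _)
  have rg : ∀ q Z, Elem q 1 Z (Mσ M) → Z ⊴ M → ¬ ♯K ∣ q - 1 → Z ≤ Mσ M ⊓ 𝐂 K := by
    intro q Z z nz c
    refine le_inf z.le (le_of_prime_of_inf_ne_bot z.card_prime fun d => c ?_)
    exact z.card_one ▸ ((pa.mono_left z.le).reg d).card_dvd (k.le.trans nz.norm)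
  by_cases dp : ♯K ∣ p - 1
  · refine Or.inl fun q hq d x hx => s.sdprod.pow_mem (fun y hy => ?_) hx
    obtain ⟨Z, z, nz⟩ := ex q hq d
    have : ♯K ∣ q - 1 := by_contra fun c => c (by
      rwa [(z.of_le ((rg q Z z nz c).trans lK)).mem_of_pi (O_pi _ _)])
    obtain ⟨c, hc⟩ := this
    rw [hc, pow_mul, pow_card_eq_one_of_mem hy, one_pow]
  have eZ := eq_of_prime_of_ne_bot pr (rg p _ (z0.mono (O_le _ _)) nZ dp) z0.ne_bot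
  have pP := O_pi {p} (Mσ M)
  have sP : Syl p (𝐎 {p} (Mσ M)) ⊤ := (n.hall_O {p}).syl_trans m.hall_Ms_top ps
  have lP := O_le {p} (Mσ M)
  generalize 𝐎 {p} (Mσ M) = P at *
  have kp : PiGrp {p}ᶜ K := s.pi.to_compl_single' ps
  have nK := k.le.trans nPM.norm
  have cP : ∀ y ∈ K, y ≠ 1 → P ⊓ 𝐂₁ y = Mσ M ⊓ 𝐂 K := fun y hy y1 =>
    le_antisymm ((inf_le_inf_right _ lP).trans (pa y hy y1).le)
      (le_inf lK (inf_le_right.trans (cent_le_cent1 hy)))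
  have rk : pRank p P ≤ 2 := by
    by_contra d
    obtain ⟨y, rfl⟩ := (m.kappa_cyc k).exists_gen
    have hy := mem_zpowers y
    have := nr.pow_mem_cent pP (m.odd' nPM.le) (by omega) (nK hy) (kp.elt hy)
      ((m.odd' k.le).of_dvd_nat (orderOf_dvd_card' hy))
    by_cases y1 : y ^ (p - 1) = 1
    · exact dp (Nat.card_zpowers y ▸ orderOf_dvd_of_pow_eq_one y1)
    · have e1 := cP _ (pow_mem hy _) y1
      rw [inf_eq_left.mpr (le_cent1_iff.mpr this)] at e1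
      exact nP (e1 ▸ (cyc_of_prime pr).abel)
  have eZ' : 𝐙 P = Mσ M ⊓ 𝐂 K := le_antisymm (le_inf (inf_le_left.trans lP) (cent_symm
    ((center_abel P).cent_of_Om pP.inf_left (nK.trans (norm_center P))
      (kp.coprime' pP.inf_left) (cent_symm (eZ.le.trans inf_le_right)))))
    (eZ.ge.trans (Om_le _ _))
  obtain ⟨S, C, e1, c1, -, l3, -, c2, e2⟩ := sP.cprod_of_rank2V rk nP (w_of_sigma ps)
  have lC : C ≤ 𝐙 P := le_inf (e1 ▸ le_sup_right) (e1 ▸ le_cent_sup c1 c2.abel)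
  rw [(z0.ab.le (lC.trans (eZ'.le.trans eZ.ge))).Om_eq] at e2
  rw [sup_eq_left.mpr (e2.le.trans inf_le_left)] at e1
  subst e1
  refine Or.inr ⟨l3 ▸ pP.card_eq, t, ?_⟩
  rw [s.sdprod.relIndex_left]
  exact (card_dvd_of_extraspecial pP (m.odd' nPM.le) nP l3 (m.kappa_cyc k) nK kp fun y hy y1 =>
    (cP y hy y1).trans eZ'.symm).resolve_right dp

theorem TyP2.exists_pPair (h : TyP2 M) (k : Hall (𝛋 M) K M) : ∃ N, PPair M K N ∧ 𝐂 K ≤ N :=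
  let ⟨N, pp⟩ := h.toTyP.exists_pPair k
  ⟨N, pp, (pp.uniq _ K (elem_one_of_prime le_rfl (h.facts k).2.1)).le⟩

/-- BG 15.8 -/
theorem TyP2.tau2_signalizer (h : TyP2 M) (k : KapC M U K) (hR : Syl r R U) (m : Mx H)
    (l : 𝐍 R ≤ H) (t : (𝛕₂ H).Nonempty) (w : r ∈ 𝛡 G) : 𝛕₂ H = {♯K} ∧ 𝛕₂ M = ∅ := by
  have hq := (h.facts k.hK).2.1
  obtain ⟨N, pp, cK⟩ := h.exists_pPair k.hK
  have n := pp.tyP.mx
  obtain ⟨-, lU, -, -, lK, s⟩ := h.signalizer k n cK hR m l w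
  obtain ⟨p, hp⟩ := t
  obtain ⟨A, a⟩ := s.exists_elem_two hp
  have cA : A ≤ 𝐂 K := (m.abel_of_nil ((F_le _).trans s.le) (s.pi.le (F_le _)) (F_nil _)).cent
    (le_F (s.elem_two_normal a) a.abel.nil) lK
  have nu := m.not_uniq_of_sigma' (a.le.trans s.le) (s.pi.le a.le) (a.pw (s.w2 a))
  have lN : K ≤ Mσ N := pp.cent_eq.ge.trans inf_le_left
  have aN := a.mono inf_le_right
  have k1 := ne_bot_of_prime_card hq
  have ps : p ∈ 𝛔 N := by_contra fun c => k1 (eq_bot_mono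
    (n.tau2_cent (n.tau2_of_elem c aN) aN) (le_inf lN (cent_symm cA)))
  have lA := n.le_Ms' aN.le a.pi ps
  have xK : Elem (♯K) 1 K (H ⊓ N) := elem_one_of_prime (lK.trans (F_le _)) hq
  have eK : ♯(Mσ N ⊓ 𝐂 (Mσ M ⊓ 𝐂 K)) = ♯K := by rw [pp.cent_eq]
  generalize ♯K = q at *
  have qs : q ∈ 𝛔 N := (xK.of_le lN).mem_of_pi (O_pi _ N)
  obtain ⟨sQ, AF⟩ : Syl q (𝐎 {q} N) N ∧ A ≤ 𝐅 N := by
    by_cases nl : Nil (Mσ N)
    · exact ⟨n.syl_O_of_nil nl qs, lA.trans (le_F (O_normal _ N) nl)⟩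
    · obtain ⟨D, d⟩ := (n.sol' (O_le (𝛔 N) N)).exists_hall {q}ᶜ
      obtain ⟨-, n0, -, -, -, -, -, e, -⟩ := n.of_not_nil' pp.hall_kappa nl eK rfl d
      refine ⟨(n.not_nil_aux pp.hall_kappa nl eK).2.2.2.2, ?_⟩
      rw [← e, pp.cent_eq]
      refine le_inf lA (le_centMod.mpr ⟨aN.le.trans n0.norm, ?_⟩)
      rw [comm_eq_bot.mpr cA]
      exact bot_le
  have lQ := n.le_Ms' sQ.le sQ.pi qs
  have uQ := (pp.tyP.uniqIn_syl pp.hall_kappa hq (eK ▸ dvd_rfl) (sQ.of_le lQ (O_le _ N))).1.toUniq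
  obtain rfl : p = q := by_contra fun c => nu (uQ.of_cent ((F_nil N).cent_of_pi AF (O_le_F q N)
    a.pi (sQ.pi.of_single_ne (Ne.symm c))) (by rw [a.rank_eq]; omega))
  have nQ : ¬ Abel (𝐎 {p} N) := fun c => k1 (eq_bot_mono (der_eq_bot.mpr c) (le_trans
    (le_inf (sQ.le_O (lN.trans (O_le _ N)) xK.pi) (pp.cent_eq ▸ (pp.tyP.cyclics pp.hall_kappa).2.1))
    ((n.npc_der (not_beta_of_not_idl (m.tau2_not_idl hp))).inf_der_le
      (sQ.of_le (lQ.trans n.Ms_le_der) (der_le N)))))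
  obtain ⟨e, c0, -⟩ := s.nonabel_tau2 a sQ.pi nQ
  refine ⟨e, Set.eq_empty_of_forall_notMem fun t ht => ?_⟩
  obtain ⟨B, b⟩ : ∃ B, Elem t 2 B U := exists_elem (by
    rw [k.hU.pRank_eq (fun c => c.elim (tau2_sigma' ht) fun d => kappa_not_tau2 d ht),
      tau2_pRank ht])
  have cU : A ⊓ 𝐂 (Mσ H) ≤ 𝐂 U := inf_le_right.trans (cent_anti lU)
  have l0 := (cU.trans (cent_anti b.le)).trans (h.mx.cent_elem_two_le (b.mono k.hU.le))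
  have dp := a.dprod_two (xK.of_le (s.le_elem_two a xK)) (elem_one hq inf_le_left c0) fun c =>
    h.ne_bot k (eq_bot_mono (k.context.2.2.1.cent le_rfl k1) (le_inf le_rfl (cent_symm (c ▸ cU))))
  have := (a.of_le (dp.sup.ge.trans (sup_le k.hK.le l0))).le_pRank
  have := kappa_pRank (xK.self.mem_of_pi k.hK.pi)
  omega

theorem TyF.kapC (h : TyF M) (e : SigE M E) : KapC M E ⊥ :=
  ⟨h.mx, by rw [h.kappa, Set.union_empty]; exact e.hall,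
    Hall.bot (by rw [h.kappa, Set.compl_empty]; exact piNat_univ _), by simpa using e.hall⟩

theorem TyF.frob (h : TyF M) (t : 𝛕₂ M = ∅) (e : SigE M E) : Frob (Mσ M) E M :=
  ⟨e.sdprod, h.mx.Ms_ne_bot, e.ne_bot, fun x hx x1 => by_contra fun c =>
    x1 (((h.kapC e).tau2_of_cent hx x1 c).1.eq_one
      (by rw [t, Set.compl_empty]; exact piNat_univ _))⟩

theorem SigMx.nonTI (h : SigMx x M) (x1 : x ≠ 1) (n : Nil (Mσ M)) (hg : g ∈ 𝐂₁ x) :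
    𝐅 M ⊓ BG.cj g (𝐅 M) ≠ ⊥ := by
  have a := le_F (O_normal _ M) n h.mem
  refine ne_bot_of_mem ⟨a, ?_⟩ x1
  have := (conj_mem_cj (g := g)).mpr a
  rwa [mem_cent1.mp hg, mul_inv_cancel_right] at this

/-- BG 15.9 -/
theorem SigMx.nonF_signalizer (h : SigMx x M) (x1 : x ≠ 1) (c : ¬ 𝐂₁ x ≤ M) (n : ¬ TyF (sigN x)) :
    TyF M ∧ 𝛕₂ M = ∅ ∧ TyP2 (sigN x) ∧ ∀ E, SigE M E → Cyc E ∧ Frob (Mσ M) E M := by
  obtain ⟨-, -, t2, ty, f⟩ := (h.many c).facts x1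
  obtain ⟨sub, -, s⟩ := f M h
  have ty := ty.resolve_left n
  generalize sigN x = N at *
  obtain ⟨r, hr, d⟩ := Nat.exists_prime_and_dvd (mt orderOf_eq_one_iff.mp x1)
  have rt := t2 r hr d
  obtain ⟨R, sR⟩ := exists_syl r (M ⊓ N)
  have sN := sR.syl_trans s.hall (tau2_sigma' rt)
  obtain ⟨U, K, u, l⟩ := ty.mx.exists_kapC_ge sN.le
    (sN.pi.of_single' fun c => c.elim (tau2_sigma' rt) fun d => kappa_not_tau2 d rt)
  have nR := h.mx.norm_le_of_not_cyc (sub rt) sR.pi (sR.le.trans inf_le_left) fun c => by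
    have := c.pRank_le r
    have := sN.syl_pRank
    have := tau2_pRank rt
    omega
  have sU := sN.of_le l u.hU.le
  obtain ⟨L, pp, cK⟩ := ty.exists_pPair u.hK
  have tf := (ty.signalizer u pp.tyP.mx cK sU h.mx nR (ty.mx.w_of_tau2 rt)).1
  have t0 : 𝛕₂ M = ∅ := by_contra fun e => by
    have := (ty.tau2_signalizer u sU h.mx nR (Set.nonempty_iff_ne_empty.mpr e) (ty.mx.w_of_tau2 rt)).2
    rw [this] at rt
    exact rt
  refine ⟨tf, t0, ty, fun E e => ⟨?_, tf.frob t0 e⟩⟩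
  obtain ⟨E₁, E₂, E₃, k⟩ := e.exists_sigC
  obtain ⟨g, hg, gM⟩ := SetLike.not_le_iff_exists.mp c
  have sd := (k.nonTI gM (h.nonTI x1 tf.nil_Ms hg)).2
  have : E₂ = ⊥ := k.h2.pi.eq_bot (by rw [t0, Set.compl_empty]; exact piNat_univ _)
  rw [← sd.sup, this, bot_sup_eq]
  exact k.cyc1

end CF.BG.Vp
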