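import Cfsg.Agent.Vp.S16a
/-
BG section 16, second part: the five types.
-/
set_option autoImplicit false
set_option linter.unusedSectionVars false
set_option linter.unusedVariables false

namespace CF.BG.Vp
open Subgroup
open scoped commutatorElement Pointwise

section general
variable {G : Type*} [Group G] [Finite G] [MSO G] {A B H K M U U₀ : Subgroup G} {π : Set ℕ} {x : G} {p : ℕ}

end general

variable {G : Type*} [Group G] [Finite G] [MSO G]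
variable {A A₀ A₁ B C D E E₁ E₂ E₃ H K L M N P Q R S T U V W W₁ W₂ X Y Z : Subgroup G} {p q r : ℕ}
variable {π : Set ℕ} {a x y g : G}

theorem TyF.Fh_eq (h : TyF M) : 𝐅ₕ M = Mσ M := h.mx.Fh_eq_iff.mpr h.nil_Ms

theorem TyP2.Fh_eq (h : TyP2 M) : 𝐅ₕ M = Mσ M := h.mx.Fh_eq_iff.mpr h.nil_Ms

theorem Mx.Fh_le_der (m : Mx M) : 𝐅ₕ M ≤ ⁅M, M⁆ := m.Fh_le_Ms.trans m.Ms_le_der

theorem KapC.isOfTypeF (h : KapC M U K) (u1 : U ≠ ⊥) (e : 𝐅ₕ (Mσ M ⊔ U) = Mσ M) :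
    Cfsg.IsOfTypeF ↥(Mσ M ⊔ U) := by
  obtain ⟨A, a, b, c⟩ := h.exists_abel
  obtain ⟨U₀, l, k, f⟩ := h.exists_frob u1
  exact isOfTypeF_of (h.mx.sol' h.normal_MsU.le) (h.mx.odd' h.normal_MsU.le) (e.symm ▸ h.mx.Ms_ne_bot) u1
    (e.symm ▸ h.sdprod.1) a b (e.symm ▸ c) l k (e.symm ▸ f.reg)

theorem TyF.typeI (h : TyF M) : TypeI M := by
  obtain ⟨E, e⟩ := h.mx.exists_sigE'
  have s := e.sdprod.sup
  refine ⟨s ▸ (h.kapC e).isOfTypeF e.ne_bot (by rw [s, h.Fh_eq]), ?_⟩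
  by_cases ti : Cfsg.IsTISubset (𝐅ₕ M : Set G)
  · exact Or.inl ti
  obtain ⟨g, hg, c⟩ := h.mx.exists_nonTI ti
  rcases h.mx.nonTI_struct hg c rfl with ⟨-, a, b⟩ | ⟨a, b, -, d, f | f⟩
  · exact Or.inr (Or.inl ⟨a.comm, rankLE_iff.mpr b.le, not_rankLE_iff.mpr (by omega)⟩)
  · exact Or.inr (Or.inr ⟨fun q hq k => exponent_quot_dvd (f q hq k), _, a,
      h.Fh_eq ▸ (h.mx.dvd_Ms_iff a).mpr b, cyc_pPrimeCore a d⟩)
  · exact (h.not_tyP f.2.1.toTyP).elim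

theorem Mx.tyF_of_isOfTypeF (m : Mx M) (h : Cfsg.IsOfTypeF M) : TyF M := by
  refine m.tyF_of_not fun t => ?_
  obtain ⟨U, U₀, sd, l, e, r⟩ := exists_of_isOfTypeF h
  obtain ⟨p, hp⟩ := t.kappa
  obtain ⟨K, k⟩ := m.sol.exists_hall (𝛋 M)
  have pp := prime_of_kappa hp
  have d : p ∣ ♯U := ((pp.dvd_mul).mp (sd.card ▸ dvd_of_kappa hp)).resolve_left
    (((Ms_pi_kappa' M).le m.Fh_le_Ms).not_dvd' pp hp)
  obtain ⟨x, hx, o⟩ := exists_mem_orderOf_eq pp d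
  have d' : p ∣ ♯U₀ := by
    refine Dvd.dvd.trans ?_ Group.exponent_dvd_nat_card
    rw [e, ← o, ← orderOf_mk _ hx]
    exact Monoid.order_dvd_exponent _
  obtain ⟨u, hu, o⟩ := exists_mem_orderOf_eq pp d'
  have u1 : u ≠ 1 := by rintro rfl; exact pp.one_lt.ne (by simpa using o)
  obtain ⟨g, hg, b⟩ := k.conj_mem m.sol (sd.right_le (l hu))
    (show PiNat (𝛋 M) (orderOf u) from o ▸ (piNat_prime pp).mpr hp)
  have := inf_cent1_conj (inv_mem ((Fh_normal M).norm hg)) (ne_bot_mono (t.Kstar_ne_bot k)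
    (le_inf (t.cyclics k).2.2.1 (inf_le_right.trans (cent_le_cent1 b))))
  exact this (by rw [show g⁻¹ * (g * u * g⁻¹) * g⁻¹⁻¹ = u by group]; exact r u hu u1)

theorem Mx.typeI_iff (m : Mx M) : TypeI M ↔ TyF M := ⟨fun h => m.tyF_of_isOfTypeF h.1, TyF.typeI⟩

theorem Mx.of_typePWith (m : Mx M) (h : Cfsg.IsTypePWith M W₁ U W₂) :
    TyP M ∧ Hall (𝛋 M) W₁ M ∧ W₂ = Mσ M ⊓ 𝐂 W₁ ∧ SDProd (𝐅ₕ M) U ⁅M, M⁆ := by
  have sd := SDProd.of_isComplIn h.W₁_compl (h.W₁_compl.2.1.trans (der_normal M).norm)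
  have l2 : W₂ ≤ Mσ M := h.W₂_le.trans (inf_le_left.trans m.Fh_le_Ms)
  have pk : PiGrp (𝛋 M) W₁ := fun p hp d => by
    obtain ⟨x, hx, o⟩ := exists_mem_orderOf_eq hp d
    have x1 : x ≠ 1 := by rintro rfl; exact hp.one_lt.ne (by simpa using o)
    have e := (hall_of_coprime sd.right_le h.W₁_hall).pRank_eq (mem_piOf.mpr ⟨hp, d⟩)
    have r := Cyc.pRank_le h.W₁_cyclic p
    have r' := pRank_pos.mpr ⟨hp, d⟩
    refine mem_kappa.mpr ⟨m.not_sigma_of_dvd (sd.relIndex_left ▸ d), by omega, _,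
      elem_zpowers hp (sd.right_le hx) o, ne_bot_mono h.selfNormalizing.2.1 (le_inf l2 ?_)⟩
    rw [cent_zpowers, ← h.W₂_centralizer x hx x1]
    exact inf_le_right
  obtain ⟨p, hp, d⟩ := exists_prime_dvd_card h.W₁_ne
  have t : TyP M := ⟨m, p, pk p hp d⟩
  have k := sd.hall_right t.hall_der.pi pk
  obtain ⟨x, hx, x1⟩ := exists_mem_ne_one h.W₁_ne
  refine ⟨t, k, le_antisymm ?_ ?_, SDProd.of_isComplIn h.U_compl
    (h.U_compl.2.1.trans ((der_le M).trans (Fh_normal M).norm))⟩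
  · rw [← m.kappa_primeAct k x hx x1]
    exact le_inf l2 ((h.W₂_centralizer x hx x1).ge.trans inf_le_right)
  · rw [← h.W₂_centralizer x hx x1]
    exact inf_le_inf m.Ms_le_der (cent_le_cent1 hx)

theorem TyP.typePWith (h : TyP M) (k : Hall (𝛋 M) K M) (v : SDProd (𝐅ₕ M) V ⁅M, M⁆) (n : K ≤ 𝐍 V) :
    Cfsg.IsTypePWith M K V (Mσ M ⊓ 𝐂 K) := by
  obtain ⟨N, pp⟩ := h.exists_pPair k
  obtain ⟨a, b, -⟩ := h.mx.F_struct
  obtain ⟨-, c, d, e⟩ := h.cyclics k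
  refine ⟨h.ne_bot k, h.mx.kappa_cyc k, k.coprime, pp.der.isComplIn,
    Nil.of_qt (h.mx.nil_qt_Fh.mono (qt_mono _ v.right_le)) v.norm v.inf, n, v.isComplIn, e,
    b.symm ▸ a, b, h.F_le_der, le_inf d c, fun x hx x1 => ?_, pp.selfNorm h k⟩
  rw [← inf_eq_left.mpr (der_le M), inf_assoc, pp.cent_K x hx x1,
    inf_sup_right (inf_le_left.trans h.mx.Ms_le_der) (Or.inr (norm_of_cent inf_le_right)),
    pp.der.inf, bot_sup_eq]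

theorem TyP.exists_compl (h : TyP M) (k : Hall (𝛋 M) K M) :
    ∃ V, SDProd (𝐅ₕ M) V ⁅M, M⁆ ∧ K ≤ 𝐍 V := by
  obtain ⟨V, v, n⟩ := exists_hall_inv (k.le.trans (der_normal M).norm)
    (k.pi.coprime h.hall_der.pi) (h.mx.sol' (der_le M)) (piOf (♯(𝐅ₕ M)))ᶜ
  exact ⟨V, ((Fh_hall M).of_le h.mx.Fh_le_der (der_le M)).sdprod
    ((der_le M).trans (Fh_normal M).norm) v, n⟩

theorem TyP1.norm_le (h : TyP1 M) (v : SDProd (𝐅ₕ M) V ⁅M, M⁆) (v1 : V ≠ ⊥) : NU M V :=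
  ⟨h.mx.norm_le_of_nil_hall
    (h.Ms_eq ▸ v.hall_compl_right ((Fh_hall M).of_le h.mx.Fh_le_der (der_le M)))
    (Nil.of_qt (h.mx.nil_qt_Fh.mono (qt_mono _ v.right_le)) v.norm v.inf) v1,
    (pw_Ms M).le (h.Ms_eq ▸ v.right_le)⟩

theorem TyP2.hall_of_compl (h : TyP2 M) (v : SDProd (𝐅ₕ M) V ⁅M, M⁆) :
    Hall (𝛔 M ∪ 𝛋 M)ᶜ V M := by
  obtain ⟨U, K, u⟩ := h.mx.exists_kapC'
  refine u.hU.of_card (v.right_le.trans (der_le M)) ?_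
  rw [← v.relIndex_left, h.Fh_eq, ← u.der_eq (h.toTyP.ne_bot u.hK), u.sdprod.1.relIndex_left]

theorem TyF.hall_of_compl (h : TyF M) (v : SDProd (𝐅ₕ M) V M) : Hall (𝛔 M ∪ 𝛋 M)ᶜ V M := by
  rw [h.kappa, Set.union_empty]
  exact v.hall_compl_right (h.Fh_eq ▸ h.mx.hall_Ms)

theorem TyP2.typeII (h : TyP2 M) : IsOfTypeII M := by
  obtain ⟨U, K, u⟩ := h.mx.exists_kapC'
  have k1 := h.toTyP.ne_bot u.hK
  have e := u.der_eq k1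
  have f : 𝐅ₕ ⁅M, M⁆ = 𝐅ₕ M := Fh_eq_of_hall h.toTyP.hall_der (der_normal M).norm h.mx.Fh_le_der
  exact ⟨K, U, _, h.toTyP.typePWith u.hK (by rw [h.Fh_eq, ← e]; exact u.sdprod.1) u.context.1.norm,
    h.ne_bot u, (h.facts u.hK).2.1, h.mx.isTI_F (Or.inl h), (u.context.2.2.2 k1).comm,
    h.not_norm_le u, e ▸ u.isOfTypeF (h.ne_bot u) (by rw [e, f, h.Fh_eq]), f⟩

theorem Mx.typeII_iff (m : Mx M) : IsOfTypeII M ↔ TyP2 M := by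
  refine ⟨?_, TyP2.typeII⟩
  rintro ⟨W₁, U, W₂, w, u1, -, -, -, n, -⟩
  obtain ⟨t, -, -, v⟩ := m.of_typePWith w
  exact t.one_or_two.resolve_left fun c => n (c.norm_le v u1)

theorem Mx.typeIII_IV_iff (m : Mx M) :
    IsOfTypeIII M ∨ IsOfTypeIV M ↔ TyP1 M ∧ 𝐅ₕ M ≠ Mσ M := by
  constructor
  · intro h
    obtain ⟨W₁, U, W₂, w, u1, n⟩ : ∃ W₁ U W₂, Cfsg.IsTypePWith M W₁ U W₂ ∧ U ≠ ⊥ ∧ NU M U := by
      rcases h with ⟨W₁, U, W₂, w, u1, -, -, -, n⟩ | ⟨W₁, U, W₂, w, u1, -, -, -, n⟩ <;>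
        exact ⟨W₁, U, W₂, w, u1, n⟩
    obtain ⟨t, -, -, v⟩ := m.of_typePWith w
    have t1 : TyP1 M := t.one_or_two.resolve_right fun c => by
      obtain ⟨K, k⟩ := m.exists_kapC_of_hall (c.hall_of_compl v)
      exact c.not_norm_le k n
    refine ⟨t1, fun e => u1 (eq_bot_mono v.inf (le_inf ?_ le_rfl))⟩
    rw [e, t1.Ms_eq]
    exact v.right_le
  · rintro ⟨t, e⟩
    obtain ⟨K, k⟩ := m.sol.exists_hall (𝛋 M)
    obtain ⟨V, v, n⟩ := t.toTyP.exists_compl k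
    have v1 : V ≠ ⊥ := by
      rintro rfl
      exact e (by rw [t.Ms_eq, ← v.sup, sup_bot_eq])
    have w := t.toTyP.typePWith k v n
    have pr := (m.of_not_nil k (fun c => e (m.Fh_eq_iff.mpr c)) rfl).2.2.2.1
    by_cases c : IsMulCommutative V
    · exact Or.inl ⟨K, V, _, w, v1, pr, m.isTI_F (Or.inr e), c, t.norm_le v v1⟩
    · exact Or.inr ⟨K, V, _, w, v1, pr, m.isTI_F (Or.inr e), c, t.norm_le v v1⟩

theorem Mx.typeV_iff (m : Mx M) : Cfsg.IsOfTypeV M ↔ TyP1 M ∧ 𝐅ₕ M = Mσ M := by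
  constructor
  · rintro ⟨W₁, U, W₂, w, rfl, -⟩
    obtain ⟨t, k, -, v⟩ := m.of_typePWith w
    have e := v.sup
    rw [sup_bot_eq] at e
    have f : 𝐅ₕ M = Mσ M := le_antisymm m.Fh_le_Ms (e ▸ m.Ms_le_der)
    exact ⟨⟨t, (t.der_sdprod k).piGrp (by rw [← e, f]; exact (O_pi _ M).mono Set.subset_union_left)
      (k.pi.mono Set.subset_union_right)⟩, f⟩
  · rintro ⟨t, e⟩
    obtain ⟨K, k⟩ := m.sol.exists_hall (𝛋 M)
    have f : 𝐅ₕ M = ⁅M, M⁆ := e.trans t.Ms_eq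
    have sd : SDProd (𝐅ₕ M) K M := f ▸ t.toTyP.der_sdprod k
    refine ⟨K, ⊥, _, t.toTyP.typePWith k ⟨bot_le, by rw [sup_bot_eq, f], inf_bot_eq _⟩
      (by rw [norm_bot]; exact le_top), rfl, ?_⟩
    by_cases ti : Cfsg.IsTISubset (𝐅ₕ M : Set G)
    · exact Or.inl ti
    obtain ⟨g, hg, c⟩ := m.exists_nonTI ti
    rcases m.nonTI_struct hg c rfl with ⟨a, -⟩ | ⟨a, b, -, d, i | i⟩
    · exact (a.not_tyP t.toTyP).elim
    · have j := e ▸ (m.dvd_Ms_iff a).mpr b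
      refine Or.inr (Or.inl ⟨_, a, j, ?_, cyc_pPrimeCore a d⟩)
      obtain ⟨x, rfl⟩ := (m.kappa_cyc k).exists_gen
      rw [Nat.card_zpowers, orderOf_dvd_iff_pow_eq_one]
      exact eq_one_of_mem_bot sd.inf ⟨i _ a j x (k.le (mem_zpowers x)),
        _root_.pow_mem (mem_zpowers x) _⟩
    · refine Or.inr (Or.inr ⟨_, a, e ▸ (m.dvd_Ms_iff a).mpr b, ?_, sd.relIndex_left ▸ i.2.2,
        cyc_pPrimeCore a d⟩)
      rw [← i.1, ← map_pCore a, card_map (subtype_injective _)]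

theorem Mx.typeCore_eq (m : Mx M) : typeCore M = Mσ M := by
  unfold typeCore
  split_ifs with c
  · exact (m.typeIII_IV_iff.mp c).1.Ms_eq.symm
  · by_contra e
    exact c (m.typeIII_IV_iff.mpr ⟨m.tyP1_of_not_nil fun n => e (m.Fh_eq_iff.mpr n), e⟩)

theorem Mx.mem_typeA1 (m : Mx M) : a ∈ typeA1 M ↔ a ∈ Mσ M ∧ a ≠ 1 := by
  rw [typeA1, m.typeCore_eq]; rfl

theorem Mx.mem_typeA (m : Mx M) :
    a ∈ typeA M ↔ a ∈ M ∧ a ≠ 1 ∧ PiElt (𝛋 M)ᶜ a ∧ Mσ M ⊓ 𝐂₁ a ≠ ⊥ := by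
  unfold typeA
  split_ifs with c
  · have t := m.typeI_iff.mp c
    rw [inf_cent1_ne_bot, t.Fh_eq, t.kappa, Set.compl_empty]
    exact ⟨fun h => ⟨h.1, h.2.1, piNat_univ _, h.2.2⟩, fun h => ⟨h.1, h.2.1, h.2.2.2⟩⟩
  · have t := (m.tyP_of_not fun f => c f.typeI).hall_der
    rw [inf_cent1_ne_bot, m.typeCore_eq]
    exact ⟨fun h => ⟨der_le M h.1, h.2.1, t.pi.elt h.1, h.2.2⟩,
      fun h => ⟨t.mem_normal (der_normal M).norm h.1 h.2.2.1, h.2.1, h.2.2.2⟩⟩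

theorem Mx.typeA_diff (m : Mx M) : typeA M \ typeA1 M = InB M := by
  ext a
  rw [Set.mem_sdiff, m.mem_typeA, m.mem_typeA1, m.mem_Ms_iff]
  exact ⟨fun h => ⟨h.1.1, h.1.2.2.1, fun c => h.2 ⟨⟨h.1.1, c⟩, h.1.2.1⟩, h.1.2.2.2⟩,
    fun h => ⟨⟨h.1, by rintro rfl; exact h.2.2.1 (piElt_one _), h.2.1, h.2.2.2⟩,
      fun c => h.2.2.1 c.1.2⟩⟩

theorem Mx.typeA0_eq (m : Mx M) : typeA0 M = typeA M ∪ InZ M := by
  unfold typeA0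
  congr 1
  ext a
  constructor
  · rintro ⟨-, W₁, U, W₂, w, b, hb, z, z1, z2, z3, rfl⟩
    obtain ⟨-, k, rfl, -⟩ := m.of_typePWith w
    exact inZ_conj hb (Zhat_sub_inZ k (mem_Zhat.mpr ⟨z1, z2, z3⟩)).1
  · intro h
    have t := m.tyP_of_inZ h
    obtain ⟨K, k⟩ := m.sol.exists_hall (𝛋 M)
    obtain ⟨V, v, n⟩ := t.exists_compl k
    rw [← m.clSupp_Zhat k] at h
    obtain ⟨b, hb, z, hz, e⟩ := h
    obtain ⟨z1, z2, z3⟩ := mem_Zhat.mp hz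
    exact ⟨fun c => t.not_tyF (m.typeI_iff.mp c), K, V, _, t.typePWith k v n, b, hb, z, z1, z2, z3, e⟩

theorem Mx.mem_typeA0 (m : Mx M) : a ∈ typeA0 M ↔ a ≠ 1 ∧ (a ∈ Mσ M ∨ a ∈ InB M ∨ a ∈ InZ M) := by
  rw [m.typeA0_eq, Set.mem_union, m.mem_typeA, m.mem_Ms_iff]
  constructor
  · rintro (h | h)
    · by_cases c : PiElt (𝛔 M) a
      · exact ⟨h.2.1, Or.inl ⟨h.1, c⟩⟩
      · exact ⟨h.2.1, Or.inr (Or.inl ⟨h.1, h.2.2.1, c, h.2.2.2⟩)⟩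
    · exact ⟨by rintro rfl; exact h.2.1 (piElt_one _), Or.inr (Or.inr h)⟩
  · rintro ⟨a1, h | h | h⟩
    · have := m.mem_Ms_iff.mpr h
      exact Or.inl ⟨h.1, a1, (Ms_pi_kappa' M).elt this, ne_bot_of_mem ⟨this, self_mem_cent1 a⟩ a1⟩
    · exact Or.inl ⟨h.1, a1, h.2.1, h.2.2.2⟩
    · exact Or.inr h

theorem Mx.hat_of_typeA0 (m : Mx M) (h : a ∈ typeA0 M) : a ∈ M ∧ Mσ M ⊓ 𝐂₁ a ≠ ⊥ := by
  obtain ⟨a1, h | h | h⟩ := m.mem_typeA0.mp h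
  · exact ⟨O_le _ M h, ne_bot_of_mem ⟨h, self_mem_cent1 a⟩ a1⟩
  · exact ⟨h.1, h.2.2.2⟩
  · exact ⟨h.1, m.hat_of_inZ h⟩

theorem Mx.typeA0_fusion (m : Mx M) (h : x ∈ typeA0 M) (k : g * x * g⁻¹ ∈ typeA0 M) :
    ∃ b ∈ M, b * x * b⁻¹ = g * x * g⁻¹ := by
  have l := (m.hat_of_typeA0 k).1
  obtain ⟨x1, h⟩ := m.mem_typeA0.mp h
  obtain ⟨-, k⟩ := m.mem_typeA0.mp k
  rcases h with h | h | h
  · exact m.Ms_fusion h (m.mem_Ms_iff.mpr ⟨l, ((O_pi _ M).elt h).conj g⟩)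
  · refine ⟨g, m.tiIn_inB x h x1 g ?_, rfl⟩
    rcases k with k | k | k
    · exact (h.2.2.1 (piElt_conj_iff.mp ((O_pi _ M).elt k))).elim
    · exact k
    · exact (k.2.1 (h.2.1.conj g)).elim
  · refine ⟨g, m.tiIn_inZ x h x1 g ?_, rfl⟩
    rcases k with k | k | k
    · exact (h.2.1 (piElt_conj_iff.mp ((Ms_pi_kappa' M).elt k))).elim
    · exact (h.2.1 (piElt_conj_iff.mp k.2.1)).elim
    · exact k

theorem Mx.sigMx_of_typeA0 (m : Mx M) (h : x ∈ typeA0 M) (c : ¬ 𝐂₁ x ≤ M) : SigMx x M ∧ x ≠ 1 := by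
  obtain ⟨x1, h | h | h⟩ := m.mem_typeA0.mp h
  · exact ⟨⟨m, h⟩, x1⟩
  · exact (c (m.tiIn_inB.cent1_le h x1)).elim
  · exact (c (m.tiIn_inZ.cent1_le h x1)).elim

theorem SigMany.not_mem_N (h : SigMany x) (x1 : x ≠ 1) : x ∉ Mσ (sigN x) := fun c =>
  x1 (((O_pi _ _).elt c).eq_one ((h.facts x1).2.2.1.mono (tau2_sub _)))

theorem SigMx.coprime_N (h : SigMx x M) (x1 : x ≠ 1) (c : ¬ 𝐂₁ x ≤ M) (hy : y ∈ typeA0 M) :
    (♯(Mσ (sigN x))).Coprime (♯(M ⊓ 𝐂₁ y)) := by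
  have s := h.many c
  refine (O_pi _ _).coprime ?_
  by_cases k : PiGrp (𝛔 (sigN x))ᶜ M
  · exact k.inf_left
  obtain ⟨-, -, E, f⟩ := s.frob x1 h k
  obtain ⟨a, b⟩ := h.mx.hat_of_typeA0 hy
  obtain ⟨z, hz, z1⟩ := exists_mem_ne_one b
  refine ((O_pi _ M).mono fun p hp => h.mx.sigma_partition (s.facts x1).1.mx ?_ hp).le
    (f.cent1_le (f.cent1_le hz.1 z1 ⟨a, mem_cent1_comm.mp hz.2⟩) (h.mx.mem_typeA0.mp hy).1)
  rintro ⟨g, e⟩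
  refine s.not_mem_N x1 ((s.facts x1).1.mx.mem_Ms_iff.mpr ⟨(s.facts x1).1.le (self_mem_cent1 x), ?_⟩)
  rw [e, sigma_cj]
  exact (O_pi _ M).elt h.mem

end CF.BG.Vp
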