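import Cfsg.Agent.Vp.B13
/-
BG section 7: the transitivity theorem.
-/
set_option autoImplicit false
set_option linter.unusedSectionVars false

namespace CF.BG.Vp
open Subgroup
open scoped commutatorElement Pointwise

variable {G : Type*} [Group G] [Finite G] [MSO G]
variable {A A₀ A₁ B C D E E₁ E₂ E₃ H K L M N P Q R S T U V W X Y Z : Subgroup G} {p q r : ℕ}
variable {π : Set ℕ} {x y g : G}

/-- `O_{π'}(C(A))` is a Hall subgroup of `C(A)` -/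
theorem NC.le_K (h : NC A) (hY : Y ≤ 𝐂 A) (y : PiGrp (piOf (♯A))ᶜ Y) :
    Y ≤ 𝐎 (piOf (♯A))ᶜ (𝐂 A) :=
  (le_inf hY (h.le_O _ Y (le_norm_self A) (norm_proper h.ne_bot h.ne_top)
    (hY.trans (cent_le_norm A)) y (norm_of_cent' hY))).trans (inf_O_le (cent_le_norm A) _)

theorem NC.inf_cent (h : NC A) (a : A ≤ B) :
    𝐎 (piOf (♯A))ᶜ (𝐂 A) ⊓ 𝐂 B = 𝐎 (piOf (♯A))ᶜ (𝐂 B) :=
  le_antisymm (O_inf_le (cent_anti a) _)
    (le_inf (h.le_K ((O_le _ _).trans (cent_anti a)) (O_pi _ _)) (O_le _ _))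

theorem NC.meet_step (h : NC A) (hq : q ∉ piOf (♯A)) {Q₁ Q₂ : Subgroup G} (a : A ≤ H) (t : Pr H)
    (q1 : MaxInv A q Q₁) (q2 : MaxInv A q Q₂) : ∃ k ∈ 𝐎 (piOf (♯A))ᶜ (𝐂 A), ∃ Q₃, MaxInv A q Q₃ ∧
      cj k (Q₁ ⊓ H) ≤ Q₃ ∧ Q₂ ⊓ H ≤ Q₃ := by
  have n : A ≤ 𝐍 (𝐎 (piOf (♯A))ᶜ H) := a.trans (O_normal _ H).norm
  have c := (piGrp_piOf A).coprime (O_pi (piOf (♯A))ᶜ H)
  have s : Sol A ∨ Sol (𝐎 (piOf (♯A))ᶜ H) := Or.inl (mSol h.ne_top.pr)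
  have key : ∀ Q, MaxInv A q Q → ∃ R, Syl q R (𝐎 (piOf (♯A))ᶜ H) ∧ A ≤ 𝐍 R ∧ Q ⊓ H ≤ R :=
    fun Q hQ => exists_syl_inv_le n c s (h.le_O H _ a t inf_le_right (hQ.pi.inf_left.of_single' hq)
      (norm_inf hQ.norm (norm_of_le a))) hQ.pi.inf_left (norm_inf hQ.norm (norm_of_le a))
  obtain ⟨R₁, s1, n1, l1⟩ := key Q₁ q1
  obtain ⟨R₂, s2, n2, l2⟩ := key Q₂ q2
  obtain ⟨k, hk, rfl⟩ := s1.syl_conj_inv s2 n c s n1 n2
  obtain ⟨Q₃, q3, l3⟩ := exists_maxInv s2.pi n2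
  exact ⟨k, h.le_K inf_le_right (O_pi _ H).inf_left hk, Q₃, q3, (cj_mono k l1).trans l3,
    l2.trans l3⟩

theorem NC.meet_aux (h : NC A) (hq : q ∉ piOf (♯A)) (w : q ∈ 𝛡 G) (n : ℕ) : ∀ Q₁ Q₂ : Subgroup G,
    ♯(⊤ : Subgroup G) < ♯(Q₁ ⊓ Q₂) + n → MaxInv A q Q₁ → MaxInv A q Q₂ → Q₁ ⊓ Q₂ ≠ ⊥ →
    ∃ k ∈ 𝐎 (piOf (♯A))ᶜ (𝐂 A), Q₂ = cj k Q₁ := by
  induction n with
  | zero => exact fun Q₁ Q₂ l => absurd (card_le (le_top : Q₁ ⊓ Q₂ ≤ ⊤)) (by omega)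
  | succ n ih =>
    intro Q₁ Q₂ l q1 q2 i
    by_cases e : Q₁ = Q₂
    · exact ⟨1, one_mem _, by rw [cj_one, e]⟩
    obtain ⟨k, hk, Q₃, q3, l1, l2⟩ := h.meet_step hq (norm_inf q1.norm q2.norm)
      (q1.pi.inf_left.norm_properV i w) q1 q2
    have a1 := card_lt (q1.pi.nil.lt_inf_norm (q1.lt_of_ne q2 e))
    have a2 := q2.lt_of_ne q1 (Ne.symm e)
    rw [inf_comm] at a2
    have a2 := card_lt (q2.pi.nil.lt_inf_norm a2)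
    have b1 := card_le (le_inf (cj_mono k inf_le_left) l1)
    have b2 := card_le (le_inf l2 inf_le_left)
    rw [card_cj] at b1
    have i' := one_lt_card.mpr i
    obtain ⟨k1, hk1, e1⟩ := ih (cj k Q₁) Q₃ (by omega)
      (q1.cj_of_norm (cent_le_norm A (O_le _ _ hk))) q3 (one_lt_card.mp (by omega))
    obtain ⟨k2, hk2, e2⟩ := ih Q₃ Q₂ (by omega) q3 q2 (one_lt_card.mp (by omega))
    exact ⟨k2 * (k1 * k), mul_mem hk2 (mul_mem hk1 hk), by rw [e2, e1, cj_cj, cj_cj, mul_assoc]⟩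

/-- BG 7.1 -/
theorem NC.meet_trans (h : NC A) (hq : q ∉ piOf (♯A)) (w : q ∈ 𝛡 G) {Q₁ Q₂ : Subgroup G} (a : A ≤ H) (t : Pr H)
    (q1 : MaxInv A q Q₁) (q2 : MaxInv A q Q₂) (i1 : Q₁ ⊓ H ≠ ⊥) (i2 : Q₂ ⊓ H ≠ ⊥) :
    ∃ k ∈ 𝐎 (piOf (♯A))ᶜ (𝐂 A), Q₂ = cj k Q₁ := by
  obtain ⟨k, hk, Q₃, q3, l1, l2⟩ := h.meet_step hq a t q1 q2
  obtain ⟨k1, hk1, e1⟩ := h.meet_aux hq w _ (cj k Q₁) Q₃ (Nat.lt_add_left _ (Nat.lt_succ_self _))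
    (q1.cj_of_norm (cent_le_norm A (O_le _ _ hk))) q3
    (ne_bot_mono (by simpa using i1) (le_inf (cj_mono k inf_le_left) l1))
  obtain ⟨k2, hk2, e2⟩ := h.meet_aux hq w _ Q₃ Q₂ (Nat.lt_add_left _ (Nat.lt_succ_self _)) q3 q2
    (ne_bot_mono i2 (le_inf l2 inf_le_left))
  exact ⟨k2 * (k1 * k), mul_mem hk2 (mul_mem hk1 hk), by rw [e2, e1, cj_cj, cj_cj, mul_assoc]⟩

/-- BG 7.2 -/
theorem NC.rank3_trans (h : NC A) (hq : q ∉ piOf (♯A)) (r : 2 < rank (𝐙 A)) :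
    TransOn (𝐎 (piOf (♯A))ᶜ (𝐂 A)) A q := by
  intro Q₁ Q₂ q1 q2
  by_cases e : Q₁ = ⊥ ∨ Q₂ = ⊥
  · exact ⟨1, one_mem _, by rw [cj_one, q1.eq_of_eq_bot q2 e]⟩
  push Not at e
  obtain ⟨p, B, -, b⟩ := exists_elem_of_le_rank r
  have b' := b.mono inf_le_left
  obtain ⟨C, c, c1⟩ := b.exists_cent_ne_bot (b'.le.trans q1.norm) (q1.pi' hq b') e.1
  obtain ⟨z, hz, z1, c2⟩ := c.abel.exists_cent1_ne_bot c.not_cyc ((c.le.trans b'.le).trans q2.norm)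
    (c.pi.coprime (q2.pi' hq b')) e.2
  have w : q ∈ 𝛡 G := w_of_norm' c (b'.w_of_le h.ne_top) q1.pi e.1 ((c.le.trans b'.le).trans q1.norm)
  exact h.meet_trans hq w (le_cent1_iff.mpr (b.le (c.le hz)).2)
    (cent1_proper z1 (h.ne_top.elt (b'.le (c.le hz)))) q1 q2
    (ne_bot_mono c1 (inf_le_inf_left _ (cent_le_cent1 hz))) c2

/-- BG 7.3 -/
theorem NC.rank2_trans (h : NC A) (hq : q ∉ piOf (♯A)) (d : q ∣ ♯(𝐂 A)) (r : 1 < rank (𝐙 A)) :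
    TransOn (𝐎 (piOf (♯A))ᶜ (𝐂 A)) A q := by
  intro Q₁ Q₂ q1 q2
  by_cases e : Q₁ = ⊥ ∨ Q₂ = ⊥
  · exact ⟨1, one_mem _, by rw [cj_one, q1.eq_of_eq_bot q2 e]⟩
  push Not at e
  obtain ⟨p, B, -, b⟩ := exists_elem_of_le_rank r
  have b' := b.mono inf_le_left
  obtain ⟨X, x⟩ := exists_elem_one (q1.pi.prime e.1) d
  obtain ⟨R, hR, l⟩ := exists_maxInv x.pi (norm_of_cent' x.le)
  have key : ∀ Q, MaxInv A q Q → Q ≠ ⊥ → ∃ k ∈ 𝐎 (piOf (♯A))ᶜ (𝐂 A), Q = cj k R := by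
    intro Q hQ Q1
    obtain ⟨z, hz, z1, c⟩ := b.abel.exists_cent1_ne_bot b.not_cyc (b'.le.trans hQ.norm)
      (b.pi.coprime (hQ.pi' hq b')) Q1
    exact h.meet_trans hq ((h.ne_top.cent h.ne_bot).mem x.prime d) (le_cent1_iff.mpr (b.le hz).2)
      (cent1_proper z1 (h.ne_top.elt (b'.le hz))) hR hQ
      (ne_bot_mono x.ne_bot (le_inf l (x.le.trans (cent_le_cent1 (b'.le hz))))) c
  obtain ⟨k1, h1, rfl⟩ := key Q₁ q1 e.1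
  obtain ⟨k2, h2, rfl⟩ := key Q₂ q2 e.2
  exact ⟨k2 * k1⁻¹, mul_mem h2 (inv_mem h1), by rw [cj_cj, inv_mul_cancel_right]⟩

theorem NC.maxInv_of_ne_bot (h : NC A) (hq : q ∉ piOf (♯A)) (w : q ∈ 𝛡 G) (a : A ≤ B) (b : B ≤ P)
    (k : PiGrp (piOf (♯A)) P) (hQ : MaxInv P q Q) (Q1 : Q ≠ ⊥) : MaxInv B q Q := by
  refine ⟨hQ.pi, b.trans hQ.norm, fun R r n l => ?_⟩
  have t := hQ.pi.norm_properV Q1 w
  have aQ := (a.trans b).trans hQ.norm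
  have l1 : R ⊓ 𝐍 Q ≤ 𝐎 (piOf (♯A))ᶜ (𝐍 Q) := h.le_O _ _ aQ t inf_le_right
    (r.inf_left.of_single' hq) (norm_inf (a.trans n) (norm_of_le aQ))
  obtain ⟨S, s, nS, l2⟩ := exists_syl_inv_le (hQ.norm.trans (O_normal _ _).norm)
    (k.coprime (O_pi _ _)) (Or.inr (mSol (proper_mono t (O_le _ _))))
    ((le_inf l (le_norm_self Q)).trans l1) hQ.pi hQ.norm
  rw [hQ.max S s.pi nS l2] at s
  exact (r.nil.eq_of_inf_norm_le l (s.le_of_norm l1 r.inf_left (Or.inl inf_le_right))).symm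

theorem NC.trans_step (h : NC A) (hq : q ∉ piOf (♯A)) (w : q ∈ 𝛡 G) (a : A ≤ B) (b : B ⊴ P)
    (k : PiGrp (piOf (♯A)) P) (tr : TransOn (𝐎 (piOf (♯A))ᶜ (𝐂 B)) B q) :
    TransOn (𝐎 (piOf (♯A))ᶜ (𝐂 P)) P q ∧ ∀ Q, MaxInv P q Q → MaxInv B q Q := by
  have n : P ≤ 𝐍 (𝐎 (piOf (♯A))ᶜ (𝐂 B)) := le_norm_O _ (norm_cent b.norm)
  have hK := normalIn_sup_left n
  have c := k.coprime (O_pi (piOf (♯A))ᶜ (𝐂 B))
  have s : Sol P ∨ Sol (𝐎 (piOf (♯A))ᶜ (𝐂 B)) :=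
    Or.inr ((sol_cent h.ne_bot h.ne_top).mono ((O_le _ _).trans (cent_anti a)))
  have c2 : ∀ Q, MaxInv P q Q → MaxInv B q Q := by
    intro Q hQ
    by_cases Q1 : Q = ⊥
    · subst Q1
      obtain ⟨R, hR, -⟩ := exists_maxInv (A := B) (piGrp_bot {q}) (by simp)
      obtain ⟨x, -, l⟩ := exists_cj_le_of_le_sup (inf_le_left.trans hK.norm)
        (tr.frattini hR b.norm) c s
      have := hQ.eq_bot_of (hR.pi.cj x⁻¹) (by rw [← cj_norm, ← cj_le_iff]; exact l.trans inf_le_right)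
      rwa [cj_eq_bot.mp this] at hR
    · exact h.maxInv_of_ne_bot hq w a b.le k hQ Q1
  refine ⟨fun Q₁ Q₂ q1 q2 => ?_, c2⟩
  obtain ⟨x, hx, rfl⟩ := tr _ _ (c2 _ q1) (c2 _ q2)
  have l : P ≤ (𝐎 (piOf (♯A))ᶜ (𝐂 B) ⊔ P) ⊓ 𝐍 Q₁ := le_inf le_sup_right q1.norm
  obtain ⟨u, hu, y, hy, e⟩ := cj_le_of_coprime hK (le_antisymm (sup_le le_sup_left inf_le_left)
    (sup_le_sup_left l _)) l c s (inv_mem (mem_sup_left hx)) (le_inf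
      (cj_le_of_mem (inv_mem (mem_sup_left hx)) le_sup_right)
      (by rw [← le_cj_iff, cj_norm]; exact q2.norm))
  refine ⟨y⁻¹, inv_mem ?_, ?_⟩
  · rw [← h.inf_cent (a.trans b.le)]
    exact ⟨(h.inf_cent a ▸ inf_le_left : 𝐎 (piOf (♯A))ᶜ (𝐂 B) ≤ _) hy.1, hy.2⟩
  · rw [← inv_inv x, e, mul_inv_rev, ← cj_cj, cj_of_norm (inv_mem hu.2)]

theorem NC.trans_subN (h : NC A) (hq : q ∉ piOf (♯A)) (w : q ∈ 𝛡 G) (s : SubN A P)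
    (k : PiGrp (piOf (♯A)) P) (tr : TransOn (𝐎 (piOf (♯A))ᶜ (𝐂 A)) A q) :
    TransOn (𝐎 (piOf (♯A))ᶜ (𝐂 P)) P q ∧ ∀ Q, MaxInv P q Q → MaxInv A q Q := by
  induction s with
  | refl => exact ⟨tr, fun _ x => x⟩
  | step s n ih =>
    have := ih (k.le n.le)
    have t := h.trans_step hq w s.le n k this.1
    exact ⟨t.1, fun Q hQ => this.2 Q (t.2 Q hQ)⟩

/-- BG 7.4 -/
theorem NC.trans_superset (h : NC A) (hq : q ∉ piOf (♯A)) (s : SubN A P) (w : q ∈ 𝛡 G)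
    (k : PiGrp (piOf (♯A)) P) (tr : TransOn (𝐎 (piOf (♯A))ᶜ (𝐂 A)) A q) :
    𝐎 (piOf (♯A))ᶜ (𝐂 A) ⊓ 𝐂 P = 𝐎 (piOf (♯A))ᶜ (𝐂 P) ∧
    TransOn (𝐎 (piOf (♯A))ᶜ (𝐂 P)) P q ∧ (∀ Q, MaxInv P q Q → MaxInv A q Q) ∧
    ∀ Q, MaxInv P q Q → P ⊓ ⁅𝐍 P, 𝐍 P⁆ ≤ ⁅𝐍 Q, 𝐍 Q⁆ ∧
      𝐎 (piOf (♯A))ᶜ (𝐂 P) ⊔ (𝐍 P ⊓ 𝐍 Q) = 𝐍 P := by
  have t := h.trans_subN hq w s k tr
  refine ⟨h.inf_cent s.le, t.1, t.2, fun Q hQ => ?_⟩
  have hK : 𝐎 (piOf (♯A))ᶜ (𝐂 P) ⊴ 𝐍 P :=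
    (⟨cent_le_norm P, norm_le_norm_cent P⟩ : 𝐂 P ⊴ 𝐍 P).O _
  have e := t.1.frattini hQ le_rfl
  rw [sup_eq_right.mpr hK.le] at e
  have e' := le_antisymm (sup_le hK.le inf_le_left) e
  refine ⟨?_, e'⟩
  rw [inf_der_of_coprime hK e' (le_inf (le_norm_self P) hQ.norm) (k.coprime (O_pi _ _))]
  exact inf_le_right.trans (der_mono inf_le_right)

/-- BG 7.5 (a) -/
theorem _root_.CF.BG.MaxElem.ncV (h : MaxElem p A ⊤) (a1 : A ≠ ⊥) (l : ∀ M : Subgroup G, Pr M → PLen1 p M) (w : p ∈ 𝛡 G) :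
    NC A := by
  refine ⟨a1, h.ab.pi.pw w, fun X Y a t hY y n => ?_⟩
  rw [h.ab.pi.piOf_eq a1] at y ⊢
  exact (l X t).le_O_of_maxElem (mSol t) (m_ne_two (h.ab.pi.dvd_card a1) (h.ab.pi.properV w)) (h.of_le a le_top) hY y n

theorem _root_.CF.BG.SCN.le_O_of_cent1V (h : SCN A P) (hP : Syl p P ⊤) (b : Elem p 2 B A) (nB : P ≤ 𝐍 B)
    (a : A ≤ X) (t : Pr X) (hY : Y ≤ X) (y : PiGrp {p}ᶜ Y) (n : A ≤ 𝐍 Y) (hx : x ∈ B)
    (x1 : x ≠ 1) (c : Y ≤ 𝐂₁ x) : Y ≤ 𝐎 {p}ᶜ X := by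
  have w : p ∈ 𝛡 G := t.w_of_elem (b.mono a)
  obtain ⟨Z, z⟩ := hP.pi.exists_elem_center (NormalIn.refl P) (ne_bot_mono b.ne_bot
    (b.le.trans h.le))
  have zP : Z ≤ 𝐙 P := z.le.trans inf_le_right
  have zA := zP.trans h.center_le
  rw [← comm_sup_inf_cent (zA.trans n) (z.pi.coprime y) (Or.inl z.pi.sol)]
  refine sup_le ?_ ?_
  · have xP := h.le (b.le hx)
    rw [← cent_zpowers] at c
    have xB := zpowers_le.mpr hx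
    have t' : Pr (𝐂 (zpowers x)) := cent_proper (by simpa using x1) ((b.pw w).le xB)
    obtain ⟨S, hS, l⟩ := exists_syl_le (inf_le_right : P ⊓ 𝐂 (zpowers x) ≤ _) hP.pi.inf_left
    have l1 := b.logn_relIndex_cent nB
    have l2 := logn_card_eq_add (p := p) (inf_le_left : P ⊓ 𝐂 B ≤ P)
    have l3 := logn_card_le (p := p) (inf_le_inf_left P (cent_anti xB))
    have l4 := logn_card_le (p := p) (le_top : S ≤ ⊤)
    rw [← hP.logn_eq rfl] at l4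
    rw [inf_comm, inf_relIndex_right, inf_comm] at l2
    have nS := hS.pi.norm_of_logn l (by omega)
    have zz : Z ≤ 𝐙 (P ⊓ 𝐂 (zpowers x)) :=
      le_inf (le_inf (zP.trans inf_le_left) (h.abel.cent zA (xB.trans b.le)))
        ((zP.trans inf_le_right).trans (cent_anti inf_le_left))
    have o := zz.trans (hS.abel_le_O2 (mSol t') (mOdd _) (center_abel _)
      ⟨inf_le_left.trans l, nS.trans (norm_center _)⟩)
    have c1 : ⁅Y, Z⁆ ≤ O2 {p}ᶜ {p} (𝐂 (zpowers x)) :=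
      (commutator_mono le_rfl o).trans (comm_le_right (c.trans (O2_normal _ _ _).norm))
    have c2 := comm_le_left (zA.trans n)
    exact (mSol t).le_O_of_cent ((xB.trans b.le).trans a) (b.pi.le xB) (c2.trans hY)
      ((hall_O_O2 {p} _).le_normal ((O2_le _ _ _).trans (O_normal _ _).norm) c1 (y.le c2))
  · have pZ : P ≤ 𝐂 Z := cent_symm (zP.trans inf_le_right)
    exact (mSol t).le_O_of_cent (zA.trans a) z.pi (inf_le_left.trans hY)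
      (h.le_O_of_norm (hP.of_le pZ le_top) (sol_cent z.ne_bot (z.pw w)) ((z.pw w).cent z.ne_bot).odd inf_le_right y.inf_left
        (norm_inf_cent n (h.abel.le_norm zA)))

/-- BG 7.5 (b) -/
theorem _root_.CF.BG.SCN.ncV (h : SCN A P) (hP : Syl p P ⊤) (r : 1 < pRank p A) (w : p ∈ 𝛡 G) : NC A := by
  have k := hP.pi.le h.le
  have a1 : A ≠ ⊥ := k.pRank_pos.mp (by omega)
  refine ⟨a1, k.pw w, fun X Y a t hY y n => ?_⟩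
  rw [k.piOf_eq a1] at y ⊢
  obtain ⟨B, b, nB⟩ := hP.pi.exists_normal_elem_two (hP.pi.oddV w) h.normal
    fun c => absurd (c.pRank_le p) (by omega)
  refine b.abel.le_of_cent1 b.not_cyc (b.le.trans n) (b.pi.coprime y) fun x hx x1 => ?_
  exact h.le_O_of_cent1V hP b nB a t (inf_le_left.trans hY) y.inf_left
    (norm_inf n (norm_of_le (le_cent1_iff.mpr (h.abel (b.le hx))))) hx x1 inf_le_right

/-- BG 7.6, the Thompson transitivity theorem -/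
theorem _root_.CF.BG.SCN.transOnV (h : SCN A P) (hP : Syl p P ⊤) (r : 2 < pRank p A) (hq : q ≠ p) (w : p ∈ 𝛡 G) :
    TransOn (𝐎 {p}ᶜ (𝐂 A)) A q := by
  have k := hP.pi.le h.le
  have e := k.piOf_eq (k.pRank_pos.mp (by omega))
  have := (h.ncV hP (by omega) w).rank3_trans (q := q) (by rwa [e])
    (by rw [inf_eq_left.mpr h.abel]; exact r.trans_le (pRank_le_rank p A))
  rwa [e] at this

end CF.BG.Vp
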