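import Cfsg.Agent.Vp.S7
/-
BG section 8: the Fitting subgroup of a maximal subgroup.
-/
set_option autoImplicit false
set_option linter.unusedSectionVars false

namespace CF.BG.Vp
open Subgroup
open scoped commutatorElement Pointwise

variable {G : Type*} [Group G] [Finite G] [MSO G]
variable {A A₀ A₁ B C D E E₁ E₂ E₃ H K L M N P Q R S T U V W X Y Z : Subgroup G} {p q r : ℕ}
variable {π : Set ℕ} {x y g : G}

theorem Mx.eq_bot_of_cent (m : Mx M) (a : A ≤ 𝐅 M) (c : 𝐅 M ⊓ 𝐂 A ≤ A) (k : PiGrp π (𝐅 M))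
    (hY : Y ≤ 𝐂 A) (y : PiGrp πᶜ Y) : Y = ⊥ := by
  have z : 𝐙 (𝐅 M) ≤ A := (inf_le_inf_left _ (cent_anti a)).trans c
  have hM : Y ≤ M := (hY.trans (cent_anti z)).trans (m.cent_le
    ((F_normal M).char inf_le_left (norm_center _)) ((F_nil M).center_ne_bot m.F_ne_bot))
  have := (F_nil M).cent_of_cent_cent (hM.trans (F_normal M).norm) (y.coprime' k) a (cent_symm hY)
    (c.trans (cent_symm hY))
  exact (k.le ((le_inf hM this).trans m.sol.cent_F_le)).eq_bot y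

theorem NC.eq_bot_of_trans (h : NC A) (hq : q ∉ piOf (♯A)) (m : Mx M) (a : A ≤ 𝐅 M)
    (k : PiGrp (piOf (♯A)) (𝐅 M)) (tr : TransOn (𝐎 (piOf (♯A))ᶜ (𝐂 A)) A q)
    (k0 : 𝐎 (piOf (♯A))ᶜ (𝐂 A) = ⊥) (r : PiGrp {q} R) (n : A ≤ 𝐍 R) (wR : Pw R) : R = ⊥ := by
  refine by_contra fun R1 => R1 ?_
  have w := wR.mem_of r R1
  obtain ⟨e, t, l, -⟩ := h.trans_superset hq ((F_nil M).subN a) w k tr
  rw [← e, k0, bot_inf_eq] at t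
  obtain ⟨Q, hQ, -⟩ := exists_maxInv (A := 𝐅 M) (piGrp_bot {q}) (by simp)
  have nQ : M ≤ 𝐍 Q := le_norm_of_cj fun x hx => by
    obtain ⟨z, hz, e⟩ := t _ _ hQ (hQ.cj_of_norm ((F_normal M).norm hx))
    rw [e, mem_bot.mp hz, cj_one]
  have Q1 : Q = ⊥ := by_contra fun Q1 => hq (hQ.pi.mem_of_ne_bot Q1 (k.le (le_F
    ⟨m.norm_eq_of Q1 (hQ.pi.pw w) nQ ▸ le_norm_self Q, nQ⟩ hQ.pi.nil)))
  exact (Q1 ▸ l Q hQ).eq_bot_of r n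

theorem Mx.OZF (m : Mx M) (hq : q ∈ piOf (♯(𝐅 M))) :
    𝐎 {q} (𝐙 (𝐅 M)) ≠ ⊥ ∧ 𝐎 {q} (𝐙 (𝐅 M)) ⊴ M ∧ 𝐍 (𝐎 {q} (𝐙 (𝐅 M))) = M := by
  have a := (F_nil M).O_center_ne_bot hq.1 hq.2
  have b := ((F_normal M).char inf_le_left (norm_center _)).O {q}
  exact ⟨a, b, m.norm_eq b a⟩

theorem Mx.OZF_le (m : Mx M) (hq : q ∈ piOf (♯(𝐅 M))) (e : r ≠ q) (z : 𝐙 (𝐅 M) ≤ X) (t : Pr X) :
    𝐎 {r} (𝐙 (𝐅 M)) ≤ 𝐎 {q}ᶜ X := by
  refine (mSol t).le_O_of_norm ((O_le {q} _).trans z) (O_pi _ _) ((O_le _ _).trans z) ?_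
  rw [(m.OZF hq).2.2]
  exact le_O (((F_normal M).char inf_le_left (norm_center _)).O {r}) ((O_pi _ _).of_single_ne e)

theorem Mx.nc_of_F (m : Mx M) (f : ¬ PiGrp {p} (𝐅 M)) (d : p ∈ piOf (♯(𝐅 M))) (a : A ≤ 𝐅 M)
    (c : 𝐅 M ⊓ 𝐂 A ≤ A) : piOf (♯A) = piOf (♯(𝐅 M)) ∧ NC A := by
  have z : 𝐙 (𝐅 M) ≤ A := (inf_le_inf_left _ (cent_anti a)).trans c
  have e : piOf (♯A) = piOf (♯(𝐅 M)) := Set.ext fun q => ⟨fun h => ⟨h.1, h.2.trans (card_dvd a)⟩,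
    fun h => ⟨h.1, ((O_pi _ _).dvd_card (m.OZF h).1).trans (card_dvd ((O_le _ _).trans z))⟩⟩
  refine ⟨e, ne_bot_mono ((F_nil M).center_ne_bot m.F_ne_bot) z, m.pw_of_le_F a,
    fun X Y hX t hY y n => ?_⟩
  rw [e] at y ⊢
  refine le_O_compl_of_forall hY fun q hq k => ?_
  obtain ⟨r, hr, rq⟩ := exists_prime_ne f d q
  obtain ⟨z1, z2, z3⟩ := m.OZF hr
  have zA := (O_le {r} _).trans z
  have yM : Y ⊓ 𝐂 (𝐎 {r} (𝐙 (𝐅 M))) ≤ M := inf_le_right.trans (m.cent_le z2 z1)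
  have c0 : Y ⊓ 𝐂 (𝐎 {r} (𝐙 (𝐅 M))) = ⊥ := by
    refine m.eq_bot_of_cent a c (piGrp_piOf _) (comm_eq_bot.mp (eq_bot_mono
      (y.inf_eq_bot' (piGrp_piOf _)) (le_inf ?_ ?_))) y.inf_left
    · exact (commutator_mono inf_le_left le_rfl).trans (comm_le_left n)
    · exact (commutator_mono le_rfl a).trans (comm_le_right (yM.trans (F_normal M).norm))
  rw [← comm_sup_inf_cent (zA.trans n) (((piGrp_piOf _).le (zA.trans a)).coprime y)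
    (Or.inl (O_pi _ _).sol), c0, sup_bot_eq]
  exact (commutator_mono le_rfl (m.OZF_le k rq (z.trans hX) t)).trans
    (comm_le_right (hY.trans (O_normal _ X).norm))

theorem Mx.eq_of_center_F_le (m : Mx M) (f : ¬ PiGrp {p} (𝐅 M)) (d : p ∈ piOf (♯(𝐅 M)))
    (h : Mx H) (z : 𝐙 (𝐅 M) ≤ H) (s : ∀ q, q ∉ piOf (♯(𝐅 M)) → 𝐎 {q} H = ⊥) : H = M := by
  have c1 : ∀ r q, r ≠ q → 𝐎 {r} (𝐙 (𝐅 M)) ≤ 𝐂 (𝐎 {q} H) := fun r q e => by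
    by_cases hq : q ∈ piOf (♯(𝐅 M))
    · exact (m.OZF_le hq e z h.ne_top).trans (O_compl_cent_O _ _)
    · rw [s q hq, cent_bot]; exact le_top
  have c2 : ∀ q, 𝐎 {q} H ≤ M := fun q => by
    obtain ⟨r, hr, rq⟩ := exists_prime_ne f d q
    exact (cent_symm (c1 r q rq)).trans (m.cent_le (m.OZF hr).2.1 (m.OZF hr).1)
  have c3 : ∀ r, 𝐎 {r} (𝐙 (𝐅 M)) ≤ 𝐂 (𝐎 {r}ᶜ H) := fun r => h.sol.cent_O_compl
    (norm_of_le ((O_le _ _).trans z)) (O_pi _ _) fun q _ e => c1 r q e.symm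
  have c4 : ∀ r ∈ piOf (♯(𝐅 M)), 𝐎 {r} H ≠ ⊥ := fun r hr e => by
    have := h.sol.cent_O_le (π := {r}ᶜ) (by rwa [O_compl_compl])
    exact (m.OZF hr).1 ((O_pi _ _).eq_bot ((O_pi _ H).le
      ((le_inf ((O_le _ _).trans z) (c3 r)).trans this)))
  have c5 : ∀ q ∈ piOf (♯(𝐅 M)), ∀ Y, Y ≤ M → Y ≤ 𝐎 {q}ᶜ H → Y ≤ 𝐎 {q}ᶜ M := fun q hq Y a b =>
    m.sol.le_O_of_norm (c2 q) (O_pi _ _) a (by rwa [h.norm_O (c4 q hq)])
  obtain ⟨z1, z2, z3⟩ := m.OZF d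
  have a1 : 𝐎 {p}ᶜ H ≤ 𝐎 {p}ᶜ M :=
    c5 p d _ ((cent_symm (c3 p)).trans (m.cent_le z2 z1)) le_rfl
  have a2 : 𝐎 {p} H ≤ 𝐂 (𝐎 {p}ᶜ M) := by
    refine m.sol.cent_O_compl (norm_of_le (c2 p)) (O_pi _ _) fun q hq e => ?_
    by_cases k : q ∈ piOf (♯(𝐅 M))
    · exact (c5 q k _ (c2 p) (O_mono H (by simpa using e))).trans (O_compl_cent_O _ _)
    · rw [← O_F q, O_of_pi' ((piGrp_piOf _).to_compl_single k), cent_bot]; exact le_top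
  have a3 : 𝐎 {p}ᶜ M ≤ 𝐎 {p}ᶜ H := h.sol.le_O_of_norm ((O_le {p} _).trans z) (O_pi _ _)
    ((cent_symm a2).trans (h.cent_le (O_normal _ H) (c4 p d))) (by rw [z3])
  have a4 : 𝐎 {p}ᶜ M ≠ ⊥ := fun e => f (F_eq_O_of e ▸ O_pi _ M)
  rw [← m.norm_O a4, le_antisymm a3 a1, h.norm_O (ne_bot_mono a4 a3)]

theorem Mx.uniqIn_of_F (m : Mx M) (f : ¬ PiGrp {p} (𝐅 M)) (d : p ∈ piOf (♯(𝐅 M))) (a : A ≤ 𝐅 M)
    (c : 𝐅 M ⊓ 𝐂 A ≤ A) (r : 2 < rank (𝐙 A)) : UniqIn A M := by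
  obtain ⟨e, h⟩ := m.nc_of_F f d a c
  refine ⟨m, a.trans (F_le M), fun H hH l => m.eq_of_center_F_le f d hH
    (((inf_le_inf_left _ (cent_anti a)).trans c).trans l) fun q hq => ?_⟩
  rw [← e] at hq
  exact h.eq_bot_of_trans hq m a (e ▸ piGrp_piOf _) (h.rank3_trans hq r)
    (m.eq_bot_of_cent a c (piGrp_piOf _) (O_le _ _) (e ▸ O_pi _ _)) (O_pi _ H)
    (l.trans (O_normal _ H).norm) (hH.pw_of_le_F (O_le_F q H))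

/-- BG 8.1 (a) -/
theorem Mx.uniqIn_cent_F (m : Mx M) (f : ¬ PiGrp {p} (𝐅 M)) (a : A ≤ 𝐅 M) (b : Abel A)
    (r : 2 < pRank p A) : UniqIn (𝐅 M ⊓ 𝐂 A) M := by
  have l := le_inf a b
  have d := pRank_pos.mp (show 0 < pRank p A by omega)
  exact m.uniqIn_of_F f ⟨d.1, d.2.trans (card_dvd a)⟩ inf_le_left
    (inf_le_inf_left _ (cent_anti l)) ((r.trans_le (pRank_le_rank p A)).trans_le
      (rank_mono (le_inf l (cent_symm inf_le_right))))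

/-- BG 8.1 (a) -/
theorem Mx.uniq_cent_F (m : Mx M) (f : ¬ PiGrp {p} (𝐅 M)) (a : MaxElem p A (𝐅 M))
    (r : 2 < pRank p A) : Uniq (𝐅 M ⊓ 𝐂 A) := (m.uniqIn_cent_F f a.le a.ab.abel r).toUniq

theorem Mx.norm_ZJ (m : Mx M) (h0 : 𝐎 {p}ᶜ M = ⊥) (hP : Syl p P M) :
    𝐍 (ZJ p P) = M ∧ Syl p P ⊤ := by
  have P1 : P ≠ ⊥ := by
    rintro rfl
    exact m.ne_bot (O_of_pi hP.pi'_of_eq_bot ▸ h0)
  have n := hP.norm_ZJ m.sol (mOdd M)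
  rw [h0, bot_sup_eq] at n
  have e := m.norm_eq ⟨(ZJ_le p P).trans hP.le, n⟩ (hP.pi.ZJ_ne_bot P1)
  exact ⟨e, hP.syl_of_norm_le (e ▸ BG.norm_ZJ p P) le_top⟩

theorem Mx.O_compl_eq_bot (m : Mx M) (f : PiGrp {p} (𝐅 M)) : 𝐎 {p}ᶜ M = ⊥ :=
  m.sol.O_compl_eq_bot fun _ _ e => ((O_pi _ M).of_single_ne e).inf_eq_bot' f ▸
    (inf_eq_left.mpr (O_le_F _ M)).symm

/-- choice of a maximal `p`-subgroup in the intersection with another maximal subgroup -/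
theorem Mx.exists_max_inf (m : Mx M) (a : A ≤ M) (k : PiGrp {p} A) (a1 : A ≠ ⊥)
    (h : ¬ UniqIn A M) (w : p ∈ 𝛡 G) : ∃ H R, Mx H ∧ H ≠ M ∧ A ≤ R ∧ Syl p R (H ⊓ M) ∧
      (Syl p R M ∨ 𝐍 R ≤ M) := by
  obtain ⟨H₀, h0, l0, e0⟩ := exists_ne_of_not_uniqIn m a h
  obtain ⟨R, -, ⟨r1, r2, r3, H, hH, e, r4⟩, mx⟩ := exists_maximal (P := fun R => PiGrp {p} R ∧
    A ≤ R ∧ R ≤ M ∧ ∃ H, Mx H ∧ H ≠ M ∧ R ≤ H) ⟨k, le_rfl, a, H₀, h0, e0, l0⟩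
  have key : ∀ L, Mx L → L ≠ M → R ≤ L → Syl p R (L ⊓ M) := fun L hL e l =>
    syl_of_max (le_inf l r3) r1 fun Q b c d => mx Q ⟨c, r2.trans d, b.trans inf_le_right, L, hL, e,
      b.trans inf_le_left⟩ d
  refine ⟨H, R, hH, e, r2, key H hH e r4, ?_⟩
  obtain ⟨L, hL, l⟩ := exists_mx (r1.norm_properV (ne_bot_mono a1 r2) w)
  by_cases e' : L = M
  · exact Or.inr (e' ▸ l)
  · exact Or.inl (syl_of_syl_norm r3 ((key L hL e' ((le_norm_self R).trans l)).of_le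
      (le_inf r3 (le_norm_self R)) (le_inf (inf_le_right.trans l) inf_le_left)))

/-- BG 8.1 (b) -/
theorem Mx.uniqIn_scn_F (m : Mx M) (f : PiGrp {p} (𝐅 M)) (hP : Syl p P M) (h : SCN A P)
    (r : 2 < pRank p A) : A ≤ 𝐅 M ∧ UniqIn A M := by
  have h0 := m.O_compl_eq_bot f
  have hP' := (m.norm_ZJ h0 hP).2
  have a : A ≤ 𝐅 M := by
    have := hP.abel_le_O2 m.sol (mOdd M) h.abel h.normal
    rw [O2_of_eq_bot h0] at this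
    exact this.trans (O_le_F p M)
  have k := f.le a
  have a1 : A ≠ ⊥ := k.pRank_pos.mp (by omega)
  have e := k.piOf_eq a1
  have c : 𝐅 M ⊓ 𝐂 A ≤ A := (inf_le_inf_right _ (hP.le_of_normal (F_normal M) f)).trans h.cent.le
  have w : p ∈ 𝛡 G := (m.pw_of_le_F a).mem_of k a1
  refine ⟨a, by_contra fun u => ?_⟩
  obtain ⟨H, R, hH, ne, l, s, o⟩ := m.exists_max_inf (h.le.trans hP.le) k a1 u w
  have sH : Syl p R H := by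
    rcases o with o | o
    · exact (m.norm_ZJ h0 o).2.of_le (s.le.trans inf_le_left) le_top
    · exact syl_of_syl_norm (s.le.trans inf_le_left) (s.of_le
        (le_inf (s.le.trans inf_le_left) (le_norm_self R)) (inf_le_inf_left _ o))
  have h1 : 𝐎 {p}ᶜ H = ⊥ := hH.sol.O_compl_eq_bot fun q _ qp =>
    (h.ncV hP' (by omega) w).eq_bot_of_trans (q := q) (by rwa [e]) m a (by rwa [e])
      (e ▸ h.transOnV hP' r qp w) (e ▸ m.eq_bot_of_cent a c f (O_le _ _) (O_pi _ _)) (O_pi _ H)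
      (((l.trans s.le).trans inf_le_left).trans (O_normal _ H).norm) (hH.pw_of_le_F (O_le_F q H))
  obtain ⟨b1, b2⟩ := hH.norm_ZJ h1 sH
  exact ne (b1.symm.trans (m.norm_ZJ h0 (b2.of_le (s.le.trans inf_le_right) le_top)).1)

end CF.BG.Vp
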