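import Cfsg.Agent.Vp.S8
/-
BG section 9: the uniqueness theorem.
-/
set_option autoImplicit false
set_option linter.unusedSectionVars false

namespace CF.BG.Vp
open Subgroup
open scoped commutatorElement Pointwise

variable {G : Type*} [Group G] [Finite G] [MSO G]
variable {A A₀ A₁ B C D E E₁ E₂ E₃ H K L M N P Q R S T U V W X Y Z : Subgroup G} {p q r : ℕ}
variable {π : Set ℕ} {x y g : G}

theorem _root_.CF.BG.Hall.le_O_of_normV (hP : Syl p P M) (m : Pr M) (hK : K ≤ M) (k : PiGrp {p}ᶜ K)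
    (n : P ≤ 𝐍 K) : K ≤ 𝐎 {p}ᶜ M := by
  obtain ⟨B, b, -⟩ := hP.pi.nil.exists_scn (NormalIn.bot P) abel_bot
  exact b.le_O_of_norm hP (mSol m) (mOdd M) hK k (b.le.trans n)

theorem Mx.uniqIn_F (m : Mx M) (r : 2 < rank (𝐅 M)) : UniqIn (𝐅 M) M := by
  obtain ⟨p, -, r⟩ := lt_rank_iff.mp r
  by_cases f : PiGrp {p} (𝐅 M)
  · obtain ⟨P, hP, l⟩ := exists_syl_le (F_le M) f
    obtain ⟨A, a, r'⟩ := hP.pi.exists_scn3 (m.odd' hP.le) (r.trans_le (pRank_mono p l))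
    obtain ⟨b, u⟩ := m.uniqIn_scn_F f hP a r'
    exact u.of_le b (F_le M)
  · obtain ⟨A, a⟩ := exists_elem r
    exact (m.uniqIn_cent_F f a.le a.abel (a.pRank_eq ▸ Nat.lt_succ_self 2)).of_le inf_le_left (F_le M)

/-- BG 9.1 (b) -/
theorem Mx.uniqIn_of_inv_le (m : Mx M) (hB : B ≤ M) (b : PiGrp {p} B) (c : B ≠ ⊥)
    (h : ∀ Y, PiGrp {p}ᶜ Y → B ≤ 𝐍 Y → Y ≤ M) (w : p ∈ 𝛡 G) : UniqIn B M := by
  by_contra u
  obtain ⟨H, R, hH, ne, l, s, o⟩ := m.exists_max_inf hB b c u w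
  have rH := s.le.trans inf_le_left
  have nR : 𝐍 R ≤ M := by
    refine o.elim (fun o => ?_) id
    by_cases h0 : 𝐎 {p}ᶜ M = ⊥
    · exact (m.norm_ZJ h0 o).1 ▸ BG.norm_ZJ p R
    · rw [← m.norm_O h0]
      refine le_norm_of_cj_le fun x hx => ?_
      have n : R ≤ 𝐍 (BG.cj x (𝐎 {p}ᶜ M)) := by
        rw [← BG.cj_of_norm hx, cj_norm_iff]; exact o.le.trans (O_normal _ M).norm
      exact o.le_O_of_normV m.ne_top (h _ ((O_pi _ M).cj x) (l.trans n)) ((O_pi _ M).cj x) n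
  have sH : Syl p R H := syl_of_syl_norm rH (s.of_le (le_inf rH (le_norm_self R))
    (inf_le_inf_left _ nR))
  have o1 : 𝐎 {p}ᶜ H ≤ M := h _ (O_pi _ H) ((l.trans rH).trans (O_normal _ H).norm)
  by_cases r : 2 < rank (𝐅 H)
  · exact ne ((hH.uniqIn_F r).uniq M m (sH.F_le_sup.trans (sup_le o1 (s.le.trans inf_le_right)))).symm
  · refine ne (hH.eq m ?_)
    rw [← (pLen1_of_der_le_F (rank2_der_le_F hH.sol (mOdd H) (by omega)) p).frattini sH]
    exact sup_le o1 (inf_le_right.trans nR)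

/-- BG 9.1 (a) -/
theorem Mx.uniqIn_of_cent1_le (m : Mx M) (hB : B ≤ M) (b : Abelem p B) (c : ¬ Cyc B)
    (h : ∀ x ∈ B, x ≠ 1 → 𝐂₁ x ≤ M) : UniqIn B M :=
  m.uniqIn_of_inv_le hB b.pi (fun e => c (e ▸ cyc_bot)) (fun _ y n =>
    b.abel.le_of_cent1 c n (b.pi.coprime y) fun x hx x1 => inf_le_right.trans (h x hx x1))
    ((m.proper hB).w_of_pRank (b.pi.two_le_pRank (m.odd' hB) c))

/-- BG 9.1 (a) -/
theorem Mx.uniq_of_cent1_le (m : Mx M) (hB : B ≤ M) (b : Abelem p B) (c : ¬ Cyc B)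
    (h : ∀ x ∈ B, x ≠ 1 → 𝐂₁ x ≤ M) : Uniq B := (m.uniqIn_of_cent1_le hB b c h).toUniq

/-- BG 9.2 -/
theorem UniqIn.of_cent (h : UniqIn L M) (c : K ≤ 𝐂 L) (r : 1 < rank K) : UniqIn K M := by
  obtain ⟨p, B, -, b⟩ := exists_elem_of_le_rank r
  have w := h.mx.w_of_elem (b.mono (c.trans h.cent_le))
  exact (h.mx.uniqIn_of_cent1_le (b.le.trans (c.trans h.cent_le)) b.ab b.not_cyc fun x hx x1 =>
    h.le_of_proper (le_cent1_iff.mpr (c (b.le hx))) (cent1_proper x1 ((b.pw w).elt hx))).of_le b.le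
      (c.trans h.cent_le)

/-- BG 9.2 -/
theorem Uniq.of_cent (h : Uniq L) (c : K ≤ 𝐂 L) (r : 1 < rank K) : Uniq K :=
  let ⟨_, k⟩ := h.exists; (k.of_cent c r).toUniq

/-- BG 9.3 -/
theorem Uniq.of_cent_rank3 (h : Uniq A) (a : Abel A) (k : PiGrp {p} A) (r : 2 < pRank p A)
    (b : PiGrp {p} B) (c : ¬ Cyc B) (r' : 2 < pRank p (𝐂 B)) : Uniq B := by
  have w := h.proper.w_of_pRank (p := p) (by omega)
  obtain ⟨C, hC⟩ := exists_elem r'
  obtain ⟨P, hP, l⟩ := exists_syl_le le_top hC.pi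
  obtain ⟨g, -, l'⟩ := hP.syl_cj_le le_top k
  obtain ⟨E, hE⟩ := exists_elem (show 3 ≤ pRank p (BG.cj g A) by rwa [pRank_cj])
  obtain ⟨D, hD, n⟩ := hP.pi.exists_normal_elem_two (hP.pi.oddV w) (NormalIn.refl P)
    (hC.of_le l).not_cyc'
  have r1 := (hE.le_pRank_cent hD ((hE.le.trans l').trans n)).trans (pRank_le_rank _ _)
  have r2 := (hC.le_pRank_cent hD (l.trans n)).trans (pRank_le_rank _ _)
  have u1 := (h.cj g).of_cent (((abel_cj.mpr a).cent (inf_le_left.trans hE.le) le_rfl)) r1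
  have u2 := u1.of_cent (cent_symm inf_le_right) (hD.rank_eq ▸ Nat.lt_succ_self 1)
  have u3 := (u2.of_cent inf_le_right r2).of_cent (hC.abel.cent le_rfl inf_le_left)
    (by rw [hC.rank_eq]; omega)
  exact u3.of_cent (cent_symm hC.le) ((b.two_le_pRank (b.oddV w) c).trans (pRank_le_rank _ _))

/-- BG 9.4 -/
theorem Mx.uniq_of_rank_F (m : Mx M) (f : 2 < pRank p (𝐅 M)) (k : PiGrp {p} P)
    (r : 2 < pRank p P) : Uniq P := by
  obtain ⟨B, b⟩ := exists_elem r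
  have w := (m.proper (F_le M)).w_of_pRank (p := p) (by omega)
  refine Uniq.mono ?_ b.le (k.properV w)
  by_cases f' : PiGrp {p} (𝐅 M)
  · obtain ⟨S, hS, l⟩ := exists_syl_le (F_le M) f'
    obtain ⟨A, a, r'⟩ := hS.pi.exists_scn3 (m.odd' hS.le) (f.trans_le (pRank_mono p l))
    exact (m.uniqIn_scn_F f' hS a r').2.toUniq.of_cent_rank3 a.abel (hS.pi.le a.le) r' b.pi
      b.not_cyc b.lt_pRank_cent_self
  · obtain ⟨A, a⟩ := exists_elem f
    have r' : 2 < pRank p A := a.pRank_eq ▸ Nat.lt_succ_self 2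
    exact ((m.uniqIn_cent_F f' a.le a.abel r').toUniq.of_cent (cent_symm inf_le_right)
      (by rw [a.rank_eq]; omega)).of_cent_rank3 a.abel a.pi r' b.pi b.not_cyc b.lt_pRank_cent_self

theorem Mx.uniqIn_O (m : Mx M) (f : 2 < pRank p (𝐅 M)) : UniqIn (𝐎 {p} M) M :=
  (m.uniq_of_rank_F f (O_pi _ M) (by rwa [pRank_O_F])).uniqIn m (O_le _ M)

theorem Mx.exists_norm_le (m : Mx M) (f : pRank p (𝐅 M) ≤ 2) (r : 2 < pRank p M) :
    ∃ q, q ≠ p ∧ q ∈ 𝛡 G ∧ ∀ Q, PiGrp {q} Q → 𝐎 {q} M ≤ Q → 𝐍 Q ≤ M := by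
  by_cases r' : 2 < rank (𝐅 M)
  · obtain ⟨q, -, r'⟩ := lt_rank_iff.mp r'
    have w := (m.proper (F_le M)).w_of_pRank (p := q) (by omega)
    refine ⟨q, by rintro rfl; omega, w, fun Q k l => ((m.uniqIn_O r').mono l (k.properV w)).norm_le⟩
  · obtain ⟨q, hq, d, mx⟩ := exists_max_prime m.ne_bot
    have s := CF.BG2.syl_O_of_rank m.sol (mOdd M) (by omega) mx
    have n := m.norm_O (s.syl_ne_bot hq d)
    refine ⟨q, ?_, (m.pw_of_le_F (O_le_F q M)).mem_of (O_pi _ _) (s.syl_ne_bot hq d), fun Q k l => ?_⟩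
    · rintro rfl
      rw [← s.syl_pRank, pRank_O_F] at r; omega
    · rw [← (s.syl_of_norm_le n.le le_top).eq_of_le l le_top k, n]

theorem _root_.CF.BG.SCN.norm_le_of_rankV (h : SCN A P) (hP : Syl p P ⊤) (r : 2 < pRank p A) (m : Mx M)
    (c : 𝐂 A ≤ M) (f : pRank p (𝐅 M) ≤ 2) : 𝐍 P ≤ M := by
  have k := hP.pi.le h.le
  have e := k.piOf_eq (k.pRank_pos.mp (by omega))
  have w := (m.proper (h.abel.trans c)).w_of_pRank (p := p) (by omega)
  obtain ⟨q, qp, wq, hq⟩ := m.exists_norm_le f (r.trans_le (pRank_mono p (h.abel.trans c)))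
  have key : ∀ R, A ≤ R → R ≤ P → R ≤ M → 𝐍 R ≤ M := fun R a b d => by
    obtain ⟨Q, hQ, l⟩ := exists_maxInv (O_pi {q} M) (d.trans (O_normal _ M).norm)
    have kR := hP.pi.le b
    rw [← (((h.ncV hP (by omega) w).trans_superset (q := q) (by rwa [e]) (kR.nil.subN a) wq
      (by rwa [e]) (e ▸ h.transOnV hP r qp w)).2.2.2 Q hQ).2]
    exact sup_le ((O_le _ _).trans ((cent_anti a).trans c)) (inf_le_right.trans (hq Q hQ.pi l))
  exact key P h.le le_rfl (h.normal.norm.trans (key A le_rfl h.le (h.abel.trans c)))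

theorem _root_.CF.BG.Hall.comm_norm_ne_botV (hP : Syl p P ⊤) (P1 : P ≠ ⊥) : ⁅P, 𝐍 P⁆ ≠ ⊥ := fun e => by
  have n := (hP.burnside (inf_le_right.trans (comm_eq_bot'.mp e))).sdprod hP
  rcases normal_eq (normalIn_top.mp n.normal) with o | o
  · exact sol_ne_top hP.pi.sol (by rw [← n.sup, o, bot_sup_eq])
  · exact P1 (by rw [← n.inf, o, top_inf_eq])

/-- BG 9.5 -/
theorem _root_.CF.BG.SCN.uniqV (h : SCN A P) (hP : Syl p P ⊤) (r : 2 < pRank p A) (w : p ∈ 𝛡 G) : Uniq A := by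
  by_contra u
  have k := hP.pi.le h.le
  have a1 : A ≠ ⊥ := k.pRank_pos.mp (by omega)
  have f : ∀ M, Mx M → pRank p (𝐅 M) ≤ 2 := fun M m =>
    not_lt.mp fun f => u (m.uniq_of_rank_F f k r)
  have nP : ∀ M, Mx M → 𝐂 A ≤ M → 𝐍 P ≤ M := fun M m c => h.norm_le_of_rankV hP r m c (f M m)
  have ex : ∀ M B, Mx M → 𝐂 A ≤ M → Elem p 2 B A → ∃ L, Mx L ∧ L ≠ M ∧ 𝐂 B ≤ L := by
    intro M B m c b
    by_contra e
    push Not at e
    refine u ((m.uniq_of_cent1_le (b.le.trans (h.abel.trans c)) b.ab b.not_cyc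
      fun x hx x1 => ?_).mono b.le (k.properV w))
    obtain ⟨L, hL, l⟩ := exists_mx (cent1_proper x1 ((b.pw w).elt hx))
    exact (by_contra fun ne => e L hL ne ((cent_le_cent1 hx).trans l) : L = M) ▸ l
  have P0 := hP.comm_norm_ne_botV (ne_bot_mono a1 h.le)
  have l0 : ⁅P, 𝐍 P⁆ ≤ P := comm_le_left le_rfl
  have k0 := hP.pi.le l0
  obtain ⟨E, hE⟩ := exists_elem r
  have c0 : ∀ M, Mx M → 𝐂 A ≤ M → ∀ q : ℕ, q ≠ p → ⁅P, 𝐍 P⁆ ≤ 𝐂 (𝐎 {q} M) := by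
    intro M m c q qp
    have kq := (O_pi {q} M).of_single_ne qp
    refine cent_symm (hE.le_of_cent ((hE.le.trans (h.abel.trans c)).trans (O_normal _ M).norm) kq
      fun B b => ?_)
    obtain ⟨L, hL, ne, l⟩ := ex M B m c (b.mono hE.le)
    have r2 : pRank q (L ⊓ 𝐎 {q} M) ≤ 2 := not_lt.mp fun r2 => ne ((m.uniq_of_rank_F (r2.trans_le
      (pRank_mono q (inf_le_right.trans (O_le_F q M)))) (O_pi _ M).inf_right r2).eq hL inf_le_left m
        (inf_le_right.trans (O_le _ M)))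
    have hN : L ⊓ 𝐎 {q} M ⊴ L ⊓ M := ⟨inf_le_inf_left _ (O_le _ M),
      norm_inf (norm_of_le inf_le_left) (inf_le_right.trans (O_normal _ M).norm)⟩
    have nLM : 𝐍 P ≤ L ⊓ M := le_inf (nP L hL ((cent_anti (b.le.trans hE.le)).trans l)) (nP M m c)
    refine (le_inf (inf_le_right.trans l) inf_le_left).trans (cent_symm (cent_of_chief hN
      (k0.coprime kq.inf_right) fun U V ch hU => ?_))
    exact (commutator_mono le_rfl (commutator_mono ((le_norm_self P).trans nLM) nLM)).trans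
      (ch.comm_der_le (m.sol' inf_le_right) (m.odd' inf_le_right) hN r2 hU
        (((O_pi _ M).le (hU.trans inf_le_right)).qt V))
  have u0 : ∀ M, Mx M → 𝐂 A ≤ M → UniqIn (𝐍 ⁅P, 𝐍 P⁆) M := by
    intro M m c
    by_cases r' : 2 < rank (𝐅 M)
    · obtain ⟨q, -, r'⟩ := lt_rank_iff.mp r'
      exact (m.uniqIn_O r').mono (norm_of_cent' (c0 M m c q (by
        rintro rfl; have := f M m; omega))) (k0.norm_properV P0 w)
    · have pM := (le_norm_self P).trans (nP M m c)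
      refine m.uniqIn_norm ⟨l0.trans pM, ?_⟩ P0
      rw [← (pLen1_of_der_le_F (rank2_der_le_F m.sol (mOdd M) (by omega)) p).frattini
        (hP.of_le pM le_top)]
      exact sup_le (norm_of_cent' (m.sol.cent_O_compl (norm_of_le (l0.trans pM)) k0
        fun q _ e => c0 M m c q e)) (inf_le_right.trans (norm_comm_right _ _))
  obtain ⟨M, m, c⟩ := exists_mx (cent_proper a1 (k.pw w))
  obtain ⟨B, b⟩ := exists_elem (show 2 ≤ pRank p A by omega)
  obtain ⟨L, hL, ne, l⟩ := ex M B m c b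
  exact ne ((u0 L hL ((cent_anti b.le).trans l)).eq (u0 M m c))

/-- BG 9.6 -/
theorem uniq_of_pRank3 (k : Pr K) (r : 2 < pRank p K) : Uniq K := by
  have w := k.w_of_pRank (p := p) (by omega)
  obtain ⟨B, b⟩ := exists_elem r
  obtain ⟨P, hP, l⟩ := exists_syl_le le_top b.pi
  obtain ⟨A, a, r'⟩ := hP.pi.exists_scn3 (hP.pi.oddV w) (b.of_le l).le_pRank
  exact ((a.uniqV hP r' w).of_cent_rank3 a.abel (hP.pi.le a.le) r' b.pi b.not_cyc
    b.lt_pRank_cent_self).mono b.le k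

/-- BG 9.6 -/
theorem uniq_of_rank3 (k : Pr K) (r : 2 < rank K) : Uniq K :=
  let ⟨_, _, r⟩ := lt_rank_iff.mp r; uniq_of_pRank3 k r

/-- BG 9.6 -/
theorem uniq_of_cent_rank3' (r : 1 < rank K) (r' : 2 < rank (𝐂 K)) (k : Pr K) : Uniq K := by
  obtain ⟨p, B, -, b⟩ := exists_elem_of_le_rank r
  exact (uniq_of_rank3 ((cent_proper b.ne_bot (b.pw (k.w_of_elem b))).mono (cent_anti b.le))
    r').of_cent (cent_symm le_rfl) r

/-- BG 9.6 -/
theorem uniq_of_cent_rank3 (k : Pr K) (r : 1 < rank K) (r' : 2 < rank (𝐂 K)) : Uniq K :=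
  uniq_of_cent_rank3' r r' k

/-- BG 9.6 -/
theorem _root_.CF.BG.Elem.uniq_of_not_maxV (h : Elem p 2 A H) (m : ¬ MaxElem p A ⊤) (w : p ∈ 𝛡 G) : Uniq A :=
  uniq_of_cent_rank3' (h.rank_eq ▸ Nat.lt_succ_self 1) (by
    simpa using (h.top.lt_pRank_cent m).trans_le (pRank_le_rank _ _)) (h.pi.properV w)

theorem Mx.uniqIn_of_pRank3 (m : Mx M) (k : K ≤ M) (r : 2 < pRank p K) : UniqIn K M :=
  (uniq_of_pRank3 (m.proper k) r).uniqIn m k

theorem Mx.uniqIn_of_rank3 (m : Mx M) (k : K ≤ M) (r : 2 < rank K) : UniqIn K M :=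
  (uniq_of_rank3 (m.proper k) r).uniqIn m k

end CF.BG.Vp
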