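import Cfsg.Agent.Vp.B13

/-!
The interface between the local analysis and the character theory.
-/

set_option autoImplicit false
set_option linter.unusedVariables false

namespace CF.BG.Vp

open scoped Classical in
/-- `A(M)` -/
noncomputable def typeA {G : Type*} [Group G] [Finite G] [MSO G] (M : Subgroup G) : Set G :=
  if TypeI M then
    {a | a ∈ M ∧ a ≠ 1 ∧ ∃ x ∈ Cfsg.fittingHallOf M, x ≠ 1 ∧ a * x = x * a}
  else
    {a | a ∈ ⁅M, M⁆ ∧ a ≠ 1 ∧ ∃ x ∈ typeCore M, x ≠ 1 ∧ a * x = x * a}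

/-- `A₀(M)` -/
noncomputable def typeA0 {G : Type*} [Group G] [Finite G] [MSO G] (M : Subgroup G) : Set G :=
  typeA M ∪ {v | ¬ TypeI M ∧ ∃ W₁ U W₂ : Subgroup G, Cfsg.IsTypePWith M W₁ U W₂ ∧
    ∃ m ∈ M, ∃ w ∈ W₁ ⊔ W₂, w ∉ W₁ ∧ w ∉ W₂ ∧ v = m * w * m⁻¹}

/-- `L` supports `M` -/
def Supports {G : Type*} [Group G] [Finite G] [MSO G] (L M : Subgroup G) : Prop :=
  Mx L ∧ ∃ x ∈ typeA0 M, ¬ Subgroup.centralizer ({x} : Set G) ≤ M ∧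
    Subgroup.centralizer ({x} : Set G) ≤ L

/-- The conclusions of the local analysis. -/
class BG16 (G : Type*) [Group G] [Finite G] [MSO G] : Prop where
  s1350 : ∀ (M : Subgroup G) (hM : Mx M),
    Cfsg.IsPiHallOf (sigma M) (sigmaCore M) M ∧ Cfsg.IsPiHall (sigma M) (sigmaCore M) ∧
      ∀ N : Subgroup G, M ≤ Subgroup.normalizer (N : Set G) → Cfsg.IsPiHallOf (sigma M) N M →
        N = sigmaCore M
  s1351 : ∀ (M : Subgroup G) (hM : Mx M),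
    (∃ K : Subgroup G, Cfsg.IsPiHallOf (kappa M) K M) ∧
      ∀ K : Subgroup G, Cfsg.IsPiHallOf (kappa M) K M → IsCyclic K
  s1352 : ∀ (M : Subgroup G) (hM : Mx M) (K : Subgroup G) (hKc : IsCyclic K) (hK : Cfsg.IsPiHallOf (kappa M) K M),
    (∃ U : Subgroup G, IsSigmaDecomposition M K U) ∧
      ∀ U : Subgroup G, IsSigmaDecomposition M K U → M ≤ Subgroup.normalizer ((U ⊔ sigmaCore M : Subgroup G) : Set G)
  s1355 : ∀ (M : Subgroup G) (hM : Mx M),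
    Cfsg.fittingHallOf M ≠ ⊥ ∧ Cfsg.fittingHallOf M ≤ sigmaCore M ∧ sigmaCore M ≤ ⁅M, M⁆ ∧ ⁅M, M⁆ < M ∧
      Group.IsNilpotent ↥((commutator ↥M).map (QuotientGroup.mk' (Cfsg.fittingHall ↥M)))
  s1356 : ∀ (M : Subgroup G) (hM : Mx M),
    ⁅⁅M, M⁆, ⁅M, M⁆⁆ ≤ Cfsg.fittingOf M ∧
      Cfsg.fittingOf M = (M ⊓ Subgroup.centralizer (Cfsg.fittingHallOf M : Set G)) ⊔ Cfsg.fittingHallOf M ∧
      ((kappa M).Nonempty → Cfsg.fittingOf M ≤ ⁅M, M⁆)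
  s1357 : ∀ (M : Subgroup G) (hM : Mx M) (K U : Subgroup G) (hKU : IsSigmaDecomposition M K U) (hne : Cfsg.fittingHallOf M ≠ sigmaCore M),
    U = ⊥ ∧ Cfsg.IsTISubset (Cfsg.fittingOf M : Set G) ∧ (Nat.card K).Prime
  s1365 : ∀ (M : Subgroup G) (hM : Mx M) (K U : Subgroup G) (hKU : IsSigmaDecomposition M K U) (hK1 : K ≠ ⊥),
    ⁅M, M⁆ = U ⊔ sigmaCore M ∧ (sigmaCore M ⊓ Subgroup.centralizer (K : Set G)) ≤ ⁅⁅M, M⁆, ⁅M, M⁆⁆
  s1366 : ∀ (M : Subgroup G) (hM : Mx M) (K U : Subgroup G) (hKU : IsSigmaDecomposition M K U) (hK1 : K ≠ ⊥),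
    ∃! Mstar : Subgroup G, Mx Mstar ∧ K = sigmaCore Mstar ⊓ Subgroup.centralizer ((sigmaCore M ⊓ Subgroup.centralizer (K : Set G)) : Set G) ∧
        Cfsg.IsPiHallOf (kappa Mstar) (sigmaCore M ⊓ Subgroup.centralizer (K : Set G)) Mstar
  s1367 : ∀ (M : Subgroup G) (hM : Mx M) (K U : Subgroup G) (hKU : IsSigmaDecomposition M K U) (hK1 : K ≠ ⊥) (Mstar : Subgroup G) (hMstar : Mx Mstar) (hKst : K = sigmaCore Mstar ⊓ Subgroup.centralizer ((sigmaCore M ⊓ Subgroup.centralizer (K : Set G)) : Set G)) (hKstH : Cfsg.IsPiHallOf (kappa Mstar) (sigmaCore M ⊓ Subgroup.centralizer (K : Set G)) Mstar),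
    (∀ X : Subgroup G, X ≤ (sigmaCore M ⊓ Subgroup.centralizer (K : Set G)) → (Nat.card X).Prime →
        Subgroup.centralizer (X : Set G) ≤ M ∧ ∀ L : Subgroup G, Mx L → Subgroup.centralizer (X : Set G) ≤ L → L = M) ∧
      (∀ Y : Subgroup G, Y ≤ K → (Nat.card Y).Prime →
        Subgroup.centralizer (Y : Set G) ≤ Mstar ∧ ∀ L : Subgroup G, Mx L → Subgroup.centralizer (Y : Set G) ≤ L → L = Mstar)
  s1368 : ∀ (M : Subgroup G) (hM : Mx M) (K U : Subgroup G) (hKU : IsSigmaDecomposition M K U) (hK1 : K ≠ ⊥) (Mstar : Subgroup G) (hMstar : Mx Mstar) (hKst : K = sigmaCore Mstar ⊓ Subgroup.centralizer ((sigmaCore M ⊓ Subgroup.centralizer (K : Set G)) : Set G)) (hKstH : Cfsg.IsPiHallOf (kappa Mstar) (sigmaCore M ⊓ Subgroup.centralizer (K : Set G)) Mstar),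
    M ⊓ Mstar = K ⊔ (sigmaCore M ⊓ Subgroup.centralizer (K : Set G)) ∧ IsCyclic ↥(K ⊔ (sigmaCore M ⊓ Subgroup.centralizer (K : Set G)))
  s1369 : ∀ (M : Subgroup G) (hM : Mx M) (K U : Subgroup G) (hKU : IsSigmaDecomposition M K U) (hK1 : K ≠ ⊥) (Mstar : Subgroup G) (hMstar : Mx Mstar) (hKst : K = sigmaCore Mstar ⊓ Subgroup.centralizer ((sigmaCore M ⊓ Subgroup.centralizer (K : Set G)) : Set G)) (hKstH : Cfsg.IsPiHallOf (kappa Mstar) (sigmaCore M ⊓ Subgroup.centralizer (K : Set G)) Mstar),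
    (U ≠ ⊥ ∨ ∀ Ustar : Subgroup G, IsSigmaDecomposition Mstar (sigmaCore M ⊓ Subgroup.centralizer (K : Set G)) Ustar → Ustar ≠ ⊥) ∧
      ∀ H : Subgroup G, Mx H → (kappa H).Nonempty →
        ∃ g : G, H = M.map (MulAut.conj g).toMonoidHom ∨ H = Mstar.map (MulAut.conj g).toMonoidHom
  s1373 : ∀ (M : Subgroup G) (hM : Mx M) (K U : Subgroup G) (hKU : IsSigmaDecomposition M K U) (hK1 : K ≠ ⊥) (hU : U = ⊥),
    (Nat.card ↥(sigmaCore M ⊓ Subgroup.centralizer (K : Set G))).Prime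
  s1378 :
    (∀ p : ℕ, p.Prime → p ∣ Nat.card G → p ∈ 𝛡 G → ∃ M : Subgroup G, Mx M ∧ p ∈ sigma M) ∧
      ∀ M N : Subgroup G, Mx M → Mx N → (sigma M ∩ sigma N).Nonempty → ∃ g : G, N = M.map (MulAut.conj g).toMonoidHom
  s1379 :
    (∀ M N : Subgroup G, Mx M → Mx N → (∀ g : G, N ≠ M.map (MulAut.conj g).toMonoidHom) → tildeOf M ((sigmaCore M : Set G) \ {1}) ∩ tildeOf N ((sigmaCore N : Set G) \ {1}) = ∅)
  s1380 : ∀ (M : Subgroup G) (hM : Mx M) (K U : Subgroup G) (hKU : IsSigmaDecomposition M K U),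
    TypeI M ↔ (K = ⊥ ∧ U ≠ ⊥)
  s1381 : ∀ (M : Subgroup G) (hM : Mx M) (K U : Subgroup G) (hKU : IsSigmaDecomposition M K U),
    IsOfTypeII M ↔ (K ≠ ⊥ ∧ U ≠ ⊥)
  s1382 : ∀ (M : Subgroup G) (hM : Mx M) (K U : Subgroup G) (hKU : IsSigmaDecomposition M K U),
    (IsOfTypeIII M ∨ IsOfTypeIV M) ↔ (K ≠ ⊥ ∧ U = ⊥ ∧ Cfsg.fittingHallOf M ≠ sigmaCore M)
  s1383 : ∀ (M : Subgroup G) (hM : Mx M) (K U : Subgroup G) (hKU : IsSigmaDecomposition M K U),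
    Cfsg.IsOfTypeV M ↔ (K ≠ ⊥ ∧ U = ⊥ ∧ Cfsg.fittingHallOf M = sigmaCore M)
  s1389 : ∀ (M : Subgroup G) (hM : Mx M),
    (∀ (p : ℕ), p.Prime → ∀ (P : Sylow p ↥(typeCore M)), (P : Subgroup ↥(typeCore M)) ≠ ⊥ →
        Subgroup.normalizer ((((P : Subgroup ↥(typeCore M)).map (typeCore M).subtype : Subgroup G)) : Set G) ≤ M) ∧
      (Nat.card (Cfsg.fittingHallOf M)).Coprime (Cfsg.fittingHallOf M).index ∧
      (Nat.card (typeCore M)).Coprime (typeCore M).index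
  s1390 : ∀ (M : Subgroup G) (hM : Mx M) (U : Subgroup G) (hU : (TypeI M ∧ Cfsg.IsComplIn (Cfsg.fittingHallOf M) U M) ∨ (IsOfTypeII M ∧ Cfsg.IsComplIn (Cfsg.fittingHallOf M) U ⁅M, M⁆)),
    (∀ (p : ℕ), p.Prime → ∀ P : Sylow p U, IsMulCommutative (P : Subgroup U) ∧ Cfsg.PRankLE p 2 (P : Subgroup U)) ∧
      (∀ X : Set G, X ⊆ (U : Set G) \ {1} → X.Nonempty → Cfsg.fittingHallOf M ⊓ Subgroup.centralizer X ≠ ⊥ →
        Subgroup.centralizer X ≤ M ∧ ∀ L : Subgroup G, Mx L → Subgroup.centralizer X ≤ L → L = M) ∧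
      Cfsg.IsTISubset (typeA M \ typeA1 M)
  s1391 : ∀ (M : Subgroup G) (hM : Mx M) (X : Set G) (hX : X = typeA M ∨ X = typeA0 M),
    (∀ x ∈ X, ∀ g : G, g * x * g⁻¹ ∈ X → ∃ m ∈ M, m * x * m⁻¹ = g * x * g⁻¹) ∧
      (∀ x ∈ X, ¬ Subgroup.centralizer ({x} : Set G) ≤ M → x ∈ typeA1 M ∧ ∃! L : Subgroup G, Mx L ∧ Subgroup.centralizer ({x} : Set G) ≤ L) ∧
      ∀ x ∈ X, ¬ Subgroup.centralizer ({x} : Set G) ≤ M → ∀ L : Subgroup G, Mx L → Subgroup.centralizer ({x} : Set G) ≤ L →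
        Cfsg.IsComplIn (Cfsg.fittingHallOf L) (M ⊓ L) L ∧
        Subgroup.centralizer ({x} : Set G) ≤ Subgroup.normalizer ((Cfsg.fittingHallOf L ⊓ Subgroup.centralizer ({x} : Set G) : Subgroup G) : Set G) ∧
        Cfsg.IsComplIn (Cfsg.fittingHallOf L ⊓ Subgroup.centralizer ({x} : Set G)) (M ⊓ Subgroup.centralizer ({x} : Set G)) (Subgroup.centralizer ({x} : Set G)) ∧
        (∀ y ∈ X, (Nat.card (Cfsg.fittingHallOf L)).Coprime (Nat.card ↥(M ⊓ Subgroup.centralizer ({y} : Set G)))) ∧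
        (x ∈ typeA L ∧ x ∉ typeA1 L) ∧
        (TypeI L ∨ IsOfTypeII L) ∧
        (IsOfTypeII L → ∃ E : Subgroup ↥M, Cfsg.IsFrobeniusComplement E ∧ Cfsg.frobeniusKernel E = ((Cfsg.fittingHall ↥M : Subgroup ↥M) : Set ↥M))

end CF.BG.Vp
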